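import Mathlib

set_option autoImplicit false

namespace CfsgH6

/-- Two finite linearly independent families on the same index type are related by a linear
automorphism. -/
theorem exists_linearEquiv_map_linearIndependent {K V ι : Type*} [DivisionRing K] [AddCommGroup V]
    [Module K V] [Finite ι] {u w : ι → V} (hu : LinearIndependent K u) (hw : LinearIndependent K w) :
    ∃ g : V ≃ₗ[K] V, ∀ i, g (u i) = w i := by
  have q {u : ι → V} (hu : LinearIndependent K u) (i : ι) :
    hu.linearCombinationEquiv (Finsupp.single i 1) = u i := by simp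
  let f := hu.linearCombinationEquiv.symm ≪≫ₗ hw.linearCombinationEquiv
  have : FiniteDimensional K (Submodule.span K (Set.range u)) :=
    FiniteDimensional.span_of_finite K (Set.finite_range _)
  obtain ⟨g, hg⟩ := Submodule.exists_linearEquiv_restrict_eq f
  refine ⟨g, fun i => ?_⟩
  rw [← q hu, ← hg, ← q hw]
  simp [f]

theorem exists_linearEquiv_map_one {K V : Type*} [DivisionRing K] [AddCommGroup V]
    [Module K V] {u w : V} (hu : u ≠ 0) (hw : w ≠ 0) : ∃ g : V ≃ₗ[K] V, g u = w := by
  obtain ⟨g, hg⟩ := exists_linearEquiv_map_linearIndependent (K := K) (u := fun _ : Unit => u)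
    (w := fun _ : Unit => w) (by simpa [linearIndependent_unique_iff]) (by simpa [linearIndependent_unique_iff])
  exact ⟨g, hg ()⟩

/-- A permutation of an `F_p`-space (`p` odd) that agrees with an affine map on each triple of points
is affine. -/
theorem affine_of_three_affine (p : ℕ) [Fact p.Prime] (hp : p ≠ 2) {V : Type*} [AddCommGroup V]
    [Module (ZMod p) V] (σ : Equiv.Perm V)
    (hσ : ∀ t : Fin 3 → V, ∃ (A : V ≃ₗ[ZMod p] V) (b : V), ∀ i, σ (t i) = A (t i) + b) :
    ∃ (A : V ≃ₗ[ZMod p] V) (b : V), ∀ x, σ x = A x + b := by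
  have h2 : (2 : ZMod p) ≠ 0 := by
    intro h
    have h' : ((2 : ℕ) : ZMod p) = 0 := by exact_mod_cast h
    rw [ZMod.natCast_eq_zero_iff] at h'
    exact hp ((Nat.prime_dvd_prime_iff_eq Fact.out Nat.prime_two).mp h')
  have hsmul : ∀ (c : ZMod p) (x : V), σ (c • x) - σ 0 = c • (σ x - σ 0) := by
    intro c x
    obtain ⟨A, b, h⟩ := hσ ![0, x, c • x]
    have h0 := h 0
    have h1 := h 1
    have h2 := h 2
    simp only [Matrix.cons_val_zero, Matrix.cons_val_one, Matrix.cons_val] at h0 h1 h2
    rw [h0, h1, h2]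
    simp
  have hadd : ∀ x y : V, σ (x + y) - σ 0 = (σ x - σ 0) + (σ y - σ 0) := by
    intro x y
    obtain ⟨A, b, h⟩ := hσ ![x, y, (2 : ZMod p)⁻¹ • (x + y)]
    have h0 := h 0
    have h1 := h 1
    have h3 := h 2
    simp only [Matrix.cons_val_zero, Matrix.cons_val_one, Matrix.cons_val] at h0 h1 h3
    have h4 := hsmul 2 ((2 : ZMod p)⁻¹ • (x + y))
    rw [smul_smul, mul_inv_cancel₀ h2, one_smul] at h4
    rw [h4, h3, h0, h1, map_smul, smul_sub, smul_add, smul_smul, mul_inv_cancel₀ h2, one_smul,
      map_add, two_smul, two_smul]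
    abel
  let L : V →ₗ[ZMod p] V :=
    { toFun := fun x => σ x - σ 0
      map_add' := hadd
      map_smul' := hsmul }
  have hL : Function.Bijective L := by
    have : (L : V → V) = (Equiv.subRight (σ 0)) ∘ σ := rfl
    rw [this]
    exact (Equiv.subRight (σ 0)).bijective.comp σ.bijective
  refine ⟨LinearEquiv.ofBijective L hL, σ 0, fun x => ?_⟩
  simp [L]

end CfsgH6
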