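import Cfsg.Agent.H9.MA
import Cfsg.Agent.FT.BG45_a
import Cfsg.Agent.H5.Suzuki2

set_option autoImplicit false
set_option linter.unusedSectionVars false

/-! S3717: the intersection `K_t ∩ K_s` has order at most two. -/

namespace CfsgM11

open Subgroup CfsgH5 CfsgH6 CfsgFT

variable {G : Type*} [Group G] [Finite G]

/-- a normal `3'`-subgroup of `C(t)` containing `t`. -/
structure KS (g t : G) (K : Subgroup G) : Prop where
  le : ∀ k ∈ K, k * t = t * k
  tK : t ∈ K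
  nrm : ∀ c, c * t = t * c → ∀ k ∈ K, c * k * c⁻¹ ∈ K
  n3 : ∀ k ∈ K, k ^ 3 = 1 → k = 1
  d3 : ∀ k ∈ K, 3 ∣ orderOf (k * g)

theorem cube_exp {u g : G} (g3 : g ^ 3 = 1) :
    (u * g) ^ 3 = u * (g * u * g⁻¹) * (g * (g * u * g⁻¹) * g⁻¹) := by
  calc (u * g) ^ 3 = u * (g * u * g⁻¹) * (g * (g * u * g⁻¹) * g⁻¹) * g ^ 3 := by
        rw [pow_three', pow_three']; group
    _ = _ := by rw [g3, mul_one]

theorem cinv (a b : G) : a * b⁻¹ * a⁻¹ = (a * b * a⁻¹)⁻¹ := by group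

theorem conj_mem_of_N {X : Subgroup G} {c x : G} (hc : c ∈ N X) (hx : x ∈ X) : c * x * c⁻¹ ∈ X :=
  nrm_of_le_N le_rfl c hc x hx

namespace Cf

variable {M K : Subgroup G} {g h a t s z w : G} (H : Cf M g h a t s z w)
include H

/-- the grid lemma for elements of order prime to `6`. -/
theorem grid' {u : G} {m : ℕ} (hm : u ^ m = 1) (co : m.Coprime 6) (a1 : (u * g) ^ 3 = 1)
    (a2 : (u⁻¹ * g) ^ 3 = 1) (b1 : (u * h) ^ 3 = 1) (b2 : (u⁻¹ * h) ^ 3 = 1) : u = 1 := by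
  have key : ∀ y : G, y ^ 3 = 1 → (u * y) ^ 3 = 1 → (u⁻¹ * y) ^ 3 = 1 →
      y * (y * u * y⁻¹) * y⁻¹ = (u * (y * u * y⁻¹))⁻¹ ∧ Commute u (y * u * y⁻¹) := fun y y3 c d => by
    rw [cube_exp y3] at c d
    have e := (eq_inv_of_mul_eq_one_right c)
    refine ⟨e, ?_⟩
    rw [cinv, cinv, e, inv_inv, ← mul_inv_rev, inv_mul_eq_one] at d
    exact d.symm
  obtain ⟨gA, uA⟩ := key g H.g3 a1 a2
  obtain ⟨hB, uB⟩ := key h H.h3 b1 b2
  have c := H.gh
  have sw : ∀ x : G, g * (h * x * h⁻¹) * g⁻¹ = h * (g * x * g⁻¹) * h⁻¹ := fun x => by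
    calc _ = g * h * x * (g * h)⁻¹ := by group
      _ = _ := by rw [c]; group
  obtain ⟨A, hA⟩ : ∃ A, A = g * u * g⁻¹ := ⟨_, rfl⟩
  obtain ⟨B, hB'⟩ : ∃ B, B = h * u * h⁻¹ := ⟨_, rfl⟩
  obtain ⟨D, hD⟩ : ∃ D, D = g * B * g⁻¹ := ⟨_, rfl⟩
  have hD' : h * A * h⁻¹ = D := by rw [hD, hB', hA, sw]
  rw [← hA] at gA uA; rw [← hB'] at hB uB
  have AD : Commute A D := by rw [hA, hD]; exact comm_conj' uB g
  have BD : Commute B D := by rw [hB', ← hD']; exact comm_conj' uA h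
  have gD : g * D * g⁻¹ = (B * D)⁻¹ := by
    rw [← hD', sw, gA, cinv, ← conj_mul, ← hB', hD']
  have hD2 : h * D * h⁻¹ = (A * D)⁻¹ := by
    rw [hD, ← sw, hB, cinv, ← conj_mul, ← hA, ← hD]
  have AB : Commute A B := by
    have e := sw D
    rw [hD2, gD, cinv, cinv, inv_inj, ← conj_mul, ← conj_mul, gA, gD, hB, hD2,
      ← mul_inv_rev, ← mul_inv_rev, inv_inj, BD.eq, AD.eq, uA.eq, uB.eq, mul_assoc, mul_assoc,
      mul_right_inj, ← mul_assoc, ← mul_assoc, mul_left_inj] at e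
    exact e.symm
  have uD : Commute u D := by
    have e : Commute (g * A * g⁻¹) D := by rw [hD]; exact comm_conj' AB g
    rw [gA] at e
    have := e.inv_left.mul_left AD.inv_left
    rwa [inv_inv, mul_inv_cancel_right] at this
  have pm : ∀ x y : G, (y * x * y⁻¹) ^ m = y * x ^ m * y⁻¹ := fun x y => conj_pow
  have Am : A ^ m = 1 := by rw [hA, pm, hm]; simp
  have Bm : B ^ m = 1 := by rw [hB', pm, hm]; simp
  have Dm : D ^ m = 1 := by rw [hD, pm, Bm]; simp
  have triv : ∀ x y : G, y ^ 3 = 1 → y ≠ 1 → y * x * y⁻¹ = x → x ^ m = 1 → x = 1 :=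
    fun x y y3 y1 e xm => by
      have := H.six y3 y1 (mul_inv_eq_iff_eq_mul.1 e).symm
      exact orderOf_eq_one_iff.1 (Nat.eq_one_of_dvd_coprimes co (orderOf_dvd_of_pow_eq_one xm)
        (orderOf_dvd_of_pow_eq_one this))
  have n1 : g * h ≠ 1 := fun e => H.hg (by
    rw [eq_inv_of_mul_eq_one_right e]; exact inv_mem (mem_zpowers g))
  have n2 : g * g * h ≠ 1 := fun e => H.hg (by
    rw [eq_inv_of_mul_eq_one_right e]; exact inv_mem (mul_mem (mem_zpowers g) (mem_zpowers g)))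
  have f1 : MulAut.conj g u = A := hA.symm
  have f2 : MulAut.conj g A = (u * A)⁻¹ := gA
  have f3 : MulAut.conj g B = D := hD.symm
  have f4 : MulAut.conj g D = (B * D)⁻¹ := gD
  have f5 : MulAut.conj h u = B := hB'.symm
  have f6 : MulAut.conj h A = D := hD'
  have f7 : MulAut.conj h B = (u * B)⁻¹ := hB
  have f8 : MulAut.conj h D = (A * D)⁻¹ := hD2
  have t1 := fun x => triv x (g * h) (H.m3 _ (mul_mem H.gM H.hM)) n1
  have t2 := fun x => triv x (g * g * h) (H.m3 _ (mul_mem (mul_mem H.gM H.gM) H.hM)) n2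
  simp only [← MulAut.conj_apply, map_mul, MulAut.mul_apply] at t1 t2
  replace t1 := t1 (u * D * (u * A * (B * D)))
  replace t2 := t2 (u * (B * D)⁻¹ * (A * D)⁻¹)
  simp only [map_mul, map_inv, f1, f2, f3, f4, f5, f6, f7, f8] at t1 t2
  obtain ⟨S, m1, m2, m3, m4, cm⟩ : ∃ S : Subgroup G, u ∈ S ∧ A ∈ S ∧ B ∈ S ∧ D ∈ S ∧
      ∀ p ∈ S, ∀ q ∈ S, p * q = q * p := ⟨closure {u, A, B, D}, subset_closure (by simp),
    subset_closure (by simp), subset_closure (by simp), subset_closure (by simp), closure_comm (by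
    rintro _ (rfl | rfl | rfl | rfl) _ (rfl | rfl | rfl | rfl) <;>
      first | rfl | exact Commute.eq (by assumption) | exact (Commute.eq (by assumption)).symm)⟩
  clear * - t1 t2 m1 m2 m3 m4 cm hm Am Bm Dm co
  lift u to S using m1
  lift A to S using m2
  lift B to S using m3
  lift D to S using m4
  let _ : CommGroup S := { (inferInstance : Group S) with
    mul_comm := fun p q => Subtype.ext (cm p p.2 q q.2) }
  norm_cast at *
  have e1 := t1 (by apply Additive.ofMul.injective; simp only [ofMul_mul, ofMul_inv]; abel)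
    (by simp [mul_pow, hm, Am, Bm, Dm])
  have e2 := t2 (by apply Additive.ofMul.injective; simp only [ofMul_mul, ofMul_inv]; abel)
    (by simp [mul_pow, hm, Am, Bm, Dm])
  have e3 : u ^ 3 = 1 := by
    rw [← mul_one (1 : S)]; nth_rewrite 1 [← e1]; rw [← e2]
    apply Additive.ofMul.injective; simp only [ofMul_mul, ofMul_inv, ofMul_pow]; abel
  exact orderOf_eq_one_iff.1 (Nat.eq_one_of_dvd_coprimes (co.coprime_dvd_right (by norm_num : 3 ∣ 6))
    (orderOf_dvd_of_pow_eq_one hm) (orderOf_dvd_of_pow_eq_one e3))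

theorem memT {x : G} : x ∈ zpowers t ↔ x = 1 ∨ x = t :=
  ⟨mem_zpowers_order_two H.tt, by rintro (rfl | rfl); exacts [one_mem _, mem_zpowers _]⟩

theorem cuK (hK : KS g t K) {k : G} (hk : k ∈ K) : (k * g) ^ 3 ∈ zpowers t :=
  H.memT.2 (H.cube (hK.d3 k hk) H.tt H.t1 (by
    rw [mul_assoc, ← H.tg, ← mul_assoc, hK.le k hk, mul_assoc]))

theorem cT {x y : G} (hx : x ∈ zpowers t) (hy : y * t = t * y) : x * y = y * x := by
  rcases H.memT.1 hx with rfl | rfl
  · simp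
  · exact hy.symm

theorem gK (hK : KS g t K) {k : G} (hk : k ∈ K) : g * k * g⁻¹ ∈ K := hK.nrm g H.tg.symm k hk

theorem odd1 (hK : KS g t K) {u : G} (hu : u ∈ K) {m : ℕ} (hm : u ^ m = 1) (o : Odd m) :
    (u * g) ^ 3 = 1 := by
  have tm : t ^ m = t := by
    obtain ⟨k, rfl⟩ := o
    rw [pow_succ, pow_mul, pow_two, H.tt, one_pow, one_mul]
  have c := H.cuK hK hu
  have d := H.cuK hK (inv_mem hu)
  rw [cube_exp H.g3] at c d ⊢
  rw [cinv, cinv] at d
  have hA := H.gK hK hu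
  have hB := H.gK hK hA
  have Am : (g * u * g⁻¹) ^ m = 1 := by rw [conj_pow, hm]; simp
  have Bm : (g * (g * u * g⁻¹) * g⁻¹) ^ m = 1 := by rw [conj_pow, Am]; simp
  generalize g * (g * u * g⁻¹) * g⁻¹ = B at *
  generalize g * u * g⁻¹ = A at *
  have e : u * A * u⁻¹ * A⁻¹ ∈ zpowers t := by
    have e1 := H.cT d (hK.le B hB)
    have := mul_mem c d
    rwa [mul_assoc _ B, ← e1, inv_mul_cancel_right, ← mul_assoc] at this
  have uA : Commute u A := by
    rcases H.memT.1 e with e | e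
    · exact mul_inv_eq_iff_eq_mul.1 (mul_inv_eq_one.1 e)
    · have e1 := congrArg (· ^ m) (mul_inv_eq_iff_eq_mul.1 e)
      simp only [conj_pow, Am, Commute.mul_pow (hK.le A hA).symm, tm] at e1
      exact (H.t1 (by simpa using e1.symm)).elim
  refine (H.memT.1 c).resolve_right fun e => H.t1 ?_
  have e1 := congrArg (· ^ m) (eq_inv_mul_iff_mul_eq.2 e)
  have : Commute (u * A)⁻¹ t := Commute.inv_left (hK.le _ (mul_mem hu hA))
  simp only [Bm, this.mul_pow, tm, inv_pow, uA.mul_pow, hm, Am] at e1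
  simpa using e1.symm

theorem anti (hK : KS g t K) {p q : G} (hp : p ∈ K) (hq : q ∈ K) (c : p * q = q * p) :
    p⁻¹ * (g * q * g⁻¹)⁻¹ * p * (g * q * g⁻¹) ∈ zpowers t := by
  have c1 := H.cuK hK hp
  have c2 := H.cuK hK hq
  have c3 := H.cuK hK (mul_mem hp (H.gK hK hq))
  have g3 : ∀ x : G, MulAut.conj g (MulAut.conj g (MulAut.conj g x)) = x := fun x => by
    calc _ = g ^ 3 * x * (g ^ 3)⁻¹ := by simp only [MulAut.conj_apply, pow_three']; group
      _ = _ := by rw [H.g3]; group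
  rw [cube_exp H.g3] at c1 c2 c3
  have c4 := comm_conj' c g
  have m := hK.le _ (H.gK hK (H.gK hK hp))
  simp only [← MulAut.conj_apply] at c1 c2 c3 c4 m ⊢
  simp only [map_mul, g3] at c3
  have e : (MulAut.conj g (MulAut.conj g p))⁻¹ * q⁻¹ * (MulAut.conj g (MulAut.conj g p)) * q ∈
      zpowers t := by
    generalize MulAut.conj g (MulAut.conj g p) = P2 at *
    generalize MulAut.conj g (MulAut.conj g q) = Q2 at *
    generalize MulAut.conj g p = P1 at *
    generalize MulAut.conj g q = Q1 at *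
    have c5 := H.cT c2 (y := P2 * q) (by rw [mul_assoc, hK.le q hq, ← mul_assoc, m, mul_assoc])
    have c6 := H.cT c1 (y := p * (Q1 * P1) * Q2 * (P2 * q) * (q * Q1 * Q2)⁻¹) (by
      have : p * (Q1 * P1) * Q2 * (P2 * q) * (q * Q1 * Q2)⁻¹ ∈ zpowers t :=
        mul_mem (by convert c3 using 1; group) (inv_mem c2)
      exact H.cT this rfl)
    have := mul_mem (mul_mem (inv_mem c1) c3) (inv_mem c2)
    convert this using 1
    calc _ = P2⁻¹ * q⁻¹ * (P2 * q * (q * Q1 * Q2)) * (q * Q1 * Q2)⁻¹ := by group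
      _ = (p * P1 * P2)⁻¹ * (p * (P1 * Q1) * Q2 * (P2 * q)) * (q * Q1 * Q2)⁻¹ := by
        rw [← c5]; group
      _ = _ := by rw [c4]; group
  have := H.cT e H.tg.symm
  rw [eq_comm, ← mul_inv_eq_iff_eq_mul, ← MulAut.conj_apply] at this
  rw [← this] at e
  simpa only [map_mul, map_inv, g3] using e

omit H in
theorem cw (ww : w * w = 1) (p q : G) : w * p * w * (w * q * w) = w * (p * q) * w := by
  simp [mul_assoc, mul_sq_l ww]

theorem r_s (hK : KS g t K) {r : G} (h2 : w * r * w ∈ K) : r * s = s * r := by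
  have := congrArg (fun x => w * x * w) (hK.le _ h2)
  simp only [← cw H.ww, H.wtw] at this
  simpa [mul_assoc, mul_sq_l H.ww, H.ww] using this

theorem pg_R0 (hK : KS g t K) : IsPGroup 2 (K ⊓ cj w K : Subgroup G) := fun ⟨r, hr⟩ => by
  obtain ⟨k, m, o, e⟩ := Nat.exists_eq_two_pow_mul_odd (orderOf_pos r).ne'
  refine ⟨k, Subtype.ext ?_⟩
  change r ^ 2 ^ k = 1
  have hu := pow_mem hr (2 ^ k)
  have um : (r ^ 2 ^ k) ^ m = 1 := by rw [← pow_mul, ← e, pow_orderOf_eq_one]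
  generalize r ^ 2 ^ k = u at *
  have n3 : ¬ 3 ∣ orderOf u := fun ⟨j, hj⟩ => by
    have j0 : 0 < j := Nat.pos_of_ne_zero fun e => (orderOf_pos u).ne' (by rw [hj, e])
    have := Nat.le_of_dvd j0 (orderOf_dvd_of_pow_eq_one (hK.n3 _ (pow_mem hu.1 j)
      (by rw [← pow_mul, mul_comm, ← hj, pow_orderOf_eq_one])))
    omega
  have o' : Odd (orderOf u) := o.of_dvd_nat (orderOf_dvd_of_pow_eq_one um)
  have hh : ∀ v ∈ K ⊓ cj w K, v ^ orderOf u = 1 → (v * h) ^ 3 = 1 := fun v hv e => by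
    have := H.odd1 hK (mem_cj.1 hv.2) (m := orderOf u) (by
      rw [show w⁻¹ * v * w = w⁻¹ * v * w⁻¹⁻¹ by simp, conj_pow, e]; simp) o'
    rw [show v * h = w * (w⁻¹ * v * w * g) * w⁻¹ by rw [H.eh, H.wi]; simp [mul_assoc, mul_sq_l H.ww],
      conj_pow, this]; simp
  have i1 : u⁻¹ ^ orderOf u = 1 := by rw [inv_pow, pow_orderOf_eq_one, inv_one]
  exact H.grid' (pow_orderOf_eq_one u) (Nat.Coprime.mul_right (m := 2) (n := 3) o'.coprime_two_right
    ((Nat.prime_three.coprime_iff_not_dvd.2 n3).symm)) (H.odd1 hK hu.1 (pow_orderOf_eq_one u) o')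
    (H.odd1 hK (inv_mem hu.1) i1 o') (hh u hu (pow_orderOf_eq_one u)) (hh _ (inv_mem hu) i1)

theorem sK (hK : KS g t K) : s ∉ K := fun hs => H.g1 (H.one_of_M H.gM (hK.n3 _ (by
  have := mul_mem (H.gK hK hs) hs
  rwa [← H.sgs, mul_assoc, mul_assoc, mul_assoc, mul_assoc, H.ss, mul_one, mul_sq_l H.ss] at this)
  (H.m3 _ (mul_mem H.gM H.gM))))

theorem mem_wK {r : G} : r ∈ cj w K ↔ w * r * w ∈ K := by rw [mem_cj, H.wi]

/-- `K_t ∩ K_s` has order at most two. -/
theorem R0 (hK : KS g t K) : (∀ r ∈ K, w * r * w ∈ K → r = 1) ∨ ∃ e, e * e = 1 ∧ e ≠ 1 ∧ e ∈ K ∧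
    e * s = s * e ∧ e * w = w * e ∧ (e * g) ^ 3 = t ∧
    GS s t e (g * e * g⁻¹) (w * (g * e * g⁻¹) * w) ∧ ∀ r ∈ K, w * r * w ∈ K → r = 1 ∨ r = e := by
  by_cases h0 : (K ⊓ cj w K : Subgroup G) = ⊥
  · exact .inl fun r a b => mem_bot.1 (h0 ▸ ⟨a, H.mem_wK.2 b⟩)
  have := Fact.mk Nat.prime_two
  have nw : Nrm (zpowers w) (K ⊓ cj w K) := nrm_of_le_N (zpowers_le.2 (mem_N_of_conj fun r hr => by
    rw [H.wi]
    exact ⟨H.mem_wK.1 hr.2, H.mem_wK.2 (by simpa [mul_assoc, mul_sq_l H.ww, H.ww] using hr.1)⟩))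
  have pw : IsPGroup 2 (zpowers w) := isPGroup_zpowers_of_pow (k := 1) (by rw [pow_one, pow_two, H.ww])
  obtain ⟨e, he, oe, ce⟩ := B45.exists_central (isPGroup_sup Nat.prime_two (H.pg_R0 hK) pw (.inr nw))
    le_sup_left ((Nrm.self _).sup_left nw) h0
  have e2 : e * e = 1 := by rw [← pow_two, ← oe, pow_orderOf_eq_one]
  have e1 : e ≠ 1 := fun a => by rw [a, orderOf_one] at oe; omega
  have ew : e * w = w * e := (mem_C.1 ce w (mem_sup_right (mem_zpowers w))).symm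
  have es := H.r_s hK (H.mem_wK.1 he.2)
  have et := hK.le e he.1
  obtain ⟨k, S⟩ := H.gridstep e2 e1 et es ew (hK.d3 e he.1)
  refine .inr ⟨e, e2, e1, he.1, es, ew, k, S, fun r r1 r2 => ?_⟩
  have re : r * e = e * r := mem_C.1 ce r (mem_sup_left ⟨r1, H.mem_wK.2 r2⟩)
  have a1 := H.anti hK r1 he.1 re
  have a2 := H.anti hK r2 he.1 (by
    rw [show e = w * e * w by rw [← ew, mul_assoc, H.ww, mul_one], cw H.ww, cw H.ww, re])
  generalize g * e * g⁻¹ = x at *
  let W := closure ({s, t, e} : Set G)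
  have m1 : s ∈ W := subset_closure (by simp)
  have m2 : t ∈ W := subset_closure (by simp)
  have m3 : e ∈ W := subset_closure (by simp)
  have cc : ∀ p ∈ ({s, t, e} : Set G), ∀ q ∈ ({s, t, e} : Set G), p * q = q * p := by
    have := H.ts'
    rintro _ (rfl | rfl | rfl) _ (rfl | rfl | rfl) <;> first | rfl | assumption | (symm; assumption)
  have sq : ∀ v ∈ W, v * v = 1 := closure_sq cc (by
    rintro _ (rfl | rfl | rfl); exacts [H.ss, H.tt, e2])
  have rW : ∀ v ∈ W, v * r = r * v := fun v hv => mem_C1.1 ((closure_le (C1 r)).2 (by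
    rintro _ (rfl | rfl | rfl)
    exacts [mem_C1.2 (H.r_s hK r2).symm, mem_C1.2 (hK.le r r1).symm, mem_C1.2 re.symm]) hv)
  have xi := inv_of_sq S.x2
  have yi := inv_of_sq S.y2
  have nx : x ∈ N W := mem_N_closure (by
    rintro _ (rfl | rfl | rfl)
    · rw [xi, S.xs]; exact mul_mem (mul_mem m1 m3) m2
    · rw [S.xt, mul_inv_cancel_right]; exact m2
    · rw [S.xe, mul_inv_cancel_right]; exact m3)
  have b2 : r⁻¹ * (w * x * w) * r * (w * x * w) ∈ W := by
    rcases H.memT.1 a2 with a | a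
    · have := congrArg (fun x => w * x * w) a
      rw [xi] at this
      simp [mul_assoc, mul_sq_l H.ww, H.ww, H.wi] at this ⊢
      rw [this]; exact one_mem _
    · have := congrArg (fun x => w * x * w) a
      rw [xi] at this
      simp only [H.wtw] at this
      simp [mul_assoc, mul_sq_l H.ww, H.wi] at this ⊢
      rw [this]; exact m1
  generalize w * x * w = y at *
  have ny : y ∈ N W := mem_N_closure (by
    rintro _ (rfl | rfl | rfl)
    · rw [S.ys, mul_inv_cancel_right]; exact m1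
    · rw [yi, S.yt]; exact mul_mem (mul_mem m2 m3) m1
    · rw [S.ye, mul_inv_cancel_right]; exact m3)
  let Y : Subgroup G :=
    { carrier := {c | c ∈ N W ∧ r⁻¹ * (c * r * c⁻¹) ∈ W}
      one_mem' := ⟨one_mem _, by simp⟩
      mul_mem' := fun {c d} hc hd => ⟨mul_mem hc.1 hd.1, by
        convert mul_mem hc.2 (conj_mem_of_N hc.1 hd.2) using 1; group⟩
      inv_mem' := fun {c} hc => ⟨inv_mem hc.1, by
        convert conj_mem_of_N (inv_mem hc.1) (inv_mem hc.2) using 1; group⟩ }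
  have hx : x ∈ Y := ⟨nx, by
    rw [xi] at a1 ⊢; simpa [mul_assoc] using zpowers_le.2 m2 a1⟩
  have hy : y ∈ Y := ⟨ny, by rw [yi]; simpa [mul_assoc] using b2⟩
  have c3 := S.c3
  have c1 := S.c1
  have ge : e * (x * y) ^ 2 = (x * y) ^ 2 * e :=
    (Commute.pow_left (Commute.mul_left S.xe S.ye) 2).eq.symm
  have hγ := pow_mem (mul_mem hx hy) 2
  generalize (x * y) ^ 2 = γ at *
  obtain ⟨v1, h1, e1'⟩ : ∃ v ∈ W, γ * r * γ⁻¹ = r * v := ⟨_, hγ.2, by group⟩
  obtain ⟨v2, h2, e2'⟩ : ∃ v ∈ W, γ * (γ * r * γ⁻¹) * γ⁻¹ = r * v :=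
    ⟨_, (mul_mem hγ hγ).2, by group⟩
  have cW := closure_comm cc
  have n1 : (r * γ) ^ 3 = r ^ 3 * (v1 * v2) := by
    rw [cube_exp c3, e2', e1', pow_three', mul_assoc r, mul_assoc r, ← mul_assoc v1, rW v1 h1]; group
  have n2 : (r * γ) ^ 3 * γ = γ * (r * γ) ^ 3 := by
    have : γ * (r * γ) ^ 3 * γ⁻¹ = r⁻¹ * (r * γ) ^ 3 * r := by
      rw [pow_three']
      calc _ = γ * r * γ * r * (γ ^ 3 * γ⁻¹ * γ⁻¹) * r * γ * γ⁻¹ := by group
        _ = r⁻¹ * (r * γ * r * γ * r * γ) * (γ⁻¹ * γ⁻¹ * γ⁻¹) * r := by rw [c3]; group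
        _ = _ := by rw [← mul_inv_rev, ← mul_inv_rev, ← mul_assoc γ, ← pow_three', c3]; group
    rw [eq_comm, ← mul_inv_eq_iff_eq_mul, this, n1, mul_assoc, mul_assoc, rW _ (mul_mem h1 h2)]
    group
  have cr : Commute (r ^ 3) (v1 * v2) := Commute.pow_left (rW _ (mul_mem h1 h2)).symm 3
  have r2' : r * r = 1 := by
    have := H.six c3 c1 n2
    rw [n1, cr.mul_pow, show 6 = 2 * 3 from rfl, pow_mul (v1 * v2), pow_two, sq _ (mul_mem h1 h2),
      one_pow, mul_one, ← pow_mul] at this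
    obtain ⟨j, hj⟩ := H.pg_R0 hK ⟨r, r1, H.mem_wK.2 r2⟩
    refine sq_of_six (H.pg_R0 hK) ⟨r1, H.mem_wK.2 r2⟩ ?_
    have b : (r ^ 2) ^ 2 ^ j = 1 := by
      rw [← pow_mul, mul_comm, pow_mul, show r ^ 2 ^ j = 1 from congrArg Subtype.val hj, one_pow]
    have b' : (r ^ 2) ^ 9 = 1 := by rw [← pow_mul]; exact this
    have := orderOf_eq_one_iff.1 (Nat.eq_one_of_dvd_coprimes (Nat.Coprime.pow_left j (by norm_num))
      (orderOf_dvd_of_pow_eq_one b) (orderOf_dvd_of_pow_eq_one b'))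
    rw [show 6 = 2 * 3 from rfl, pow_mul, this, one_pow]
  rw [n1, pow_three', r2', one_mul] at n2
  have rm : r ∈ W := by
    by_cases b : r * (v1 * v2) = 1
    · rw [eq_inv_of_mul_eq_one_left b]; exact inv_mem (mul_mem h1 h2)
    have := H.two_eq c3 c1 n2 ge (by
      rw [mul_assoc, ← mul_assoc (v1 * v2), rW _ (mul_mem h1 h2), mul_assoc, sq _ (mul_mem h1 h2),
        mul_one, r2']) e2 b e1 (by rw [mul_assoc, cW _ (mul_mem h1 h2) e m3, ← mul_assoc, re, mul_assoc])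
    rw [eq_mul_inv_of_mul_eq this]; exact mul_mem m3 (inv_mem (mul_mem h1 h2))
  have nf : ∀ v ∈ W, ∃ p ∈ zpowers s, ∃ q ∈ zpowers t, ∃ c ∈ zpowers e, v = p * q * c := fun v hv => by
    induction hv using closure_induction with
    | mem x hx =>
      rcases hx with rfl | rfl | rfl
      exacts [⟨_, mem_zpowers _, 1, one_mem _, 1, one_mem _, by simp⟩,
        ⟨1, one_mem _, _, mem_zpowers _, 1, one_mem _, by simp⟩,
        ⟨1, one_mem _, 1, one_mem _, _, mem_zpowers _, by simp⟩]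
    | one => exact ⟨1, one_mem _, 1, one_mem _, 1, one_mem _, by simp⟩
    | mul x y _ _ a b =>
      obtain ⟨p, hp, q, hq, c, hc, rfl⟩ := a
      obtain ⟨p', hp', q', hq', c', hc', rfl⟩ := b
      refine ⟨_, mul_mem hp hp', _, mul_mem hq hq', _, mul_mem hc hc', ?_⟩
      have l1 := zpowers_le.2 m1; have l2 := zpowers_le.2 m2; have l3 := zpowers_le.2 m3
      calc _ = p * (q * (c * (p' * q'))) * c' := by group
        _ = p * (q * p') * q' * c * c' := by rw [cW c (l3 hc) _ (mul_mem (l1 hp') (l2 hq'))]; group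
        _ = _ := by rw [cW q (l2 hq) p' (l1 hp')]; group
    | inv x hx a => rwa [inv_of_sq (sq x hx)]
  obtain ⟨p, hp, q, hq, c, hc, e0⟩ := nf r rm
  have cK := zpowers_le.2 he hc
  rcases mem_zpowers_order_two H.ss hp with rfl | rfl
  · rcases H.memT.1 hq with rfl | rfl
    · rw [e0, one_mul, one_mul]; exact mem_zpowers_order_two e2 hc
    · have := mul_mem (H.mem_wK.2 r2) (inv_mem cK.2)
      rw [e0, one_mul, mul_inv_cancel_right, H.mem_wK, H.wtw] at this
      exact (H.sK hK this).elim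
  · have := mul_mem (mul_mem r1 (inv_mem cK.1)) (inv_mem (zpowers_le.2 hK.tK hq))
    rw [e0, mul_inv_cancel_right, mul_inv_cancel_right] at this
    exact (H.sK hK this).elim

end Cf

end CfsgM11
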