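import Cfsg.Agent.H7.Loc1

/-! Transfer from a subgroup of index prime to `p`, for functions multiplicative on a subgroup. -/

set_option autoImplicit false
set_option linter.style.haveILetI false

namespace CfsgH6.O8E
open Subgroup CfsgH5 CfsgH6 CfsgFT

universe u
variable {G : Type u} [Group G]

/-- `f` is multiplicative on `L` -/
def MulOn {B : Type*} [Group B] (L : Subgroup G) (f : G → B) : Prop :=
  ∀ a ∈ L, ∀ b ∈ L, f (a * b) = f a * f b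

namespace MulOn
variable {B : Type*} [Group B] {L : Subgroup G} {f : G → B} (h : MulOn L f)
include h

/-- the homomorphism -/
def hom : L →* B := MonoidHom.mk' (fun a => f a) fun a b => h a a.2 b b.2

theorem one : f 1 = 1 := h.hom.map_one

theorem inv {a : G} (ha : a ∈ L) : f a⁻¹ = (f a)⁻¹ := h.hom.map_inv ⟨a, ha⟩

theorem pow {a : G} (ha : a ∈ L) (n : ℕ) : f (a ^ n) = f a ^ n := h.hom.map_pow ⟨a, ha⟩ n

theorem cj {a b : G} (ha : a ∈ L) (hb : b ∈ L) : f (a * b * a⁻¹) = f a * f b * (f a)⁻¹ := by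
  rw [h _ (mul_mem ha hb) _ (inv_mem ha), h a ha b hb, h.inv ha]

theorem mono {K : Subgroup G} (hK : K ≤ L) : MulOn K f := fun a ha b hb => h a (hK ha) b (hK hb)

/-- the kernel -/
def ker : Subgroup G where
  carrier := {g | g ∈ L ∧ f g = 1}
  one_mem' := ⟨one_mem _, h.one⟩
  mul_mem' := fun ha hb => ⟨mul_mem ha.1 hb.1, by rw [h _ ha.1 _ hb.1, ha.2, hb.2, one_mul]⟩
  inv_mem' := fun ha => ⟨inv_mem ha.1, by rw [h.inv ha.1, ha.2, inv_one]⟩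

theorem mem_ker {g : G} : g ∈ h.ker ↔ g ∈ L ∧ f g = 1 := Iff.rfl

theorem ker_le : h.ker ≤ L := fun _ ha => ha.1

theorem nrm_ker : Nrm L h.ker := fun a ha b hb =>
  ⟨mul_mem (mul_mem ha hb.1) (inv_mem ha), by rw [h.cj ha hb.1, hb.2]; simp⟩

end MulOn

theorem tr_fun [Finite G] {L Y : Subgroup G} (hY : Y ≤ L) {A : Type*} [CommGroup A] {ψ : G → A}
    (hψ : MulOn Y ψ) : ∃ V : G → A, MulOn L V ∧ ∀ {p : ℕ}, p.Prime → ∀ u ∈ Y, u ^ p = 1 →
      (∀ g ∈ L, g * u * g⁻¹ ∈ Y → ψ (g * u * g⁻¹) = ψ u) → V u = ψ u ^ Y.relIndex L := by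
  classical
  let φ : Y.subgroupOf L →* A := hψ.hom.comp (subgroupOfEquivOfLe hY).toMonoidHom
  let V := MonoidHom.transfer φ
  refine ⟨fun g => if h : g ∈ L then V ⟨g, h⟩ else 1, fun a ha b hb => ?_,
    fun hp u hu up h => ?_⟩
  · simp only [dif_pos ha, dif_pos hb, dif_pos (mul_mem ha hb), ← map_mul]
    rfl
  have : Fintype (Quotient (MulAction.orbitRel (zpowers (⟨u, hY hu⟩ : L)) (L ⧸ Y.subgroupOf L))) :=
    Fintype.ofFinite _
  simp only [dif_pos (hY hu)]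
  rw [relIndex, index_eq_sum_minimalPeriod _ (⟨u, hY hu⟩ : L), ← Finset.prod_pow_eq_pow_sum,
    MonoidHom.transfer_eq_prod_quotient_orbitRel_zpowers_quot]
  refine Finset.prod_congr rfl fun q _ => ?_
  have pf := mem_subgroupOf.1
    (QuotientGroup.out_conj_pow_minimalPeriod_mem (Y.subgroupOf L) (⟨u, hY hu⟩ : L) q.out)
  have up' : (⟨u, hY hu⟩ : L) ^ _ = 1 := Subtype.ext up
  have d : Function.minimalPeriod ((⟨u, hY hu⟩ : L) • ·) q.out ∣ _ :=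
    (MulAction.pow_smul_eq_iff_minimalPeriod_dvd).mp (by rw [up', one_smul])
  change ψ ((q.out.out : G)⁻¹ * u ^ _ * q.out.out) = _
  change ((q.out.out : G)⁻¹ * u ^ _ * q.out.out) ∈ Y at pf
  rcases (Nat.dvd_prime hp).mp d with r | r <;> rw [r] at pf ⊢
  · rw [pow_one] at pf
    simpa using h _ (inv_mem q.out.out.2) (by simpa using pf)
  · rw [← hψ.pow hu, up]
    simp

theorem tr_sub [Finite G] {L Y Y0 : Subgroup G} (hY : Y ≤ L)
    (hc : ∀ a ∈ Y, ∀ b ∈ Y, a * b * a⁻¹ * b⁻¹ ∈ Y0) {p : ℕ} (hp : p.Prime)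
    (hi : ¬ p ∣ Y.relIndex L) : ∃ K ≤ L, (∀ a ∈ L, ∀ b ∈ L, a * b * a⁻¹ * b⁻¹ ∈ K) ∧
      (∀ n : ℕ, (∀ y ∈ Y, y ^ n ∈ Y0) → ∀ g ∈ L, g ^ n ∈ K) ∧ ∀ u ∈ Y, u ^ p = 1 →
        (∀ g ∈ L, g * u * g⁻¹ ∈ Y → g * u * g⁻¹ * u⁻¹ ∈ Y0) → u ∈ K → u ∈ Y0 := by
  classical
  haveI : (Y0.subgroupOf Y).Normal := ⟨fun a ha g => by
    simpa [mem_subgroupOf] using mul_mem (hc g g.2 a a.2) (mem_subgroupOf.1 ha)⟩
  letI : CommGroup (Y ⧸ Y0.subgroupOf Y) := { (inferInstance : Group (Y ⧸ Y0.subgroupOf Y)) with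
    mul_comm := fun a b => by
      obtain ⟨a, rfl⟩ := QuotientGroup.mk_surjective a
      obtain ⟨b, rfl⟩ := QuotientGroup.mk_surjective b
      rw [← QuotientGroup.mk_mul, ← QuotientGroup.mk_mul, QuotientGroup.eq]
      simpa [mem_subgroupOf, mul_assoc] using hc _ (inv_mem b.2) _ (inv_mem a.2) }
  let ψ : G → Y ⧸ Y0.subgroupOf Y := fun g => if h : g ∈ Y then (⟨g, h⟩ : Y) else 1
  have hψ : MulOn Y ψ := fun a ha b hb => by
    simp only [ψ, dif_pos ha, dif_pos hb, dif_pos (mul_mem ha hb), ← QuotientGroup.mk_mul]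
    rfl
  have k : ∀ a ∈ Y, ψ a = 1 ↔ a ∈ Y0 := fun a ha => by
    simp only [ψ, dif_pos ha, QuotientGroup.eq_one_iff, mem_subgroupOf]
  obtain ⟨V, hV, e⟩ := tr_fun hY hψ
  refine ⟨hV.ker, hV.ker_le, fun a ha b hb => ⟨mul_mem (mul_mem (mul_mem ha hb) (inv_mem ha))
    (inv_mem hb), ?_⟩, fun n hn g hg => ⟨pow_mem hg n, ?_⟩, fun u hu up h hK => ?_⟩
  · rw [hV _ (mul_mem (mul_mem ha hb) (inv_mem ha)) _ (inv_mem hb), hV.cj ha hb, hV.inv hb]
    simp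
  · rw [hV.pow hg]
    obtain ⟨y, e⟩ := QuotientGroup.mk_surjective (V g)
    rw [← e, ← QuotientGroup.mk_pow, QuotientGroup.eq_one_iff]
    exact hn y y.2
  · have e1 := e hp u hu up fun g hg hy => by
      have := (k _ (mul_mem hy (inv_mem hu))).2 (h g hg hy)
      rwa [hψ _ hy _ (inv_mem hu), hψ.inv hu, mul_inv_eq_one] at this
    rw [hK.2] at e1
    refine (k u hu).1 ((pow_eq_one_iff_of_coprime (hp.coprime_iff_not_dvd.2 hi)).1 ⟨?_, e1.symm⟩)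
    rw [← hψ.pow hu, up, hψ.one]

theorem not_dvd_of_fix [Finite G] {p : ℕ} (hp : p.Prime) {R Y L : Subgroup G} (hR : IsPGroup p R)
    (h1 : R ≤ Y) (h2 : Y ≤ L) (h : ∀ g ∈ L, (∀ r ∈ R, g * r * g⁻¹ ∈ Y) → g ∈ Y) :
    ¬ p ∣ Y.relIndex L := by
  haveI := Fact.mk hp
  obtain ⟨S, hS, s⟩ := exists_sylIn_ge h1 hR
  have : SylIn p S L := sylIn_of_sylIn_N hp (s.of_le (le_inf (s.le.trans h2) (le_N S))
    fun g hg => h g hg.1 fun r hr => s.le (conj_mem_of_mem_N hg.2 (hS hr)))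
  exact fun d => this.not_dvd_relIndex (d.trans (relIndex_dvd_of_le_left L s.le))

theorem mul_pow_mem {H : Subgroup G} {h u : G} (hh : h ∈ H) (hu : ∀ a ∈ H, u * a * u⁻¹ ∈ H)
    (n : ℕ) : (h * u) ^ n * (u ^ n)⁻¹ ∈ H := by
  induction n with
  | zero => simp
  | succ n ih =>
    rw [show (h * u) ^ (n + 1) * (u ^ (n + 1))⁻¹ = h * (u * ((h * u) ^ n * (u ^ n)⁻¹) * u⁻¹) by
      rw [pow_succ' (h * u), pow_succ' u]; group]
    exact mul_mem hh (hu _ ih)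

end CfsgH6.O8E
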