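import Cfsg.Agent.H6.O8E1
import Cfsg.Agent.H6.TrFun

set_option autoImplicit false
set_option maxRecDepth 100000
set_option linter.style.haveILetI false

/-! Further facts on `Ω⁺(8,2)`. -/

namespace CfsgH6.O8E

open CfsgH3.TC CfsgH9 CfsgH8 Subgroup CfsgH5 CfsgFT CfsgH2.Fx CfsgH2.O8 CfsgH7

/-- a root element -/
noncomputable def e3 : Om := ext vH 12

theorem en8 : oM.enc z0 = cE.get 8 := enc_ext 8 (by norm_num)
theorem en1 : oM.enc (vH 1) = cE.get 1 := vH_ext 1 le_rfl (by norm_num) ▸ enc_ext 1 (by norm_num)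
theorem en7 : oM.enc (vH 7) = cE.get 7 := vH_ext 7 (by norm_num) le_rfl ▸ enc_ext 7 (by norm_num)
theorem en12 : oM.enc e3 = cE.get 12 := enc_ext 12 (by norm_num)

theorem vH_D0 (a : ℕ) (h1 : 1 ≤ a) (h2 : a ≤ 8) : vH a ∈ D0 := by
  rw [mem_D0, enc_vH a h2]
  interval_cases a <;> decide +kernel

theorem vH_sq (a : ℕ) (h2 : a ≤ 8) : vH a * vH a = 1 := by
  conv_lhs => enter [1]; rw [← vH_inv a h2]
  exact inv_mul_cancel _

theorem D0_cj {y : Om} (hy : y ∈ D0) (g : Om) : g * y * g⁻¹ ∈ D0 := by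
  obtain ⟨k, rfl⟩ := hy
  exact ⟨g * k, by group⟩

theorem D0_sq {y : Om} (hy : y ∈ D0) : y * y = 1 ∧ y ≠ 1 := by
  obtain ⟨k, rfl⟩ := hy
  exact ⟨by rw [conj_mul, z0_sq.1]; simp, conj_ne_one z0_sq.2 k⟩

theorem sz_D0 (a : ℕ) (h1 : 1 ≤ a) (h2 : a ≤ 3) : vH a * z0 ∉ D0 ∧ vH a ≠ z0 := by
  rw [mem_D0, Ne, ← beq_iff, oM.enc_mul, enc_vH a (by omega), en8]
  interval_cases a <;> decide +kernel

theorem x_facts : vH 7 * z0 ∈ D0 ∧ vH 7 * vH 1 ∈ D0 ∧ e3 ∈ D0 ∧ e3 * z0 ∈ D0 ∧ e3 * vH 1 ∈ D0 ∧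
    e3 * vH 7 ∉ D0 ∧ e3 ≠ vH 7 := by
  simp only [mem_D0, Ne, ← beq_iff, oM.enc_mul, en1, en7, en8, en12]
  decide +kernel

theorem z0_root : ∃ u : Om, u * u = z0 := ⟨vH 7 * ext vH 15, by
  simp only [← beq_iff, oM.enc_mul, en7, en8, enc_ext 15 (by norm_num)]
  decide +kernel⟩

noncomputable def gT : NT := (.node (.node (.node (.node (.leaf (nat_lit 0x1000000001010000001000000001000000001000000001000000001000000101)) (.leaf (nat_lit 0x1001000001000000001000000001000000001000000101000000001001001001))) (.leaf (nat_lit 0x1000000001000000001000000001000000011000000001000000001010000001))) (.node (.leaf (nat_lit 0x1001000001010000001000000001000000001000000001000000001000001101)) (.leaf (nat_lit 0x1000000001000000001000000001000000011000000101000000001011000001)))) (.node (.node (.leaf (nat_lit 0x1000000001010000001000000001000000011000000001000000001010000101)) (.leaf (nat_lit 0x1000000001000000001000000001000000001000000101000000001001000001))) (.node (.leaf (nat_lit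 0x1001000001010000001000000001000000011000000101000000001011001101)) (.leaf (nat_lit 0x1001000001000000001000000001000000001000000001000000001000001001)))))

noncomputable def gI : NT := (.node (.node (.node (.leaf (nat_lit 6)) (.leaf (nat_lit 8))) (.node (.leaf (nat_lit 1)) (.node (.leaf (nat_lit 3)) (.leaf (nat_lit 2))))) (.node (.leaf (nat_lit 5)) (.node (.leaf (nat_lit 4)) (.node (.leaf (nat_lit 7)) (.leaf (nat_lit 0))))))

noncomputable def gW9 : NT := (.node (.node (.node (.node (.leaf (nat_lit 115)) (.leaf (nat_lit 130))) (.leaf (nat_lit 6))) (.node (.leaf (nat_lit 2005)) (.leaf (nat_lit 111)))) (.node (.node (.leaf (nat_lit 2074)) (.leaf (nat_lit 0))) (.node (.leaf (nat_lit 36094)) (.leaf (nat_lit 7)))))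

noncomputable def gW4 : NT := (.node (.node (.leaf (nat_lit 0)) (.leaf (nat_lit 3))) (.node (.leaf (nat_lit 4)) (.leaf (nat_lit 58))))


/-- check of the grid -/
noncomputable def gridF (j : ℕ) : Bool :=
  frcA (dT.get j) fun c => bimp (inD (oM.mul c (cE.get 8))) (bimp (inD (oM.mul c (cE.get 1)))
    (frcA (gI.get (Nat.mod c 19)) fun k => band (Nat.blt k 9) (Nat.beq (gT.get k) c)))

theorem grid_chk_0 : allR 0 800 gridF = true := by decide +kernel

theorem grid_chk_1 : allR 800 775 gridF = true := by decide +kernel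

theorem grid_chk : allLt 1575 gridF = true := by
  have h0 := grid_chk_0
  have h1 : allR 0 1575 gridF = true := allR_append (lo := 0) (a := 800) (b := 775) h0 grid_chk_1
  exact allLt_of_allR_zero h1


theorem grid_idx {y : Om} (hy : y ∈ D0) (h1 : y * z0 ∈ D0) (h2 : y * vH 1 ∈ D0) :
    ∃ k < 9, oM.enc y = gT.get k := by
  obtain ⟨j, hj, e⟩ := D0_idx hy
  have h := allLt_iff.1 grid_chk j hj
  simp only [gridF, frcA_eq', bimp_iff, band_iff, ← e, ← en8, ← en1, ← oM.enc_mul, ← mem_D0] at h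
  exact ⟨_, Nat.blt_eq.mp (h h1 h2).1, (Nat.eq_of_beq_eq_true (h h1 h2).2).symm⟩

theorem word_mem (w : ℕ) : ∃ g : Om, oM.enc g = oM.wordN 17 cE 5 w := by
  obtain ⟨g, -, e⟩ := Model.mem_wordN (M := oM) (r := 17) (s := cE) (K := ⊤) (by norm_num)
    (fun a ha => ⟨_, mem_top _, enc_ext a ha⟩) 5 w
  exact ⟨g, e⟩

theorem enc_conj {g y : Om} {c : ℕ}
    (h : Nat.beq (oM.mul (oM.enc g) (oM.enc y)) (oM.mul c (oM.enc g)) = true)
    (hc : oM.Mem ⊤ c) : oM.enc (g * y * g⁻¹) = c := by
  obtain ⟨k, -, rfl⟩ := hc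
  rw [← oM.enc_mul, ← oM.enc_mul, beq_iff] at h
  rw [h, mul_inv_cancel_right]

theorem gT_mem (k : ℕ) (hk : k < 9) : oM.Mem ⊤ (gT.get k) := by
  have : allLt 9 (fun k => inD (gT.get k)) = true := by decide +kernel
  have h := allLt_iff.1 this k hk
  rw [inD, frcA_eq', band_iff] at h
  obtain ⟨g, -, e⟩ := d_mem _ (Nat.blt_eq.mp h.1)
  exact ⟨_, mem_top _, e.trans (Nat.eq_of_beq_eq_true h.2)⟩

theorem w9 (k : ℕ) (hk : k < 9) : ∃ g ∈ C1 (vH 1) ⊓ C1 z0, oM.enc (g * vH 7 * g⁻¹) = gT.get k := by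
  have : allLt 9 (fun k => frcA (oM.wordN 17 cE 5 (gW9.get k)) fun g =>
    band (band (cmc g (cE.get 1)) (cmc g (cE.get 8)))
      (Nat.beq (oM.mul g (cE.get 7)) (oM.mul (gT.get k) g))) = true := by decide +kernel
  have h := allLt_iff.1 this k hk
  obtain ⟨g, e⟩ := word_mem (gW9.get k)
  simp only [frcA_eq', band_iff, ← e, ← en1, ← en7, ← en8, cmc_iff] at h
  exact ⟨g, ⟨mem_C1.2 h.1.1, mem_C1.2 h.1.2⟩, enc_conj h.2 (gT_mem k hk)⟩

theorem w4 (k : ℕ) (hk : k < 4) :
    ∃ g ∈ C1 (vH 7) ⊓ (C1 (vH 1) ⊓ C1 z0), oM.enc (g * e3 * g⁻¹) = gT.get k := by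
  have : allLt 4 (fun k => frcA (oM.wordN 17 cE 5 (gW4.get k)) fun g =>
    band (band (cmc g (cE.get 7)) (band (cmc g (cE.get 1)) (cmc g (cE.get 8))))
      (Nat.beq (oM.mul g (cE.get 12)) (oM.mul (gT.get k) g))) = true := by decide +kernel
  have h := allLt_iff.1 this k hk
  obtain ⟨g, e⟩ := word_mem (gW4.get k)
  simp only [frcA_eq', band_iff, ← e, ← en1, ← en7, ← en8, ← en12, cmc_iff] at h
  exact ⟨g, ⟨mem_C1.2 h.1.1, mem_C1.2 h.1.2.1, mem_C1.2 h.1.2.2⟩,
    enc_conj h.2 (gT_mem k (by omega))⟩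

theorem grid9 {y : Om} (hy : y ∈ D0) (h1 : y * z0 ∈ D0) (h2 : y * vH 1 ∈ D0) :
    ∃ g ∈ C1 (vH 1) ⊓ C1 z0, g * vH 7 * g⁻¹ = y := by
  obtain ⟨k, hk, e⟩ := grid_idx hy h1 h2
  obtain ⟨g, hg, e'⟩ := w9 k hk
  exact ⟨g, hg, oM.enc_inj (e'.trans e.symm)⟩

theorem grid4 {y : Om} (hy : y ∈ D0) (h1 : y * z0 ∈ D0) (h2 : y * vH 1 ∈ D0) (h3 : y ≠ vH 7)
    (h4 : y * vH 7 ∉ D0) : ∃ g ∈ C1 (vH 7) ⊓ (C1 (vH 1) ⊓ C1 z0), g * e3 * g⁻¹ = y := by
  obtain ⟨k, hk, e⟩ := grid_idx hy h1 h2
  have : allLt 9 (fun k => bor (Nat.blt k 4) (bor (Nat.beq (gT.get k) (cE.get 7))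
    (inD (oM.mul (gT.get k) (cE.get 7))))) = true := by decide +kernel
  have h := allLt_iff.1 this k hk
  simp only [bor_iff, ← e, ← en7, ← oM.enc_mul, ← mem_D0, beq_iff, h3, h4, or_false] at h
  obtain ⟨g, hg, e'⟩ := w4 k (Nat.blt_eq.mp h)
  exact ⟨g, hg, oM.enc_inj (e'.trans e.symm)⟩

noncomputable def o48T : NT := (.node (.node (.node (.node (.node (.node (.leaf (nat_lit 0x1000000001000000001100000001000000001000000001000000001000000011)) (.leaf (nat_lit 0x1000000001010000001100000001000000001000000101000001001001100111))) (.leaf (nat_lit 0x1000000001110000000100000010000000001000000001000000010100000110))) (.node (.node (.leaf (nat_lit 0x1000000001000000000100000010000000111000000001001000000110000010)) (.leaf (nat_lit 0x1001000001010000001100000001000000001000000101000001001001101111))) (.leaf (nat_lit 0x1011000001110000000100000010000000001000000001000000110100001110)))) (.node (.node (.node (.leaf (nat_lit 0x1000000001000000000100000010000000001000001101000100000101000010))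 (.leaf (nat_lit 0x1000000001110000000100000010000000111000001101001101010111100110))) (.leaf (nat_lit 0x1001000001000000001100000001000000001000000101000000001001001011))) (.node (.node (.leaf (nat_lit 0x1000000001000000001000000011000000101000001001001100001100000001)) (.leaf (nat_lit 0x1011000001110000000100000010000000111000000001001001110110101110))) (.leaf (nat_lit 0x1000000001010000001100000001000000011000000001000000001010000111))))) (.node (.node (.node (.node (.leaf (nat_lit 0x1000000001000000000100000010000000001000000001000000000100000010)) (.leaf (nat_lit 0x1011000001110000000100000010000000111000001101001100110111001110))) (.leaf (nat_lit 0x1000000001000000001100000001000000011000000101000000001011000011))) (.node (.node (.leaf (nat_lit 0x1000000001000000001100000001000000011000000001000000001010000011)) (.leaf (nat_lit 0x1000000001010000001100000001000000011000000101000001001011100111))) (.leaf (nat_lit 0x1000000001110000000100000010000000001000001101000101010101100110))))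 (.node (.node (.node (.leaf (nat_lit 0x1000000001000000001000000011000000101000000001001000001100000001)) (.leaf (nat_lit 0x1001000001010000001100000001000000011000000101000000001011001111))) (.leaf (nat_lit 0x1000000001100000001000000011000000101000000001001000011100000001))) (.node (.node (.leaf (nat_lit 0x1010000001000000001000000011000000001000001001000100101100000001)) (.leaf (nat_lit 0x1001000001010000001100000001000000011000000001000001001010101111))) (.leaf (nat_lit 0x1010000001100000001000000011000000001000001001000101111100100001)))))) (.node (.node (.node (.node (.node (.leaf (nat_lit 0x1000000001000000001000000011000000001000000001000000001100000001)) (.leaf (nat_lit 0x1010000001000000001000000011000000101000000001001001101100100001))) (.leaf (nat_lit 0x1011000001000000000100000010000000001000001101000100100101001010))) (.node (.node (.leaf (nat_lit 0x1011000001000000000100000010000000001000000001000000100100001010)) (.leaf (nat_lit 0x1010000001000000001000000011000000101000001001001101101100100001)))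 (.leaf (nat_lit 0x1000000001110000000100000010000000111000000001001000010110000110)))) (.node (.node (.node (.leaf (nat_lit 0x1000000001000000001100000001000000001000000101000000001001000011)) (.leaf (nat_lit 0x1011000001000000000100000010000000111000000001001001100110101010))) (.leaf (nat_lit 0x1010000001100000001000000011000000001000000001000000111100000001))) (.node (.node (.leaf (nat_lit 0x1000000001100000001000000011000000001000000001000000011100000001)) (.leaf (nat_lit 0x1011000001000000000100000010000000111000001101001101100111101010))) (.leaf (nat_lit 0x1010000001100000001000000011000000101000001001001100111100000001))))) (.node (.node (.node (.node (.leaf (nat_lit 0x1000000001000000001000000011000000001000001001000100001100000001)) (.leaf (nat_lit 0x1011000001110000000100000010000000001000001101000101110101101110))) (.leaf (nat_lit 0x1000000001010000001100000001000000001000000001000000001000000111))) (.node (.node (.leaf (nat_lit 0x1001000001000000001100000001000000001000000001000000001000001011))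 (.leaf (nat_lit 0x1001000001000000001100000001000000011000000001000001001010101011))) (.leaf (nat_lit 0x1001000001010000001100000001000000001000000001000000001000001111)))) (.node (.node (.node (.leaf (nat_lit 0x1010000001000000001000000011000000001000000001000000101100000001)) (.leaf (nat_lit 0x1010000001100000001000000011000000101000000001001001111100100001))) (.leaf (nat_lit 0x1000000001100000001000000011000000001000001001000101011100100001))) (.node (.node (.leaf (nat_lit 0x1000000001000000000100000010000000111000001101001100000111000010)) (.leaf (nat_lit 0x1001000001000000001100000001000000011000000101000001001011101011))) (.leaf (nat_lit 0x1000000001100000001000000011000000101000001001001101011100100001)))))))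

noncomputable def o48P : NT := (.node (.node (.node (.node (.node (.node (.leaf (nat_lit 0)) (.leaf (nat_lit 164))) (.leaf (nat_lit 61))) (.node (.node (.leaf (nat_lit 32)) (.leaf (nat_lit 213))) (.leaf (nat_lit 110)))) (.node (.node (.node (.leaf (nat_lit 20)) (.leaf (nat_lit 181))) (.leaf (nat_lit 79))) (.node (.node (.leaf (nat_lit 43)) (.leaf (nat_lit 244))) (.leaf (nat_lit 135))))) (.node (.node (.node (.node (.leaf (nat_lit 7)) (.leaf (nat_lit 170))) (.leaf (nat_lit 71))) (.node (.node (.leaf (nat_lit 39)) (.leaf (nat_lit 220))) (.leaf (nat_lit 118)))) (.node (.node (.node (.leaf (nat_lit 25)) (.leaf (nat_lit 191))) (.leaf (nat_lit 93))) (.node (.node (.leaf (nat_lit 51)) (.leaf (nat_lit 276))) (.leaf (nat_lit 153)))))) (.node (.node (.node (.node (.node (.leaf (nat_lit 3)) (.leaf (nat_lit 165))) (.leaf (nat_lit 65))) (.node (.node (.leaf (nat_lit 33)) (.leaf (nat_lit 215))) (.leaf (nat_lit 114)))) (.node (.node (.node (.leaf (nat_lit 24)) (.leaf (nat_lit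 186))) (.leaf (nat_lit 89))) (.node (.node (.leaf (nat_lit 47)) (.leaf (nat_lit 250))) (.leaf (nat_lit 149))))) (.node (.node (.node (.node (.leaf (nat_lit 13)) (.leaf (nat_lit 174))) (.leaf (nat_lit 75))) (.node (.node (.leaf (nat_lit 40)) (.leaf (nat_lit 228))) (.leaf (nat_lit 131)))) (.node (.node (.node (.leaf (nat_lit 26)) (.leaf (nat_lit 209))) (.leaf (nat_lit 97))) (.node (.node (.leaf (nat_lit 57)) (.leaf (nat_lit 285))) (.leaf (nat_lit 160)))))))

noncomputable def o48I : NT := (.node (.node (.node (.node (.node (.node (.node (.leaf (nat_lit 5)) (.leaf (nat_lit 8))) (.leaf (nat_lit 0))) (.leaf (nat_lit 4))) (.node (.node (.node (.leaf (nat_lit 31)) (.leaf (nat_lit 1))) (.leaf (nat_lit 0))) (.leaf (nat_lit 44)))) (.node (.node (.leaf (nat_lit 14)) (.node (.leaf (nat_lit 11)) (.leaf (nat_lit 9)))) (.leaf (nat_lit 45)))) (.node (.node (.node (.leaf (nat_lit 21)) (.leaf (nat_lit 26))) (.leaf (nat_lit 43))) (.node (.leaf (nat_lit 23)) (.node (.leaf (nat_lit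 7)) (.node (.leaf (nat_lit 40)) (.leaf (nat_lit 3))))))) (.node (.node (.node (.node (.node (.node (.leaf (nat_lit 24)) (.leaf (nat_lit 18))) (.leaf (nat_lit 0))) (.leaf (nat_lit 15))) (.node (.node (.leaf (nat_lit 38)) (.leaf (nat_lit 6))) (.node (.leaf (nat_lit 29)) (.leaf (nat_lit 39))))) (.node (.node (.node (.node (.node (.leaf (nat_lit 10)) (.leaf (nat_lit 17))) (.leaf (nat_lit 33))) (.node (.node (.leaf (nat_lit 0)) (.leaf (nat_lit 47))) (.leaf (nat_lit 0)))) (.leaf (nat_lit 0))) (.node (.node (.leaf (nat_lit 25)) (.node (.node (.leaf (nat_lit 27)) (.leaf (nat_lit 30))) (.leaf (nat_lit 0)))) (.leaf (nat_lit 22))))) (.node (.node (.node (.leaf (nat_lit 46)) (.node (.node (.leaf (nat_lit 36)) (.leaf (nat_lit 34))) (.leaf (nat_lit 0)))) (.node (.node (.leaf (nat_lit 37)) (.leaf (nat_lit 16))) (.node (.leaf (nat_lit 13)) (.leaf (nat_lit 41))))) (.node (.leaf (nat_lit 35)) (.node (.node (.leaf (nat_lit 42)) (.node (.leaf (nat_lit 20)) (.leaf (nat_lit 32))))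 (.node (.node (.leaf (nat_lit 0)) (.node (.leaf (nat_lit 19)) (.leaf (nat_lit 12)))) (.node (.node (.leaf (nat_lit 28)) (.leaf (nat_lit 2))) (.leaf (nat_lit 0)))))))))


theorem cent_A {c : Om} (hc : c ∈ C1 e3 ⊓ (C1 (vH 7) ⊓ (C1 (vH 1) ⊓ C1 z0))) (c3 : c ^ 3 = 1) :
    c = 1 := by
  have h1 := orb_le (I := o48I) (p := 353) (orb_mem (k := 48) (t := o48T) (P := o48P) (r := 7)
    (by norm_num) (by norm_num) (en1.trans (by decide +kernel)) (by decide +kernel))
    (by decide +kernel)
  have h2 := orb_le (I := gI) (p := 19) w9 (by decide +kernel)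
  have h3 := orb_le (I := gI) (p := 19) w4 (by decide +kernel)
  have h4 : V1 ≤ C1 e3 ⊓ (C1 (vH 7) ⊓ (C1 (vH 1) ⊓ C1 z0)) := by
    rw [V1, Model.gen, closure_le]
    rintro g ⟨a, ha, e⟩
    have : allLt 6 (fun a => band (cmc (ec_s2.get a) (cE.get 12))
      (band (cmc (ec_s2.get a) (cE.get 7)) (band (cmc (ec_s2.get a) (cE.get 1))
        (cmc (ec_s2.get a) (cE.get 8))))) = true := by decide +kernel
    have h := allLt_iff.1 this a ha
    simp only [band_iff, ← e, ← en1, ← en7, ← en8, ← en12, cmc_iff] at h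
    exact ⟨mem_C1.2 h.1, mem_C1.2 h.2.1, mem_C1.2 h.2.2.1, mem_C1.2 h.2.2.2⟩
  have h5 := card_TV.2.trans (card_le_of_le h4)
  rw [← om_facts.2.1] at h1
  have k1 := card_inf_mul_relIndex (C1 (vH 1)) (C1 z0)
  have k2 := card_inf_mul_relIndex (C1 (vH 7)) (C1 (vH 1) ⊓ C1 z0)
  have k3 := card_inf_mul_relIndex (C1 e3) (C1 (vH 7) ⊓ (C1 (vH 1) ⊓ C1 z0))
  conv_rhs at k1 => rw [om_facts.2.1, card_gen7]
  refine eq_one_of_pow_of_not_dvd Nat.prime_three hc c3 ?_
  generalize Nat.card ↥(C1 e3 ⊓ (C1 (vH 7) ⊓ (C1 (vH 1) ⊓ C1 z0))) = d at h5 k3 ⊢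
  have := Nat.mul_le_mul_left d h3
  have := Nat.mul_le_mul_left (Nat.card ↥(C1 (vH 7) ⊓ (C1 (vH 1) ⊓ C1 z0))) h2
  have := Nat.mul_le_mul_left (Nat.card ↥(C1 (vH 1) ⊓ C1 z0)) h1
  omega

theorem ev_app {G : Type*} [Group G] (v : ℕ → G) (a b : List ℕ) :
    ev v (a ++ b) = ev v a * ev v b := by
  induction a with
  | nil => simp [ev]
  | cons c a ih => rw [List.cons_append, ev_cons, ev_cons, ih, mul_assoc]

theorem b9_c : B9 (vH 2 * vH 5) (vH 3 * vH 6) := by
  have k : ∀ a ≤ 8, oM.enc (vH a) = cT.get (2 * a) := enc_vH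
  have h3 : (vH 2 * vH 5) ^ 3 = 1 := by
    simp only [pow_succ, pow_zero, ← beq_iff, oM.enc_mul, oM.enc_one, k 2 (by norm_num),
      k 5 (by norm_num)]
    decide +kernel
  refine ⟨h3, ?_, ?_, ?_, fun h => ?_⟩
  rotate_left 3
  · obtain ⟨n, hn⟩ := (Submonoid.mem_powers_iff _ _).1 (mem_powers_iff_mem_zpowers.2 h)
    rw [pow_eq_pow_mod n h3] at hn
    have : n % 3 < 3 := Nat.mod_lt _ (by norm_num)
    revert hn
    generalize n % 3 = m at this
    interval_cases m <;> simp only [pow_succ, pow_zero, ← beq_iff, oM.enc_mul, oM.enc_one,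
      k 2 (by norm_num), k 3 (by norm_num), k 5 (by norm_num), k 6 (by norm_num)] <;>
      decide +kernel
  all_goals
    simp only [Ne, pow_succ, pow_zero, ← beq_iff, oM.enc_mul, oM.enc_one, k 2 (by norm_num),
      k 3 (by norm_num), k 5 (by norm_num), k 6 (by norm_num)]
    decide +kernel

/-- a four-dimensional subspace -/
noncomputable def A0 : Subgroup Om := closure {z0, vH 1, vH 7, e3}

theorem ex_B : ∃ a b : Om, B9 a b ∧ a ∈ N A0 ∧ b ∈ N A0 := by
  have k : ∀ a ≤ 8, oM.enc (vH a) = cT.get (2 * a) := enc_vH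
  have m8 : z0 ∈ A0 := subset_closure (by simp)
  have m1 : vH 1 ∈ A0 := subset_closure (by simp)
  have m7 : vH 7 ∈ A0 := subset_closure (by simp)
  have m12 : e3 ∈ A0 := subset_closure (by simp)
  have key : ∀ b p q r s : Om, p ∈ A0 → q ∈ A0 → r ∈ A0 → s ∈ A0 → b * z0 = p * b →
      b * vH 1 = q * b → b * vH 7 = r * b → b * e3 = s * b → b ∈ N A0 :=
    fun b p q r s hp hq hr hs e1 e2 e3 e4 => mem_N_of_cj_le (by
      rw [CfsgH5.cj, A0, MonoidHom.map_closure, closure_le]
      rintro _ ⟨a, rfl | rfl | rfl | rfl, rfl⟩ <;> change _ * _ * _ ∈ A0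
      · rwa [e1, mul_inv_cancel_right]
      · rwa [e2, mul_inv_cancel_right]
      · rwa [e3, mul_inv_cancel_right]
      · rwa [e4, mul_inv_cancel_right])
  have i : (vH 5 * vH 8)⁻¹ = vH 8 * vH 5 := by
    rw [mul_inv_rev, vH_inv 5 (by norm_num), vH_inv 8 le_rfl]
  refine ⟨_, _, b9_c.conj (vH 5 * vH 8), key _ _ _ _ _ (mul_mem m8 m7) m12 m8 (mul_mem m1 m12)
    ?_ ?_ ?_ ?_, key _ _ _ _ _ (mul_mem m8 m12) m7 (mul_mem m1 m7) m8 ?_ ?_ ?_ ?_⟩ <;>
  simp only [i, ← beq_iff, oM.enc_mul, en1, en7, en8, en12, k 2 (by norm_num), k 3 (by norm_num),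
    k 5 (by norm_num), k 6 (by norm_num), k 8 le_rfl] <;> decide +kernel

theorem ex_sq : ∃ h : Om, ∀ a ∈ ({z0, vH 1, vH 7, e3} : Set Om), ∃ u ∈ T0, h * a * h⁻¹ = u * u := by
  have k : ∀ a ≤ 8, oM.enc (vH a) = cT.get (2 * a) := enc_vH
  have i : (vH 8 * vH 5)⁻¹ = vH 5 * vH 8 := by
    rw [mul_inv_rev, vH_inv 5 (by norm_num), vH_inv 8 le_rfl]
  have m := Model.mem_word (M := oM) (K := T0) (by norm_num) fun a ha => ec_valid1.mem_gen ha
  refine ⟨vH 8 * vH 5, ?_⟩
  rintro a (rfl | rfl | rfl | rfl)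
  on_goal 1 => obtain ⟨u, hu, e⟩ := m [3, 1, 3, 2, 3, 1, 3, 0]
  on_goal 2 => obtain ⟨u, hu, e⟩ := m [3, 0]
  on_goal 3 => obtain ⟨u, hu, e⟩ := m [3, 2, 3, 0]
  on_goal 4 => obtain ⟨u, hu, e⟩ := m [3, 1, 3, 0]
  all_goals
    refine ⟨u, hu, ?_⟩
    simp only [i, ← beq_iff, oM.enc_mul, en1, en7, en8, en12, k 5 (by norm_num), k 8 le_rfl, e]
    decide +kernel

/-- a matrix with the listed non-zero entries -/
def mx (m n : ℕ) (l : List (ℕ × ℕ)) : Matrix (Fin m) (Fin n) (ZMod 2) :=
  Matrix.of fun i j => if (i.1, j.1) ∈ l then 1 else 0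

theorem not_conj (h : Om) : h * (vH 1 * z0) * h⁻¹ ≠ vH 2 * z0 := fun e => by
  have h1 : omHom (vH 1 * z0) = 1 + mx 8 2 [(0, 0), (1, 1), (5, 1)] *
      mx 2 8 [(0, 1), (0, 4), (0, 5), (1, 4)] := encMat_inj (w := 4) (by norm_num) (by
    rw [← oM_enc, oM.enc_mul, en1, en8]; decide +kernel)
  have h2 : omHom (vH 2 * z0) = 1 + mx 8 8 [(0, 5), (1, 4), (2, 3), (7, 6)] :=
    encMat_inj (w := 4) (by norm_num) (by
      rw [← oM_enc, oM.enc_mul, enc_vH 2 (by norm_num), en8]; decide +kernel)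
  have h3 := congrArg omHom e
  rw [map_mul, map_mul, h1, h2, mul_add, add_mul, mul_one, ← map_mul, mul_inv_cancel, map_one,
    add_right_inj] at h3
  have h4 : mx 3 8 [(0, 0), (1, 1), (2, 2)] * mx 8 8 [(0, 5), (1, 4), (2, 3), (7, 6)] *
      mx 8 3 [(5, 0), (4, 1), (3, 2)] = 1 := by decide +kernel
  rw [← h3, ← Matrix.mul_assoc (omHom h), Matrix.mul_assoc _ _ (omHom h⁻¹), ← Matrix.mul_assoc,
    Matrix.mul_assoc] at h4
  have h5 := congrArg Matrix.rank h4
  rw [Matrix.rank_one] at h5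
  have h6 := (h5 ▸ Matrix.rank_mul_le_left _ _).trans (Matrix.rank_le_width _)
  simp at h6

theorem ex_pi : ∃ π : Om → T3, MulOn (C1 z0) π ∧ ∀ c ∈ C1 z0, π c = 1 → c ^ 3 = 1 → c = 1 := by
  have s : Sat (vG τ ω 1 1) (relS ++ relC) := ⟨rfl, by decide +kernel⟩
  have hH := vH_sat.mono fun w hw => List.mem_append_left relR hw
  have hs : Sat (fun a => (vG τ ω 1 1 a, vH a)) (relS ++ relC) := ⟨Prod.ext s.1 hH.1, fun w hw =>
    Prod.ext ((map_wval (MonoidHom.fst T3 Om) _ w).trans (s.2 w hw))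
      ((map_wval (MonoidHom.snd T3 Om) _ w).trans (hH.2 w hw))⟩
  obtain ⟨b1, b2⟩ := boundC hs
  have inj := fun g => pair_inj (g := g) b1 (b2.trans card_gen7.ge)
  generalize hΓ : (Gen 7 fun a => (vG τ ω 1 1 a, vH a)) = Γ at b1 b2 inj
  have m2 : Γ.map (MonoidHom.snd T3 Om) = C1 z0 := by
    rw [← hΓ, map_Gen, om_facts.2.1]; rfl
  have m1 : Γ.map (MonoidHom.fst T3 Om) = ⊤ := by
    rw [← hΓ, map_Gen, eq_top_iff]
    refine fun σ _ => T3_le fun i => ?_
    have a1 : τ i ∈ Gen 7 (vG τ ω 1 1) := by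
      fin_cases i
      exacts [mem_Gen _ (a := 1) (by norm_num) (by norm_num),
        mem_Gen _ (a := 2) (by norm_num) (by norm_num), mem_Gen _ (a := 3) (by norm_num) (by norm_num)]
    have a2 : ω i ∈ Gen 7 (vG τ ω 1 1) := by
      fin_cases i
      exacts [mem_Gen _ (a := 4) (by norm_num) (by norm_num),
        mem_Gen _ (a := 5) (by norm_num) (by norm_num), mem_Gen _ (a := 6) (by norm_num) (by norm_num)]
    change _ ∈ Gen 7 (vG τ ω 1 1)
    rcases (by decide +kernel : ∀ (i : Fin 3) (a : S3), Pi.mulSingle i a = (1 : T3) ∨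
      Pi.mulSingle i a = τ i ∨ Pi.mulSingle i a = ω i ∨ Pi.mulSingle i a = τ i * ω i ∨
      Pi.mulSingle i a = ω i * τ i ∨ Pi.mulSingle i a = τ i * ω i * τ i) i (σ i) with
      e | e | e | e | e | e <;> rw [e]
    exacts [one_mem _, a1, a2, mul_mem a1 a2, mul_mem a2 a1, mul_mem (mul_mem a1 a2) a1]
  have ex : ∀ g ∈ C1 z0, ∃ σ, (σ, g) ∈ Γ := fun g hg => by
    obtain ⟨p, hp, rfl⟩ := m2.ge hg
    exact ⟨p.1, hp⟩
  choose! π hπ using ex
  refine ⟨π, fun a ha b hb => mul_inv_eq_one.1 (inj _ (by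
    simpa using mul_mem (hπ _ (mul_mem ha hb)) (inv_mem (mul_mem (hπ a ha) (hπ b hb))))),
    fun c hc e c3 => ?_⟩
  have k1 := card_range_mul ((MonoidHom.fst T3 Om).comp Γ.subtype)
  have k2 := card_range_mul ((MonoidHom.snd T3 Om).comp Γ.subtype)
  rw [MonoidHom.range_comp, range_subtype] at k1 k2
  rw [m1, card_top, card_T3] at k1
  rw [m2, om_facts.2.1, card_gen7] at k2
  have k3 : 0 < Nat.card ((MonoidHom.snd T3 Om).comp Γ.subtype).ker := Nat.card_pos
  have := eq_one_of_pow_of_not_dvd (c := (⟨_, hπ c hc⟩ : Γ)) Nat.prime_three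
    (Z := ((MonoidHom.fst T3 Om).comp Γ.subtype).ker) e
    (Subtype.ext (Prod.ext (by simp [e]) (by simpa using c3))) (by omega)
  exact congrArg (fun p : Γ => p.1.2) this

theorem agree {A : Type*} [CommGroup A] (h2 : ∀ a : A, a * a = 1) {f : Om → A}
    (hf : MulOn (C1 z0) f) (h : ∀ a, 1 ≤ a → a ≤ 3 → f (vH a) = 1) : C1 z0 ≤ hf.ker := by
  have m : ∀ a, 1 ≤ a → a ≤ 7 → vH a ∈ C1 z0 := fun a h1 h2 => gen7_le (mem_Gen vH h1 h2)
  have k : ∀ a ≤ 8, oM.enc (vH a) = cT.get (2 * a) := enc_vH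
  have s : ∀ a, 1 ≤ a → a ≤ 3 → vH a ∈ hf.ker := fun a h1 h2 => ⟨m a h1 (by omega), h a h1 h2⟩
  have w : ∀ a, 1 ≤ a → a ≤ 3 → vH (a + 3) ∈ hf.ker := fun a h1 h2 => by
    have := hf.nrm_ker _ (mul_mem (m a h1 (by omega)) (m (a + 3) (by omega) (by omega))) _ (s a h1 h2)
    rwa [show vH a * vH (a + 3) * vH a * (vH a * vH (a + 3))⁻¹ = vH (a + 3) by
      rw [mul_inv_eq_iff_eq_mul, ← beq_iff]
      simp only [oM.enc_mul, k a (by omega), k (a + 3) (by omega)]
      interval_cases a <;> decide +kernel] at this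
  have x : vH 7 ∈ hf.ker := by
    have m7 := m 7 (by norm_num) le_rfl
    have m14 := mul_mem (m 1 le_rfl (by norm_num)) (m 4 (by norm_num) (by norm_num))
    refine ⟨m7, ?_⟩
    have e : vH 7 = vH 1 * vH 4 * vH 7 * (vH 1 * vH 4)⁻¹ * (vH 4 * vH 7 * (vH 4)⁻¹) := by
      rw [mul_inv_rev, vH_inv 1 (by norm_num), vH_inv 4 (by norm_num), ← beq_iff]
      simp only [oM.enc_mul, k 1 (by omega), k 4 (by omega), k 7 (by omega)]
      decide +kernel
    have m4 := m 4 (by norm_num) (by norm_num)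
    rw [e, hf _ (mul_mem (mul_mem m14 m7) (inv_mem m14)) _ (mul_mem (mul_mem m4 m7) (inv_mem m4)),
      hf.cj m14 m7, hf.cj m4 m7, mul_inv_cancel_comm, mul_inv_cancel_comm, h2]
  conv_lhs => rw [om_facts.2.1]
  refine Gen_le fun a h1 h2 => ?_
  rcases le_or_gt a 3 with h3 | h3
  · exact s a h1 h3
  rcases le_or_gt a 6 with h4 | h4
  · exact (show a - 3 + 3 = a by omega) ▸ w (a - 3) (by omega) (by omega)
  · exact (show 7 = a by omega) ▸ x

end CfsgH6.O8E
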