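import Cfsg.Agent.H6.O8E2

/-! The endgame for `Ω⁺(8,2).3` and `Ω⁺(8,2).S₃`: fusion and the index. -/

set_option autoImplicit false
set_option linter.style.haveILetI false
set_option linter.unusedSectionVars false

namespace CfsgH6.O8E

open CfsgH8 Subgroup CfsgH5 CfsgFT CfsgH2.Fx CfsgH2.O8 CfsgH7

universe u
variable {G : Type u} [Group G] [Finite G]

theorem pow_mem_of_sup {K : Subgroup G} {a t : G} (ha : a ∈ N K) {n : ℕ} (an : a ^ n = 1)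
    (ht : t ∈ K ⊔ zpowers a) : t ^ n ∈ K := by
  obtain ⟨h, hh, v, hv, rfl⟩ := (mem_sup_nrm' (nrm_of_le_N (zpowers_le.2 ha))).1 ht
  have := mul_pow_mem hh (fun _ hb => conj_mem_of_mem_N (zpowers_le.2 ha hv) hb) n
  obtain ⟨k, rfl⟩ := hv
  rwa [show (a ^ k) ^ n = 1 by rw [← zpow_natCast, ← zpow_mul, mul_comm, zpow_mul, zpow_natCast, an,
    one_zpow], inv_one, mul_one] at this

theorem comm_mem_of_sup {K : Subgroup G} {a : G} (ha : a ∈ N K) :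
    ∀ x ∈ K ⊔ zpowers a, ∀ y ∈ K ⊔ zpowers a, x * y * x⁻¹ * y⁻¹ ∈ K := fun x hx y hy => by
  obtain ⟨h, hh, v, hv, rfl⟩ := (mem_sup_nrm' (nrm_of_le_N (zpowers_le.2 ha))).1 hx
  obtain ⟨k, hk, w, hw, rfl⟩ := (mem_sup_nrm' (nrm_of_le_N (zpowers_le.2 ha))).1 hy
  rw [show h * v * (k * w) * (h * v)⁻¹ * (k * w)⁻¹ =
    h * (v * k * v⁻¹) * (v * w * v⁻¹ * h⁻¹ * w⁻¹) * k⁻¹ by group, (ab_zpowers a).comm hv hw,
    mul_inv_cancel_right]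
  exact mul_mem (mul_mem (mul_mem hh (conj_mem_of_mem_N (zpowers_le.2 ha hv) hk))
    (conj_mem_of_mem_N (zpowers_le.2 ha hw) (inv_mem hh))) (inv_mem hk)

theorem mem_zp3 {a v : G} (h3 : a ^ 3 = 1) (hv : v ∈ zpowers a) : v = 1 ∨ v = a ∨ v = a * a := by
  obtain ⟨n, rfl⟩ := (Submonoid.mem_powers_iff _ _).1 (mem_powers_iff_mem_zpowers.2 hv)
  rw [pow_eq_pow_mod n h3]
  have : n % 3 < 3 := Nat.mod_lt _ (by norm_num)
  generalize n % 3 = m at this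
  interval_cases m <;> simp [pow_two]

theorem B9_map {H : Type} [Group H] {f : H →* G} (hf : Function.Injective f) {a b : H}
    (h : B9 a b) : B9 (f a) (f b) :=
  ⟨by rw [← map_pow, h.a3, map_one], by rw [← map_pow, h.b3, map_one],
    by rw [← map_mul, ← map_mul, h.comm], fun e => h.a1 (hf (e.trans (map_one f).symm)),
    fun e => h.ind (by rwa [← MonoidHom.map_zpowers, mem_map_iff_mem hf] at e)⟩

/-- the hypotheses -/
structure EG (φ : Om →* G) (τ s : G) : Prop where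
  inj : Function.Injective φ
  nτ : τ ∈ N φ.range
  ns : s ∈ N φ.range
  τ3 : τ ^ 3 = 1
  ss : s * s = 1
  sτ : s = 1 ∨ s * τ * s⁻¹ = τ⁻¹
  τ0 : τ * φ z0 * τ⁻¹ = φ z0
  τ1 : τ * φ (vH 1) * τ⁻¹ = φ (vH 2)
  τ2 : τ * φ (vH 2) * τ⁻¹ = φ (vH 3)
  sc : ∃ j ∈ φ.range, j ≠ 1 ∧ j ^ 3 = 1 ∧ s * j = j * s
  se : ∀ j ∈ φ.range, j ≠ 1 → j ^ 3 = 1 → ∀ g, g * j * g⁻¹ ∈ φ.range ⊔ zpowers τ ⊔ zpowers s →
    g ∈ φ.range ⊔ zpowers τ ⊔ zpowers s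

/-- the products of two far root elements -/
noncomputable def wz (i : Fin 3) : Om := vH (i + 1) * z0

theorem wz0 : wz 0 = vH 1 * z0 := rfl

theorem wz1 : wz 1 = vH 2 * z0 := rfl

theorem fin3 {R : Fin 3 → Fin 3 → Prop} (sh : ∀ i j, R i j → R (i + 1) (j + 1))
    (sy : ∀ i j, R i j → R j i) (no : ¬ R 0 1) {i j : Fin 3} (r : R i j) : i = j := by
  by_contra ne
  fin_cases i <;> fin_cases j
  exacts [ne rfl, no r, no (sh _ _ (sy _ _ r)), no (sy _ _ r), ne rfl, no (sh _ _ (sh _ _ r)),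
    no (sh _ _ r), no (sh _ _ (sh _ _ (sy _ _ r))), ne rfl]

namespace EG
variable {φ : Om →* G} {τ s : G} (h : EG φ τ s)
include h

local notation "H" => MonoidHom.range φ
local notation "M1" => MonoidHom.range φ ⊔ zpowers τ
local notation "M" => MonoidHom.range φ ⊔ zpowers τ ⊔ zpowers s

omit h in
theorem mH (a : Om) : φ a ∈ M := mem_sup_left (mem_sup_left ⟨a, rfl⟩)

omit h in
theorem mτ : τ ∈ M := mem_sup_left (mem_sup_right (mem_zpowers τ))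

theorem ne1 {a : Om} (ha : a ≠ 1) : φ a ≠ 1 := fun e => ha (h.inj (e.trans (map_one φ).symm))

theorem nH : M ≤ N H := sup_le (sup_le (le_N _) (zpowers_le.2 h.nτ)) (zpowers_le.2 h.ns)

theorem cH {m y : G} (hm : m ∈ M) (hy : y ∈ H) : m * y * m⁻¹ ∈ H := conj_mem_of_mem_N (h.nH hm) hy

theorem n1 : s ∈ N M1 := mem_N_of_cj_le (by
  rw [CfsgFT.cj_sup, mem_N.1 h.ns, cj_zpowers]
  refine sup_le_sup_left (zpowers_le.2 ?_) _
  rcases h.sτ with e | e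
  · simp [e]
  · rw [e]; exact inv_mem (mem_zpowers τ))

theorem invH {t : G} (ht : t ∈ M1) (tt : t * t = 1) : t ∈ H := by
  have := pow_mem_of_sup h.nτ h.τ3 ht
  rwa [pow_succ, pow_two, tt, one_mul] at this

theorem sq1 {t : G} (ht : t ∈ M) : t * t ∈ M1 :=
  pow_two t ▸ pow_mem_of_sup h.n1 (by rw [pow_two, h.ss]) ht

theorem three1 {c : G} (hc : c ∈ M) (c3 : c ^ 3 = 1) : c ∈ M1 := by
  have := mul_mem (h.sq1 hc) (h.sq1 hc)
  rwa [show c * c * (c * c) = c ^ 3 * c by simp [pow_succ, mul_assoc], c3, one_mul] at this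

theorem cent {j g : G} (hj : j ∈ H) (j1 : j ≠ 1) (j3 : j ^ 3 = 1) (e : g * j = j * g) : g ∈ M :=
  h.se j hj j1 j3 g (by rw [e, mul_inv_cancel_right]; exact mem_sup_left (mem_sup_left hj))

theorem pgrp {R : Subgroup G} (hR : IsPGroup 3 R) {j : G} (hj : j ∈ H) (j1 : j ≠ 1)
    (j3 : j ^ 3 = 1) (jR : j ∈ R) : R ≤ M := by
  haveI : Fact (Nat.Prime 3) := ⟨Nat.prime_three⟩
  exact inf_eq_left.1 (eq_of_nilpotent_of_N_le hR.isNilpotent inf_le_left fun g hg =>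
    ⟨hg.1, h.se j hj j1 j3 g
      (conj_mem_of_mem_N hg.2 ⟨jR, mem_sup_left (mem_sup_left hj)⟩).2⟩)

theorem into {L : Subgroup G} {j c : G} (hj : j ∈ H) (j1 : j ≠ 1) (j3 : j ^ 3 = 1) (jL : j ∈ L)
    (hc : c ∈ L) (c3 : c ^ 3 = 1) : ∃ n ∈ L, n * c * n⁻¹ ∈ M := by
  obtain ⟨n, hn, S, hS, h1, h2⟩ := exists_conj_common Nat.prime_three hc jL c3 j3
  exact ⟨n, hn, h.pgrp hS.isPGroup hj j1 j3 h1 h2⟩

theorem fu {L : Subgroup G} (hL : H ≤ L) {y g : G} (hg : g ∈ L)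
    (h1 : ∃ j ∈ H, j ≠ 1 ∧ j ^ 3 = 1 ∧ j * y = y * j)
    (h2 : ∃ j ∈ H, j ≠ 1 ∧ j ^ 3 = 1 ∧ j * (g * y * g⁻¹) = g * y * g⁻¹ * j) :
    ∃ k ∈ M, k ∈ L ∧ k * y * k⁻¹ = g * y * g⁻¹ := by
  obtain ⟨j, hj, j1, j3, e⟩ := h1
  obtain ⟨i, hi, i1, i3, e'⟩ := h2
  obtain ⟨n, hn, k⟩ := h.into (L := C1 (g * y * g⁻¹) ⊓ L) (c := g * j * g⁻¹) hi i1 i3
    ⟨mem_C1.2 e', hL hi⟩ ⟨mem_C1.2 (by rw [conj_mul, conj_mul, e]),
      L.mul_mem (L.mul_mem hg (hL hj)) (L.inv_mem hg)⟩ (by rw [conj_pow, j3]; simp)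
  refine ⟨n * g, h.se j hj j1 j3 _ (by convert k using 1; group), mul_mem hn.2 hg, ?_⟩
  conv_rhs => rw [← mem_C1_iff_conj.1 hn.1]
  group

theorem inv3 {y : G} (hy : y ∈ H) (yy : y * y = 1) :
    ∃ j ∈ H, j ≠ 1 ∧ j ^ 3 = 1 ∧ j * y = y * j := by
  obtain ⟨y, rfl⟩ := hy
  obtain ⟨j, j1, j3, e⟩ := inv_three (h.inj (by rw [map_mul, yy, map_one]) : y * y = 1)
  exact ⟨_, ⟨j, rfl⟩, h.ne1 j1, by rw [← map_pow, j3, map_one], by rw [← map_mul, ← map_mul, e]⟩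

theorem mapC (a : Om) : (C1 a).map φ = C1 (φ a) ⊓ H := by
  ext g
  constructor
  · rintro ⟨b, hb, rfl⟩
    exact ⟨mem_C1.2 (by rw [← map_mul, ← map_mul, mem_C1.1 hb]), b, rfl⟩
  · rintro ⟨hg, b, rfl⟩
    exact ⟨b, mem_C1.2 (h.inj (by rw [map_mul, map_mul, mem_C1.1 hg])), rfl⟩

theorem zz : φ z0 * φ z0 = 1 := by rw [← map_mul, z0_sq.1, map_one]

theorem mD0 {a : Om} {g : G} (e : g * φ z0 * g⁻¹ = φ a) : a ∈ D0 := by
  have aa : φ a * φ a = 1 := by rw [← e, conj_mul, h.zz]; simp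
  obtain ⟨k, hk, -, ek⟩ := h.fu le_top (mem_top g) (h.inv3 ⟨z0, rfl⟩ h.zz)
    (by rw [e]; exact h.inv3 ⟨a, rfl⟩ aa)
  refine central_D0 (h.inj (by rw [map_mul, aa, map_one])) (fun a1 => ?_) ?_
  · rw [a1, map_one] at e
    exact CfsgH5.conj_ne_one (h.ne1 z0_sq.2) g e
  · rw [← card_map_of_injective h.inj, h.mapC, ← e, ← ek, ← cj_C1, ← mem_N.1 (h.nH hk), ← cj_inf,
      card_cj, ← h.mapC, card_map_of_injective h.inj, om_facts.2.1, card_gen7]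

theorem cD {a b : Om} {g : G} (e : g * φ a * g⁻¹ = φ b) : a ∈ D0 ↔ b ∈ D0 := by
  constructor <;> rintro ⟨k, rfl⟩
  · exact h.mD0 (g := g * φ k) (by rw [← e, map_mul, map_mul, map_inv]; group)
  · exact h.mD0 (g := g⁻¹ * φ k) (by
      rw [map_mul, map_mul, map_inv] at e
      calc _ = g⁻¹ * (φ k * φ z0 * (φ k)⁻¹) * g := by group
        _ = _ := by rw [← e]; group)

theorem τs (i : Fin 3) : τ * φ (vH (i + 1)) * τ⁻¹ = φ (vH ((i + 1 : Fin 3) + 1)) := by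
  fin_cases i
  · exact h.τ1
  · exact h.τ2
  · change τ * φ (vH 3) * τ⁻¹ = φ (vH 1)
    rw [← h.τ2, ← h.τ1]
    calc _ = τ ^ 3 * φ (vH 1) * (τ ^ 3)⁻¹ := by simp [pow_succ, mul_assoc]
      _ = _ := by rw [h.τ3]; simp

theorem τw (i : Fin 3) : τ * φ (wz i) * τ⁻¹ = φ (wz (i + 1)) := by
  rw [wz, wz, map_mul, map_mul, ← conj_mul, h.τs, h.τ0]

theorem cls {i j : Fin 3} {k : G} (hk : k ∈ H) (e : k * φ (wz i) * k⁻¹ = φ (wz j)) : i = j := by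
  refine fin3 (R := fun i j => ∃ k ∈ H, k * φ (wz i) * k⁻¹ = φ (wz j))
    (fun i j ⟨k, hk, e⟩ => ⟨_, h.cH mτ hk, by rw [← h.τw, ← h.τw, ← e]; group⟩)
    (fun i j ⟨k, hk, e⟩ => ⟨_, inv_mem hk, by rw [← e]; group⟩) ?_ ⟨k, hk, e⟩
  rintro ⟨_, ⟨k, rfl⟩, e⟩
  rw [wz0, wz1, ← map_inv, ← map_mul, ← map_mul] at e
  exact not_conj k (h.inj e)

theorem fixw {c : G} (hc : c ∈ M1) (e : c * φ (wz 0) * c⁻¹ = φ (wz 0)) : c ∈ H := by
  obtain ⟨k, hk, v, hv, rfl⟩ := (mem_sup_nrm' (nrm_of_le_N (zpowers_le.2 h.nτ))).1 hc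
  rw [show k * v * φ (wz 0) * (k * v)⁻¹ = k * (v * φ (wz 0) * v⁻¹) * k⁻¹ by group] at e
  rcases mem_zp3 h.τ3 hv with rfl | rfl | rfl
  · simpa using hk
  · rw [h.τw] at e
    exact absurd (h.cls hk e) (by decide)
  · rw [show τ * τ * φ (wz 0) * (τ * τ)⁻¹ = τ * (τ * φ (wz 0) * τ⁻¹) * τ⁻¹ by group, h.τw,
      h.τw] at e
    exact absurd (h.cls hk e) (by decide)

theorem τH : τ ∉ H := fun e => absurd (h.cls e (h.τw 0)) (by decide)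

theorem cenA : C (A0.map φ) ≤ M := by
  obtain ⟨a, b, ab, ha, hb⟩ := ex_B
  have n : ∀ a ∈ N A0, φ a ∈ N (C (A0.map φ)) := fun a ha => mem_N.2 (by
    rw [cj_C, mem_N.1 (mem_N_of_conj (by
      rintro _ ⟨y, hy, rfl⟩
      exact ⟨_, conj_mem_of_mem_N ha hy, by simp⟩))])
  have k := B9_map h.inj ab
  refine k.gen (fun _ => conj_mem_of_mem_N (n a ha)) (fun _ => conj_mem_of_mem_N (n b hb))
    (fun d => ?_) (fun _ _ e => h.cent ⟨a, rfl⟩ k.a1 k.a3 e) (fun _ _ e => h.cent ⟨b, rfl⟩ k.b1 k.b3 e)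
    (fun _ _ e => h.cent (mul_mem ⟨a, rfl⟩ ⟨b, rfl⟩) k.mul_ne_one k.mul_cube e)
    fun _ _ e => h.cent (mul_mem ⟨a, rfl⟩ (inv_mem ⟨b, rfl⟩)) k.mul_inv_ne_one k.mul_inv_cube e
  obtain ⟨c, hc, o⟩ := exists_mem_orderOf_eq Nat.prime_three d
  have c3 : c ^ 3 = 1 := o ▸ pow_orderOf_eq_one c
  obtain ⟨m, hm, k1⟩ := h.into ⟨a, rfl⟩ k.a1 k.a3 (n a ha) (le_N _ hc) c3
  have k2 := conj_mem_of_mem_N hm hc
  have k3 : (m * c * m⁻¹) ^ 3 = 1 := by rw [conj_pow, c3]; simp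
  have k4 : ∀ y ∈ ({z0, vH 1, vH 7, e3} : Set Om), m * c * m⁻¹ ∈ C1 (φ y) := fun y hy =>
    C_le_C1 (mem_map_of_mem φ (subset_closure hy)) k2
  obtain ⟨c', e⟩ := h.fixw (h.three1 k1 k3) (by
    rw [wz, map_mul, ← conj_mul, mem_C1_iff_conj.1 (k4 z0 (by simp))]
    exact congrArg (· * φ z0) (mem_C1_iff_conj.1 (k4 (vH 1) (by simp))))
  rw [← e] at k3 k4
  have k5 : ∀ y ∈ ({z0, vH 1, vH 7, e3} : Set Om), c' ∈ C1 y := fun y hy =>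
    mem_C1.2 (h.inj (by rw [map_mul, map_mul, mem_C1.1 (k4 y hy)]))
  rw [cent_A ⟨k5 _ (by simp), k5 _ (by simp), k5 _ (by simp), k5 _ (by simp)⟩
    (h.inj (by rw [map_pow, k3, map_one])), map_one, eq_comm, conj_eq_one_iff] at e
  simp [e] at o

theorem cmul {a b y : Om} {g : G} (e : g * φ a * g⁻¹ = φ y) (hg : g ∈ C1 (φ b)) :
    a * b ∈ D0 ↔ y * b ∈ D0 :=
  h.cD (g := g) (by rw [map_mul, map_mul, ← conj_mul, e, mem_C1_iff_conj.1 hg])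

omit h in
theorem adj {k : Om} {g y : G} {a b : Om} (e : g * φ a * g⁻¹ = y) (e' : φ (k * b * k⁻¹) = y) :
    (φ k)⁻¹ * g * φ a * ((φ k)⁻¹ * g)⁻¹ = φ b := by
  rw [map_mul, map_mul, map_inv, ← e] at e'
  calc _ = (φ k)⁻¹ * (g * φ a * g⁻¹) * φ k := by group
    _ = _ := by rw [← e']; group

theorem mC {k a : Om} (hk : k ∈ C1 a) : φ k ∈ C1 (φ a) := ((h.mapC a).le ⟨k, hk, rfl⟩).1

theorem fixA {g : G} (hg : ∀ a ∈ ({z0, vH 1, vH 7, e3} : Set Om), g * φ a * g⁻¹ ∈ H) : g ∈ M := by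
  let P : G → Prop := fun g => ∀ a ∈ ({z0, vH 1, vH 7, e3} : Set Om), g * φ a * g⁻¹ ∈ H
  have mP : ∀ m ∈ M, ∀ g, P g → P (m * g) := fun m hm g p a ha => by
    convert h.cH hm (p a ha) using 1; group
  obtain ⟨f1, f2, f3, f4, f5, f6, f7⟩ := x_facts
  have s4 : ∀ g, P g → g ∈ C1 (φ z0) → g ∈ C1 (φ (vH 1)) → g ∈ C1 (φ (vH 7)) → g ∈ M :=
    fun g p c1 c2 c3 => by
      obtain ⟨y, e⟩ := p e3 (by simp)
      obtain ⟨k, hk, ek⟩ := grid4 ((h.cD e.symm).1 f3) ((h.cmul e.symm c1).1 f4)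
        ((h.cmul e.symm c2).1 f5) (fun e1 => f7 (h.inj (by
          rw [e1, ← mem_C1_iff_conj.1 c3] at e
          simpa using e.symm))) fun d => f6 ((h.cmul e.symm c3).2 d)
      refine (mul_mem_cancel_left (inv_mem (mH k))).1 (h.cenA (le_C_symm ?_ (mem_zpowers _)))
      rw [A0, MonoidHom.map_closure, closure_le, C_zpowers]
      rintro _ ⟨a, rfl | rfl | rfl | rfl, rfl⟩ <;> refine mem_C1_comm.1 ?_
      exacts [mul_mem (inv_mem (h.mC hk.2.2)) c1, mul_mem (inv_mem (h.mC hk.2.1)) c2,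
        mul_mem (inv_mem (h.mC hk.1)) c3, mem_C1_iff_conj.2 (adj e.symm (congrArg φ ek))]
  have s3 : ∀ g, P g → g ∈ C1 (φ z0) → g ∈ C1 (φ (vH 1)) → g ∈ M := fun g p c1 c2 => by
    obtain ⟨y, e⟩ := p (vH 7) (by simp)
    obtain ⟨k, hk, ek⟩ := grid9 ((h.cD e.symm).1 (vH_D0 7 (by norm_num) (by norm_num)))
      ((h.cmul e.symm c1).1 f1) ((h.cmul e.symm c2).1 f2)
    exact (mul_mem_cancel_left (inv_mem (mH k))).1 (s4 _ (mP _ (inv_mem (mH k)) g p)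
      (mul_mem (inv_mem (h.mC hk.2)) c1) (mul_mem (inv_mem (h.mC hk.1)) c2)
      (mem_C1_iff_conj.2 (adj e.symm (congrArg φ ek))))
  have s2 : ∀ (i : Fin 3) g, P g → g ∈ C1 (φ z0) → g * φ (vH 1) * g⁻¹ = φ (vH (i + 1)) → g ∈ M := by
    have st : ∀ (i : Fin 3), (∀ g, P g → g ∈ C1 (φ z0) →
        g * φ (vH 1) * g⁻¹ = φ (vH ((i + 1 : Fin 3) + 1)) → g ∈ M) → ∀ g, P g → g ∈ C1 (φ z0) →
        g * φ (vH 1) * g⁻¹ = φ (vH (i + 1)) → g ∈ M := fun i k g p c e =>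
      (mul_mem_cancel_left mτ).1 (k _ (mP _ mτ g p) (mul_mem (mem_C1_iff_conj.2 h.τ0) c)
        (by rw [← h.τs, ← e]; group))
    have s0 : ∀ g, P g → g ∈ C1 (φ z0) → g * φ (vH 1) * g⁻¹ = φ (vH 1) → g ∈ M :=
      fun g p c e => s3 g p c (mem_C1_iff_conj.2 e)
    intro i
    fin_cases i
    exacts [s0, st 1 (st 2 s0), st 2 s0]
  have s1 : ∀ g, P g → g ∈ C1 (φ z0) → g ∈ M := fun g p c => by
    obtain ⟨y, e⟩ := p (vH 1) (by simp)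
    have c1 : vH 1 ∈ C1 z0 := gen7_le (mem_Gen vH le_rfl (by norm_num))
    obtain ⟨n1, n2⟩ := sz_D0 1 le_rfl (by norm_num)
    rcases comm_D0 ((h.cD e.symm).1 (vH_D0 1 le_rfl (by norm_num))) (mem_C1.2 (h.inj (by
      rw [map_mul, map_mul, e, ← mem_C1.1 (mul_mem (mul_mem c (h.mC c1)) (inv_mem c))]))) with
      e1 | e1 | ⟨i, hi, k, hk, ek⟩
    · refine absurd (h.inj ?_) n2
      rw [e1, ← mem_C1_iff_conj.1 c] at e
      simpa using e.symm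
    · exact absurd ((h.cmul e.symm c).2 e1) n1
    · rw [vH_ext _ (by omega) (by omega)] at ek
      exact (mul_mem_cancel_left (inv_mem (mH k))).1 (s2 ⟨i, hi⟩ _ (mP _ (inv_mem (mH k)) g p)
        (mul_mem (inv_mem (h.mC hk)) c) (adj e.symm (congrArg φ ek.symm)))
  obtain ⟨y, e⟩ := hg z0 (by simp)
  obtain ⟨k, ek⟩ := h.mD0 e.symm
  exact (mul_mem_cancel_left (inv_mem (mH k))).1 (s1 _ (mP _ (inv_mem (mH k)) g hg)
    (mem_C1_iff_conj.2 (adj e.symm (congrArg φ ek))))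

theorem fixT {g : G} (hg : ∀ r ∈ T0.map φ, g * r * g⁻¹ ∈ M) : g ∈ M := by
  obtain ⟨k, hk⟩ := ex_sq
  refine (mul_mem_cancel_right (mH k)).1 (h.fixA fun a ha => ?_)
  obtain ⟨v, hv, e⟩ := hk a ha
  have aa : a * a = 1 := by
    rcases ha with rfl | rfl | rfl | rfl
    exacts [z0_sq.1, vH_sq 1 (by norm_num), vH_sq 7 (by norm_num), (D0_sq x_facts.2.2.1).1]
  refine h.invH ?_ (by rw [conj_mul, ← map_mul, aa]; simp)
  have := h.sq1 (hg _ (mem_map_of_mem φ hv))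
  rwa [conj_mul, ← map_mul, ← e, map_mul, map_mul, map_inv, show g * (φ k * φ a * (φ k)⁻¹) * g⁻¹ =
    g * φ k * φ a * (g * φ k)⁻¹ by group] at this

end EG

end CfsgH6.O8E
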