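import Cfsg.Agent.H6.O8E3

/-! The endgame for `Ω⁺(8,2).3` and `Ω⁺(8,2).S₃`. -/

set_option autoImplicit false
set_option linter.style.haveILetI false
set_option linter.unusedSectionVars false

namespace CfsgH6.O8E

open CfsgH8 Subgroup CfsgH5 CfsgFT CfsgH2.Fx CfsgH2.O8 CfsgH7

universe u
variable {G : Type u} [Group G] [Finite G]

theorem T0_le : T0 ≤ C1 z0 := by
  rw [T0, CfsgH9.Model.gen, closure_le]
  rintro g ⟨a, ha, e⟩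
  have : CfsgH9.allLt 4 (fun a => cmc (ec_s1.get a) (cE.get 8)) = true := by decide +kernel
  have h := CfsgH9.allLt_iff.1 this a ha
  rw [← e, ← en8, cmc_iff] at h
  exact mem_C1.2 h

theorem sg_comm {a b : T3} (ha : sg a = 1) (hb : sg b = 1) : a * b * a⁻¹ * b⁻¹ = 1 := by
  funext i
  exact (by decide : ∀ a b : S3, Equiv.Perm.sign a = 1 → Equiv.Perm.sign b = 1 →
    a * b * a⁻¹ * b⁻¹ = 1) _ _ (congrFun ha i) (congrFun hb i)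

theorem nrm_of_comm {L K : Subgroup G} (h1 : K ≤ L) (h : ∀ a ∈ L, ∀ b ∈ L, a * b * a⁻¹ * b⁻¹ ∈ K) :
    Nrm L K := fun a ha b hb => by simpa using mul_mem (h a ha b (h1 hb)) hb

namespace EG
variable {φ : Om →* G} {τ s : G} (h : EG φ τ s)
include h

local notation "H" => MonoidHom.range φ
local notation "M1" => MonoidHom.range φ ⊔ zpowers τ
local notation "M" => MonoidHom.range φ ⊔ zpowers τ ⊔ zpowers s

omit h in
theorem H_le {K : Subgroup G} (hK : ∀ a, 1 ≤ a → a ≤ 8 → φ (vH a) ∈ K) : H ≤ K := by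
  rw [MonoidHom.range_eq_map, ← gen_top, map_Gen]
  exact Gen_le hK

theorem exG1 : ∃ G1 : Subgroup G, Nrm ⊤ G1 ∧ M1 ≤ G1 ∧ G1 ⊓ M ≤ M1 := by
  by_cases hs : s ∈ M1
  · exact ⟨⊤, fun _ _ _ _ => mem_top _, le_top, inf_le_right.trans (sup_le le_rfl (zpowers_le.2 hs))⟩
  obtain ⟨K, -, k1, k2, k3⟩ := tr_sub (L := ⊤) le_top (comm_mem_of_sup h.n1) Nat.prime_two
    (not_dvd_of_fix Nat.prime_two (syl_T0.isPGroup.map φ) (by rintro _ ⟨a, -, rfl⟩; exact mH a)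
      le_top fun g _ => h.fixT)
  have n := nrm_of_comm le_top k1
  have sq : ∀ g, g * g ∈ K := fun g =>
    pow_two g ▸ k2 2 (fun y hy => (pow_two y).symm ▸ h.sq1 hy) g (mem_top g)
  have dec : ∀ y ∈ M, y ∈ M1 ∨ y * s⁻¹ ∈ M1 := fun y hy => by
    obtain ⟨m, hm, v, hv, rfl⟩ := (mem_sup_nrm' (nrm_of_le_N (zpowers_le.2 h.n1))).1 hy
    rcases mem_zpowers_order_two' h.ss hv with rfl | rfl <;> simp [hm]
  have sK : s ∉ K := fun e => hs (k3 s (mem_sup_right (mem_zpowers s)) (by rw [pow_two, h.ss])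
    (fun g _ hg => (dec _ hg).resolve_left fun y1 => by
      have ss : g * s * g⁻¹ * (g * s * g⁻¹) = 1 := by rw [conj_mul, h.ss]; simp
      have yH := h.invH y1 ss
      obtain ⟨j, hj, j1, j3, ej⟩ := h.sc
      obtain ⟨k, hk, -, ek⟩ := h.fu le_top (mem_top g) ⟨j, hj, j1, j3, ej.symm⟩ (h.inv3 yH ss)
      refine hs (mem_sup_left ?_)
      have := h.cH (inv_mem hk) (ek ▸ yH)
      simpa [mul_assoc] using this) e)
  have l : M1 ≤ K := sup_le (H_le fun a h1 h2 => by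
    obtain ⟨g, e⟩ := vH_D0 a h1 h2
    obtain ⟨v, ev⟩ := z0_root
    rw [← e, map_mul, map_mul, map_inv, ← ev, map_mul]
    exact n _ (mem_top _) _ (sq _)) (zpowers_le.2 (by
      have := sq (τ * τ)
      rwa [show τ * τ * (τ * τ) = τ ^ 3 * τ by simp [pow_succ, mul_assoc], h.τ3, one_mul] at this))
  exact ⟨K, n, l, fun g hg => (dec g hg.2).resolve_right fun e =>
    sK (inv_mem_iff.1 ((K.mul_mem_cancel_left hg.1).1 (l e)))⟩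

theorem c2 : φ (vH 2 * vH 5) ∈ H ∧ φ (vH 2 * vH 5) ≠ 1 ∧ φ (vH 2 * vH 5) ^ 3 = 1 :=
  ⟨⟨_, rfl⟩, (B9_map h.inj b9_c).a1, (B9_map h.inj b9_c).a3⟩

theorem idx3 {Y L : Subgroup G} (h1 : φ (vH 2 * vH 5) ∈ Y) (h2 : Y ≤ L) (h3 : Y ≤ M)
    (h4 : L ⊓ M ≤ Y) : ¬ 3 ∣ Y.relIndex L :=
  not_dvd_of_fix Nat.prime_three (CfsgFT.isPGroup_zpowers (k := 1) (by rw [pow_one, h.c2.2.2]))
    (zpowers_le.2 h1) h2 fun g hg k =>
      h4 ⟨hg, h.se _ h.c2.1 h.c2.2.1 h.c2.2.2 g (h3 (k _ (mem_zpowers _)))⟩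

theorem cent3 {c : G} (hc : c ∈ M) (c3 : c ^ 3 = 1) :
    ∃ j ∈ H, j ≠ 1 ∧ j ^ 3 = 1 ∧ j * c = c * j := by
  obtain ⟨n, hn, S, hS, h1, h2⟩ := exists_conj_common Nat.prime_three (mH (vH 2 * vH 5)) hc
    h.c2.2.2 c3
  obtain ⟨w, hw, w1, w3, e⟩ := exists_pow_central Nat.prime_three (K := S ⊓ H)
    (hS.isPGroup.to_le inf_le_left) hS.isPGroup
    (fun a ha b hb => ⟨S.mul_mem (S.mul_mem ha hb.1) (S.inv_mem ha), h.cH (hS.le ha) hb.2⟩)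
    fun e => CfsgH5.conj_ne_one h.c2.2.1 n (e.le ⟨h2, h.cH hn h.c2.1⟩)
  exact ⟨w, hw.2, w1, w3, (e c h1).symm⟩

theorem exG2 {G1 : Subgroup G} (h1 : M1 ≤ G1) (h2 : G1 ⊓ M ≤ M1) :
    ∃ G2 ≤ G1, Nrm G1 G2 ∧ H ≤ G2 ∧ G2 ⊓ M ≤ H := by
  obtain ⟨K, k0, k1, k2, k3⟩ := tr_sub h1 (comm_mem_of_sup h.nτ) Nat.prime_three
    (h.idx3 (mem_sup_left h.c2.1) h1 le_sup_left h2)
  have t1 : τ ∈ M1 := mem_sup_right (mem_zpowers τ)
  have tK : τ ∉ K := fun e => h.τH (k3 τ t1 h.τ3 (fun g hg hy => by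
    obtain ⟨k, hk, hk', ek⟩ := h.fu (le_sup_left.trans h1) hg (h.cent3 mτ h.τ3)
      (h.cent3 (mem_sup_left hy) (by rw [conj_pow, h.τ3]; simp))
    rw [← ek]
    exact comm_mem_of_sup h.nτ _ (h2 ⟨hk', hk⟩) _ t1) e)
  have l : H ≤ K := H_le fun a a1 a2 => by
    have := k2 3 (fun y => pow_mem_of_sup h.nτ h.τ3) _ (h1 (mem_sup_left ⟨vH a, rfl⟩))
    rwa [pow_succ, pow_two, ← map_mul, vH_sq a a2, map_one, one_mul] at this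
  refine ⟨K, k0, nrm_of_comm k0 k1, l, fun g hg => ?_⟩
  obtain ⟨k, hk, v, hv, rfl⟩ :=
    (mem_sup_nrm' (nrm_of_le_N (zpowers_le.2 h.nτ))).1 (h2 ⟨k0 hg.1, hg.2⟩)
  have vK := (mul_mem_cancel_left (l hk)).1 hg.1
  rcases mem_zp3 h.τ3 hv with rfl | rfl | rfl
  · simpa using hk
  · exact absurd vK tK
  · have := mul_mem vK vK
    rw [show τ * τ * (τ * τ) = τ ^ 3 * τ by simp [pow_succ, mul_assoc], h.τ3, one_mul] at this
    exact absurd this tK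

theorem fus_s {G2 : Subgroup G} (h1 : H ≤ G2) (h2 : G2 ⊓ M ≤ H) (i : Fin 3) {g : G}
    (hg : g ∈ C1 (φ z0) ⊓ G2) (hy : g * φ (vH (i + 1)) * g⁻¹ ∈ H) :
    ∃ k ∈ C1 z0, g * φ (vH (i + 1)) * g⁻¹ = φ (k * vH (i + 1) * k⁻¹) := by
  obtain ⟨y, e⟩ := hy
  have c1 : vH (i + 1) ∈ C1 z0 := gen7_le (mem_Gen vH (by omega) (by omega))
  obtain ⟨n1, n2⟩ := sz_D0 (i + 1) (by omega) (by omega)
  rcases comm_D0 ((h.cD e.symm).1 (vH_D0 _ (by omega) (by omega))) (mem_C1.2 (h.inj (by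
    rw [map_mul, map_mul, e, ← mem_C1.1 (mul_mem (mul_mem hg.1 (h.mC c1)) (inv_mem hg.1))]))) with
    e1 | e1 | ⟨j, hj, k, hk, ek⟩
  · refine absurd (h.inj ?_) n2
    rw [e1, ← mem_C1_iff_conj.1 hg.1] at e
    simpa using e.symm
  · exact absurd ((h.cmul e.symm hg.1).2 e1) n1
  rw [vH_ext _ (by omega) (by omega)] at ek
  have e2 : g * φ (wz i) * g⁻¹ = φ k * φ (wz ⟨j, hj⟩) * (φ k)⁻¹ := by
    rw [wz, wz, map_mul, map_mul, ← conj_mul, ← conj_mul, ← e, ek, mem_C1_iff_conj.1 hg.1,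
      mem_C1_iff_conj.1 (h.mC hk), map_mul, map_mul, map_inv]
  have ww : φ (wz i) * φ (wz i) = 1 := by
    rw [← map_mul, wz, ← mul_assoc, ic (vH_sq _ (by omega)) z0_sq.1 (mem_C1.1 c1), map_one]
  obtain ⟨m, hm, hm', em⟩ := h.fu h1 hg.2 (h.inv3 ⟨_, rfl⟩ ww) (h.inv3
    (e2 ▸ h.cH (mH k) ⟨_, rfl⟩) (by rw [conj_mul, ww]; simp))
  have := h.cls (i := i) (j := ⟨j, hj⟩) (mul_mem (inv_mem ⟨k, rfl⟩) (h2 ⟨hm', hm⟩)) (by
    calc _ = (φ k)⁻¹ * (m * φ (wz i) * m⁻¹) * φ k := by group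
      _ = _ := by rw [em, e2]; group)
  subst this
  exact ⟨k, hk, by rw [← e, ek]⟩

theorem cenX {G2 : Subgroup G} (h1 : H ≤ G2) (h2 : G2 ⊓ M ≤ H) : C1 (φ z0) ⊓ G2 ≤ M := by
  obtain ⟨π, hπ, kπ⟩ := ex_pi
  obtain ⟨ρ, eρ⟩ : ∃ ρ : G → T3, ∀ a, ρ (φ a) = π a := 
    ⟨fun g => π (Function.invFun φ g), fun a => congrArg π (Function.leftInverse_invFun h.inj a)⟩
  have hρ : MulOn (C1 (φ z0) ⊓ H) ρ := by
    rw [← h.mapC]
    rintro _ ⟨a, ha, rfl⟩ _ ⟨b, hb, rfl⟩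
    simp only [← map_mul, eρ, hπ a ha b hb]
  have hψ : MulOn (C1 (φ z0) ⊓ H) fun g => sg (ρ g) := fun a ha b hb => by
    simp only [hρ a ha b hb, map_mul]
  have yx : C1 (φ z0) ⊓ H ≤ C1 (φ z0) ⊓ G2 := inf_le_inf_left _ h1
  have od := not_dvd_of_fix Nat.prime_two (syl_T0.isPGroup.map φ) (h.mapC z0 ▸ map_mono T0_le) yx
    fun g hg k => ⟨hg.1, h2 ⟨hg.2, h.fixT fun r hr => mem_sup_left (mem_sup_left (k r hr).2)⟩⟩
  obtain ⟨V, hV, eV⟩ := tr_fun yx hψ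
  have two : ∀ a : Fin 3 → ℤˣ, a * a = 1 := fun a => funext fun i => Int.units_mul_self _
  have mY : ∀ a ∈ C1 z0, φ a ∈ C1 (φ z0) ⊓ H := fun a ha => ⟨h.mC ha, a, rfl⟩
  have ag := agree two (f := fun a => V (φ a) * sg (π a)) (fun a ha b hb => by
    simp only [map_mul, hV _ (yx (mY a ha)) _ (yx (mY b hb)), hπ a ha b hb]
    exact mul_mul_mul_comm _ _ _ _) fun a a1 a2 => by
      obtain ⟨i, rfl⟩ : ∃ i : Fin 3, a = i + 1 := ⟨⟨a - 1, by omega⟩, by simp; omega⟩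
      have c1 : vH (i + 1) ∈ C1 z0 := gen7_le (mem_Gen vH (by omega) (by omega))
      rw [eV Nat.prime_two _ (mY _ c1) (by rw [pow_two, ← map_mul, vH_sq _ (by omega), map_one])
        fun g hg hy => by
          obtain ⟨k, hk, e⟩ := h.fus_s h1 h2 i hg hy.2
          rw [e, eρ, eρ, hπ.cj hk c1, map_mul, map_mul, map_inv, mul_inv_cancel_comm]]
      obtain ⟨n, hn⟩ : Odd ((C1 (φ z0) ⊓ H).relIndex (C1 (φ z0) ⊓ G2)) := Nat.odd_iff.2 (by omega)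
      rw [hn, eρ, pow_succ, pow_mul, pow_two, two, one_pow, one_mul, two]
  have k3 : ∀ c ∈ C1 z0, φ c ^ 3 = 1 → φ c ∈ hV.ker := fun c hc e => ⟨yx (mY c hc), by
    have := hV.pow (yx (mY c hc)) 3
    rwa [e, hV.one, pow_succ, pow_two, two, one_mul, eq_comm] at this⟩
  have m : ∀ a, 1 ≤ a → a ≤ 7 → vH a ∈ C1 z0 := fun a h1 h2 => gen7_le (mem_Gen vH h1 h2)
  have b := B9_map h.inj b9_c
  have a3 := k3 _ (mul_mem (m 2 (by norm_num) (by norm_num)) (m 5 (by norm_num) (by norm_num))) b.a3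
  have b3 := k3 _ (mul_mem (m 3 (by norm_num) (by norm_num)) (m 6 (by norm_num) (by norm_num))) b.b3
  have y3 : hV.ker ⊓ H ≤ C1 (φ z0) ⊓ H := fun g hg => ⟨hg.1.1.1, hg.2⟩
  have xm : hV.ker ⊓ M ≤ hV.ker ⊓ H := fun g hg => ⟨hg.1, h2 ⟨hg.1.1.2, hg.2⟩⟩
  have sg1 : ∀ g ∈ hV.ker ⊓ H, sg (ρ g) = 1 := fun g hg => by
    obtain ⟨a, ha, rfl⟩ := (h.mapC z0).ge (y3 hg)
    have := (ag ha).2
    simp only [hg.1.2, one_mul] at this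
    rw [eρ, this]
  have cm : ∀ a ∈ hV.ker ⊓ H, ∀ b ∈ hV.ker ⊓ H, a * b * a⁻¹ * b⁻¹ ∈ (hρ.mono y3).ker :=
    fun a ha b hb => ⟨mul_mem (mul_mem (mul_mem ha hb) (inv_mem ha)) (inv_mem hb), by
      rw [hρ _ (y3 (mul_mem (mul_mem ha hb) (inv_mem ha))) _ (y3 (inv_mem hb)), hρ.cj (y3 ha) (y3 hb),
        hρ.inv (y3 hb)]
      exact sg_comm (sg1 a ha) (sg1 b hb)⟩
  obtain ⟨K, k0, k1, -, k2⟩ := tr_sub inf_le_left cm Nat.prime_three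
    (h.idx3 ⟨a3, h.c2.1⟩ inf_le_left (inf_le_right.trans (le_sup_left.trans le_sup_left)) xm)
  have n := nrm_of_comm k0 k1
  have KM : K ≤ M := by
    refine b.gen (n _ a3) (n _ b3) (fun d => ?_) (fun _ _ e => h.cent ⟨_, rfl⟩ b.a1 b.a3 e)
      (fun _ _ e => h.cent ⟨_, rfl⟩ b.b1 b.b3 e)
      (fun _ _ e => h.cent (mul_mem ⟨_, rfl⟩ ⟨_, rfl⟩) b.mul_ne_one b.mul_cube e)
      fun _ _ e => h.cent (mul_mem ⟨_, rfl⟩ (inv_mem ⟨_, rfl⟩)) b.mul_inv_ne_one b.mul_inv_cube e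
    obtain ⟨c, hc, o⟩ := exists_mem_orderOf_eq Nat.prime_three d
    have c3 : c ^ 3 = 1 := o ▸ pow_orderOf_eq_one c
    have c1 : c ≠ 1 := fun e => by simp [e] at o
    obtain ⟨r, hr, e⟩ := h.into h.c2.1 h.c2.2.1 h.c2.2.2 a3 (k0 hc) c3
    have e1 := xm ⟨k0 (n r hr c hc), e⟩
    have e3 : (r * c * r⁻¹) ^ 3 = 1 := by rw [conj_pow, c3]; simp
    have e4 := CfsgH5.conj_ne_one c1 r
    have := (k2 _ e1 e3 (fun g hg hy => cm g (xm ⟨hg, h.se _ e1.2 e4 e3 g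
      (mem_sup_left (mem_sup_left hy.2))⟩) _ e1) (n r hr c hc)).2
    obtain ⟨a, ha, ea⟩ := (h.mapC z0).ge (y3 e1)
    rw [← ea] at this e3 e4
    exact e4 (by rw [kπ a ha (eρ a ▸ this) (h.inj (by rw [map_pow, e3, map_one])), map_one])
  have X3 : hV.ker ≤ M := fun g hg => h.se _ h.c2.1 h.c2.2.1 h.c2.2.2 g
    ((mul_mem_cancel_right (inv_mem (mH _))).1 (KM (k1 g hg _ a3)))
  exact fun g hg => h.se _ h.c2.1 h.c2.2.1 h.c2.2.2 g (X3 (hV.nrm_ker g hg _ a3))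

theorem idxM : (H).relIndex M = 3 ∨ (H).relIndex M = 6 := by
  haveI : Fact (Nat.Prime 3) := ⟨Nat.prime_three⟩
  rw [← relIndex_mul_relIndex H M1 M le_sup_left le_sup_left,
    B45.relIndex_sup_zpowers h.nτ (h.τ3 ▸ one_mem _) h.τH]
  rcases (Nat.dvd_prime Nat.prime_two).1 (B45.relIndex_sup_zpowers_dvd h.n1
    (by rw [pow_two, h.ss]; exact one_mem _)) with e | e <;> rw [e] <;> simp

theorem top : M = ⊤ := by
  obtain ⟨G1, n1, l1, i1⟩ := h.exG1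
  obtain ⟨G2, l, n2, l2, i2⟩ := h.exG2 l1 i1
  have c : φ (vH 2 * vH 5) ∈ C1 (φ z0) := h.mC (gen7_le (mul_mem
    (mem_Gen vH (by norm_num) (by norm_num)) (mem_Gen vH (by norm_num) (by norm_num))))
  have x1 : C1 (φ z0) ⊓ G1 ≤ M := fun g hg => h.se _ h.c2.1 h.c2.2.1 h.c2.2.2 g (h.cenX l2 i2
    ⟨nrm_C1 le_rfl g hg.1 _ c, n2 g hg.2 _ (l2 h.c2.1)⟩)
  have cen : C1 (φ z0) ≤ M := fun g hg => h.se _ h.c2.1 h.c2.2.1 h.c2.2.2 g (x1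
    ⟨nrm_C1 le_rfl g hg _ c, n1 g (mem_top g) _ (l (l2 h.c2.1))⟩)
  let D : Set G := {y | ∃ g, g * φ z0 * g⁻¹ = y}
  have mD : ∀ a, φ a ∈ D ↔ a ∈ D0 := fun a => ⟨fun ⟨g, e⟩ => h.mD0 e, by
    rintro ⟨g, rfl⟩
    exact ⟨φ g, by simp⟩⟩
  have inH : ∀ y ∈ D, y ∈ M → y ∈ H := by
    rintro _ ⟨g, rfl⟩ hy
    exact h.invH (i1 ⟨n1 g (mem_top g) _ (l1 (mem_sup_left ⟨_, rfl⟩)), hy⟩)
      (by rw [conj_mul, h.zz]; simp)
  refine top_of (D := D) (z := φ z0) (by rintro _ ⟨k, rfl⟩ g; exact ⟨g * k, by group⟩)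
    ⟨1, by simp⟩ (fun _ hy => hy) h.zz (h.ne1 z0_sq.2) cen (fun y hy hm => ?_)
    (fun a ha hc n n' => ?_) ?_ fun R hR o d => ?_
  · obtain ⟨a, rfl⟩ := inH y hy hm
    obtain ⟨k, rfl⟩ := (mD a).1 hy
    exact ⟨_, mH k, by simp⟩
  · obtain ⟨a, ha', rfl⟩ := (h.mapC z0).ge ⟨hc, inH a ha (cen hc)⟩
    obtain ⟨ψ, -, p2, p3, p4, p5⟩ := good_D0 ((mD a).1 ha) ha' (fun e => n (by rw [e]))
      fun e => n' (by rw [← map_mul]; exact (mD _).2 e)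
    refine ⟨fun k => φ (ψ k), fun k _ => mH _, fun k hk l hl => by simp only [p2 k hk l hl,
      map_mul], fun k hk => (mD _).trans (p3 k hk), by simp only [p4, map_mul], fun y hy hm hw => ?_⟩
    obtain ⟨y, rfl⟩ := inH y hy hm
    obtain ⟨k, hk, e⟩ := p5 y ((mD _).1 hy) (mem_top _) ((mD _).1 (by rwa [map_mul, map_mul]))
    exact ⟨k, hk, congrArg φ e⟩
  · rw [← om_facts.1, rel_C1, rel_C1, ← Set.ncard_image_of_injective _ h.inj]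
    congr 1
    refine Set.Subset.antisymm ?_ ?_
    · rintro _ ⟨g, hg, rfl⟩
      obtain ⟨a, e⟩ := h.cH hg ⟨z0, rfl⟩
      obtain ⟨k, ek⟩ := h.mD0 e.symm
      exact ⟨a, ⟨k, mem_top _, ek⟩, e⟩
    · rintro _ ⟨_, ⟨k, -, rfl⟩, rfl⟩
      exact ⟨_, mH k, by simp⟩
  · have k1 := card_inf_mul_relIndex H R
    have k2 := relIndex_dvd_of_nrm' hR (nrm_of_le_N h.nH)
    have k3 : (H).relIndex R ∣ 6 := by
      rcases h.idxM with e | e <;> rw [e] at k2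
      exacts [k2.trans (by norm_num), k2]
    have k4 : 175 ∣ Nat.card ↥(H ⊓ R) := Nat.Coprime.dvd_of_dvd_mul_right
      (Nat.Coprime.coprime_dvd_right k3 (by norm_num)) (k1 ▸ d)
    have k5 : Odd (Nat.card ↥(H ⊓ R)) := o.of_dvd_nat (Dvd.intro _ k1)
    rw [← map_comap_eq_self (inf_le_left : H ⊓ R ≤ H), card_map_of_injective h.inj] at k4 k5
    exact om_odd k5 k4

end EG

end CfsgH6.O8E

open Subgroup CfsgFT CfsgH2.O8 in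
theorem CfsgH2.T3.endgame.{u} {G : Type u} [Group G] [Finite G] (φ : CfsgH2.O8.Om →* G)
    (inj : Function.Injective φ) {τ s : G} (nτ : τ ∈ N φ.range) (ns : s ∈ N φ.range)
    (τ3 : τ ^ 3 = 1) (ss : s * s = 1) (sτ : s = 1 ∨ s * τ * s⁻¹ = τ⁻¹)
    (τ0 : τ * φ z0 * τ⁻¹ = φ z0) (τ1 : τ * φ (vH 1) * τ⁻¹ = φ (vH 2))
    (τ2 : τ * φ (vH 2) * τ⁻¹ = φ (vH 3))
    (sc : ∃ j ∈ φ.range, j ≠ 1 ∧ j ^ 3 = 1 ∧ s * j = j * s)
    (se : ∀ j ∈ φ.range, j ≠ 1 → j ^ 3 = 1 → ∀ g,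
      g * j * g⁻¹ ∈ φ.range ⊔ zpowers τ ⊔ zpowers s → g ∈ φ.range ⊔ zpowers τ ⊔ zpowers s) :
    φ.range ⊔ zpowers τ ⊔ zpowers s = ⊤ ∧ (φ.range.index = 3 ∨ φ.range.index = 6) := by
  have h : CfsgH6.O8E.EG φ τ s := ⟨inj, nτ, ns, τ3, ss, sτ, τ0, τ1, τ2, sc, se⟩
  have := h.idxM
  rw [h.top, relIndex_top_right] at this
  exact ⟨h.top, this⟩
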