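import Cfsg.Agent.FT.Base11
import Cfsg.Agent.SZ.I_FT
import Cfsg.Agent.L.Char5
import Cfsg.Agent.H7.FrobNorm

set_option autoImplicit false
set_option linter.unusedSectionVars false

/-! Groups whose only composite element order is `2 r`: local analysis. -/

namespace CfsgH6

open Subgroup CfsgH5 CfsgFT CfsgSZ CfsgH7
open scoped commutatorElement

universe u

variable {G : Type u} [Group G] [Finite G] {r p : ℕ} {S T X Y H R W : Subgroup G} {g x y a : G}

/-- the commutative group structure of an abelian subgroup -/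
abbrev abComm (hX : Ab X) : CommGroup X :=
  { (inferInstance : Group X) with mul_comm := fun a b => Subtype.ext (hX.comm a.2 b.2) }

theorem mul_pow_eq_prod (hX : Ab X) (hn : Nrm (N X) X) (hg : g ∈ N X) (v : X) (n : ℕ) :
    letI := abComm hX
    ((∏ i ∈ Finset.range n, conjEnd hn (⟨g, hg⟩ ^ i) v : X) : G) * g ^ n = (v * g) ^ n := by
  let _ := abComm hX
  induction n with
  | zero => simp
  | succ n ih =>
    rw [Finset.prod_range_succ, pow_succ (v * g), ← ih]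
    simp [conjEnd, pow_succ, mul_assoc]

theorem le_C_of_split_ab (hX : Ab X) (hc : (Nat.card X).Coprime (Nat.card T)) (h1 : Nrm T X)
    (h2 : g ∈ N X) (h3 : g ∈ N T) (hf : SemiReg T (zpowers g))
    (h : ∀ x ∈ X, (x * g) ^ orderOf g = 1) : T ≤ C X := by
  classical
  let _ := abComm hX
  have := Fintype.ofFinite T
  have hn := nrm_N X
  let ι : T → N X := fun t => ⟨t, h1.le_N t.2⟩
  let γ : N X := ⟨g, h2⟩
  have e1 : ∀ v : X, ∏ i ∈ Finset.range (orderOf g), conjEnd hn (γ ^ i) v = 1 := fun v => by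
    have := mul_pow_eq_prod hX hn h2 v (orderOf g)
    rw [h v v.2, pow_orderOf_eq_one, mul_one] at this
    exact Subtype.ext this
  have e2 : ∀ (t : T) (v : X), conjEnd hn (ι t) (∏ s : T, conjEnd hn (ι s) v) =
      ∏ s : T, conjEnd hn (ι s) v := fun t v => by
    rw [map_prod]
    simp only [← conjEnd_mul]
    exact Equiv.prod_comp (Equiv.mulLeft t) fun s => conjEnd hn (ι s) v
  have e3 : ∀ i, 0 < i → i < orderOf g → ∀ v : X,
      ∏ s : T, conjEnd hn (ι s * γ ^ i * (ι s)⁻¹) v = ∏ s : T, conjEnd hn (ι s) (conjEnd hn (γ ^ i) v) := by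
    intro i i0 i1 v
    have m : ∀ s : T, ⁅(s : G), g ^ i⁆ ∈ T := fun s => by
      rw [commutatorElement_def, mul_assoc, mul_assoc, ← mul_assoc (g ^ i)]
      exact T.mul_mem s.2 (conj_mem_of_mem_N (pow_mem h3 i) (T.inv_mem s.2))
    have b : Function.Bijective fun s : T => (⟨_, m s⟩ : T) := by
      refine Finite.injective_iff_bijective.1 fun a b q => Subtype.ext ?_
      have q : ⁅(a : G), g ^ i⁆ = ⁅(b : G), g ^ i⁆ := congrArg Subtype.val q
      have := hf.eq_one (pow_mem (mem_zpowers g) i) (pow_ne_one_of_lt_orderOf i0.ne' i1)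
        (T.mul_mem (T.inv_mem b.2) a.2) (by
          calc _ = b.1⁻¹ * ⁅a.1, g ^ i⁆ * g ^ i * a.1 := by simp only [commutatorElement_def]; group
            _ = _ := by rw [q]; simp only [commutatorElement_def]; group)
      rwa [inv_mul_eq_one, eq_comm] at this
    rw [← b.prod_comp fun s => conjEnd hn (ι s) (conjEnd hn (γ ^ i) v)]
    refine Finset.prod_congr rfl fun s _ => Subtype.ext ?_
    simp [conjEnd, ι, γ, commutatorElement_def, mul_assoc]
  intro t ht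
  refine mem_C.2 fun v hv => ?_
  obtain ⟨n, hn'⟩ : ∃ n, orderOf g = n + 1 := ⟨_, (Nat.succ_pred_eq_of_pos (orderOf_pos g)).symm⟩
  have e4 : ∀ v : X, v ^ Nat.card T * ∏ i ∈ Finset.range n,
      ∏ s : T, conjEnd hn (ι s) (conjEnd hn (γ ^ (i + 1)) v) = 1 := fun v => by
    have : ∏ s : T, ∏ i ∈ Finset.range (orderOf g), conjEnd hn (ι s * γ ^ i * (ι s)⁻¹) v = 1 :=
      Finset.prod_eq_one fun s _ => by
        simp only [conjEnd_mul]
        rw [← map_prod, e1, map_one]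
    rw [Finset.prod_comm, hn', Finset.prod_range_succ', mul_comm] at this
    rw [← this]
    congr 1
    · rw [Nat.card_eq_fintype_card, ← Finset.card_univ, ← Finset.prod_const]
      exact Finset.prod_congr rfl fun s _ => Subtype.ext (by simp [conjEnd])
    · exact Finset.prod_congr rfl fun i hi =>
        (e3 _ (by omega) (by have := Finset.mem_range.1 hi; omega) v).symm
  have e5 := congrArg (conjEnd hn (ι ⟨t, ht⟩)) (e4 ⟨v, hv⟩)
  rw [map_mul, map_prod, map_one, map_pow] at e5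
  simp only [e2] at e5
  have e6 := (powCoprime hc).injective (a₁ := conjEnd hn (ι ⟨t, ht⟩) ⟨v, hv⟩) (a₂ := ⟨v, hv⟩)
    (mul_right_cancel (e5.trans (e4 _).symm))
  have e7 : t * v * t⁻¹ = v := congrArg Subtype.val e6
  rw [← mul_inv_eq_iff_eq_mul.1 e7]

/-- a Frobenius group `T ⟨g⟩` acting on an `r`-group `X` such that `g` is a splitting automorphism -/
theorem le_C_of_split (hr : r.Prime) (hX : IsPGroup r X) (hc : ¬ r ∣ Nat.card T) (h1 : Nrm T X)
    (h2 : g ∈ N X) (h3 : g ∈ N T) (hp : (orderOf g).Prime) (hf : T ⊓ C1 g = ⊥)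
    (h : ∀ x ∈ X, (x * g) ^ orderOf g = 1) : T ≤ C X := by
  have hc' := coprime_of_isPGroup_of_not_dvd hr hX hc
  have n1 := nrm_zpowers_iff.2 h2
  have n2 := nrm_zpowers_iff.2 h3
  have g1 : g ∈ N (Phi X) := nrm_zpowers_iff.1 n1.Phi
  by_cases g2 : g ∈ X
  · have : T ≤ C1 g := by
      rw [← C_zpowers, ← comm_eq_bot_iff, eq_bot_iff, ← inf_eq_bot_of_coprime' hc']
      exact le_inf ((commutator_mono le_rfl (zpowers_le.2 g2)).trans h1.comm_le_right)
        n2.comm_le_left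
    rw [inf_eq_left.2 this] at hf
    exact hf ▸ bot_le
  have e : orderOf (qm (Phi X) ⟨g, g1⟩) = orderOf g := by
    refine ((Nat.dvd_prime hp).1 ((orderOf_map_dvd _ _).trans (orderOf_coe _).symm.dvd)).resolve_left
      fun e => g2 (Phi_le X (qm_eq_one.1 (orderOf_eq_one_iff.1 e)))
  have sr : SemiReg T (zpowers g) := semiReg_of_prime_card (by rwa [Nat.card_zpowers]) (by rwa [C_zpowers])
  have sr' := sr.quo n2 h1.Phi n1.Phi
  have ez : quo (Phi X) (zpowers g) = _ := img_zpowers _ g1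
  rw [ez] at sr'
  refine le_C_of_comm_le_Phi h1 hc' ((quo_le_C_iff (normalIn_Phi X).nrm h1.Phi).1 (le_C_symm
    (le_C_of_split_ab (elAb_quo_Phi hr hX).ab (coprime_quo hc') (h1.img _) ?_ ?_ sr' ?_)))
  · exact nrm_zpowers_iff.1 (ez ▸ n1.img _)
  · exact nrm_zpowers_iff.1 (ez ▸ n2.img _)
  · intro y hy
    obtain ⟨x, hx, hx', rfl⟩ := mem_img'.1 hy
    rw [e, ← map_mul, ← map_pow]
    exact qm_eq_one.2 (by
      simp only [MulMemClass.mk_mul_mk, SubmonoidClass.mk_pow, h x hx]; exact one_mem _)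

/-- an `S`-invariant subgroup of odd order lies in `O(H)` if `S` is an abelian Sylow subgroup -/
theorem le_Opc_of_nrm (hp : p.Prime) (hS : SylIn p S H) (hab : Ab S) (hH : Group.IsSolvable H)
    (hY : Y ≤ H) (ho : ¬ p ∣ Nat.card Y) (hn : Nrm S Y) : Y ≤ Opc p H := by
  have pl := pLen1_of_ab_sylIn hp hH hS hab
  have s1 := pl.sylIn_Opp hp hS
  have e := comm_sup_inf_C hn (coprime_of_isPGroup_of_not_dvd hp hS.isPGroup ho).symm
    (.inr (solvable_of_ab hab))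
  rw [← Opc_Opp]
  refine (pNil_Opp hp H).le_Opc hp (e.ge.trans (sup_le ?_ ?_)) ((piG_compl_single hp).2 ho)
  · exact (commutator_mono le_rfl s1.le).trans ((nrm_Opp p H).mono hY).comm_le_right
  · exact (inf_le_inf_right _ hY).trans (s1.inf_C_le_Opp hp hH)

theorem solvable_of_solvable_D (h : Group.IsSolvable (D H)) : Group.IsSolvable H :=
  solvable_of_quo (normalIn_D H).nrm h (solvable_of_ab (D_eq_bot.1
    ((quo_commutator (normalIn_D H).nrm (normalIn_D H).nrm).symm.trans (quo_eq_bot_of_le le_rfl))))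

/-- every non-identity element has prime order or order `2 r` -/
structure Sp (r : ℕ) (G : Type u) [Group G] : Prop where
  hr : r.Prime
  ne2 : r ≠ 2
  ord : ∀ x : G, x ≠ 1 → (orderOf x).Prime ∨ orderOf x = 2 * r

namespace Sp
variable (h : Sp r G)
include h

theorem prime_of_odd (h1 : x ≠ 1) (ho : Odd (orderOf x)) : (orderOf x).Prime :=
  (h.ord x h1).resolve_right fun e => by rw [e, Nat.odd_iff] at ho; omega

theorem mul_eq {q : ℕ} (hp : p.Prime) (hq : q.Prime) (hpq : p ≠ q) (hc : x * y = y * x)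
    (h1 : p ∣ orderOf x) (h2 : q ∣ orderOf y) : (p = 2 ∧ q = r) ∨ (p = r ∧ q = 2) := by
  obtain ⟨z, hz⟩ := exists_orderOf_mul_of_commute ((Nat.coprime_primes hp hq).2 hpq) hc h1 h2
  have e : p * q = 2 * r := hz ▸ (h.ord z fun e => by
    rw [e, orderOf_one] at hz
    exact hp.one_lt.ne' (Nat.eq_one_of_mul_eq_one_right hz.symm)).resolve_left
      (hz ▸ Nat.not_prime_mul hp.ne_one hq.ne_one)
  rcases (Nat.Prime.dvd_mul hp).1 ⟨q, e.symm⟩ with c | c
  · obtain rfl := (Nat.prime_dvd_prime_iff_eq hp Nat.prime_two).1 c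
    exact .inl ⟨rfl, by omega⟩
  · obtain rfl := (Nat.prime_dvd_prime_iff_eq hp h.hr).1 c
    exact .inr ⟨rfl, Nat.eq_of_mul_eq_mul_left hp.pos (by rw [e, mul_comm])⟩

theorem pow_eq_one (hp : p.Prime) (hX : IsPGroup p X) (hx : x ∈ X) : x ^ p = 1 := by
  by_cases h1 : x = 1
  · simp [h1]
  obtain ⟨k, hk⟩ := hX ⟨x, hx⟩
  have hk : orderOf x ∣ p ^ k := orderOf_dvd_of_pow_eq_one (congrArg Subtype.val hk)
  have e : ∀ q : ℕ, q.Prime → q ∣ orderOf x → q = p := fun q hq hd =>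
    (Nat.prime_dvd_prime_iff_eq hq hp).1 (hq.dvd_of_dvd_pow (hd.trans hk))
  rcases h.ord x h1 with c | c
  · rw [← e _ c dvd_rfl, pow_orderOf_eq_one]
  · exact (h.ne2 ((e r h.hr ⟨2, by rw [c, mul_comm]⟩).trans (e 2 Nat.prime_two ⟨r, c⟩).symm)).elim

theorem orderOf_eq (hp : p.Prime) (hX : IsPGroup p X) (hx : x ∈ X) (h1 : x ≠ 1) : orderOf x = p :=
  have := Fact.mk hp
  orderOf_eq_prime (h.pow_eq_one hp hX hx) h1

theorem elAb (hS : IsPGroup 2 S) : ElAb 2 S := by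
  have e : ∀ x ∈ S, x⁻¹ = x := fun x hx =>
    inv_eq_of_mul_eq_one_right (by rw [← sq]; exact h.pow_eq_one Nat.prime_two hS hx)
  refine ⟨fun a ha b hb => ?_, fun a ha => h.pow_eq_one Nat.prime_two hS ha⟩
  rw [← e _ (S.mul_mem ha hb), mul_inv_rev, e a ha, e b hb]

theorem prime_C1 {q : ℕ} (hp : p.Prime) (hx : p ∣ orderOf x) (hq : q.Prime)
    (hd : q ∣ Nat.card (C1 x)) : q = p ∨ (p = 2 ∧ q = r) ∨ (p = r ∧ q = 2) := by
  by_cases e : q = p
  · exact .inl e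
  obtain ⟨y, hy, hy'⟩ := exists_mem_orderOf_eq hq hd
  exact .inr (h.mul_eq hp hq (Ne.symm e) (mem_C1.1 hy).symm hx hy'.symm.dvd)

theorem prime_C1' {q : ℕ} (hx : 2 ∣ orderOf x ∨ r ∣ orderOf x) (hq : q.Prime)
    (hd : q ∣ Nat.card (C1 x)) : q = 2 ∨ q = r := by
  rcases hx with c | c
  · have := h.prime_C1 Nat.prime_two c hq hd; tauto
  · have := h.prime_C1 h.hr c hq hd; tauto

theorem solvable_C1 (hx : 2 ∣ orderOf x ∨ r ∣ orderOf x) : Group.IsSolvable (C1 x) :=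
  CfsgL.burnside_pq Nat.prime_two h.hr fun _ hq hd => h.prime_C1' hx hq hd

theorem isPGroup_C1 (hp : p.Prime) (hx : p ∣ orderOf x) (h2 : p ≠ 2) (h3 : p ≠ r) :
    IsPGroup p (C1 x) :=
  (piG_single hp).1 fun q hq hd => by have := h.prime_C1 hp hx hq hd; tauto

theorem not_two_dvd (hX : IsPGroup r X) : ¬ 2 ∣ Nat.card X :=
  (piG_compl_single Nat.prime_two).1 (piG_compl_of_isPGroup h.hr hX h.ne2)

theorem not_dvd_two (hX : IsPGroup 2 X) : ¬ r ∣ Nat.card X :=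
  (piG_compl_single h.hr).1 (piG_compl_of_isPGroup Nat.prime_two hX h.ne2.symm)

theorem le_C (hX : IsPGroup r X) (hc : ¬ r ∣ Nat.card T) (h1 : Nrm T X) (h2 : g ∈ N X)
    (h3 : g ∈ N T) (ho : Odd (orderOf g)) (hf : T ⊓ C1 g = ⊥) : T ≤ C X := by
  by_cases g1 : g = 1
  · rw [g1, C1_one, inf_top_eq] at hf
    exact hf ▸ bot_le
  have hp := h.prime_of_odd g1 ho
  by_cases g2 : g ∈ X
  · exact le_C_of_split h.hr hX hc h1 h2 h3 hp hf fun x hx => by
      rw [h.orderOf_eq h.hr hX g2 g1, h.pow_eq_one h.hr hX (X.mul_mem hx g2)]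
  refine le_C_of_split h.hr hX hc h1 h2 h3 hp hf fun x hx => ?_
  have n1 := nrm_zpowers_iff.2 h2
  have e1 : x * g ≠ 1 := fun e => g2 (by rw [eq_inv_of_mul_eq_one_right e]; exact X.inv_mem hx)
  have e2 : x * g ∈ X ⊔ zpowers g := mul_mem_sup hx (mem_zpowers g)
  have e3 : Odd (orderOf (x * g)) := Odd.of_dvd_nat
    ((Nat.odd_iff.2 (by have := h.not_two_dvd hX; omega)).mul (by rwa [Nat.card_zpowers]))
    ((orderOf_dvd_card' e2).trans (card_sup_dvd (.inr n1)))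
  have e4 := h.prime_of_odd e1 e3
  by_contra e5
  have e6 := mul_pow_mem_of_nrm n1 (mem_zpowers g) (n1.conj' (mem_zpowers g) hx) (orderOf (x * g))
  rw [show g * (g⁻¹ * x * g) = x * g by group, pow_orderOf_eq_one, mul_one, inv_mem_iff] at e6
  exact g2 (mem_of_pow_mem_of_coprime' ((Nat.coprime_primes hp e4).2 fun e =>
    e5 (by rw [e, pow_orderOf_eq_one])) e6)

theorem comm_le_C (hS : SylIn 2 S H) (hX : IsPGroup r X) (hn : Nrm S X) {A : Subgroup G}
    (h0 : A ≤ H) (h1 : Nrm A S) (h2 : Nrm A X) : ⁅S, A⁆ ≤ C X := by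
  have ea := h.elAb hS.isPGroup
  refine commutator_le.2 fun x hx g hg => ?_
  have a1 := ppart_mem {2} hg
  have a2 := ppart_mem {2}ᶜ hg
  have a3 : ppart {2} g ∈ S :=
    (hS.hall Nat.prime_two).mem_of_nrm (h0 a1) (piE_ppart _ _) (h1.le_N a1)
  have a4 := (piE_compl_single Nat.prime_two).1 (piE_ppart {2}ᶜ g)
  have a5 := ppart_mul_ppart' {2} g
  generalize ppart {2}ᶜ g = d at a2 a4 a5
  have n1 := nrm_zpowers_iff.2 (h1.le_N a2)
  have e : ⁅x, g⁆ = ⁅x, d⁆ := by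
    rw [← a5]
    simp only [commutatorElement_def]
    calc _ = x * d * (ppart {2} g * x⁻¹) * (ppart {2} g)⁻¹ * d⁻¹ := by group
      _ = _ := by rw [ea.1 _ a3 _ (S.inv_mem hx)]; group
  refine e ▸ h.le_C hX (h.not_dvd_two (hS.isPGroup.to_le n1.comm_le_left))
    (hn.mono n1.comm_le_left) (h2.le_N a2) (nrm_zpowers_iff.1 (nrm_comm_right _ _))
    (Nat.coprime_two_right.1 a4) ?_ (commutator_mem_commutator hx (mem_zpowers d))
  rw [← C_zpowers]
  refine comm_inf_C_eq_bot n1 (coprime_of_isPGroup_of_not_dvd Nat.prime_two hS.isPGroup ?_) ea.ab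
  rw [Nat.card_zpowers]
  exact (Nat.Prime.coprime_iff_not_dvd Nat.prime_two).1 a4.symm

theorem solvable_N [FTthm.{u}] (hS : SylIn 2 S ⊤) (hX : IsPGroup r X) (hn : Nrm S X)
    (hne : X ≠ ⊥) : Group.IsSolvable (N X) := by
  have s1 := hS.of_le hn.le_N le_top
  have e := s1.inf_D_eq_of_ab Nat.prime_two (h.elAb hS.isPGroup).ab
  have e1 : S ⊓ D (N X) ≤ C X := e ▸ h.comm_le_C s1 hX hn inf_le_left
    (nrm_of_le_N inf_le_right) (nrm_of_le_N inf_le_left)
  obtain ⟨x, hx, x1⟩ := (X.bot_or_exists_ne_one).resolve_left hne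
  have n1 : Nrm (D (N X)) (C X) := (nrm_N_C X).mono (D_le _)
  refine solvable_of_solvable_D (solvable_of_quo n1 (solvable_of_le (h.solvable_C1
    (.inr (h.orderOf_eq h.hr hX hx x1).symm.dvd)) (C_le_C1 hx)) (solvable_of_odd ?_))
  have := (s1.inf_nrm (D_le _) (normalIn_D _).nrm).not_dvd_relIndex
  rw [card_quo n1, Nat.odd_iff]
  by_contra c
  exact this ((by omega : 2 ∣ (C X).relIndex (D (N X))).trans (relIndex_dvd_of_le_left _ e1))

theorem isPGroup_of_nrm (hS : IsPGroup 2 S) (hc : ¬ IsCyclic S) (hn : Nrm S X)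
    (ho : ¬ 2 ∣ Nat.card X) : IsPGroup r X := by
  refine (piG_single h.hr).1 fun q hq hd => ?_
  have ea := h.elAb hS
  have c := (coprime_of_isPGroup_of_not_dvd Nat.prime_two hS ho).symm
  obtain ⟨P, p1, p2⟩ := exists_sylIn_nrm_of_coprime hn c (.inr (solvable_of_ab ea.ab)) hq
  obtain ⟨a, a1, a2, a3⟩ := exists_inf_C1_ne_bot ea.ab hc p2 (coprime_of_le c p1.le le_rfl)
    (p1.ne_bot hq hd)
  obtain ⟨y, y1, y2⟩ := (bot_or_exists_ne_one _).resolve_left a3
  rcases h.prime_C1' (.inl (ea.orderOf_eq Nat.prime_two a1 a2).symm.dvd) hq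
    ((h.orderOf_eq hq p1.isPGroup y1.1 y2).symm.dvd.trans (orderOf_dvd_card' y1.2)) with e | e
  · exact absurd (e ▸ hd) ho
  · exact e

theorem isPGroup_Opc (hS : IsPGroup 2 S) (hc : ¬ IsCyclic S) (hH : S ≤ H) :
    IsPGroup r (Opc 2 H) :=
  h.isPGroup_of_nrm hS hc ((nrm_Opc 2 H).mono hH) (not_dvd_card_Opc Nat.prime_two H)

theorem le_Opc (hS : SylIn 2 S ⊤) (hH : S ≤ H) (hs : Group.IsSolvable H) (hY : Y ≤ H)
    (hY' : IsPGroup r Y) (hn : Nrm S Y) : Y ≤ Opc 2 H :=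
  le_Opc_of_nrm Nat.prime_two (hS.of_le hH le_top) (h.elAb hS.isPGroup).ab hs hY
    (h.not_two_dvd hY') hn

theorem max_eq [FTthm.{u}] (hS : SylIn 2 S ⊤) (hc : ¬ IsCyclic S) {R1 R2 : Subgroup G}
    (h1 : MaxInv ⊤ S {r} R1) (h2 : MaxInv ⊤ S {r} R2) (hne : R1 ⊓ R2 ≠ ⊥) : R1 = R2 := by
  by_contra hh
  obtain ⟨Y, ⟨y0, R1, R2, h1, h2, hh, rfl⟩, hY⟩ := exists_max_card
    (P := fun Y : Subgroup G => Y ≠ ⊥ ∧ ∃ R1 R2, MaxInv ⊤ S {r} R1 ∧ MaxInv ⊤ S {r} R2 ∧ R1 ≠ R2 ∧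
      Y = R1 ⊓ R2) ⟨_, hne, R1, R2, h1, h2, hh, rfl⟩
  have n1 := h1.nrm.inf h2.nrm
  have s1 := h.solvable_N hS ((h1.isPGroup h.hr).to_le inf_le_left) n1 y0
  obtain ⟨R3, r1, r2⟩ := exists_maxInv_ge h.hr (h.isPGroup_Opc hS.isPGroup hc n1.le_N)
    ((nrm_Opc 2 _).mono n1.le_N)
  have key : ∀ R, MaxInv ⊤ S {r} R → R1 ⊓ R2 < R → R = R3 := fun R a b => by
    by_contra c
    have d := (lt_inf_N_of_nilpotent (nilpotent_of_isPGroup h.hr (a.isPGroup h.hr)) b).trans_le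
      (le_inf inf_le_left ((h.le_Opc hS n1.le_N s1 inf_le_right
        ((a.isPGroup h.hr).to_le inf_le_left) (a.nrm.inf n1.N)).trans r1))
    exact (card_lt_of_lt d).not_ge (hY _ ⟨ne_bot_of_gt d, R, R3, a, r2, c, rfl⟩)
  exact hh ((key R1 h1 (inf_le_left.lt_of_ne fun e =>
    hh (h1.eq_of_le h2.inv (e.ge.trans inf_le_right)).symm)).trans (key R2 h2
      (inf_le_right.lt_of_ne fun e => hh (h2.eq_of_le h1.inv (e.ge.trans inf_le_left)))).symm)

theorem le_C1_of_mem (hS : IsPGroup 2 S) (ha : a ∈ S) : S ≤ C1 a :=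
  (h.elAb hS).ab.trans (C_le_C1 ha)

theorem solvable_C1' (hS : IsPGroup 2 S) (ha : a ∈ S) (a1 : a ≠ 1) : Group.IsSolvable (C1 a) :=
  h.solvable_C1 (.inl (h.orderOf_eq Nat.prime_two hS ha a1).symm.dvd)

theorem frattini (hS : SylIn 2 S ⊤) (hH : S ≤ H) (hs : Group.IsSolvable H) :
    Opc 2 H ⊔ (H ⊓ N S) = H :=
  (pLen1_of_ab_sylIn Nat.prime_two hs (hS.of_le hH le_top) (h.elAb hS.isPGroup).ab).frattini
    Nat.prime_two (hS.of_le hH le_top)

/-- the case of a unique maximal `S`-invariant `r`-subgroup -/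
theorem C1_le_N (hS : SylIn 2 S ⊤) (hc : ¬ IsCyclic S) (hD : D (⊤ : Subgroup G) = ⊤)
    (hW : MaxInv ⊤ S {r} W) (hu : ∀ R, MaxInv ⊤ S {r} R → R = W) (ha : a ∈ S) (a1 : a ≠ 1) :
    C1 a ≤ N S := by
  have e := hS.inf_D_eq_of_ab Nat.prime_two (h.elAb hS.isPGroup).ab
  rw [hD, inf_top_eq, top_inf_eq] at e
  have e1 : S ≤ C W := e.le.trans (h.comm_le_C hS (hW.isPGroup h.hr) hW.nrm le_top (nrm_N S)
    (nrm_of_le_N fun g hg => mem_N.2 (hu _ (hW.cj_N hg))))
  have s1 := h.le_C1_of_mem hS.isPGroup ha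
  rw [← h.frattini hS s1 (h.solvable_C1' hS.isPGroup ha a1)]
  exact sup_le (((inv_top_single h.hr (h.isPGroup_Opc hS.isPGroup hc s1)
    ((nrm_Opc 2 _).mono s1)).le_of_uniq hu).trans ((le_C_symm e1).trans (C_le_N S))) inf_le_right

end Sp

end CfsgH6
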