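import Cfsg.Agent.H6.OC1
import Cfsg.Agent.H6.TIEven
import Cfsg.Agent.H8.PowTwoNT

set_option autoImplicit false
set_option linter.unusedSectionVars false

/-! Groups whose only composite element order is `2 r`: the case of TI Sylow `2`-subgroups, I. -/

namespace CfsgH6

open Subgroup CfsgH5 CfsgFT CfsgSZ CfsgH7
open scoped commutatorElement

universe u

variable {G : Type u} [Group G] [Finite G] {r p : ℕ} {S X Y H A : Subgroup G}
  {g x y a s t k j u : G}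

theorem ncard_clSupp_single (A : Subgroup G) (s : G) :
    (clSupp {s} A).ncard = (C1 s).relIndex A := by
  have : NormedTI {s} A (A ⊓ C1 s) := ⟨⟨s, rfl⟩, inf_le_left,
    fun l hl a ha => by rw [ha]; exact mem_C1_iff_conj.1 hl.2,
    fun g hg a ha hb => ⟨hg, mem_C1_iff_conj.2 (by rw [ha] at hb; exact hb)⟩⟩
  rw [this.ncard_clSupp, Set.ncard_singleton, one_mul, inf_relIndex_left]

theorem trans_iff (hA : Nrm A S) (hs : s ∈ S) (s1 : s ≠ 1) :
    (∀ y ∈ S, y ≠ 1 → ∃ g ∈ A, y = g * s * g⁻¹) ↔ (C1 s).relIndex A + 1 = Nat.card S := by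
  have e : clSupp {s} A ⊆ sharp S := by
    rintro _ ⟨_, rfl, g, hg, rfl⟩
    exact ⟨hA g hg _ hs, conj_ne_one s1⟩
  have := card_pos S
  have e2 := ncard_sharp S
  rw [← ncard_clSupp_single]
  refine ⟨fun h => ?_, fun h y hy y1 => ?_⟩
  · rw [e.antisymm fun y hy => let ⟨g, a, b⟩ := h y hy.1 hy.2; ⟨s, rfl, g, a, b⟩]; omega
  · obtain ⟨_, rfl, g, a, b⟩ := (Set.eq_of_subset_of_ncard_le e (by omega)).ge ⟨hy, y1⟩
    exact ⟨g, a, b⟩

theorem eq_one_of_odd (ho : Odd (orderOf x)) (h : x * x = 1) : x = 1 :=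
  orderOf_eq_one_iff.1 (Nat.eq_one_of_dvd_coprimes (Nat.coprime_two_right.2 ho) dvd_rfl
    (orderOf_dvd_of_pow_eq_one (by rw [sq, h])))

theorem mem_of_sq_mem (ho : Odd (orderOf x)) (h : x⁻¹ * x⁻¹ ∈ X) : x ∈ X :=
  mem_of_pow_mem_of_coprime' (Nat.coprime_two_right.2 ho)
    (by rw [sq, ← inv_mem_iff, mul_inv_rev]; exact h)

theorem isPGroup_of_sq (h : x * x = 1) : IsPGroup 2 (zpowers x) :=
  isPGroup_zpowers (k := 1) (by rw [pow_one, sq, h])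

theorem exists_conj_mem (hS : SylIn 2 S ⊤) (h : u * u = 1) : ∃ g : G, g⁻¹ * u * g ∈ S := by
  obtain ⟨g, -, hg⟩ := hS.exists_le_cj le_top (isPGroup_of_sq h)
  exact ⟨g, mem_cj.1 (hg (mem_zpowers u))⟩

/-- elementary abelian TI Sylow `2`-subgroup -/
structure TI2 (S : Subgroup G) : Prop where
  syl : SylIn 2 S ⊤
  ea : ElAb 2 S
  nc : ¬ IsCyclic S
  cent : ∀ a ∈ S, a ≠ 1 → C1 a ≤ N S

namespace TI2
variable (T : TI2 S)
include T

theorem sq (hs : s ∈ S) : s * s = 1 := by rw [← _root_.sq]; exact T.ea.2 s hs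

theorem ord (hs : s ∈ S) (s1 : s ≠ 1) : orderOf s = 2 := T.ea.orderOf_eq Nat.prime_two hs s1

theorem mem_of_sq (hy : y ∈ N S) (h : y * y = 1) : y ∈ S :=
  T.syl.le_of_nrm' Nat.prime_two le_top (isPGroup_of_sq h) (nrm_zpowers_iff.2 hy) (mem_zpowers y)

theorem mem_N_of_le (h : cj g S ≤ N S) : g ∈ N S :=
  mem_N_of_cj_le fun y hy => T.mem_of_sq (h hy) (by
    rw [← _root_.sq]; exact (T.ea.cjj g).2 y hy)

theorem mem_N (hs : s ∈ S) (s1 : s ≠ 1) (h : g * s * g⁻¹ ∈ S) : g ∈ N S :=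
  T.mem_N_of_le (((T.ea.cjj g).ab.trans (C_le_C1 (conj_mem_cj.2 hs))).trans
    (T.cent _ h (conj_ne_one s1)))

theorem eq_one_of_odd (hs : s ∈ S) (ho : Odd (orderOf s)) : s = 1 :=
  CfsgH6.eq_one_of_odd ho (T.sq hs)

theorem odd_mul (t2 : t * t = 1) (ht : t ∉ N S) (hs : s ∈ S) (s1 : s ≠ 1) :
    Odd (orderOf (s * t)) ∧ ∃ j, j * j = 1 ∧ j * t * j⁻¹ = s := by
  rcases isConj_or_exists_invol (T.sq hs) t2 with ⟨h, k, hk⟩ | ⟨w, w1, w2, w3, w4⟩
  · refine ⟨h, (s * t) ^ k * t, ?_, Eq.trans (by group) hk⟩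
    have h1 : t * (s * t) * t⁻¹ = (s * t)⁻¹ := by
      rw [mul_inv_rev, CfsgH5.inv_eq_self t2, CfsgH5.inv_eq_self (T.sq hs), mul_assoc, mul_assoc, t2, mul_one]
    have h2 : t * (s * t) ^ k * t⁻¹ = ((s * t) ^ k)⁻¹ := by rw [← conj_pow, h1, inv_pow]
    calc _ = (s * t) ^ k * (t * (s * t) ^ k * t⁻¹) * (t * t) := by group
      _ = 1 := by rw [h2, t2]; simp
  · exact absurd (T.cent w (T.mem_of_sq (T.cent s hs s1 (mem_C1.2 w3)) w2) w1 (mem_C1.2 w4.symm)) ht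

theorem mem_C1_of (t2 : t * t = 1) (ht : t ∉ N S) (hs : s ∈ S) (s1 : s ≠ 1) (h1 : x ∈ C1 s)
    (h2 : x ∈ C1 (t * s * t⁻¹)) : x ∈ C1 t := by
  rw [mem_C1_comm] at h1 h2 ⊢
  have : s * t ∈ C1 x := mem_of_pow_mem_of_coprime'
    (Nat.coprime_two_right.2 (T.odd_mul t2 ht hs s1).1) (by
      rw [CfsgH5.inv_eq_self t2] at h2
      rw [_root_.sq, mul_assoc, ← mul_assoc t]
      exact mul_mem h1 h2)
  exact (mul_mem_cancel_left h1).1 this

theorem eq_one (t2 : t * t = 1) (ht : t ∉ N S) (hs : s ∈ S) (s1 : s ≠ 1) (hk : t * k * t⁻¹ = k⁻¹)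
    (h : k ∈ C1 s) : k = 1 := by
  have h1 : k ∈ C1 t := T.mem_C1_of t2 ht hs s1 h (by
    rw [← cj_C1, ← inv_mem_iff, ← hk, conj_mem_cj]; exact h)
  rw [mem_C1_iff_conj'.1 h1] at hk
  by_contra k1
  exact ht (T.cent k (T.mem_of_sq (T.cent s hs s1 h) (by nth_rewrite 2 [hk]; simp)) k1
    (mem_C1_comm.1 h1))

theorem conj_notMem (ht : g ∉ N S) (hs : s ∈ S) (s1 : s ≠ 1) : g * s * g⁻¹ ∉ N S := fun c =>
  ht (T.mem_N hs s1 (T.mem_of_sq c (by
    calc _ = g * (s * s) * g⁻¹ := by group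
      _ = 1 := by rw [T.sq hs]; simp)))

theorem exists_K (t2 : t * t = 1) (ht : t ∉ N S) (hs : s ∈ S) (s1 : s ≠ 1) (hy : y ∈ S)
    (y1 : y ≠ 1) : ∃ k ∈ N S, t * k * t⁻¹ = k⁻¹ ∧ y = k * s * k⁻¹ := by
  obtain ⟨-, j, j1, j2⟩ := T.odd_mul (t := t * s * t⁻¹) (by
    calc _ = t * (s * s) * t⁻¹ := by group
      _ = 1 := by rw [T.sq hs]; simp) (T.conj_notMem ht hs s1) hy y1
  have e : y = j * t * s * (j * t)⁻¹ := by rw [← j2]; group
  refine ⟨j * t, T.mem_N hs s1 (e ▸ hy), ?_, e⟩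
  rw [mul_inv_rev, CfsgH5.inv_eq_self j1, mul_assoc, mul_inv_cancel_right, CfsgH5.inv_eq_self t2]

theorem exists_ne : ∃ s ∈ S, s ≠ 1 ∧ ∃ y ∈ S, y ≠ 1 ∧ y ≠ s := by
  by_contra c
  push Not at c
  rcases S.bot_or_exists_ne_one with e | ⟨s, hs, s1⟩
  · exact T.nc (e ▸ inferInstance)
  refine T.nc ((le_antisymm (fun y hy => ?_) (zpowers_le.2 hs) : S = zpowers s) ▸ inferInstance)
  by_cases y1 : y = 1
  · exact y1 ▸ one_mem _
  · exact c s hs s1 y hy y1 ▸ mem_zpowers s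

theorem exists_invol (hg : g ∉ N S) : ∃ j, j * j = 1 ∧ j ∉ N S ∧ g⁻¹ * j ∈ N S := by
  obtain ⟨s, hs, s1, -⟩ := T.exists_ne
  obtain ⟨-, j, j1, j2⟩ := T.odd_mul (t := g * s * g⁻¹) (by
    calc _ = g * (s * s) * g⁻¹ := by group
      _ = 1 := by rw [T.sq hs]; simp) (T.conj_notMem hg hs s1) hs s1
  have e : j * g ∈ N S := T.mem_N hs s1
    (by rw [show j * g * s * (j * g)⁻¹ = s from Eq.trans (by group) j2]; exact hs)
  refine ⟨j, j1, fun c => hg ((mul_mem_cancel_left c).1 e), ?_⟩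
  rwa [← inv_mem_iff, mul_inv_rev, inv_inv, CfsgH5.inv_eq_self j1]

theorem odd_D (ht : g ∉ N S) : Odd (Nat.card ↥(N S ⊓ cj g (N S))) := by
  rw [Nat.odd_iff]
  by_contra c
  obtain ⟨y, ⟨y1, y2⟩, y3⟩ := exists_mem_orderOf_eq (X := N S ⊓ cj g (N S)) Nat.prime_two (by omega)
  have y4 : y * y = 1 := by rw [← _root_.sq, ← y3, pow_orderOf_eq_one]
  have := T.conj_notMem (g := g⁻¹) (by rwa [inv_mem_iff]) (T.mem_of_sq y1 y4)
    (fun e => by simp [e] at y3)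
  rw [inv_inv] at this
  exact this (mem_cj.1 y2)

theorem not_inv (hs : s ∈ S) (hk : k ∈ N S) (ho : Odd (orderOf k)) (h : s * k * s⁻¹ = k⁻¹) :
    k = 1 :=
  T.eq_one_of_odd (mem_of_sq_mem ho (by
    nth_rewrite 1 [← h]
    rw [mul_assoc, mul_assoc, ← mul_assoc k]
    exact S.mul_mem hs (conj_mem_of_mem_N hk (S.inv_mem hs)))) ho

theorem ppart_mem (hg : g ∈ N S) : ppart {2} g ∈ S :=
  (T.syl.hall Nat.prime_two).mem_of_nrm trivial (piE_ppart _ _) (CfsgFT.ppart_mem _ hg)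

theorem sdp : SDP (Opc 2 (C S)) S (C S) :=
  (T.syl.of_le T.ea.ab le_top).sdp_of_le_C Nat.prime_two inf_le_left

theorem C1_le (hx : x ∈ C S) (hs : Group.IsSolvable (C1 x)) : C1 x ≤ N S := by
  have s1 : S ≤ C1 x := le_C1_iff.2 hx
  have s2 := T.syl.of_le s1 le_top
  rw [← (pLen1_of_ab_sylIn Nat.prime_two hs s2 T.ea.ab).frattini Nat.prime_two s2]
  exact sup_le (le_of_cent1_le T.ea.ab T.nc ((nrm_Opc 2 _).mono s1)
    (coprime_Opc Nat.prime_two _ T.ea.isPGroup) fun a ha a1 => inf_le_right.trans (T.cent a ha a1))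
    inf_le_right

theorem split {r : ℕ} (h : Sp r G) (hk : k ∈ N S) (hp : (orderOf k).Prime) (h2 : orderOf k ≠ 2)
    (h3 : orderOf k ≠ r) (hX : ¬ 2 ∣ Nat.card X) (h4 : X ≤ N S) (h5 : k ∈ N X)
    (h6 : X ⊓ C1 k = ⊥) : X ≤ C S := by
  refine le_C_of_split Nat.prime_two T.ea.isPGroup hX (nrm_of_le_N h4) hk h5 hp h6 fun x hx => ?_
  have n1 := nrm_zpowers_iff.2 hk
  have e6 := mul_pow_mem_of_nrm n1 (mem_zpowers k) (n1.conj' (mem_zpowers k) hx) (orderOf (x * k))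
  rw [show k * (k⁻¹ * x * k) = x * k by group, pow_orderOf_eq_one, mul_one, inv_mem_iff] at e6
  have k1 : k ∉ S := fun c => h2 (T.ord c fun e => hp.one_lt.ne' (by simp [e]))
  have e7 : orderOf k ∣ orderOf (x * k) := by
    by_contra c
    exact k1 (mem_of_pow_mem_of_coprime' ((Nat.Prime.coprime_iff_not_dvd hp).2 c) e6)
  rcases h.ord (x * k) (fun e => k1 (by rw [eq_inv_of_mul_eq_one_right e]; exact S.inv_mem hx))
    with c | c
  · rw [(Nat.prime_dvd_prime_iff_eq hp c).1 e7, pow_orderOf_eq_one]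
  · rcases (Nat.Prime.dvd_mul hp).1 (c ▸ e7) with d | d
    · exact absurd ((Nat.prime_dvd_prime_iff_eq hp Nat.prime_two).1 d) h2
    · exact absurd ((Nat.prime_dvd_prime_iff_eq hp h.hr).1 d) h3

theorem mem_D (t2 : t * t = 1) (hk : k ∈ N S) (h : t * k * t⁻¹ = k⁻¹) : k ∈ N S ⊓ cj t (N S) :=
  mem_inf.2 ⟨hk, mem_cj.2 (by
    rw [CfsgH5.inv_eq_self t2] at h ⊢
    rw [h]; exact inv_mem hk)⟩

omit T in
theorem nrm_D (t2 : t * t = 1) : t ∈ N (N S ⊓ cj t (N S)) :=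
  CfsgFT.mem_N.2 (by rw [cj_inf, cj_cj, t2, cj_one, inf_comm])

theorem exists_K1 (t2 : t * t = 1) (ht : t ∉ N S) : ∃ k ∈ N S, t * k * t⁻¹ = k⁻¹ ∧ k ≠ 1 := by
  obtain ⟨s, hs, s1, y, hy, y1, y2⟩ := T.exists_ne
  obtain ⟨k, k1, k2, k3⟩ := T.exists_K t2 ht hs s1 hy y1
  exact ⟨k, k1, k2, fun e => y2 (by simpa [e] using k3)⟩

/-- the structure of a two point stabiliser -/
theorem dich [FTthm.{u}] {r : ℕ} (h : Sp r G) (t2 : t * t = 1) (ht : t ∉ N S) :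
    (∃ k ∈ N S, t * k * t⁻¹ = k⁻¹ ∧ (orderOf k).Prime ∧ orderOf k ≠ r ∧
      orderOf k + 1 = Nat.card S ∧ (∀ y ∈ N S, t * y * t⁻¹ = y⁻¹ → y ∈ zpowers k) ∧
      N S ⊓ cj t (N S) ≤ N (zpowers k)) ∨
    (IsPGroup r ↥(N S ⊓ cj t (N S)) ∧ r + 1 = Nat.card S) := by
  have o := T.odd_D ht
  have n := nrm_D (S := S) t2
  have m : ∀ {k}, t * t = 1 → k ∈ N S → t * k * t⁻¹ = k⁻¹ → k ∈ N S ⊓ cj t (N S) :=
    fun a b c => T.mem_D a b c
  obtain ⟨k, k1, k2, k3⟩ := T.exists_K1 t2 ht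
  obtain ⟨s, hs, s1, -⟩ := T.exists_ne
  have hl : N S ⊓ cj t (N S) ≤ N S := inf_le_left
  generalize N S ⊓ cj t (N S) = E at o n m hl ⊢
  have oo : ∀ x ∈ E, Odd (orderOf x) := fun x hx => o.of_dvd_nat (orderOf_dvd_card' hx)
  have sol : Group.IsSolvable E := solvable_of_odd o
  obtain ⟨p, hp, hd⟩ := exists_prime_dvd_card (Fit_ne_bot sol fun e =>
    k3 (mem_bot.1 (e ▸ m t2 k1 k2)))
  have p2 : ∀ q : ℕ, q ∣ Nat.card E → q ≠ 2 := fun q hq e => by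
    have := o.of_dvd_nat hq; rw [e] at this; exact absurd this (by decide)
  have fp : IsPGroup p (Fit E) := (piG_single hp).1 fun q hq hq' => by
    by_contra c
    obtain ⟨x, x1, x2⟩ := exists_mem_orderOf_eq hp hd
    obtain ⟨y, y1, y2⟩ := exists_mem_orderOf_eq hq hq'
    have := p2 p (hd.trans (card_dvd_of_le' (Fit_le E)))
    have := p2 q (hq'.trans (card_dvd_of_le' (Fit_le E)))
    have := h.mul_eq hp hq (Ne.symm c) (comm_of_nilpotent (nilpotent_Fit E) x1 y1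
      (by rw [x2, y2]; exact (Nat.coprime_primes hp hq).2 (Ne.symm c))) x2.symm.dvd y2.symm.dvd
    tauto
  have tF : t ∈ N (Fit E) := nrm_zpowers_iff.1 (nrm_zpowers_iff.2 n).Fit
  have key : ∀ y ∈ N S, t * y * t⁻¹ = y⁻¹ → ⁅t, y⁆ ∈ C (Fit E) → y ∈ Fit E := fun y y1 y2 y3 =>
    mem_of_sq_mem (oo y (m t2 y1 y2)) (inf_C_Fit_le sol (mem_inf.2
      ⟨mul_mem (inv_mem (m t2 y1 y2)) (inv_mem (m t2 y1 y2)), by
        rwa [commutatorElement_def, y2] at y3⟩))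
  by_cases pr : p = r
  · subst pr
    right
    have a : ∀ y ∈ N S, t * y * t⁻¹ = y⁻¹ → y ≠ 1 → orderOf y = p := fun y y1 y2 y3 => by
      by_contra c
      have y4 := m t2 y1 y2
      have y5 := h.prime_of_odd y3 (oo y y4)
      have y6 := p2 _ (orderOf_dvd_card' y4)
      have b : Fit E ≤ C S := T.split h y1 y5 y6 c (h.not_two_dvd fp) ((Fit_le E).trans hl)
        ((nrm_Fit E).le_N y4) (eq_bot_iff.2 fun z hz => by
          by_contra z1
          have := h.mul_eq y5 hp c (mem_C1.1 hz.2).symm dvd_rfl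
            (h.orderOf_eq hp fp hz.1 z1).symm.dvd
          tauto)
      have b2 : t ∈ C (Fit E) := le_C1_iff.1 fun z hz => T.mem_C1_of t2 ht hs s1 (C_le_C1 hs (b hz)) (by
        rw [← cj_C1]
        exact cj_mono (b.trans (C_le_C1 hs)) ((CfsgFT.mem_N.1 tF).ge hz))
      exact c (h.orderOf_eq hp fp (key y y1 y2 (by
        rw [commutatorElement_def, mul_assoc, mul_assoc, ← mul_assoc y]
        exact mul_mem b2 (nrm_N_C _ y ((nrm_Fit E).le_N y4) _ (inv_mem b2)))) y3)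
    have b : IsPGroup p E := (piG_single hp).1 fun q hq hq' => by
      by_contra c
      have n1 := nrm_zpowers_iff.2 n
      obtain ⟨P, p1, p3⟩ := exists_sylIn_nrm_of_coprime n1 (coprime_of_isPGroup_of_not_dvd
        Nat.prime_two (isPGroup_of_sq t2) fun e => p2 2 e rfl).symm
        (.inr (solvable_of_ab (ab_zpowers t))) hq
      obtain ⟨y, y1, y2⟩ := P.bot_or_exists_ne_one.resolve_left (p1.ne_bot hq hq')
      have y3 : y * (t * y⁻¹ * t⁻¹) ∈ P := P.mul_mem y1 (p3 t (mem_zpowers t) _ (P.inv_mem y1))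
      have y4 : y * (t * y⁻¹ * t⁻¹) ≠ 1 := fun e => by
        have := h.mul_eq hq Nat.prime_two (p2 q hq') (x := y) (y := t) (by
          calc _ = y * (t * y⁻¹ * t⁻¹) * t * y := by group
            _ = _ := by rw [e, one_mul])
          (h.orderOf_eq hq p1.isPGroup y1 y2).symm.dvd (orderOf_eq_prime (by rwa [_root_.sq])
            fun e => ht (by rw [e]; exact one_mem _)).symm.dvd
        have := p2 q hq'
        tauto
      exact c ((h.orderOf_eq hq p1.isPGroup y3 y4).symm.trans (a _ (hl (p1.le y3)) (by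
        calc _ = t * y * t⁻¹ * (t * t) * y⁻¹ * (t * t)⁻¹ := by group
          _ = _ := by rw [t2]; group) y4))
    refine ⟨b, ?_⟩
    have c := (trans_iff (nrm_of_le_N hl) hs s1).1 fun y hy y1 =>
      let ⟨k, k1, k2, k3⟩ := T.exists_K t2 ht hs s1 hy y1
      ⟨k, m t2 k1 k2, k3⟩
    obtain ⟨i, hi⟩ := exists_relIndex_eq_pow hp b (C1 s)
    obtain ⟨l, hl⟩ := exists_card_eq_pow Nat.prime_two T.ea.isPGroup
    have i1 := CfsgH8.pow_add_one_eq_two_pow (hp.odd_of_ne_two h.ne2) hp.one_lt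
      (hi ▸ c.trans hl)
    have i0 : i ≠ 0 := fun e => k3 (T.eq_one t2 ht hs s1 k2
      (relIndex_eq_one.1 (by rw [hi, e, pow_zero]) (m t2 k1 k2)))
    rw [← c, hi, show i = 1 by omega, pow_one]
  · left
    have pe := p2 p (hd.trans (card_dvd_of_le' (Fit_le E)))
    have sr : SemiReg S (Fit E) := fun e he e1 => eq_bot_iff.2 fun z hz => by
      by_contra z1
      have := h.mul_eq hp Nat.prime_two pe (mem_C1.1 hz.2).symm
        (h.orderOf_eq hp fp he e1).symm.dvd (T.ord hz.1 z1).symm.dvd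
      tauto
    have cy := sr.isCyclic_of_nilpotent (nrm_of_le_N ((Fit_le E).trans hl))
      (fun e => s1 (mem_bot.1 (e ▸ hs))) (o.of_dvd_nat (card_dvd_of_le' (Fit_le E))) (nilpotent_Fit E)
    have cF : Nat.card (Fit E) = p := Nat.dvd_antisymm (ElAb.card_dvd_of_isCyclic
      ⟨ab_iff.1 (ab_of_isCyclic cy), fun a ha => h.pow_eq_one hp fp ha⟩ cy) hd
    have a : ∀ y ∈ N S, t * y * t⁻¹ = y⁻¹ → y ∈ Fit E := fun y y1 y2 => key y y1 y2
      (D_le_C_of_isCyclic cy (nrm_N _) (commutator_mem_commutator tF ((nrm_Fit E).le_N (m t2 y1 y2))))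
    have e := eq_zpowers_of_prime_card (cF ▸ hp) (a k k1 k2) k3
    have e2 := h.orderOf_eq hp fp (a k k1 k2) k3
    refine ⟨k, k1, k2, e2 ▸ hp, e2 ▸ pr, ?_, e ▸ a, e ▸ (nrm_Fit E).le_N⟩
    have c := (trans_iff (nrm_of_le_N ((Fit_le E).trans hl)) hs s1).1 fun y hy y1 =>
      let ⟨k, k1, k2, k3⟩ := T.exists_K t2 ht hs s1 hy y1
      ⟨k, a k k1 k2, k3⟩
    rwa [relIndex_of_inf_eq_bot (by rw [inf_comm]; exact sr.symm s hs s1), cF, ← e2] at c

end TI2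

end CfsgH6
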