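import Cfsg.Agent.H6.OC2
import Cfsg.Agent.H6.CN2
import Cfsg.Agent.S0346

set_option autoImplicit false
set_option linter.unusedSectionVars false

/-! Groups whose only composite element order is `2 r`: the case of TI Sylow `2`-subgroups, II. -/

namespace CfsgH6

open Subgroup CfsgH5 CfsgFT CfsgSZ CfsgH7
open scoped commutatorElement

universe u

variable {G : Type u} [Group G] [Finite G] {r p : ℕ} {S X Y H A : Subgroup G}
  {g x y z a s t k j u : G}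

theorem sq_conj (h : t * t = 1) (g : G) : g * t * g⁻¹ * (g * t * g⁻¹) = 1 := by
  calc _ = g * (t * t) * g⁻¹ := by group
    _ = 1 := by rw [h]; simp

theorem inv_of_mem_zpowers (h : t * k * t⁻¹ = k⁻¹) (hy : y ∈ zpowers k) : t * y * t⁻¹ = y⁻¹ := by
  obtain ⟨i, rfl⟩ := hy
  simp only
  rw [← conj_zpow, h, inv_zpow]

theorem exists_invol_of_dvd (h : 2 ∣ Nat.card X) : ∃ y ∈ X, y * y = 1 ∧ y ≠ 1 := by
  obtain ⟨y, y1, y2⟩ := exists_mem_orderOf_eq Nat.prime_two h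
  exact ⟨y, y1, by rw [← sq, ← y2, pow_orderOf_eq_one], fun e => by simp [e] at y2⟩

theorem Sp.ord_r (h : Sp r G) (hs : orderOf s = 2) (hx : x ∈ C1 s) (x1 : x ≠ 1)
    (ho : Odd (orderOf x)) : orderOf x = r := by
  have e : orderOf x ≠ 2 := fun e => by rw [e] at ho; exact absurd ho (by decide)
  have := h.mul_eq (h.prime_of_odd x1 ho) Nat.prime_two e (mem_C1.1 hx) dvd_rfl hs.symm.dvd
  tauto

theorem Sp.odd_r (h : Sp r G) (hx : orderOf x = r) : Odd (orderOf x) :=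
  hx ▸ h.hr.odd_of_ne_two h.ne2

namespace TI2
variable (T : TI2 S)
include T

theorem cjj (g : G) : TI2 (cj g S) := by
  refine ⟨T.syl.cj_mem trivial, T.ea.cjj g, fun c => T.nc ?_, fun a ha a1 => ?_⟩
  · have := isCyclic_cj c g⁻¹
    rwa [cj_cj, inv_mul_cancel, cj_one] at this
  · rw [← cj_N, show a = g * (g⁻¹ * a * g) * g⁻¹ by group, ← cj_C1]
    exact cj_mono (T.cent _ (mem_cj.1 ha) fun e => a1 (by
      rw [show a = g * (g⁻¹ * a * g) * g⁻¹ by group, e]; simp))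

theorem exists_cj (h : u * u = 1) : ∃ g : G, u ∈ cj g S :=
  let ⟨g, hg⟩ := exists_conj_mem T.syl h
  ⟨g, mem_cj.2 hg⟩

theorem le_C_of_odd (hX : X ≤ N S) (h : ∀ x ∈ X, Odd (orderOf x) → x ∈ C S) : X ≤ C S :=
  fun g hg => by
  have := mul_mem (h _ (CfsgFT.ppart_mem {2}ᶜ hg) (Nat.coprime_two_right.1
    ((piE_compl_single Nat.prime_two).1 (piE_ppart {2}ᶜ g)))) (T.ea.ab (T.ppart_mem (hX hg)))
  rwa [ppart_mul_ppart'] at this

theorem C1_le' (h : Sp r G) (hx : x ∈ C S) (ho : orderOf x = r) : C1 x ≤ N S :=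
  T.C1_le hx (h.solvable_C1 (.inr ho.symm.dvd))

theorem mem_N_of_C (h : Sp r G) (hx : x ∈ C S) (ho : orderOf x = r) (hg : g * x * g⁻¹ ∈ C S) :
    g ∈ N S :=
  T.mem_N_of_le (((cj_mono (le_C1_iff.2 hx)).trans (cj_C1 g x).le).trans
    (T.C1_le' h hg (by rw [orderOf_conj', ho])))

theorem exists_W (h : Sp r G) (hx : orderOf x = 2 * r) :
    ∃ s ∈ S, s ≠ 1 ∧ ∃ y ∈ C1 s, y ∉ S := by
  have e : x ^ r * x ^ r = 1 := by rw [← pow_add, ← two_mul, ← hx, pow_orderOf_eq_one]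
  obtain ⟨g, hg⟩ := exists_conj_mem T.syl e
  have := h.hr.two_le
  refine ⟨_, hg, fun c => pow_ne_one_of_lt_orderOf (x := x) (n := r) (by omega) (by omega) (by
    rw [show x ^ r = g * (g⁻¹ * x ^ r * g) * g⁻¹ by group, c]; simp), g⁻¹ * x * g,
    mem_C1.2 (by group), fun c => pow_ne_one_of_lt_orderOf (x := x) (n := 2) (by omega)
      (by have := h.ne2; omega) ?_⟩
  rw [show x ^ 2 = g * (g⁻¹ * x * g * (g⁻¹ * x * g)) * g⁻¹ by rw [_root_.sq]; group, T.sq c]; simp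

theorem C1_le_C (h : Sp r G) (hq : r + 1 = Nat.card S) (hs : s ∈ S) (s1 : s ≠ 1) : C1 s ≤ C S := by
  refine T.le_C_of_odd (T.cent s hs s1) fun x hx ho => le_C1_iff.1 fun y hy => ?_
  by_cases x1 : x = 1
  · rw [x1, C1_one]; trivial
  by_cases y1 : y = 1
  · exact y1 ▸ one_mem _
  have e := h.ord_r (T.ord hs s1) hx x1 ho
  have d := relIndex_dvd_card' (C1 y) (zpowers x)
  rw [Nat.card_zpowers, e] at d
  rcases (Nat.dvd_prime h.hr).1 d with c | c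
  · exact mem_C1_comm.1 (relIndex_eq_one.1 c (mem_zpowers x))
  · obtain ⟨g, g1, g2⟩ := (trans_iff (nrm_zpowers_iff.2 (T.cent s hs s1 hx)) hy y1).2
      (c ▸ hq) s hs s1
    have := mem_C1_iff_conj.1 (zpowers_le.2 hx (inv_mem g1))
    rw [g2, show g⁻¹ * (g * y * g⁻¹) * g⁻¹⁻¹ = y by group, ← g2] at this
    exact this ▸ mem_C1_comm.1 hx

theorem eq_one_P (h : Sp r G) (hq : r + 1 = Nat.card S) (t2 : t * t = 1) (t1 : t ≠ 1)
    (hz : z ∈ C1 t) (ho : orderOf z = r) (hk : k ∈ C1 z) (ok : Odd (orderOf k))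
    (hi : t * k * t⁻¹ = k⁻¹) : k = 1 := by
  obtain ⟨g, hg⟩ := T.exists_cj t2
  exact (T.cjj g).not_inv hg ((T.cjj g).C1_le' h
    ((T.cjj g).C1_le_C h (by rwa [card_cj]) hg t1 hz) ho hk) ok hi

theorem eq_one_L (h : Sp r G) (hq : r + 1 = Nat.card S)
    (hD : ∀ t, t * t = 1 → t ∉ N S → IsPGroup r ↥(N S ⊓ cj t (N S))) (hg : g ∉ N S)
    (hx : x ∈ C S) (h1 : g * x * g⁻¹ ∈ N S) : x = 1 := by
  obtain ⟨t, t2, ht, t3⟩ := T.exists_invol (g := g⁻¹) (by rwa [inv_mem_iff])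
  have x1 : x ∈ N S ⊓ cj t (N S) := mem_inf.2 ⟨C_le_N S hx, mem_cj.2 (by
    rw [show t⁻¹ * x * t = (g⁻¹⁻¹ * t)⁻¹ * (g * x * g⁻¹) * (g⁻¹⁻¹ * t) by group]
    exact mul_mem (mul_mem (inv_mem t3) h1) t3)⟩
  have d := hD t t2 ht
  have n := nrm_D (S := S) t2
  have o := T.odd_D ht
  obtain ⟨k, k1, k2, k3⟩ := T.exists_K1 t2 ht
  have m := T.mem_D t2 k1 k2
  have hl : N S ⊓ cj t (N S) ≤ N S := inf_le_left
  generalize N S ⊓ cj t (N S) = E at x1 d n o m hl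
  by_contra c
  obtain ⟨z, ⟨z1, z2⟩, z3⟩ := (bot_or_exists_ne_one _).resolve_left (inf_Z_ne_bot_of_nilpotent
    (nilpotent_of_isPGroup h.hr d) (K := E ⊓ C S)
    ⟨inf_le_left, (Nrm.self E).inf ((nrm_N_C S).mono hl)⟩
    fun e => c (mem_bot.1 (e ▸ mem_inf.2 ⟨x1, hx⟩)))
  have y1 : t * z * t⁻¹ ∈ Z E := (nrm_zpowers_iff.2 n).Z t (mem_zpowers t) z z2
  have y2 : z * (t * z * t⁻¹) ≠ 1 := fun e => ht (T.mem_N_of_C h z1.2
    (h.orderOf_eq h.hr d z1.1 z3) (by rw [eq_inv_of_mul_eq_one_right e]; exact inv_mem z1.2))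
  refine k3 (T.eq_one_P h hq t2 (fun e => ht (by rw [e]; exact one_mem _)) (mem_C1_iff_conj'.2 ?_)
    (h.orderOf_eq h.hr d (mul_mem z2 y1).1 y2) (mem_C1.2 ((mul_mem z2 y1).2 k m))
    (o.of_dvd_nat (orderOf_dvd_card' m)) k2)
  calc _ = t * z * t⁻¹ * (t * t) * z * (t * t)⁻¹ := by group
    _ = _ := by rw [t2, y1.2 z z1.1]; group

theorem not_K2 (h : Sp r G) (hq : r + 1 = Nat.card S)
    (hD : ∀ t, t * t = 1 → t ∉ N S → IsPGroup r ↥(N S ⊓ cj t (N S))) (t2 : t * t = 1)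
    (ht : t ∉ N S) (hx : orderOf x = 2 * r) : False := by
  obtain ⟨s, hs, s1, y, y1, y2⟩ := T.exists_W h hx
  obtain ⟨k, k1, k2, k3⟩ := T.exists_K1 t2 ht
  have ko := h.orderOf_eq h.hr (hD t t2 ht) (T.mem_D t2 k1 k2) k3
  obtain ⟨w, ⟨w1, w2⟩, w3⟩ := (bot_or_exists_ne_one _).resolve_left (inf_C_ne_bot_of_isPGroup h.hr
    (h.isPGroup_Opc T.syl.isPGroup T.nc T.ea.ab)
    (isPGroup_zpowers (k := 1) (by rw [pow_one, ← ko, pow_orderOf_eq_one]))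
    (((nrm_N_C S).Opi _).mono (zpowers_le.2 k1)) fun e => y2 (by
      have := T.sdp.sup
      rw [e, bot_sup_eq] at this
      exact this.ge (T.C1_le_C h hq hs s1 y1)))
  have w2 : w ∈ C1 k := C_zpowers k ▸ w2
  have w1 : w ∈ C S := Opc_le _ _ w1
  have a : IsPGroup r (C1 k) := (piG_single h.hr).1 fun q hq' hd =>
    (h.prime_C1' (.inr ko.symm.dvd) hq' hd).resolve_left fun e => by
      obtain ⟨j, j1, j2, j3⟩ := exists_invol_of_dvd (e ▸ hd)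
      obtain ⟨g, hg⟩ := T.exists_cj j2
      have T' := T.cjj g
      have b := T'.C1_le_C h (by rwa [card_cj]) hg j3 (mem_C1_comm.1 j1)
      exact k3 (T'.not_inv (T'.mem_of_sq (T'.mem_N_of_C h b ko (k2 ▸ inv_mem b)) t2) (C_le_N _ b)
        (h.odd_r ko) k2)
  have b : C1 k ≤ N S := by
    by_contra c
    have := Fact.mk h.hr
    obtain ⟨g, g1, g2, g3⟩ := exists_nrm_of_lt a
      (inf_le_left.lt_of_ne fun e => c (e.ge.trans inf_le_right) : C1 k ⊓ N S < C1 k)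
    exact w3 (T.eq_one_L h hq hD (fun e => g2 ⟨g1, e⟩) w1
      (conj_mem_of_mem_N g3 (mem_inf.2 ⟨w2, C_le_N S w1⟩)).2)
  refine w3 (T.eq_one_L h hq hD ht w1 (b ?_))
  rw [← C1_inv, ← k2, ← cj_C1, conj_mem_cj]
  exact w2

end TI2

/-- `k` generates the group of the elements of `N S` inverted by `t` -/
structure K1 (r : ℕ) (S : Subgroup G) (t k : G) : Prop where
  T : TI2 S
  h : Sp r G
  t2 : t * t = 1
  ht : t ∉ N S
  mem : k ∈ N S
  inv : t * k * t⁻¹ = k⁻¹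
  prime : (orderOf k).Prime
  ne : orderOf k ≠ r
  card : orderOf k + 1 = Nat.card S
  all : ∀ y ∈ N S, t * y * t⁻¹ = y⁻¹ → y ∈ zpowers k
  nrm : N S ⊓ cj t (N S) ≤ N (zpowers k)

namespace K1
variable (c : K1 r S t k)
include c

theorem k1 : k ≠ 1 := fun e => c.prime.one_lt.ne' (by simp [e])

theorem odd : Odd (orderOf k) :=
  (c.T.odd_D c.ht).of_dvd_nat (orderOf_dvd_card' (c.T.mem_D c.t2 c.mem c.inv))

theorem ne2 : orderOf k ≠ 2 := fun e => by have := c.odd; rw [e] at this; exact absurd this (by decide)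

theorem pg : IsPGroup (orderOf k) (zpowers k) :=
  isPGroup_zpowers (k := 1) (by rw [pow_one, pow_orderOf_eq_one])

theorem eq_one (hy : y ∈ zpowers k) (hs : s ∈ S) (s1 : s ≠ 1) (h : y ∈ C1 s) : y = 1 :=
  c.T.eq_one c.t2 c.ht hs s1 (inv_of_mem_zpowers c.inv hy) h

theorem trans (hs : s ∈ S) (s1 : s ≠ 1) (hy : y ∈ S) (y1 : y ≠ 1) :
    ∃ κ ∈ zpowers k, y = κ * s * κ⁻¹ :=
  let ⟨a, a1, a2, a3⟩ := c.T.exists_K c.t2 c.ht hs s1 hy y1
  ⟨a, c.all a a1 a2, a3⟩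

theorem relIndex (hs : s ∈ S) (s1 : s ≠ 1) : (C1 s).relIndex (N S) = orderOf k := by
  have := (trans_iff (nrm_N S) hs s1).1 fun y hy y1 =>
    let ⟨a, a1, _, a3⟩ := c.T.exists_K c.t2 c.ht hs s1 hy y1
    ⟨a, a1, a3⟩
  have := c.card
  omega

theorem not_dvd (hx : 2 ∣ orderOf x ∨ r ∣ orderOf x) : ¬ orderOf k ∣ Nat.card (C1 x) := fun d =>
  (c.h.prime_C1' hx c.prime d).elim c.ne2 c.ne

theorem syl : SylIn (orderOf k) (zpowers k) (N S) := by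
  obtain ⟨s, hs, s1, -⟩ := c.T.exists_ne
  have := Fact.mk c.prime
  refine sylIn_of_not_dvd (zpowers_le.2 c.mem) c.pg ?_
  have a := card_mul_relIndex (zpowers_le.2 c.mem)
  rw [← card_mul_relIndex (c.T.cent s hs s1), c.relIndex hs s1, Nat.card_zpowers, mul_comm] at a
  rw [Nat.eq_of_mul_eq_mul_right c.prime.pos a]
  exact c.not_dvd (.inl (c.T.ord hs s1).symm.dvd)

theorem exists_mul [FTthm.{u}] (hg : g ∈ N S) :
    ∃ x ∈ C S, ∃ n ∈ N S ⊓ N (zpowers k), g = x * n := by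
  have sol : Group.IsSolvable (N S) := solvable_of_quo (nrm_N S) (solvable_of_ab c.T.ea.ab)
    (solvable_of_odd (by
      rw [card_quo (nrm_N S), Nat.odd_iff]
      have := (c.T.syl.of_le (le_N S) le_top).not_dvd_relIndex
      omega))
  have a : Opc (orderOf k) (N S) ≤ C S := le_C_symm fun s hs => le_C1_iff.1 (by
    by_cases s1 : s = 1
    · rw [s1, C1_one]; exact le_top
    have d := relIndex_dvd_of_normalIn (c.T.cent s hs s1) (normalIn_Opc (orderOf k) (N S))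
    rw [c.relIndex hs s1] at d
    exact relIndex_eq_one.1 (((Nat.dvd_prime c.prime).1 d).resolve_right fun e =>
      not_dvd_card_Opc c.prime (N S) (e.symm.dvd.trans (relIndex_dvd_card' _ _))))
  have b := (pLen1_of_ab_sylIn c.prime sol c.syl (ab_zpowers k)).frattini c.prime c.syl
  obtain ⟨x, x1, n, n1, e⟩ := (mem_sup_nrm' ((nrm_Opc _ _).mono inf_le_left)).1 (b.ge hg)
  exact ⟨x, a x1, n, n1, e⟩

theorem odd_N (h1 : g ∈ N S) (h2 : g ∈ N (zpowers k)) : Odd (orderOf g) := by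
  rw [Nat.odd_iff]
  by_contra d
  obtain ⟨y, y1, y2, y3⟩ := exists_invol_of_dvd (X := zpowers g) (by rw [Nat.card_zpowers]; omega)
  have y4 := c.T.mem_of_sq (zpowers_le.2 h1 y1) y2
  have e : y * k * y⁻¹ * k⁻¹ ∈ S ⊓ zpowers k := mem_inf.2 ⟨by
    rw [mul_assoc, mul_assoc, ← mul_assoc k]
    exact S.mul_mem y4 (conj_mem_of_mem_N c.mem (S.inv_mem y4)),
    mul_mem (conj_mem_of_mem_N (zpowers_le.2 h2 y1) (mem_zpowers k)) (inv_mem (mem_zpowers k))⟩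
  have e2 := c.eq_one e.2 y4 y3 (C_le_C1 y4 (c.T.ea.ab e.1))
  exact c.k1 (c.eq_one (mem_zpowers k) y4 y3 (mem_C1_iff_conj'.2 (mul_inv_eq_one.1 e2)))

theorem cn (hc : ∀ s ∈ S, s ≠ 1 → C1 s ≤ C S) : Cfsg.IsCNGroup G := by
  have h := c.h
  obtain ⟨s, hs, s1, -⟩ := c.T.exists_ne
  have nil : Group.IsNilpotent (C S) := c.T.sdp.sup ▸ nilpotent_sup_of_le_C
    (nilpotent_of_isPGroup h.hr (h.isPGroup_Opc c.T.syl.isPGroup c.T.nc c.T.ea.ab))
    (nilpotent_of_ab c.T.ea.ab) (Opc_le _ _)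
  have a : ∀ g ∈ C S, g ≠ 1 → C1 g ≤ C S := fun g hg g1 => by
    obtain ⟨q, q1, q2⟩ := Nat.exists_prime_and_dvd (n := orderOf g) (by simpa using g1)
    have q3 : 2 ∣ orderOf g ∨ r ∣ orderOf g := by
      rcases h.prime_C1' (.inl (c.T.ord hs s1).symm.dvd) q1
        (q2.trans (orderOf_dvd_card' (C_le_C1 hs hg))) with e | e <;> rw [e] at q2 <;> simp [q2]
    refine le_of_coprime_relIndex (c.T.C1_le hg (h.solvable_C1 q3)) (nrm_N_C S) ?_
    rw [← (hc s hs s1).antisymm (C_le_C1 hs), c.relIndex hs s1]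
    exact ((Nat.Prime.coprime_iff_not_dvd c.prime).2 (c.not_dvd q3)).symm
  intro g g1
  change Group.IsNilpotent (C1 g)
  by_cases d : 2 ∣ Nat.card (C1 g)
  · obtain ⟨j, j1, j2, j3⟩ := exists_invol_of_dvd d
    obtain ⟨y, hy⟩ := exists_conj_mem c.T.syl j2
    have e : ∀ {a : G}, a ≠ 1 → y⁻¹ * a * y ≠ 1 := fun a => by
      simpa using CfsgFT.conj_ne_one (g := y⁻¹) a
    have := nilpotent_cj (nilpotent_of_le nil (a (y⁻¹ * g * y) (hc _ hy (e j3) (mem_C1.2 (by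
      calc _ = y⁻¹ * (g * j) * y := by group
        _ = _ := by rw [← mem_C1.1 j1]; group))) (e g1))) y
    rwa [cj_C1, show y * (y⁻¹ * g * y) * y⁻¹ = g by group] at this
  · obtain ⟨q, q1, q2⟩ := Nat.exists_prime_and_dvd (n := orderOf g) (by simpa using g1)
    refine nilpotent_of_isPGroup q1 ((piG_single q1).1 fun l l1 l2 => ?_)
    rcases h.prime_C1 q1 q2 l1 l2 with e | e | e
    · exact e
    · exact absurd ((e.1 ▸ q2).trans (orderOf_dvd_card' (self_mem_C1 g))) d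
    · exact absurd (e.2 ▸ l2) d

theorem ord_eq (d : K1 r S j y) : orderOf y = orderOf k := by
  have := c.card; have := d.card; omega

theorem C1_eq (hK : ∀ j, j * j = 1 → j ∉ N S → ∃ y, K1 r S j y) : C1 k = zpowers k := by
  refine c.syl.eq_of_le (fun y hy => ?_) (c.h.isPGroup_C1 c.prime dvd_rfl c.ne2 c.ne)
    (zpowers_le.2 (self_mem_C1 k))
  by_contra y1
  obtain ⟨j, j1, j2, j3⟩ := c.T.exists_invol y1
  obtain ⟨z, d⟩ := hK j j1 j2
  have a : k ∈ N (zpowers z) := d.nrm (mem_inf.2 ⟨c.mem, mem_cj.2 (by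
    rw [show j⁻¹ * k * j = (y⁻¹ * j)⁻¹ * (y⁻¹ * k * y⁻¹⁻¹) * (y⁻¹ * j) by group,
      mem_C1_iff_conj.1 (inv_mem hy)]
    exact mul_mem (mul_mem (inv_mem j3) c.mem) j3)⟩)
  have b := inv_of_mem_zpowers d.inv (d.syl.le_of_nrm' d.prime (zpowers_le.2 c.mem)
    (c.ord_eq d ▸ c.pg) (nrm_zpowers_iff.2 a) (mem_zpowers k))
  have e : y⁻¹ * j * k * (y⁻¹ * j)⁻¹ = k⁻¹ := by
    calc _ = y⁻¹ * (j * k * j⁻¹) * y⁻¹⁻¹ := by group
      _ = _ := by rw [b, mem_C1_iff_conj.1 (C1_inv k ▸ inv_mem hy)]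
  generalize y⁻¹ * j = m at j3 e
  have f : m ∈ C1 k := mem_of_pow_mem_of_coprime' (Nat.coprime_two_right.2 (c.odd_N j3
    (mem_N_of_conj fun x hx => inv_of_mem_zpowers e hx ▸ inv_mem hx))) (mem_C1_iff_conj.2 (by
      calc _ = m * (m * k * m⁻¹) * m⁻¹ := by rw [_root_.sq]; group
        _ = (m * k * m⁻¹)⁻¹ := by nth_rewrite 1 [e]; group
        _ = _ := by rw [e, inv_inv]))
  rw [mem_C1_iff_conj.1 f] at e
  exact c.k1 (eq_one_of_odd c.odd (by nth_rewrite 2 [e]; simp))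

theorem C_eq (ha : a ∈ N S ⊓ N (zpowers k)) (ho : orderOf a = r) :
    zpowers k ⊓ C1 a = ⊥ ∧ C S = S := by
  have h := c.h
  have b1 : zpowers k ⊓ C1 a = ⊥ := eq_bot_iff.2 fun y hy => by
    by_contra y1
    have := h.mul_eq c.prime h.hr c.ne (mem_C1.1 hy.2)
      (h.orderOf_eq c.prime c.pg hy.1 y1).symm.dvd ho.symm.dvd
    have := c.ne2; have := c.ne; tauto
  have w := h.isPGroup_Opc c.T.syl.isPGroup c.T.nc c.T.ea.ab
  have n : Nrm (N S) (Opc 2 (C S)) := (nrm_N_C S).Opi _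
  have cp := (Nat.coprime_primes h.hr c.prime).2 c.ne.symm
  have b2 := h.le_C w (by rw [Nat.card_zpowers]; exact (Nat.Prime.coprime_iff_not_dvd h.hr).1 cp)
    (n.mono (zpowers_le.2 c.mem)) (n.le_N ha.1) ha.2 (h.odd_r ho) b1
  refine ⟨b1, ?_⟩
  have b3 : Opc 2 (C S) = ⊥ := eq_bot_iff.2 fun y hy => by
    by_contra y1
    exact c.ne ((h.orderOf_eq c.prime (h.isPGroup_C1 c.prime dvd_rfl c.ne2 c.ne)
      (C_zpowers k ▸ le_C_symm b2 hy) y1).symm.trans (h.orderOf_eq h.hr w hy y1))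
  have := c.T.sdp.sup
  rw [b3, bot_sup_eq] at this
  exact this.symm

theorem exists_cent (hK : ∀ j, j * j = 1 → j ∉ N S → ∃ y, K1 r S j y)
    (ha : a ∈ N (zpowers k)) (ho : orderOf a = r) :
    ∃ t' ∈ C1 a, t' * t' = 1 ∧ t' ∉ N S ∧ t' * k * t'⁻¹ = k⁻¹ := by
  have tN : t ∈ N (zpowers k) :=
    mem_N_of_conj fun x hx => inv_of_mem_zpowers c.inv hx ▸ inv_mem hx
  obtain ⟨y, y1, y2⟩ := exists_cent_of_comm_mem (nrm_zpowers_iff.2 ha) (by
    rw [Nat.card_zpowers, Nat.card_zpowers, ho]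
    exact (Nat.coprime_primes c.prime c.h.hr).2 c.ne) (.inl (solvable_of_ab (ab_zpowers k)))
    (x := t) fun b hb => (c.C1_eq hK).le (C_zpowers k ▸ D_le_C_of_isCyclic inferInstance (nrm_N _)
      (commutator_mem_commutator tN (zpowers_le.2 ha hb)))
  refine ⟨_, C_zpowers a ▸ y2, ?_, fun e => c.ht
    ((mul_mem_cancel_left (inv_mem (zpowers_le.2 c.mem y1))).1 e), ?_⟩
  · calc _ = y⁻¹ * (t * y * t⁻¹)⁻¹ * (t * t) := by group
      _ = 1 := by rw [inv_of_mem_zpowers c.inv y1, c.t2]; simp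
  · calc _ = y⁻¹ * (t * k * t⁻¹) * y := by group
      _ = _ := by rw [c.inv, mul_assoc, (ab_zpowers k).comm (inv_mem (mem_zpowers k)) y1]; simp

theorem invol_eq [FTthm.{u}] (hK : ∀ j, j * j = 1 → j ∉ N S → ∃ y, K1 r S j y) (hC : C S = S)
    (j2 : j * j = 1) (hj : j ∉ N S) : ∃ σ ∈ S, ∃ κ ∈ zpowers k, j = σ * κ * t * σ⁻¹ := by
  obtain ⟨y, d⟩ := hK j j2 hj
  have := Fact.mk c.prime
  obtain ⟨m, m1, m2⟩ := c.syl.conj (c.ord_eq d ▸ d.syl)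
  obtain ⟨σ, s1, n, n1, rfl⟩ := c.exists_mul m1
  rw [← cj_cj, CfsgFT.mem_N.1 n1.2] at m2
  have e := inv_of_mem_zpowers d.inv (m2.le (conj_mem_cj.2 (mem_zpowers k)))
  refine ⟨σ, hC.le s1, σ⁻¹ * j * σ * t⁻¹, (c.C1_eq hK).le (mem_C1_iff_conj.2 ?_), by group⟩
  have e2 : t⁻¹ * k * t = k⁻¹ := by rw [← c.inv, CfsgH5.inv_eq_self c.t2]
  calc _ = σ⁻¹ * j * σ * (t⁻¹ * k * t) * σ⁻¹ * j⁻¹ * σ := by group
    _ = σ⁻¹ * (j * (σ * k * σ⁻¹) * j⁻¹)⁻¹ * σ := by rw [e2]; group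
    _ = _ := by rw [e]; group

theorem braid [FTthm.{u}] (hK : ∀ j, j * j = 1 → j ∉ N S → ∃ y, K1 r S j y)
    (ha : a ∈ N S ⊓ N (zpowers k)) (ho : orderOf a = r) (hs : s ∈ S) (s1 : s ≠ 1) (h1 : a ∈ C1 s)
    (h2 : t ∈ C1 a) : t * s * t = s * t * s := by
  obtain ⟨b1, b2⟩ := c.C_eq ha ho
  have T := c.T
  have e : ∀ σ ∈ S, σ ≠ 1 → σ ∈ C1 a → σ = s := fun σ x1 x2 x3 => by
    obtain ⟨κ, y1, rfl⟩ := c.trans hs s1 x1 x2
    have := c.eq_one (mul_mem (inv_mem y1) (conj_mem_of_mem_N ha.2 y1)) hs s1 (mem_C1_iff_conj.2 (by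
      calc _ = κ⁻¹ * a * κ * (a⁻¹ * s * a⁻¹⁻¹) * κ⁻¹ * a⁻¹ * κ := by group
        _ = κ⁻¹ * (a * (κ * s * κ⁻¹) * a⁻¹) * κ := by rw [mem_C1_iff_conj.1 (inv_mem h1)]; group
        _ = s := by rw [mem_C1_iff_conj'.1 x3]; group))
    rw [mem_bot.1 (b1.le (mem_inf.2 ⟨y1, mem_C1_iff_conj'.2 (inv_mul_eq_one.1 this).symm⟩))]; simp
  have ti := CfsgH5.inv_eq_self c.t2
  obtain ⟨j, j1, j2, j3⟩ := T.exists_invol (T.conj_notMem c.ht hs s1)
  obtain ⟨σ, x1, κ, y1, rfl⟩ := c.invol_eq hK b2 j1 j2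
  obtain ⟨m, m1, m2⟩ : ∃ m ∈ N S, t * s * t = σ * t * m := by
    refine ⟨κ⁻¹ * σ⁻¹ * ((t * s * t⁻¹)⁻¹ * (σ * κ * t * σ⁻¹))⁻¹, mul_mem (mul_mem (inv_mem
      (zpowers_le.2 c.mem y1)) (inv_mem (le_N S x1))) (inv_mem j3), ?_⟩
    calc _ = σ * κ * t * σ⁻¹ * ((t * s * t⁻¹)⁻¹ * (σ * κ * t * σ⁻¹))⁻¹ := by rw [ti]; group
      _ = σ * (t * κ * t⁻¹)⁻¹ * t * σ⁻¹ * ((t * s * t⁻¹)⁻¹ * (σ * κ * t * σ⁻¹))⁻¹ := by
        rw [inv_of_mem_zpowers c.inv y1, inv_inv]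
      _ = _ := by group
  have sa : s ∈ C1 a := mem_C1_comm.1 h1
  have z1 : σ ∈ C1 a := by
    by_contra d
    refine T.conj_notMem (g := t⁻¹) (by rw [inv_mem_iff]; exact c.ht)
      (S.mul_mem (S.inv_mem x1) (conj_mem_of_mem_N ha.1 x1))
      (fun e => d (mem_C1_iff_conj'.2 (inv_mul_eq_one.1 e).symm)) ?_
    have f := mem_C1_iff_conj'.1 (mul_mem (mul_mem h2 sa) h2)
    rw [m2] at f
    have : t⁻¹ * (σ⁻¹ * (a * σ * a⁻¹)) * t⁻¹⁻¹ = m * (a * m⁻¹ * a⁻¹) := by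
      calc _ = t⁻¹ * σ⁻¹ * (a * (σ * t * m) * a⁻¹) * (a * m⁻¹ * a⁻¹) * (a * t * a⁻¹)⁻¹ * t := by group
        _ = _ := by rw [f, mem_C1_iff_conj'.1 h2]; group
    rw [this]
    exact mul_mem m1 (mul_mem (mul_mem ha.1 (inv_mem m1)) (inv_mem ha.1))
  have z2 : σ = s := e σ x1 (fun d => c.ht (by
    rw [d, one_mul, mul_assoc, mul_right_inj] at m2
    exact (mul_mem_cancel_left (le_N S hs)).1 (m2 ▸ m1))) z1
  have si := CfsgH5.inv_eq_self (T.sq hs)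
  have z4 : m = t * s * t * (t * s)⁻¹ := by
    calc m = t⁻¹ * σ⁻¹ * (σ * t * m) := by group
      _ = _ := by rw [← m2, z2, mul_inv_rev, ti, si]; group
  rw [m2, z2, e m (T.mem_of_sq m1 (z4 ▸ sq_conj c.t2 _))
    (z4 ▸ CfsgFT.conj_ne_one fun e => c.ht (by rw [e]; exact one_mem _))
    (z4 ▸ mul_mem (mul_mem (mul_mem h2 sa) h2) (inv_mem (mul_mem h2 sa)))]

theorem false_of_braid [FTthm.{u}] [IsSimpleGroup G]
    (hK : ∀ j, j * j = 1 → j ∉ N S → ∃ y, K1 r S j y) (hC : C S = S) (ha : a ∈ N S) (hs : s ∈ S)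
    (s1 : s ≠ 1) (h1 : a ∈ C1 s) (h2 : t * s * t = s * t * s) : a ∈ S := by
  have n := nrm_zpowers_iff.2 c.mem
  have ti := CfsgH5.inv_eq_self c.t2
  have lS : S ≤ S ⊔ zpowers k := le_sup_left
  have lK : zpowers k ≤ S ⊔ zpowers k := le_sup_right
  have lB : S ⊔ zpowers k ≤ N S := sup_le (le_N S) (zpowers_le.2 c.mem)
  have eB := fun g => mem_sup_nrm' n (g := g)
  generalize S ⊔ zpowers k = B at lS lK lB eB
  let P : G → Prop := fun g => g ∈ B ∨ ∃ b ∈ B, ∃ d ∈ B, g = b * t * d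
  have p1 : ∀ b ∈ B, ∀ g, P g → P (b * g) := by
    rintro b hb g (e | ⟨x, x1, y, y1, rfl⟩)
    · exact .inl (mul_mem hb e)
    · exact .inr ⟨b * x, mul_mem hb x1, y, y1, by group⟩
  have p2 : ∀ g, P g → P (t * g) := by
    rintro g (e | ⟨x, x1, y, y1, rfl⟩)
    · exact .inr ⟨1, one_mem _, g, e, by group⟩
    obtain ⟨σ, z1, κ, z2, rfl⟩ := (eB x).1 x1
    have e : t * (σ * κ * t * y) = t * σ * t * (κ⁻¹ * y) := by
      rw [← inv_of_mem_zpowers c.inv z2, ti]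
      calc _ = t * σ * (t * t) * κ * t * y := by rw [c.t2]; group
        _ = _ := by group
    have e2 : κ⁻¹ * y ∈ B := mul_mem (inv_mem (lK z2)) y1
    rw [e]
    by_cases d : σ = 1
    · rw [d, mul_one, c.t2, one_mul]; exact .inl e2
    obtain ⟨w, w1, rfl⟩ := c.trans hs s1 z1 d
    refine .inr ⟨w⁻¹ * s, mul_mem (inv_mem (lK w1)) (lS hs), s * w * (κ⁻¹ * y),
      mul_mem (mul_mem (lS hs) (lK w1)) e2, ?_⟩
    calc _ = t * w * t⁻¹ * (t * s * t) * (t * t)⁻¹ * (t * w * t⁻¹)⁻¹ * (t * t) * (κ⁻¹ * y) := by group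
      _ = _ := by rw [h2, inv_of_mem_zpowers c.inv w1, c.t2]; group
  have top : closure {j : G | j * j = 1} = ⊤ := by
    refine (IsSimpleGroup.eq_bot_or_eq_top_of_normal _ ⟨fun x hx g => ?_⟩).resolve_left fun e =>
      s1 (mem_bot.1 (e ▸ subset_closure (c.T.sq hs)))
    induction hx using closure_induction with
    | mem x hx => exact subset_closure (sq_conj hx g)
    | one => simp
    | mul x y _ _ a b => convert mul_mem a b using 1; group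
    | inv x _ a => convert inv_mem a using 1; group
  have p3 : ∀ j : G, j * j = 1 → ∀ g, P g → P (j * g) := fun j j2 g hg => by
    by_cases d : j ∈ N S
    · exact p1 j (lS (c.T.mem_of_sq d j2)) g hg
    obtain ⟨σ, x1, κ, y1, rfl⟩ := c.invol_eq hK hC j2 d
    have := p1 _ (mul_mem (lS x1) (lK y1)) _ (p2 _ (p1 _ (inv_mem (lS x1)) g hg))
    rwa [← mul_assoc, ← mul_assoc] at this
  have p4 : ∀ g ∈ closure {j : G | j * j = 1}, P g := fun g hg => by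
    induction hg using closure_induction_left with
    | one => exact .inl (one_mem _)
    | mul_left x hx y _ b => exact p3 x hx y b
    | inv_mul_cancel x hx y _ b => rw [CfsgH5.inv_eq_self hx]; exact p3 x hx y b
  rcases p4 a (top ▸ mem_top a) with e | ⟨x, x1, y, y1, rfl⟩
  · obtain ⟨σ, z1, κ, z2, rfl⟩ := (eB a).1 e
    rwa [c.eq_one z2 hs s1 ((mul_mem_cancel_left (C_le_C1 hs (c.T.ea.ab z1))).1 h1), mul_one]
  · exact absurd ((mul_mem_cancel_left (lB x1)).1 ((mul_mem_cancel_right (lB y1)).1 ha)) c.ht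

end K1

theorem TI2.false [FTthm.{u}] [IsSimpleGroup G] (T : TI2 S) (h : Sp r G)
    (hns : ¬ Group.IsSolvable G) (hx : orderOf x = 2 * r) : False := by
  have hN : ∃ g, g ∉ N S := by
    by_contra d
    push Not at d
    obtain ⟨s, hs, s1, -⟩ := T.exists_ne
    rcases IsSimpleGroup.eq_bot_or_eq_top_of_normal S
      (Nrm.normal_of_top (nrm_of_le_N fun g _ => d g)) with e | e
    · exact s1 (mem_bot.1 (e ▸ hs))
    · exact hns (Group.isSolvable_of_comm fun a b => T.ea.1 a (e ▸ mem_top a) b (e ▸ mem_top b))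
  obtain ⟨g, hg⟩ := hN
  obtain ⟨t, t2, ht, -⟩ := T.exists_invol hg
  by_cases hq : r + 1 = Nat.card S
  · exact T.not_K2 h hq (fun j j2 hj => ((T.dich h j2 hj).resolve_left
      fun ⟨k, _, _, _, a, b, _⟩ => a (by omega)).1) t2 ht hx
  have hK : ∀ j, j * j = 1 → j ∉ N S → ∃ y, K1 r S j y := fun j j2 hj =>
    let ⟨k, a1, a2, a3, a4, a5, a6, a7⟩ := (T.dich h j2 hj).resolve_right fun e => hq e.2
    ⟨k, T, h, j2, hj, a1, a2, a3, a4, a5, a6, a7⟩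
  obtain ⟨k, c⟩ := hK t t2 ht
  by_cases hc : ∀ s ∈ S, s ≠ 1 → C1 s ≤ C S
  · have cit := cit_of_cn (c.cn hc) hns fun _ _ _ hZ => Cfsg.Agent.S0346.result hZ
    have := cit (x ^ r) (by rw [orderOf_pow' _ h.hr.ne_zero, hx]; simp [h.hr.ne_zero])
    refine h.not_dvd_two this (Dvd.dvd.trans ⟨2, by rw [hx, mul_comm]⟩
      (orderOf_dvd_card' (C1_le_C1_pow x r (self_mem_C1 x))))
  push Not at hc
  obtain ⟨s, hs, s1, d⟩ := hc
  obtain ⟨y, y1, y2⟩ := SetLike.not_le_iff_exists.1 d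
  obtain ⟨w, w1, a, a1, rfl⟩ := c.exists_mul (T.cent s hs s1 y1)
  have a2 : a ∈ C1 s := (mul_mem_cancel_left (C_le_C1 hs w1)).1 y1
  have a3 : a ∉ C S := fun e => y2 (mul_mem w1 e)
  have a4 := h.ord_r (T.ord hs s1) a2 (fun e => a3 (e ▸ one_mem _)) (c.odd_N a1.1 a1.2)
  obtain ⟨t', b1, b2, b3, b4⟩ := c.exists_cent hK a1.2 a4
  obtain ⟨k', c'⟩ := hK t' b2 b3
  rw [← c.syl.eq_of_le (zpowers_le.2 c'.mem) (c.ord_eq c' ▸ c'.pg)
    (zpowers_le.2 (c'.all k c.mem b4))] at a1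
  exact a3 (T.ea.ab (c'.false_of_braid hK (c'.C_eq a1 a4).2 a1.1 hs s1 a2
    (c'.braid hK a1 a4 hs s1 a2 b1)))

end CfsgH6
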