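import Cfsg.Agent.H6.OC3
import Cfsg.Agent.H5.BSA2

set_option autoImplicit false
set_option linter.unusedSectionVars false

/-! Simple groups whose only composite element order is `2 r` are `PSL₂(q)`. -/

namespace CfsgH6

open Subgroup CfsgH5 CfsgFT CfsgSZ CfsgH7
open scoped commutatorElement MatrixGroups

universe u

variable {G : Type u} [Group G] [Finite G] {r p : ℕ} {S X Y H A R R1 R2 : Subgroup G}
  {g x y z a b s t k j u : G}

theorem four_cases (hS : ElAb 2 S) (h4 : Nat.card S ≤ 4) (ha : a ∈ S) (a1 : a ≠ 1) (hb : b ∈ S)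
    (b1 : b ≠ 1) (hab : a ≠ b) (hy : y ∈ S) : y = 1 ∨ y = a ∨ y = b ∨ y = a * b := by
  classical
  by_contra c
  push Not at c
  have e : a * b ≠ 1 := fun e => hab (by
    rw [eq_inv_of_mul_eq_one_left e, CfsgH5.inv_eq_self (by rw [← sq]; exact hS.2 b hb)])
  have : ({y, 1, a, b, a * b} : Set G).ncard ≤ 4 := (Set.ncard_le_ncard (t := S) (by
    simp [Set.insert_subset_iff, hy, ha, hb, S.mul_mem ha hb]) (Set.toFinite _)).trans
      (by rwa [← Nat.card_coe_set_eq])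
  rw [Set.ncard_insert_of_notMem (by simp [c]), Set.ncard_insert_of_notMem
    (by simp [a1.symm, b1.symm, e.symm]), Set.ncard_insert_of_notMem (by simp [hab, b1]),
    Set.ncard_pair (by simp [a1])] at this
  omega

theorem D_top_of_simple [IsSimpleGroup G] (hns : ¬ Group.IsSolvable G) : D (⊤ : Subgroup G) = ⊤ :=
  (IsSimpleGroup.eq_bot_or_eq_top_of_normal _ (normalIn_D ⊤).nrm.normal_of_top).resolve_left
    fun e => hns (Group.isSolvable_of_comm fun _ _ => (D_eq_bot.1 e).comm trivial trivial)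

theorem not_pNil_of_simple [IsSimpleGroup G] (hns : ¬ Group.IsSolvable G) (hp : p.Prime)
    (h : p ∣ Nat.card G) : ¬ PNil p (⊤ : Subgroup G) := fun h' => by
  rcases IsSimpleGroup.eq_bot_or_eq_top_of_normal _
    (nrm_Opc p (⊤ : Subgroup G)).normal_of_top with e | e
  · have := (h'.hall hp).piN
    rw [e, relIndex_bot_left] at this
    have := solvable_of_nilpotent
      (nilpotent_of_isPGroup hp ((piG_single hp).mp (piN_compl_compl.mp this)))
    exact hns (Group.isSolvable_of_surjective (f := (⊤ : Subgroup G).subtype) fun x => ⟨⟨x, trivial⟩, rfl⟩)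
  · exact (Opc_eq_self hp).mp e (by rwa [card_top])

namespace Sp
variable [FTthm.{u}] (h : Sp r G) (hS : SylIn 2 S ⊤) (hc : ¬ IsCyclic S)
include h hS hc

theorem Opc_le_max (hH : S ≤ H) (hs : Group.IsSolvable H) (h1 : MaxInv ⊤ S {r} R)
    (h2 : R ⊓ H ≠ ⊥) : Opc 2 H ≤ R := by
  obtain ⟨R3, r1, r2⟩ := exists_maxInv_ge h.hr (h.isPGroup_Opc hS.isPGroup hc hH)
    ((nrm_Opc 2 _).mono hH)
  rwa [h.max_eq hS hc h1 r2 (ne_bot_of_le_ne_bot h2 (le_inf inf_le_left ((h.le_Opc hS hH hs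
    inf_le_right ((h1.isPGroup h.hr).to_le inf_le_left) (h1.nrm.inf ((Nrm.self H).mono hH))).trans r1)))]

theorem eq_of_C1 (h1 : MaxInv ⊤ S {r} R1) (h2 : MaxInv ⊤ S {r} R2) (ha : a ∈ S) (a1 : a ≠ 1)
    (b1 : R1 ⊓ C1 a ≠ ⊥) (b2 : R2 ⊓ C1 a ≠ ⊥) : R1 = R2 := by
  have s1 := h.le_C1_of_mem hS.isPGroup ha
  have s2 := h.solvable_C1' hS.isPGroup ha a1
  exact h.max_eq hS hc h1 h2 (ne_bot_of_le_ne_bot b1 (le_inf inf_le_left ((h.le_Opc hS s1 s2
    inf_le_right ((h1.isPGroup h.hr).to_le inf_le_left) (h1.nrm.inf ((Nrm.self _).mono s1))).trans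
      (h.Opc_le_max hS hc s1 s2 h2 b2))))

theorem cop (h1 : MaxInv ⊤ S {r} R) : (Nat.card R).Coprime (Nat.card S) :=
  (coprime_of_isPGroup_of_not_dvd Nat.prime_two hS.isPGroup (h.not_two_dvd (h1.isPGroup h.hr))).symm

theorem card_le_four (h1 : MaxInv ⊤ S {r} R1) (h2 : MaxInv ⊤ S {r} R2) (hne : R1 ≠ R2)
    (n1 : R1 ≠ ⊥) (n2 : R2 ≠ ⊥) : Nat.card S ≤ 4 := by
  have ea := h.elAb hS.isPGroup
  have key : ∀ R, MaxInv ⊤ S {r} R → R ≠ ⊥ → ∃ B ≤ S, B.relIndex S ≤ 2 ∧ R ⊓ C B ≠ ⊥ :=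
    fun R a b => by
    obtain ⟨B, b1, b2, b3⟩ := exists_inf_C_ne_bot ea.ab a.nrm (h.cop hS hc a) b
    exact ⟨B, b1, card_quo (ea.ab.nrm b1) ▸ Nat.le_of_dvd two_pos
      ((ea.img _).card_dvd_of_isCyclic b2), b3⟩
  obtain ⟨B1, a1, a2, a3⟩ := key R1 h1 n1
  obtain ⟨B2, b1, b2, b3⟩ := key R2 h2 n2
  have e : B1 ⊓ B2 = ⊥ := eq_bot_iff.2 fun a ha => by
    by_contra c
    exact hne (h.eq_of_C1 hS hc h1 h2 (a1 ha.1) c
      (ne_bot_of_le_ne_bot a3 (inf_le_inf_left _ (C_le_C1 ha.1)))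
      (ne_bot_of_le_ne_bot b3 (inf_le_inf_left _ (C_le_C1 ha.2))))
  have := relIndex_inf_le (H := B1) (K := B2) (L := S)
  rw [e, relIndex_bot_left] at this
  nlinarith

theorem C_eq (h1 : MaxInv ⊤ S {r} R1) (h2 : MaxInv ⊤ S {r} R2) (hne : R1 ≠ R2)
    (n1 : R1 ≠ ⊥) (n2 : R2 ≠ ⊥) : C S = S := by
  have ea := h.elAb hS.isPGroup
  have e := ((hS.of_le ea.ab le_top).sdp_of_le_C Nat.prime_two inf_le_left).sup
  by_cases c : Opc 2 (C S) = ⊥
  · rw [c, bot_sup_eq] at e; exact e.symm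
  have key : ∀ R, MaxInv ⊤ S {r} R → R ≠ ⊥ → Opc 2 (C S) ≤ R := fun R a b => by
    obtain ⟨s, s1, s2, s3⟩ := exists_inf_C1_ne_bot ea.ab hc a.nrm (h.cop hS hc a) b
    have s4 := h.le_C1_of_mem hS.isPGroup s1
    have s5 := h.solvable_C1' hS.isPGroup s1 s2
    exact (h.le_Opc hS s4 s5 ((Opc_le _ _).trans (C_le_C1 s1))
      (h.isPGroup_Opc hS.isPGroup hc ea.ab) ((nrm_Opc _ _).mono ea.ab)).trans
      (h.Opc_le_max hS hc s4 s5 a s3)
  exact absurd (h.max_eq hS hc h1 h2 (ne_bot_of_le_ne_bot c (le_inf (key _ h1 n1) (key _ h2 n2)))) hne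

theorem trans4 (h4 : Nat.card S ≤ 4) (hn : ¬ PNil 2 (⊤ : Subgroup G)) (ha : a ∈ S) (a1 : a ≠ 1)
    (hb : b ∈ S) (b1 : b ≠ 1) : ∃ g ∈ N S, b = g * a * g⁻¹ := by
  have ea := h.elAb hS.isPGroup
  obtain ⟨s, hs, s2⟩ : ∃ s ∈ S, ¬ N S ≤ C1 s := by
    by_contra c
    push Not at c
    exact hn (hS.pNil_of_le_C Nat.prime_two (inf_le_right.trans
      (le_C_symm fun s hs => le_C1_iff.1 (c s hs))))
  have s1 : s ≠ 1 := fun e => s2 (by rw [e, C1_one]; exact le_top)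
  have e1 : (C1 s).relIndex (N S) ≤ Nat.card S - 1 := by
    rw [← ncard_clSupp_single, ← ncard_sharp]
    refine Set.ncard_le_ncard ?_ (Set.toFinite _)
    rintro _ ⟨_, rfl, g, hg, rfl⟩
    exact ⟨conj_mem_of_mem_N hg hs, CfsgFT.conj_ne_one s1⟩
  have e2 : ¬ 2 ∣ (C1 s).relIndex (N S) := fun d => (hS.of_le (le_N S) le_top).not_dvd_relIndex
    (d.trans (relIndex_dvd_of_le_left _ (h.le_C1_of_mem hS.isPGroup hs)))
  have e3 : (C1 s).relIndex (N S) ≠ 1 := fun e => s2 (relIndex_eq_one.1 e)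
  have t := (trans_iff (nrm_N S) hs s1).2 (by omega)
  obtain ⟨g, g1, rfl⟩ := t a ha a1
  obtain ⟨k, k1, rfl⟩ := t b hb b1
  exact ⟨k * g⁻¹, mul_mem k1 (inv_mem g1), by group⟩

theorem psl2_of_ne (hn : ¬ PNil 2 (⊤ : Subgroup G)) (h1 : MaxInv ⊤ S {r} R)
    (h2 : MaxInv ⊤ S {r} R2) (hne : R ≠ R2) : ∃ (F : Type) (_ : Field F) (_ : Fintype F),
      Odd (Fintype.card F) ∧ 11 ≤ Fintype.card F ∧ Nonempty (G ≃* PSL(2, F)) := by
  have ea := h.elAb hS.isPGroup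
  have n1 : R ≠ ⊥ := fun e => hne (e.trans ((e ▸ h1).eq_bot h2.inv).symm)
  have n2 : R2 ≠ ⊥ := fun e => hne (((e ▸ h2).eq_bot h1.inv).trans e.symm)
  have h4 := h.card_le_four hS hc h1 h2 hne n1 n2
  have hC := h.C_eq hS hc h1 h2 hne n1 n2
  have pR := h1.isPGroup h.hr
  have sq : ∀ {s}, s ∈ S → s * s = 1 := fun hs => by rw [← _root_.sq]; exact ea.2 _ hs
  obtain ⟨a, ha, a1, a2⟩ := exists_inf_C1_ne_bot ea.ab hc h1.nrm (h.cop hS hc h1) n1
  have k1 : ∀ b ∈ S, b ≠ 1 → b ≠ a → R ⊓ C1 b = ⊥ := fun b hb b1 b2 => by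
    by_contra b3
    obtain ⟨d, hd, d1, d2⟩ := exists_inf_C1_ne_bot ea.ab hc h2.nrm (h.cop hS hc h2) n2
    have q : ∀ e ∈ S, e ≠ 1 → R2 ⊓ C1 e ≠ ⊥ → e = a * b := fun e e1 e2 e3 => by
      rcases four_cases ea h4 ha a1 hb b1 b2.symm e1 with c | c | c | c
      · exact absurd c e2
      · exact absurd (h.eq_of_C1 hS hc h1 h2 ha a1 a2 (c ▸ e3)) hne
      · exact absurd (h.eq_of_C1 hS hc h1 h2 hb b1 b3 (c ▸ e3)) hne
      · exact c
    obtain ⟨n, m1, m2⟩ := h.trans4 hS hc h4 hn ha a1 hd d1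
    have w : ∀ e, R ⊓ C1 e ≠ ⊥ → cj n R ⊓ C1 (n * e * n⁻¹) ≠ ⊥ := fun e e1 e2 => e1 (by
      rwa [← cj_C1, ← cj_inf, cj_eq_bot] at e2)
    have e := h.eq_of_C1 hS hc (h1.cj_N m1) h2 hd d1 (m2 ▸ w a a2) d2
    have := (q _ (conj_mem_of_mem_N m1 hb) (CfsgFT.conj_ne_one b1) (e ▸ w b b3)).trans
      (q d hd d1 d2).symm
    rw [m2] at this
    exact b2 (by simpa using this)
  have k2 : ∀ b ∈ S, b ≠ 1 → b ≠ a → ∀ x ∈ R, b * x * b⁻¹ = x⁻¹ := fun b hb b1 b2 =>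
    inverts_of_fpf (sq hb) (h1.nrm b hb) fun x hx e =>
      mem_bot.1 ((k1 b hb b1 b2).le (mem_inf.2 ⟨hx, mem_C1.2 e.symm⟩))
  obtain ⟨b, hb, b1, b2⟩ : ∃ b ∈ S, b ≠ 1 ∧ b ≠ a := by
    by_contra c
    push Not at c
    refine hc ((le_antisymm (fun y hy => ?_) (zpowers_le.2 ha) : S = zpowers a) ▸ inferInstance)
    by_cases y1 : y = 1
    · exact y1 ▸ one_mem _
    · exact c y hy y1 ▸ mem_zpowers _
  have ab1 : a * b ≠ 1 := fun e => b2 (by
    rw [eq_inv_of_mul_eq_one_right e, CfsgH5.inv_eq_self (sq ha)])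
  have k3 : R ≤ C1 a := fun x hx => mem_C1_iff_conj'.2 (by
    have := k2 _ (S.mul_mem ha hb) ab1 (by simpa using b1) _ (R.inv_mem hx)
    rw [inv_inv] at this
    nth_rewrite 1 [← inv_inv x, ← k2 b hb b1 b2 _ (R.inv_mem hx)]
    exact Eq.trans (by group) this)
  have abR : Ab R := ab_iff.2 (comm_of_inverts (k2 b hb b1 b2))
  have k4 : C1 a ⊓ N S ≤ S := fun g hg => by
    have c1 := mem_C1_iff_conj.1 hg.1
    have key : ∀ g : G, g * a * g⁻¹ = a → g * b * g⁻¹ = b → g ∈ S := fun g c1 c2 =>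
      hC.le fun y hy => by
        rcases four_cases ea h4 ha a1 hb b1 b2.symm hy with rfl | rfl | rfl | rfl
        · simp
        · exact (mul_inv_eq_iff_eq_mul.1 c1).symm
        · exact (mul_inv_eq_iff_eq_mul.1 c2).symm
        · rw [mul_assoc, ← mul_inv_eq_iff_eq_mul.1 c2, ← mul_assoc, ← mul_inv_eq_iff_eq_mul.1 c1,
            mul_assoc]
    rcases four_cases ea h4 ha a1 hb b1 b2.symm (conj_mem_of_mem_N hg.2 hb) with c | c | c | c
    · exact absurd c (CfsgFT.conj_ne_one b1)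
    · exact absurd (by simpa using c.trans c1.symm) b2
    · exact key g c1 c
    · have := key (g * g) (mem_C1_iff_conj.1 (mul_mem hg.1 hg.1)) (by
        calc _ = g * (g * b * g⁻¹) * g⁻¹ := by group
          _ = g * a * g⁻¹ * (g * b * g⁻¹) := by nth_rewrite 1 [c]; group
          _ = b := by rw [c1, c, ← mul_assoc, sq ha, one_mul])
      exact hS.le_of_nrm' Nat.prime_two le_top (isPGroup_zpowers (k := 2) (by
        rw [← sq this]; simp [pow_succ, mul_assoc])) (nrm_zpowers_iff.2 hg.2) (mem_zpowers g)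
  have k5 : ∀ H, S ≤ H → Group.IsSolvable H → R ⊓ H ≠ ⊥ → H ≤ R ⊔ (H ⊓ N S) := fun H s1 s2 s3 => by
    nth_rewrite 1 [← h.frattini hS s1 s2]
    exact sup_le_sup_right (h.Opc_le_max hS hc s1 s2 h1 s3) _
  have nK : Nrm (zpowers a) R := h1.nrm.mono (zpowers_le.2 ha)
  have eK : ∀ {g}, g ∈ R ⊔ zpowers a → g ∈ R ∨ ∃ x ∈ R, g = x * a := fun hg => by
    obtain ⟨x, x1, y, y1, rfl⟩ := (mem_sup_nrm' nK).1 hg
    rcases eq_or_ne y 1 with rfl | y2
    · exact .inl (by simpa using x1)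
    · exact .inr ⟨x, x1, by rw [invol_unique y1 (sq (zpowers_le.2 ha y1)) y2 (mem_zpowers a) (sq ha) a1]⟩
  have oR : ∀ x ∈ R, x * x = 1 → x = 1 := fun x hx e => eq_one_of_odd
    ((Nat.odd_iff.2 (by have := h.not_two_dvd pR; omega)).of_dvd_nat (orderOf_dvd_card' hx)) e
  have sqa : ∀ x ∈ R, x * a * (x * a) = x * x := fun x hx => by
    rw [mul_assoc, ← mul_assoc a, ← mem_C1.1 (k3 hx), mul_assoc, sq ha, mul_one]
  have ez : ∀ {s : G}, s ∈ R ⊔ zpowers a → s * s = 1 → s ≠ 1 → s = a := fun hs s2 s1 => by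
    rcases eK hs with c | ⟨x, x1, rfl⟩
    · exact absurd (oR _ c s2) s1
    · rw [oR x x1 ((sqa x x1).symm.trans s2), one_mul]
  have aK : a ∈ R ⊔ zpowers a := mem_sup_right (mem_zpowers a)
  have k6 : ∀ x ∈ R, x ≠ 1 → C1 x ≤ C1 a := fun x hx x1 => by
    have n : Nrm S (zpowers x) := fun y hy z hz => by
      have z1 := zpowers_le.2 hx hz
      by_cases y1 : y = 1
      · simpa [y1] using hz
      by_cases y2 : y = a
      · rwa [y2, mem_C1_iff_conj'.1 (k3 z1)]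
      · exact k2 y hy y1 y2 z z1 ▸ inv_mem hz
    refine (C_zpowers x ▸ C_le_N (zpowers x)).trans ((k5 _ n.le_N (h.solvable_N hS
      (pR.to_le (zpowers_le.2 hx)) n (by simpa using x1)) fun e => x1 (mem_bot.1 (e ▸ mem_inf.2
        ⟨hx, le_N _ (mem_zpowers x)⟩))).trans (sup_le k3 fun g hg => mem_C1_iff_conj.2 ?_))
    by_contra c
    refine x1 (mem_bot.1 ((k1 _ (conj_mem_of_mem_N hg.2 ha) (CfsgFT.conj_ne_one a1) c).le
      (mem_inf.2 ⟨hx, ?_⟩)))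
    rw [← cj_C1]
    exact cj_mono (zpowers_le.2 (k3 hx)) ((CfsgFT.mem_N.1 hg.1).ge (mem_zpowers x))
  obtain ⟨o, o1, o2⟩ := R.bot_or_exists_ne_one.resolve_left n1
  have B : BSA (R ⊔ zpowers a) a b := by
    refine ⟨aK, sq ha, a1, ez, fun hx hy => (abR.sup (ab_zpowers a) (C_zpowers a ▸ k3)).comm hx hy,
      ⟨o, mem_sup_left o1, o2, h.odd_r (h.orderOf_eq h.hr pR o1 o2)⟩, sq hb, fun {t} ht => ?_,
      fun c => b2 (ez c (sq hb) b1), fun t ht t1 g hg => ?_, fun u u2 u1 => ?_⟩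
    · rcases eK ht with c | ⟨x, x1, rfl⟩
      · exact k2 b hb b1 b2 t c
      · calc _ = b * x * b⁻¹ * (b * a * b⁻¹) := by group
          _ = _ := by
            rw [k2 b hb b1 b2 x x1, ea.1 b hb a ha, mul_inv_cancel_right, mem_C1.1 (k3 x1),
              mul_inv_rev, CfsgH5.inv_eq_self (sq ha)]
    · have g1 : g ∈ C1 a := by
        rcases eK ht with c | ⟨x, x1, rfl⟩
        · exact k6 t c t1 (mem_C1.2 hg)
        by_cases x2 : x = 1
        · exact mem_C1.2 (by simpa [x2] using hg)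
        refine k6 (x * x) (R.mul_mem x1 x1) (fun e => x2 (oR x x1 e)) ?_
        rw [← sqa x x1, ← _root_.sq]
        exact C1_le_C1_pow _ 2 (mem_C1.2 hg)
      obtain ⟨x, x1, y, y1, rfl⟩ := (mem_sup_nrm' h1.nrm).1 ((k5 _ (h.le_C1_of_mem hS.isPGroup ha)
        (h.solvable_C1' hS.isPGroup ha a1) a2).trans (sup_le_sup_left k4 _) g1)
      have x2 : x ∈ R ⊔ zpowers a := mem_sup_left x1
      rcases four_cases ea h4 ha a1 hb b1 b2.symm y1 with c | c | c | c <;> rw [c]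
      · exact .inl (by simpa using x2)
      · exact .inl (mul_mem x2 aK)
      · exact .inr (by rwa [mul_assoc, sq hb, mul_one])
      · exact .inr (by rw [mul_assoc, mul_assoc, sq hb, mul_one]; exact mul_mem x2 aK)
    · obtain ⟨g, hg⟩ := exists_conj_mem hS u2
      obtain ⟨n, -, e⟩ := h.trans4 hS hc h4 hn ha a1 hg
        (by simpa using CfsgFT.conj_ne_one (g := g⁻¹) u1)
      exact isConj_iff.2 ⟨g * n, by
        calc _ = g * (n * a * n⁻¹) * g⁻¹ := by group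
          _ = u := by rw [← e]; group⟩
  obtain ⟨-, F, i1, i2, e1, e2⟩ := B.psl2
  have d1 : 2 * r ∣ Nat.card ↥(R ⊔ zpowers a) := Nat.Coprime.mul_dvd_of_dvd_of_dvd
    ((Nat.coprime_primes Nat.prime_two h.hr).2 h.ne2.symm)
    (ea.orderOf_eq Nat.prime_two ha a1 ▸ orderOf_dvd_card' aK)
    (h.orderOf_eq h.hr pR o1 o2 ▸ orderOf_dvd_card' (mem_sup_left o1))
  have d2 := Nat.le_of_dvd (card_pos _) d1
  have := h.hr.two_le
  have := h.ne2
  exact ⟨F, i1, i2, Nat.odd_iff.2 (by omega), by omega, e2⟩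

end Sp

/-- a simple group whose only composite element order is `2 r` -/
theorem Sp.psl2 [FTthm.{u}] [IsSimpleGroup G] (h : Sp r G) (hns : ¬ Group.IsSolvable G)
    (hx : orderOf x = 2 * r) : ∃ (F : Type) (_ : Field F) (_ : Fintype F),
      Odd (Fintype.card F) ∧ 11 ≤ Fintype.card F ∧ Nonempty (G ≃* PSL(2, F)) := by
  obtain ⟨S, hS⟩ := exists_sylIn 2 (⊤ : Subgroup G)
  have hn := not_pNil_of_simple hns Nat.prime_two (two_dvd_of_not_solvable hns)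
  have hc : ¬ IsCyclic S := fun c =>
    hn (hS.pNil_of_isCyclic_of_min Nat.prime_two c fun q hq _ => hq.two_le)
  obtain ⟨W, hW⟩ := exists_maxInv ⊤ S {r}
  by_cases hu : ∀ R, MaxInv ⊤ S {r} R → R = W
  · exact (TI2.false ⟨hS, h.elAb hS.isPGroup, hc, fun a ha a1 =>
      h.C1_le_N hS hc (D_top_of_simple hns) hW hu ha a1⟩ h hns hx).elim
  push Not at hu
  obtain ⟨R, r1, r2⟩ := hu
  exact h.psl2_of_ne hS hc hn r1 hW r2

end CfsgH6
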