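import Cfsg.Agent.H6.OC4
import Cfsg.Agent.H6.CITSimple
import Cfsg.Agent.H2.SzRec
import Cfsg.Agent.H2.SzTori
import Cfsg.Agent.H2.SzIso
import Cfsg.Agent.FT.Main

set_option autoImplicit false
set_option linter.unusedSectionVars false

/-! Simple groups with at most one composite element order. -/

namespace CfsgH6

open Subgroup CfsgH5 CfsgSZ CfsgH7 Cfsg Matrix
open scoped MatrixGroups

universe u

variable {G : Type u} [Group G] [Finite G] {a b p : ℕ}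

/-- `n` is an element order -/
def Ord (G : Type*) [Group G] (n : ℕ) : Prop := ∃ x : G, orderOf x = n

/-- at most one element order is composite -/
def OneC (G : Type*) [Group G] : Prop :=
  ∀ d e, Ord G d → Ord G e → 1 < d → ¬ d.Prime → 1 < e → ¬ e.Prime → d = e

theorem Ord.dvd (h : Ord G a) (hd : b ∣ a) : Ord G b :=
  let ⟨x, hx⟩ := h
  exists_orderOf_of_dvd' x (hx ▸ hd)

theorem ord_of_prime (hp : p.Prime) (h : p ∣ Nat.card G) : Ord G p :=
  have := Fact.mk hp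
  exists_prime_orderOf_dvd_card' p h

theorem OneC.prime_mul (h : OneC G) (h1 : Ord G (a * b)) (ha : 1 < a) (hb : 1 < b) : b.Prime := by
  by_contra c
  have := h _ _ h1 (h1.dvd (Dvd.intro_left a rfl)) (by nlinarith)
    (Nat.not_prime_mul ha.ne' hb.ne') hb c
  nlinarith

theorem OneC.prime_of_ne (h : OneC G) {c : ℕ} (h1 : Ord G (a * b)) (ha : 1 < a) (hb : 1 < b)
    (h2 : Ord G c) (hc : 1 < c) (hne : a * b ≠ c) : c.Prime := by
  by_contra d
  exact hne (h _ _ h1 h2 (by nlinarith) (Nat.not_prime_mul ha.ne' hb.ne') hc d)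

/-- the possible field orders -/
def Tgt (q : ℕ) : Prop := q = 4 ∨ (q = 5 ∨ q = 7 ∨ q = 8 ∨ q = 9 ∨ q = 11 ∨ q = 13 ∨ q = 16) ∨
  (∃ n r s : ℕ, r.Prime ∧ s.Prime ∧ 3 ^ n - 1 = 2 * r ∧ 3 ^ n + 1 = 4 * s ∧ q = 3 ^ n) ∨
  ∃ n r : ℕ, (2 ^ n - 1).Prime ∧ r.Prime ∧ 2 ^ n + 1 = 3 * r ∧ q = 2 ^ n

theorem eq_three {s : ℕ} (hs : s.Prime) (h : s % 3 = 0) : s = 3 :=
  ((Nat.prime_dvd_prime_iff_eq Nat.prime_three hs).1 (by omega)).symm

theorem three_pow_mod (n : ℕ) : 3 ^ n % 8 = 1 ∨ 3 ^ n % 8 = 3 := by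
  induction n with
  | zero => simp
  | succ n ih => rw [pow_succ]; omega

theorem OneC.tgt_odd (h : OneC G) {q : ℕ} (h4 : 4 ≤ q) (ho : Odd q) (h3 : 3 ∣ q → ∃ n, q = 3 ^ n)
    (h1 : Ord G ((q - 1) / 2)) (h2 : Ord G ((q + 1) / 2)) : Tgt q := by
  rw [Nat.odd_iff] at ho
  by_cases q5 : q = 5
  · simp [Tgt, q5]
  obtain ⟨s, rfl | e⟩ : ∃ s, q = 4 * s + 1 ∨ q + 1 = 4 * s :=
    ⟨(q + 1) / 4, by omega⟩
  · rw [show (4 * s + 1 - 1) / 2 = 2 * s by omega] at h1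
    have a := h.prime_mul h1 one_lt_two (by omega)
    have b := h.prime_of_ne h1 one_lt_two (by omega) h2 (by omega) (by omega)
    rcases (by omega : s % 3 = 0 ∨ s % 3 = 1 ∨ s % 3 = 2) with c | c | c
    · simp [Tgt, eq_three a c]
    · have := eq_three b (by omega); omega
    · obtain ⟨n, hn⟩ := h3 (by omega)
      have := three_pow_mod n
      have := (Nat.prime_dvd_prime_iff_eq Nat.prime_two a).1 (by omega)
      simp [Tgt, ← this]
  · rw [show (q + 1) / 2 = 2 * s by omega] at h2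
    have a := h.prime_mul h2 one_lt_two (by omega)
    have b := h.prime_of_ne h2 one_lt_two (by omega) h1 (by omega) (by omega)
    rcases (by omega : s % 3 = 0 ∨ s % 3 = 1 ∨ s % 3 = 2) with c | c | c
    · have := eq_three a c
      simp [Tgt, show q = 11 by omega]
    · obtain ⟨n, rfl⟩ := h3 (by omega)
      exact .inr (.inr (.inl ⟨n, _, s, b, a, by omega, e, rfl⟩))
    · have := eq_three b (by omega)
      simp [Tgt, show q = 7 by omega]

theorem OneC.tgt_even (h : OneC G) {n : ℕ} (h4 : 2 ≤ n) (h1 : Ord G (2 ^ n - 1))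
    (h2 : Ord G (2 ^ n + 1)) : Tgt (2 ^ n) := by
  rcases Nat.even_or_odd' n with ⟨m, rfl | rfl⟩
  · rcases (by omega : m = 1 ∨ m = 2 ∨ 3 ≤ m) with rfl | rfl | c
    · simp [Tgt]
    · simp [Tgt]
    have e : 8 ≤ 2 ^ m := (Nat.pow_le_pow_right two_pos c : 2 ^ 3 ≤ _)
    have e2 : ¬ 3 ∣ 2 ^ m := fun d => by simpa using Nat.prime_three.dvd_of_dvd_pow d
    rw [pow_mul', show (2 ^ m) ^ 2 - 1 = (2 ^ m + 1) * (2 ^ m - 1) by
      simpa using Nat.sq_sub_sq (2 ^ m) 1] at h1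
    have a := h.prime_mul h1 (by omega) (by omega)
    rw [mul_comm] at h1
    have b := h.prime_mul h1 (by omega) (by omega)
    rcases (by omega : (2 ^ m - 1) % 3 = 0 ∨ (2 ^ m + 1) % 3 = 0) with c | c
    · have := eq_three a c; omega
    · have := eq_three b c; omega
  · have e : 2 ^ (2 * m + 1) % 3 = 2 := by
      rw [pow_succ, pow_mul, Nat.mul_mod, Nat.pow_mod]; simp
    have e2 : 8 ≤ 2 ^ (2 * m + 1) := (Nat.pow_le_pow_right two_pos (by omega) : 2 ^ 3 ≤ _)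
    obtain ⟨r, hr⟩ : 3 ∣ 2 ^ (2 * m + 1) + 1 := by omega
    rw [hr] at h2
    exact .inr (.inr (.inr ⟨_, r, h.prime_of_ne h2 (by omega) (by omega) h1 (by omega) (by omega),
      h.prime_mul h2 (by omega) (by omega), hr, rfl⟩))

theorem three_pow_of_dvd (F : Type*) [Field F] [Fintype F] (h : 3 ∣ Fintype.card F) :
    ∃ n, Fintype.card F = 3 ^ n := by
  obtain ⟨p, _, n, hp, e⟩ := FiniteField.card' F
  rw [e] at h ⊢
  exact ⟨n, by rw [(Nat.prime_dvd_prime_iff_eq Nat.prime_three hp).1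
    (Nat.prime_three.dvd_of_dvd_pow h)]⟩

theorem OneC.psl2_odd (h : OneC G) {F : Type} [Field F] [Fintype F] (h4 : 4 ≤ Fintype.card F)
    (ho : Odd (Fintype.card F)) (e : G ≃* PSL(2, F)) : Tgt (Fintype.card F) :=
  h.tgt_odd h4 ho (three_pow_of_dvd F) (exists_orderOf_of_equiv e (psl2_orders_odd F ho).1)
    (exists_orderOf_of_equiv e (psl2_orders_odd F ho).2)

theorem ord_Sz (F : Type) [Field F] [Fintype F] {m : ℕ} (hm : 1 ≤ m)
    (hF : Fintype.card F = 2 ^ (2 * m + 1)) (e : G ≃* Lie.Sz F (2 ^ (m + 1))) :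
    Ord G 4 ∧ Ord G (2 ^ (2 * m + 1) + 2 ^ (m + 1) + 1) ∧ Ord G (2 ^ (2 * m + 1) - 2 ^ (m + 1) + 1) ∧
      2 ^ (2 * m + 1) - 1 ∣ Nat.card G := by
  have := CfsgH2.szField_of_card hm hF
  have e := e.trans (CfsgH2.szEquivLie F m).symm
  have hq : Nat.card F = _ := Nat.card_eq_fintype_card.trans hF
  obtain ⟨g1, g2, a1, a2, a3, a4, -⟩ := CfsgH2.exists_two_tori (m := m) hq
  have key : ∀ g : Cfsg.Sz F m, CfsgH2.Fpf g → Ord G (Nat.card (centralizer {g})) := fun g hg => by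
    obtain ⟨x, hx⟩ := hg.isCyclic_centralizer.exists_ofOrder_eq_natCard
    exact exists_orderOf_of_equiv e ⟨x, by rw [orderOf_coe, hx]⟩
  refine ⟨exists_orderOf_of_equiv e ?_, a3 ▸ key g1 a1, a4 ▸ key g2 a2, ?_⟩
  · by_contra c
    have d := CfsgH2.exponent_Q (F := F) (m := m)
    have : Monoid.exponent (CfsgH2.Q F m) ∣ 2 := Monoid.exponent_dvd_of_forall_pow_eq_one fun x => by
      by_contra f
      exact c ⟨x, by
        rw [orderOf_coe]
        exact orderOf_eq_prime_pow (p := 2) (n := 1) f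
          (by have := Monoid.pow_exponent_eq_one x; rwa [d] at this)⟩
    rw [d] at this
    omega
  · rw [Nat.card_congr e.toEquiv, CfsgH2.card_Sz, hq]
    exact Dvd.intro_left _ rfl

theorem OneC.sz (h : OneC G) (hS : SzData G) : ∃ (F : Type) (_ : Field F) (_ : Fintype F),
    Fintype.card F = 8 ∧ Nonempty (G ≃* Lie.Sz F 4) := by
  obtain ⟨Ω, _, _, hZ, a, b, hab, _, h2, hc⟩ := hS
  obtain ⟨m, hm, -, e⟩ := CfsgH2.equiv_Sz_of_card_K hZ hab h2 hc
  let _ := Fintype.ofFinite (GaloisField 2 (2 * m + 1))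
  have hF : Fintype.card (GaloisField 2 (2 * m + 1)) = 2 ^ (2 * m + 1) := by
    rw [← Nat.card_eq_fintype_card, GaloisField.card 2 _ (by omega)]
  obtain ⟨e⟩ := e _ hF
  obtain ⟨a1, a2, a3, -⟩ := ord_Sz _ hm hF e
  obtain rfl : m = 1 := by
    have b1 : 2 ≤ 2 ^ m := (Nat.pow_le_pow_right two_pos hm : 2 ^ 1 ≤ _)
    have b2 : ¬ 5 ∣ 2 ^ m := fun d => by
      have := Nat.le_of_dvd two_pos (Nat.prime_five.dvd_of_dvd_pow d); omega
    have b3 : 2 ^ m = 2 → m = 1 := fun e => Nat.pow_right_injective le_rfl e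
    rw [pow_succ, pow_succ, pow_mul'] at a2 a3
    generalize 2 ^ m = c at b1 b2 b3 a2 a3
    obtain ⟨d, rfl⟩ : ∃ d, c = d + 1 := ⟨c - 1, by omega⟩
    rw [show (d + 1) ^ 2 * 2 - (d + 1) * 2 + 1 = d ^ 2 * 2 + d * 2 + 1 by
      rw [show (d + 1) ^ 2 * 2 = d ^ 2 * 2 + d * 2 + (d + 1) * 2 by ring]; omega] at a3
    have c1 := h.prime_of_ne (a := 2) (b := 2) a1 one_lt_two one_lt_two a2 (by omega) (by omega)
    have c2 := h.prime_of_ne (a := 2) (b := 2) a1 one_lt_two one_lt_two a3 (by omega) (by omega)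
    have k : ∀ x : ℕ, (x ^ 2 * 2 + x * 2 + 1).Prime → x % 5 = 1 ∨ x % 5 = 3 → x = 1 := fun x p c => by
      have := (Nat.prime_dvd_prime_iff_eq Nat.prime_five p).1 (Nat.dvd_of_mod_eq_zero (by
        rcases c with c | c <;> simp [Nat.add_mod, Nat.mul_mod, Nat.pow_mod, c]))
      nlinarith
    have := k _ c1
    have := k _ c2
    omega
  exact ⟨_, _, _, hF, ⟨e⟩⟩

theorem OneC.classify [IsSimpleGroup G] (h : OneC G) (hns : ¬ Group.IsSolvable G) :
    (∃ (F : Type) (_ : Field F) (_ : Fintype F), Tgt (Fintype.card F) ∧ Nonempty (G ≃* PSL(2, F))) ∨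
    PSL34 G ∨ ∃ (F : Type) (_ : Field F) (_ : Fintype F),
      Fintype.card F = 8 ∧ Nonempty (G ≃* Lie.Sz F 4) := by
  by_cases hC : ∀ r : ℕ, r.Prime → r ≠ 2 → ¬ ∃ x : G, orderOf x = 2 * r
  · rcases cit_simple hns (two_dvd_of_not_solvable hns) (cit_of_no_edge hC) with
      ⟨F, _, _, n, h1, h2, ⟨e⟩⟩ | c | c | c
    · have := charP_of_card Nat.prime_two h2
      exact .inl ⟨F, _, _, h2 ▸ h.tgt_even h1 (h2 ▸ exists_orderOf_of_equiv e (psl2_orders_even F).1)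
        (h2 ▸ exists_orderOf_of_equiv e (psl2_orders_even F).2), ⟨e⟩⟩
    · exact .inr (.inr (h.sz c))
    · obtain ⟨F, _, _, k, h1, h2, -, h3, ⟨e⟩⟩ := c.cases
      have : 8 ≤ 2 ^ k := (Nat.pow_le_pow_right two_pos h1 : 2 ^ 3 ≤ _)
      exact .inl ⟨F, _, _, h.psl2_odd (by omega) h2 e, ⟨e⟩⟩
    · exact .inr (.inl c)
  push Not at hC
  obtain ⟨r, hr, r2, x, hx⟩ := hC
  obtain ⟨F, _, _, h1, h2, ⟨e⟩⟩ := Sp.psl2 ⟨hr, r2, fun y y1 => or_iff_not_imp_left.2 fun c =>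
    h _ _ ⟨y, rfl⟩ ⟨x, hx⟩ (Nat.one_lt_iff_ne_zero_and_ne_one.2 ⟨(orderOf_pos y).ne', by simpa using y1⟩) c (by have := hr.two_le; omega)
      (Nat.not_prime_mul (by omega) hr.ne_one)⟩ hns hx
  exact .inl ⟨F, _, _, h.psl2_odd (by omega) h1 e, ⟨e⟩⟩

theorem psl2_five_equiv {F : Type*} [Field F] [Fintype F] (h : Fintype.card F = 5) :
    Nonempty (PSL(2, F) ≃* alternatingGroup (Fin 5)) := by
  have := charP_of_card (n := 1) Nat.prime_five h
  have h5 : (5 : F) = 0 := by exact_mod_cast CharP.cast_eq_zero F 5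
  obtain ⟨f, hf⟩ := exists_a5_psl2 (F := F)
    !![0, -1; 1, -1] !![1, 1; 0, 1] (by rw [det_fin_two_of]; grind)
    (by rw [det_fin_two_of]; grind)
    (by ext i j; fin_cases i <;> fin_cases j <;> simp <;> grind)
    (by ext i j; fin_cases i <;> fin_cases j <;> simp <;> grind)
    (by ext i j; fin_cases i <;> fin_cases j <;> simp <;> grind) (by simp)
  refine ⟨(MulEquiv.ofBijective f ((Nat.bijective_iff_injective_and_card f).2 ⟨hf, ?_⟩)).symm⟩
  have := two_mul_card_psl2_odd F (by rw [h]; decide)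
  rw [h] at this
  rw [CfsgH3.card_A5]
  omega

theorem ord_psl34 (h : PSL34 G) : Ord G 4 ∧ 20160 ∣ Nat.card G := by
  obtain ⟨F, _, _, h, ⟨e⟩⟩ := h
  have := charP_of_card (n := 2) Nat.prime_two h
  have h2 : (2 : F) = 0 := CharTwo.two_eq_zero
  refine ⟨exists_orderOf_of_equiv e ?_, Nat.card_congr e.toEquiv ▸ (card_psl3_four F h).2⟩
  obtain ⟨u, hu⟩ : ∃ u : SL(3, F), u.1 = !![1, 1, 0; 0, 1, 1; 0, 0, 1] :=
    ⟨⟨_, by simp [det_fin_three]⟩, rfl⟩
  have e2 : (u ^ 2).1 = !![1, 0, 1; 0, 1, 0; 0, 0, 1] := by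
    change u.1 ^ 2 = _
    rw [hu, sq]
    ext i j
    fin_cases i <;> fin_cases j <;> simp <;> grind
  refine ⟨QuotientGroup.mk u, orderOf_eq_prime_pow (p := 2) (n := 1) (fun c => ?_) ?_⟩
  · rw [← QuotientGroup.mk_pow, QuotientGroup.eq_one_iff,
      Matrix.SpecialLinearGroup.mem_center_iff] at c
    obtain ⟨r, -, c⟩ := c
    have := congrFun (congrFun (c.trans e2) 0) 2
    simp at this
  · rw [← QuotientGroup.mk_pow, show u ^ 2 ^ (1 + 1) = 1 from Subtype.ext ?_, QuotientGroup.mk_one]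
    rw [show u ^ 2 ^ (1 + 1) = u ^ 2 * u ^ 2 by rw [← pow_add]; rfl]
    change (u ^ 2).1 * (u ^ 2).1 = 1
    rw [e2]
    ext i j
    fin_cases i <;> fin_cases j <;> simp <;> grind

theorem six_le_orbits {s : Finset ℕ} (h : ∀ n ∈ s, Ord G n) :
    s.card ≤ Nat.card (MulAction.orbitRel.Quotient (MulAut G) G) := by
  let f : MulAction.orbitRel.Quotient (MulAut G) G → ℕ := Quotient.lift orderOf (by
    rintro a b ⟨φ, rfl⟩
    exact MulEquiv.orderOf_eq φ b)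
  rw [← Set.ncard_coe_finset, ← Set.ncard_univ]
  refine (Set.ncard_le_ncard (t := f '' Set.univ) (fun n hn => ?_) (Set.toFinite _)).trans
    (Set.ncard_image_le (Set.toFinite _))
  obtain ⟨x, hx⟩ := h n hn
  exact ⟨Quotient.mk _ x, trivial, hx⟩

end CfsgH6
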