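import Cfsg.Agent.L.Q4B0
import Cfsg.Agent.H1.Q4Base

set_option autoImplicit false
set_option linter.unusedSectionVars false
set_option linter.unusedVariables false

/-! S3404, case B: Lemma E, the involutions `ζ`, the even cases. -/

namespace CfsgL.Q4B

open CfsgH1.Q4 Subgroup

variable {G Ω : Type*} [Group G] [Finite G] [MulAction G Ω] [Finite Ω]

theorem D4.sw1 {a b c d : Ω} (h : D4 a b c d) : D4 b a c d :=
  ⟨h.1.symm, h.2.2.2.1, h.2.2.2.2.1, h.2.1, h.2.2.1, h.2.2.2.2.2⟩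
theorem D4.sw2 {a b c d : Ω} (h : D4 a b c d) : D4 a b d c :=
  ⟨h.1, h.2.2.1, h.2.1, h.2.2.2.2.1, h.2.2.2.1, h.2.2.2.2.2.symm⟩
theorem D4.sw3 {a b c d : Ω} (h : D4 a b c d) : D4 c d a b :=
  ⟨h.2.2.2.2.2, h.2.1.symm, h.2.2.2.1.symm, h.2.2.1.symm, h.2.2.2.2.1.symm, h.1⟩
theorem D4.sw4 {a b c d : Ω} (h : D4 a b c d) : D4 a c b d :=
  ⟨h.2.1, h.1, h.2.2.1, h.2.2.2.1.symm, h.2.2.2.2.2, h.2.2.2.2.1⟩

theorem d4_of_sw {z : G} (hz : z * z = 1) {p q u v : Ω} (h1 : z • p = q) (h2 : p ≠ q) (hu : z • u = u)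
    (hv : z • v = v) (huv : u ≠ v) : D4 u v p q := by
  have e := swap_back hz h1
  refine ⟨huv, ?_, ?_, ?_, ?_, h2⟩ <;> rintro rfl
  exacts [h2 (hu.symm.trans h1), h2 (e.symm.trans hu), h2 (hv.symm.trans h1), h2 (e.symm.trans hv)]

theorem ne_of_smul {g : G} {a b c : Ω} (h : g • a = c) (hab : b ≠ a) : g • b ≠ c :=
  fun e => hab (MulAction.injective g (e.trans h.symm))

namespace BB

variable (F : BB G Ω) {k τ j j' r z z' g t : G} {a b c d i i' p q u v x y : Ω}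
include F

section E
variable (hk : k ^ F.κ = 1) (he : (Fx Ω τ ∩ Fx Ω k).ncard % 2 = 0) (kx : k • x = x) (ky : k • y = y)
  (ka : k • a = a)
include hk he kx ky ka

theorem e_inv (C : Cf τ x y a i) (ki : k • i = i) (h : In τ x y a i j) : j * k * j⁻¹ = k⁻¹ :=
  F.In_inv C h ((F.memK4 C.d4).2 ⟨⟨ka, ki, kx, ky⟩, hk⟩)

theorem e_two (C : Cf τ x y a i) (ki : k • i = i) (h : In τ x y a i j) (tc : τ • c = c)
    (kc : k • c = c) (jc : j • c = c) : c = a ∨ c = i := by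
  refine eq_of_even (S := Fx Ω τ ∩ Fx Ω k ∩ Fx Ω j) (le_trans (Set.ncard_le_ncard
    (t := Fx Ω τ ∩ Fx Ω j) fun _ e => ⟨e.1.1, e.2⟩) (F.In_le C h)) ?_ C.ab ⟨⟨C.fa, ka⟩, h.fa⟩
    ⟨⟨C.fb, ki⟩, h.fb⟩ ⟨⟨tc, kc⟩, jc⟩
  rw [← ncard_mod2 (S := Fx Ω τ ∩ Fx Ω k) h.sq fun w e =>
    ⟨h.smul e.1, fix_of_inv (F.e_inv hk he kx ky ka C ki h) e.2⟩, he]

theorem e_inj (C : Cf τ x y a i) (ki : k • i = i) (h : In τ x y a i j) (C' : Cf τ x y a i')
    (ki' : k • i' = i') (h' : In τ x y a i' j') (tp : τ • p = p) (kp : k • p = p) (pa : p ≠ a)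
    (pi : p ≠ i) (e : j • p = j' • p) : j = j' := by
  have two := fun {i c : Ω} {j : G} => F.e_two hk he kx ky ka (i := i) (c := c) (j := j)
  have inv := F.e_inv hk he kx ky ka C ki h
  have jp : j • p ≠ p := fun e => (two C ki h tp kp e).elim pa pi
  have Cp := C.other C.fa tp pa.symm
  have qa : j • p ≠ a := ne_of_smul h.fa pa
  have tq := h.smul tp
  have kq := fix_of_inv inv kp
  have da : (j * j') • a = a := by rw [mul_smul, h'.fa, h.fa]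
  have dx : (j * j') • x = x := by rw [mul_smul, h'.fx, h.fx]
  have dy : (j * j') • y = y := by rw [mul_smul, h'.fy, h.fy]
  have dp : (j * j') • p = p := by rw [mul_smul, ← e, swap_back h.sq rfl]
  have dq : (j * j') • j • p = j • p := by rw [mul_smul, swap_back h'.sq e.symm]
  have dt := h.cm.mul_left h'.cm
  have jd := CfsgSZ.pt_inv_mul h.sq h'.sq
  have dB : j * j' ∈ St G ({a, p, x, y} : Set Ω) := mem_St4.2 ⟨da, dp, dx, dy⟩
  suffices j * j' = 1 by rw [eq_inv_of_mul_eq_one_left this, h'.inv]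
  generalize j * j' = s at da dx dy dp dq dt jd dB
  by_contra s1
  by_cases hK : s ∈ F.K {a, p, x, y}
  · obtain ⟨l, hl⟩ := F.exists_In Cp
    rcases eq_of_three (F.ncard_le_of_K C.toIv (F.pow Cp.d4.ncard hK) s1 dt.symm) pa.symm qa.symm
      jp.symm ⟨C.fa, da⟩ ⟨tp, dp⟩ ⟨tq, dq⟩ ⟨hl.smul tq, fix_of_inv (F.In_inv Cp hl hK) dq⟩ with
      e1 | e1 | e1
    exacts [ne_of_smul hl.fa qa e1, ne_of_smul hl.fb jp e1, (two Cp kp hl tq kq e1).elim qa jp]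
  obtain ⟨l, l1, l2, l3⟩ := F.exists_iv_comm Cp.d4.ncard dB hK
  obtain ⟨la, lp, lx, ly⟩ := mem_St4.1 l2
  have hl : In τ x y a p l := ⟨l1, la, lp, lx, ly, (mul_inv_eq_iff_eq_mul.1 (F.iv_comm_uniq
    Cp.d4.ncard dB hK (l1.conj τ) (Cp.img ▸ conj_mem_St.2 l2) (by
      have := l3.conj τ
      rwa [dt.symm.eq, mul_inv_cancel_right] at this) l1 l2 l3)).symm⟩
  by_cases ho : Odd (orderOf (l * j))
  · have e1 : l * j * s * (l * j)⁻¹ = s⁻¹ := by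
      rw [show l * j * s * (l * j)⁻¹ = l * (j * s * j⁻¹) * l⁻¹ by group, jd, l3.inv_right.eq,
        mul_inv_cancel_right]
    have e2 := CfsgFT.mem_C1_iff_conj.1 (CfsgSZ.pt_mem_of_sq (X := CfsgFT.C1 s) ho
      (CfsgFT.mem_C1_iff_conj.2 (by
        rw [show ∀ w : G, w * w * s * (w * w)⁻¹ = w * (w * s * w⁻¹) * w⁻¹ by intro w; group, e1,
          ← conj_inv, e1, inv_inv])))
    exact (two Cp kp ⟨⟨by nth_rewrite 2 [← e2]; rw [e1, mul_inv_cancel], s1⟩, da, dp, dx, dy, dt⟩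
      tq kq dq).elim qa jp
  obtain ⟨w, hw, w1, ww, wl, wj, -⟩ := CfsgSZ.pt_dihedral hl.sq h.sq ho
  have m : ∀ c : Ω, l • c = c → j • c = c → w • c = c := fun c e1 e2 =>
    zpowers_le.2 (show l * j ∈ MulAction.stabilizer G c by
      rw [MulAction.mem_stabilizer_iff, mul_smul, e2, e1]) hw
  have wt : Commute w τ := CfsgFT.mem_C1.1 (zpowers_le.2 (CfsgFT.mem_C1.2 (hl.cm.mul_left h.cm)) hw)
  have wk : Commute w k := CfsgFT.mem_C1.1 (zpowers_le.2 (CfsgFT.mem_C1_iff_conj.2 (by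
    rw [show l * j * k * (l * j)⁻¹ = l * (j * k * j⁻¹) * l⁻¹ by group, inv, ← conj_inv,
      F.e_inv hk he kx ky ka Cp kp hl, inv_inv])) hw)
  have wa := m a la h.fa
  have wx := m x lx h.fx
  have wy := m y ly h.fy
  have key : ∀ {i : Ω} {j : G}, Cf τ x y a i → k • i = i → In τ x y a i j → Commute w j → w = j :=
    fun C ki h c => F.eq_of_comm C.d4.ncard ⟨ww, w1⟩ (mem_St4.2 ⟨wa,
      (two C ki h (fix_of_comm wt C.fb) (fix_of_comm wk ki) (fix_of_comm c h.fb)).resolve_left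
        (ne_of_smul wa C.ab.symm), wx, wy⟩) h.toIv h.mem c
  exact jp ((key C ki h wj).symm.trans (key Cp kp hl wl) ▸ lp)

end E

theorem lemE (hk : k ^ F.κ = 1) (he : (Fx Ω k).ncard % 2 = 0) (C : Cf τ x y a b)
    (hi : τ * k * τ⁻¹ = k⁻¹) (h4 : 4 ≤ (Fx Ω τ ∩ Fx Ω k).ncard) (kx : k • x = x) (ka : k • a = a)
    (kb : k • b = b) (hr : F.Rm τ x y a b r) : r = 1 := by
  have ky : k • y = y := C.sw ▸ fix_of_inv hi kx
  have he' : (Fx Ω τ ∩ Fx Ω k).ncard % 2 = 0 := by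
    rw [Set.inter_comm, ← ncard_mod2 (S := Fx Ω k) C.sq fun _ => fix_of_inv hi, he]
  obtain ⟨p, ⟨tp, kp⟩, hp⟩ := exists_not_mem_of_lt (S := Fx Ω τ ∩ Fx Ω k) (T := {a, b})
    (by rw [Set.ncard_pair C.ab]; omega)
  simp only [Set.mem_insert_iff, Set.mem_singleton_iff, not_or] at hp
  let S := {i : Ω // (τ • i = i ∧ k • i = i) ∧ i ≠ a ∧ i ≠ p}
  have Ci : ∀ i : S, Cf τ x y a i := fun i => C.other C.fa i.2.1.1 i.2.2.1.symm
  have mk : ∀ (i : S) (j : G), In τ x y a i j → (τ • j • p = j • p ∧ k • j • p = j • p) ∧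
      j • p ≠ a ∧ j • p ≠ p := fun i j h =>
    ⟨⟨h.smul tp, fix_of_inv (F.e_inv hk he' kx ky ka (Ci i) i.2.1.2 h) kp⟩, ne_of_smul h.fa hp.1,
      fun e => (F.e_two hk he' kx ky ka (Ci i) i.2.1.2 h tp kp e).elim hp.1 i.2.2.2.symm⟩
  have eq : ∀ (i i' : S) (j j' : G), In τ x y a i j → In τ x y a i' j' → j • p = j' • p →
      j = j' ∧ i = i' := fun i i' j j' h h' e => by
    obtain rfl := F.e_inj hk he' kx ky ka (Ci i) i.2.1.2 h (Ci i') i'.2.1.2 h' tp kp hp.1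
      i.2.2.2.symm e
    exact ⟨rfl, Subtype.ext ((F.e_two hk he' kx ky ka (Ci i') i'.2.1.2 h' i.2.1.1 i.2.1.2
      h.fb).resolve_left i.2.2.1)⟩
  choose J hJ using fun i : S => F.exists_In (Ci i)
  let b' : S := ⟨b, ⟨C.fb, kb⟩, C.ab.symm, Ne.symm hp.2⟩
  have hb := F.In_mul_R C (hJ b') hr
  obtain ⟨i, e⟩ := Finite.injective_iff_surjective.1
    (show Function.Injective fun i : S => (⟨_, mk i _ (hJ i)⟩ : S) from fun i i' e =>
      (eq i i' _ _ (hJ i) (hJ i') (congrArg Subtype.val e)).2) ⟨_, mk b' _ hb⟩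
  obtain ⟨e1, rfl⟩ := eq i b' _ _ (hJ i) hb (congrArg Subtype.val e)
  exact (mul_eq_left.1 e1.symm)

/-- the involution `ζ(xy;ab)` -/
structure Ze (z : G) (x y a b : Ω) : Prop extends Iv z where
  d4 : D4 a b x y
  sw : z • x = y
  fa : z • a = a
  fb : z • b = b
  cen : ∀ k ∈ F.K {a, b, x, y}, Commute z k

variable {F} in
theorem Ze.sw' (h : F.Ze z x y a b) : z • y = x := swap_back h.sq h.sw

variable {F} in
theorem Ze.symm1 (h : F.Ze z x y a b) : F.Ze z y x a b :=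
  ⟨h.toIv, D4.sw2 h.d4, h.sw', h.fa, h.fb, by rw [Set.pair_comm y]; exact h.cen⟩

variable {F} in
theorem Ze.symm2 (h : F.Ze z x y a b) : F.Ze z x y b a :=
  ⟨h.toIv, D4.sw1 h.d4, h.sw, h.fb, h.fa, by rw [Set.insert_comm b]; exact h.cen⟩

variable {F} in
theorem Ze.mul_mem (h : F.Ze z x y a b) (h1 : z' * z' = 1) (h2 : z' • x = y) (h3 : z' • a = a)
    (h4 : z' • b = b) : z * z' ∈ St G ({a, b, x, y} : Set Ω) :=
  mem_St4.2 ⟨by rw [mul_smul, h3, h.fa], by rw [mul_smul, h4, h.fb], by rw [mul_smul, h2, h.sw'],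
    by rw [mul_smul, swap_back h1 h2, h.sw]⟩

variable {F} in
theorem Ze.uniq (h : F.Ze z x y a b) (h' : F.Ze z' x y a b) : z = z' := by
  obtain ⟨k, hk, k1⟩ := F.exists_K h.d4.ncard
  have m := F.cen h.d4.ncard hk k1 (h.mul_mem h'.sq h'.sw h'.fa h'.fb)
    ((h.cen k hk).mul_left (h'.cen k hk))
  have := F.eq_one' (F.pow h.d4.ncard m) (by
    rw [← CfsgSZ.pt_inv_mul h.sq h'.sq, (h.cen _ m).eq, mul_inv_cancel_right])
  rw [eq_inv_of_mul_eq_one_left this, h'.inv]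

variable {F} in
theorem Ze.conj (h : F.Ze z x y a b) (g : G) : F.Ze (g * z * g⁻¹) (g • x) (g • y) (g • a) (g • b) :=
  ⟨h.toIv.conj g, D4.smul h.d4 g, conj_smul h.sw, conj_smul h.fa, conj_smul h.fb, fun k hk => by
    have e : k = g * (g⁻¹ * k * g) * g⁻¹ := by group
    rw [e] at hk ⊢
    refine (h.cen _ ((F.conj_mem (h := g) h.d4.ncard).1 ?_)).conj g
    simpa only [Set.image_insert_eq, Set.image_singleton] using hk⟩

variable {F} in
theorem Ze.comm (h : F.Ze z x y a b) (h' : F.Ze z (g • x) (g • y) (g • a) (g • b)) : Commute g z :=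
  mul_inv_eq_iff_eq_mul.1 ((h.conj g).uniq h')

variable {F} in
theorem Ze.comm_iv (h : F.Ze z x y a b) (ht : Iv t) (h1 : t ∈ St G ({a, b, x, y} : Set Ω)) :
    Commute t z := by
  obtain ⟨e1, e2, e3, e4⟩ := mem_St4.1 h1
  exact h.comm (by rwa [e1, e2, e3, e4])

/-- the involutions `ζ` exist -/
def HZ : Prop := ∀ x y a b : Ω, D4 a b x y → ∃ z, F.Ze z x y a b ∧
  ∀ t, Iv t → t ∈ St G ({a, b, x, y} : Set Ω) → TT Ω (z * t)

theorem inv_of_R (C : Cf τ x y a b) (h : ∀ r, F.Rm τ x y a b r → r = 1) (hk : k ∈ F.K {a, b, x, y}) :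
    τ * k * τ⁻¹ = k⁻¹ :=
  F.inv_of_fpf C.sq (fun _ e => F.conj_mem_of C.d4.ncard C.img e) (fun _ e c => h _ ⟨e, c.symm⟩) hk

theorem hz_of (C : Cf τ x y a b) (h : ∀ r, F.Rm τ x y a b r → r = 1) : F.HZ := by
  obtain ⟨j, hj⟩ := F.exists_In C
  have z0 : F.Ze (τ * j) x y a b := ⟨C.toIv.mul hj.toIv hj.cm.symm (hj.ne_τ C).symm, C.d4,
    by rw [mul_smul, hj.fx, C.sw], by rw [mul_smul, hj.fa, C.fa], by rw [mul_smul, hj.fb, C.fb],
    fun k hk => mul_inv_eq_iff_eq_mul.1 (by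
      rw [show τ * j * k * (τ * j)⁻¹ = τ * (j * k * j⁻¹) * τ⁻¹ by group, F.In_inv C hj hk,
        F.inv_of_R C h (inv_mem hk), inv_inv])⟩
  intro x' y' a' b' d
  obtain ⟨g, rfl, rfl, rfl, rfl⟩ := F.tr4 C.d4 d
  refine ⟨_, z0.conj g, fun t ht h1 => ?_⟩
  obtain ⟨k, hk, rfl⟩ := F.conj_K d.ncard (hj.toIv.conj g) (by
    simpa only [Set.image_insert_eq, Set.image_singleton] using (conj_mem_St (h := g)).2 hj.mem) ht h1
  have := (C.toTT.conj g).conj k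
  convert this using 1
  rw [← mul_assoc, ← mul_assoc, ((z0.conj g).cen k hk).eq]
  calc _ = k * (g * τ * (j * j) * g⁻¹) * k⁻¹ := by group
    _ = _ := by rw [hj.sq, mul_one]

theorem cyc (hz : F.HZ) (hk : k ^ F.κ = 1) (h : Iv z) (c : Commute z k)
    (h3 : (Fx Ω z ∩ Fx Ω k).ncard ≤ 3) (h1 : z • p = q) (h2 : p ≠ q) (hu : z • u = u)
    (hv : z • v = v) (huv : u ≠ v) (kp : k • p = p) (kq : k • q = q) (ku : k • u = u)
    (kv : k • v = v) : F.Ze z p q u v := by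
  have d := d4_of_sw h.sq h1 h2 hu hv huv
  obtain ⟨w, hw, tt⟩ := hz p q u v d
  have cm := hw.comm (g := z) (by rw [h1, swap_back h.sq h1, hu, hv]; exact hw.symm1)
  by_cases e : w = z
  · exact e ▸ hw
  have i := hw.toIv.mul h cm.symm e
  have m := hw.mul_mem h.sq h1 hu hv
  have mk := (F.memK4 d).2 ⟨⟨ku, kv, kp, kq⟩, hk⟩
  obtain rfl := F.fpf d.ncard m (F.notK d.ncard i) mk ((hw.cen k mk).mul_left c)
  have := (tt _ i m).four
  rw [← mul_assoc, hw.sq, one_mul] at this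
  have := Set.ncard_le_ncard (s := Fx Ω z) (t := Fx Ω z ∩ Fx Ω (1 : G)) fun w e => ⟨e, one_smul G w⟩
  omega

/-- the hypotheses of the even case -/
structure DE (k : G) : Prop where
  hz : F.HZ
  hk : k ^ F.κ = 1
  le : ∀ {z : G} {x y a b : Ω}, F.Ze z x y a b → k • x = x → k • y = y → k • a = a → k • b = b →
    (Fx Ω z ∩ Fx Ω k).ncard ≤ 3

namespace DE
variable {F} (h : F.DE k)
include h

theorem zk (hz : F.Ze z x y a b) (kx : k • x = x) (ky : k • y = y) (ka : k • a = a)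
    (kb : k • b = b) : Commute z k := hz.cen k ((F.memK4 hz.d4).2 ⟨⟨ka, kb, kx, ky⟩, h.hk⟩)

theorem cyc (hz : F.Ze z x y a b) (kx : k • x = x) (ky : k • y = y) (ka : k • a = a)
    (kb : k • b = b) (h1 : z • p = q) (h2 : p ≠ q) (hu : z • u = u)
    (hv : z • v = v) (huv : u ≠ v) (kp : k • p = p) (ku : k • u = u) (kv : k • v = v) :
    F.Ze z p q u v :=
  F.cyc h.hz h.hk hz.toIv (h.zk hz kx ky ka kb) (h.le hz kx ky ka kb) h1 h2 hu hv huv kp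
    (h1 ▸ fix_of_comm (h.zk hz kx ky ka kb) kp) ku kv

variable (he : (Fx Ω k).ncard % 2 = 0)
include he

theorem two (hz : F.Ze z x y a b) (kx : k • x = x) (ky : k • y = y) (ka : k • a = a)
    (kb : k • b = b) (kc : k • c = c) (zc : z • c = c) : c = a ∨ c = b := by
  refine eq_of_even (h.le hz kx ky ka kb) ?_ hz.d4.1 ⟨hz.fa, ka⟩ ⟨hz.fb, kb⟩ ⟨zc, kc⟩
  rw [Set.inter_comm, ← ncard_mod2 (S := Fx Ω k) hz.sq fun _ => fix_of_comm (h.zk hz kx ky ka kb), he]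

theorem dbl (hd : D4 a b c d) (ka : k • a = a) (kb : k • b = b) (kc : k • c = c) (kd : k • d = d) :
    ∃ w : G, Iv w ∧ Commute w k ∧ w • a = b ∧ w • c = d ∧
      ∀ p, k • p = p → p ∉ ({a, b, c, d} : Set Ω) → w • p = p := by
  obtain ⟨z, hz, -⟩ := h.hz a b c d (D4.sw3 hd)
  obtain ⟨z', hz', -⟩ := h.hz c d a b hd
  have c1 := h.zk hz ka kb kc kd
  refine ⟨z * z', hz.toIv.mul hz'.toIv (hz'.comm (by
    rw [hz.sw, hz.sw', hz.fa, hz.fb]; exact hz'.symm2)) fun e => hd.1 (by rw [← hz.sw, e, hz'.fa]),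
    c1.mul_left (h.zk hz' kc kd ka kb), by rw [mul_smul, hz'.fa, hz.sw],
    by rw [mul_smul, hz'.sw, hz.fb], fun p kp hp => ?_⟩
  simp only [Set.mem_insert_iff, Set.mem_singleton_iff, not_or] at hp
  have n : p ≠ z • p := fun e => (h.two he hz ka kb kc kd kp e.symm).elim hp.2.2.1 hp.2.2.2
  have kq := fix_of_comm c1 kp
  obtain ⟨w, hw, -⟩ := h.hz p (z • p) a b ⟨hd.1, Ne.symm hp.1, (ne_of_smul hz.sw' hp.2.1).symm,
    Ne.symm hp.2.1, (ne_of_smul hz.sw hp.1).symm, n⟩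
  have cm := hw.comm (g := z) (by rw [swap_back hz.sq rfl, hz.sw, hz.sw']; exact hw.symm1.symm2)
  have e : w • c = d := (h.two he hz ka kb kc kd (fix_of_comm (h.zk hw kp kq ka kb) kc)
    (fix_of_comm cm.symm hz.fa)).resolve_left fun e =>
      (h.two he hw kp kq ka kb kc e).elim hd.2.1.symm hd.2.2.2.1.symm
  rw [mul_smul, ← (h.cyc hw kp kq ka kb e hd.2.2.2.2.2 hw.fa hw.fb hd.1 kc ka kb).uniq hz', hw.sw,
    swap_back hz.sq rfl]

end DE

theorem de_one (h : ∀ (τ : G) (x y a b : Ω) (r : G), Cf τ x y a b → F.Rm τ x y a b r → r = 1) :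
    F.DE 1 := by
  obtain ⟨τ, x, y, a, b, C⟩ := F.exists_Cf
  refine ⟨F.hz_of C fun r => h τ x y a b r C, one_pow _, fun {z x y a b} hz _ _ _ _ => ?_⟩
  by_contra e
  obtain ⟨k, hk, k1⟩ := F.exists_K hz.d4.ncard
  exact k1 (h z x y a b k ⟨⟨hz.toIv, le_trans (by omega) (Set.ncard_le_ncard (s := Fx Ω z ∩ Fx Ω (1 : G))
    Set.inter_subset_left)⟩,
    hz.d4, hz.sw, hz.fa, hz.fb⟩ ⟨hk, (hz.cen k hk).symm⟩)

theorem odd_n : Odd (Nat.card Ω) := by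
  by_contra hn
  have f1 : Fx Ω (1 : G) = Set.univ := Set.eq_univ_of_forall fun w => one_smul G w
  have he : (Fx Ω (1 : G)).ncard % 2 = 0 := by
    rw [f1, Set.ncard_univ]; exact Nat.not_odd_iff.1 hn
  have h := F.de_one fun τ x y a b r C => F.lemE (one_pow _) he C (by simp)
    (by rw [f1, Set.inter_univ]; exact C.four) (one_smul G _) (one_smul G _) (one_smul G _)
  obtain ⟨τ, c, d, a, b, C⟩ := F.exists_Cf
  have hd := C.d4
  have o := one_smul G (α := Ω)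
  obtain ⟨v, v1, -, v2, v3, v4⟩ := h.dbl he hd (o _) (o _) (o _) (o _)
  obtain ⟨w, w1, -, w2, w3, w4⟩ := h.dbl he (D4.sw4 hd) (o _) (o _) (o _) (o _)
  rw [Set.insert_comm c] at w4
  obtain ⟨k, hk, k1⟩ := F.exists_K hd.ncard
  obtain ⟨p, hp⟩ : ∃ p : Ω, k • p ≠ p := by
    by_contra e
    push Not at e
    exact k1 (F.faith k e)
  have kB := F.le_St hd.ncard hk
  have m : ∀ p, p ∉ ({a, b, c, d} : Set Ω) → k • p ∉ ({a, b, c, d} : Set Ω) := fun p h1 h2 =>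
    h1 (MulAction.injective k (kB _ h2) ▸ h2)
  have p1 : p ∉ ({a, b, c, d} : Set Ω) := fun e => hp (kB p e)
  have h4 : 4 ≤ ({a, b, c, d} : Set Ω)ᶜ.ncard := by
    by_contra e
    have := Set.ncard_add_ncard_compl ({a, b, c, d} : Set Ω)
    rw [hd.ncard] at this
    rcases eq_of_even (S := ({a, b, c, d} : Set Ω)ᶜ) (by omega) (by
      have := Nat.not_odd_iff.1 hn; omega) hp.symm p1 (m p p1) (m _ (m p p1)) with e | e
    exacts [hp (F.fix_of_sq (F.pow hd.ncard hk) e), smul_ne hp e]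
  obtain ⟨B, b1, b2⟩ := exists_four h4
  have := F.fix_of_sq (x := a) (F.pow b2 (F.mul_mem_K b2 v1 (fun p e => v4 p (o _) (b1 e)) w1
    fun p e => w4 p (o _) (b1 e))) (by
      simp only [mul_smul, w2, v3, swap_back w1.sq w3, swap_back v1.sq v2])
  rw [mul_smul, w2, v3] at this
  exact hd.2.2.1 this.symm

theorem b1b (hk : k ^ F.κ = 1) (k1 : k ≠ 1) (he : (Fx Ω k).ncard % 2 = 0) (ht : Iv t)
    (hi : t * k * t⁻¹ = k⁻¹) (h4 : 4 ≤ (Fx Ω t ∩ Fx Ω k).ncard) : Fx Ω k ⊆ Fx Ω t := by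
  intro x kx
  by_contra tx
  obtain ⟨a, ha, b, hb, c, hc, d, hd, D⟩ := exists_D4_mem h4
  have tt : TT Ω t := ⟨ht, h4.trans (Set.ncard_le_ncard Set.inter_subset_left)⟩
  have C := tt.cf rfl (Ne.symm tx) ha.1 hb.1 D.1
  have C' := tt.cf rfl (Ne.symm tx) hc.1 hd.1 D.2.2.2.2.2
  have ky := fix_of_inv hi kx
  generalize t • x = y at C C' ky
  have h : F.DE k := ⟨F.hz_of C fun r => F.lemE hk he C hi h4 kx ha.2 hb.2, hk,
    fun hz e1 e2 e3 e4 => F.ncard_le_of_K hz.toIv hk k1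
      (hz.cen k ((F.memK4 hz.d4).2 ⟨⟨e3, e4, e1, e2⟩, hk⟩))⟩
  obtain ⟨v, v1, v2, -, -, v4⟩ := h.dbl he D ha.2 hb.2 hc.2 hd.2
  obtain ⟨-, ax, ay, bx, by', xy⟩ := C.d4
  obtain ⟨-, cx, cy, dx, dy, -⟩ := C'.d4
  have sub : ({a, b, c, d} : Set Ω) ⊆ Fx Ω k := by
    rintro _ (rfl | rfl | rfl | rfl)
    exacts [ha.2, hb.2, hc.2, hd.2]
  have all : ∀ p, k • p = p → p ∈ ({a, b, c, d} : Set Ω) ∨ p = x ∨ p = y := fun p kp => by
    refine or_iff_not_imp_left.2 fun n => eq_of_even (S := Fx Ω k \ {a, b, c, d})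
      (le_trans (Set.ncard_le_ncard (t := Fx Ω v ∩ Fx Ω k) fun q e => ⟨v4 q e.1 e.2, e.1⟩)
        (F.ncard_le_of_K v1 hk k1 v2)) ?_ xy
      ⟨kx, by simp [ax.symm, bx.symm, cx.symm, dx.symm]⟩
      ⟨ky, by simp [ay.symm, by'.symm, cy.symm, dy.symm]⟩ ⟨kp, n⟩
    have := Set.ncard_sdiff_add_ncard_of_subset sub
    rw [D.ncard] at this
    omega
  have sw : ∀ {z : G} {a b c d : Ω}, D4 a b c d → k • a = a → k • b = b → k • c = c → c ≠ x → c ≠ y →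
      (∀ p, k • p = p → p ∈ ({a, b, c, d} : Set Ω) ∨ p = x ∨ p = y) → F.Ze z a b x y → z • c = d :=
    fun D ka kb kc cx cy all hz => by
      rcases all _ (fix_of_comm (h.zk hz ka kb kx ky) kc) with (e | e | e | e) | e | e
      exacts [absurd e (ne_of_smul hz.sw' D.2.2.2.1.symm), absurd e (ne_of_smul hz.sw D.2.1.symm),
        ((h.two he hz ka kb kx ky kc e).elim cx cy).elim, e, absurd e (ne_of_smul hz.fa cx),
        absurd e (ne_of_smul hz.fb cy)]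
  obtain ⟨z, hz, -⟩ := h.hz a b x y (D4.sw3 C.d4)
  obtain ⟨w, hw, -⟩ := h.hz a c x y ⟨xy, ax.symm, cx.symm, ay.symm, cy.symm, D.2.1⟩
  have e1 := sw D ha.2 hb.2 hc.2 cx cy all hz
  have e2 := sw (D4.sw4 D) ha.2 hc.2 hb.2 bx by' (by rwa [Set.insert_comm c]) hw
  have cm := hw.comm (g := z) (by
    rw [hz.sw, e1, hz.fa, hz.fb]
    exact h.cyc hw ha.2 hc.2 kx ky e2 D.2.2.2.2.1 hw.fa hw.fb xy hb.2 kx ky)
  have l3 := F.ncard_le_of_comm hz.toIv hw.toIv cm fun e => D.2.2.2.1 (by rw [← hz.sw, e, hw.sw])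
  obtain ⟨e, ⟨ez, ew⟩, ex, ey⟩ := exists_third (S := Fx Ω z ∩ Fx Ω w) (by
    rw [← ncard_mod2 (S := Fx Ω z) hw.sq fun _ => fix_of_comm cm.symm, ← Set.univ_inter (Fx Ω z),
      ← ncard_mod2 (S := Set.univ) hz.sq fun _ _ => trivial, Set.ncard_univ]
    exact Nat.odd_iff.1 F.odd_n) xy ⟨hz.fa, hw.fa⟩ ⟨hz.fb, hw.fb⟩
  rcases eq_of_three l3 xy ex.symm ey.symm ⟨hz.fa, hw.fa⟩ ⟨hz.fb, hw.fb⟩ ⟨ez, ew⟩
    ⟨fix_of_comm (h.zk hz ha.2 hb.2 kx ky).symm ez, fix_of_comm (h.zk hw ha.2 hc.2 kx ky).symm ew⟩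
    with e' | e' | e'
  exacts [ne_of_smul kx ex e', ne_of_smul ky ey e', (h.two he hz ha.2 hb.2 kx ky e' ez).elim ex ey]

end BB

end CfsgL.Q4B
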