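import Cfsg.Agent.H6.Q4B1

set_option autoImplicit false
set_option linter.unusedSectionVars false
set_option linter.unusedVariables false

/-! S3404, case B: some `R` is non-trivial. -/

namespace CfsgL.Q4B

open CfsgH1.Q4 Subgroup

variable {G Ω : Type*} [Group G] [Finite G] [MulAction G Ω] [Finite Ω]

namespace BB.DE

variable {F : BB G Ω} (h : F.DE 1) {z A b1 b2 b3 g t : G} {a b c d e p q u v x y : Ω}
include h

theorem le3 (hz : F.Ze z x y a b) : (Fx Ω z).ncard ≤ 3 :=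
  le_trans (Set.ncard_le_ncard (t := Fx Ω z ∩ Fx Ω (1 : G)) fun w e => ⟨e, one_smul G w⟩)
    (h.le hz (one_smul G _) (one_smul G _) (one_smul G _) (one_smul G _))

theorem third (hz : F.Ze z x y a b) : ∃ e, z • e = e ∧ e ≠ a ∧ e ≠ b :=
  exists_third (S := Fx Ω z) (by
    rw [← Set.univ_inter (Fx Ω z), ← ncard_mod2 (S := Set.univ) hz.sq fun _ _ => trivial,
      Set.ncard_univ]
    exact Nat.odd_iff.1 F.odd_n) hz.d4.1 hz.fa hz.fb

theorem tri (hz : F.Ze z x y a b) (he : z • e = e) (ea : e ≠ a) (eb : e ≠ b) (hc : z • c = c) :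
    c = a ∨ c = b ∨ c = e := eq_of_three (h.le3 hz) hz.d4.1 ea.symm eb.symm hz.fa hz.fb he hc

theorem cyc1 (hz : Iv z) (h3 : (Fx Ω z).ncard ≤ 3) (h1 : z • p = q) (h2 : p ≠ q) (hu : z • u = u)
    (hv : z • v = v) (huv : u ≠ v) : F.Ze z p q u v :=
  F.cyc h.hz (one_pow _) hz (Commute.one_right z)
    (le_trans (Set.ncard_le_ncard Set.inter_subset_left) h3) h1 h2 hu hv huv (one_smul G _)
    (one_smul G _) (one_smul G _) (one_smul G _)

theorem fix3 (hz : F.Ze z x y a b) (he : z • e = e) (ea : e ≠ a) (eb : e ≠ b) (c : Commute g z)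
    (hg : (g • a = a ∧ g • b = b) ∨ (g • a = b ∧ g • b = a)) : g • e = e := by
  rcases h.tri hz he ea eb (fix_of_comm c he) with e1 | e1 | e1 <;> rcases hg with ⟨e2, e3⟩ | ⟨e2, e3⟩
  exacts [absurd e1 (ne_of_smul e2 ea), absurd e1 (ne_of_smul e3 eb), absurd e1 (ne_of_smul e3 eb),
    absurd e1 (ne_of_smul e2 ea), e1, e1]

theorem sts (ht : Iv t) : 3 ∣ (Fx Ω t).ncard * ((Fx Ω t).ncard - 1) := by
  obtain ⟨x, hx⟩ : ∃ x : Ω, t • x ≠ x := by
    by_contra e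
    push Not at e
    exact ht.ne (F.faith t e)
  have : ∀ u v : Ω, ∃ e : Ω, t • u = u → t • v = v → u ≠ v →
      ∃ z, F.Ze z x (t • x) u v ∧ z • e = e ∧ e ≠ u ∧ e ≠ v := fun u v => by
    by_cases H : t • u = u ∧ t • v = v ∧ u ≠ v
    · obtain ⟨z, hz, -⟩ := h.hz x (t • x) u v (d4_of_sw ht.sq rfl hx.symm H.1 H.2.1 H.2.2)
      obtain ⟨e, he⟩ := h.third hz
      exact ⟨e, fun _ _ _ => ⟨z, hz, he⟩⟩
    · exact ⟨u, fun h1 h2 h3 => absurd ⟨h1, h2, h3⟩ H⟩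
  choose e he using this
  refine three_dvd_sts e fun a ha b hb ab => ?_
  obtain ⟨z, hz, e1, e2, e3⟩ := he a b ha hb ab
  have te := h.fix3 hz e1 e2 e3 (hz.comm (g := t) (by
    rw [swap_back ht.sq rfl, ha, hb]; exact hz.symm1)) (.inl ⟨ha, hb⟩)
  refine ⟨te, e2, e3, ?_⟩
  obtain ⟨z', hz', f1, f2, f3⟩ := he b (e a b) hb te e3.symm
  obtain rfl := hz'.uniq (h.cyc1 hz.toIv (h.le3 hz) hz.sw hz.d4.2.2.2.2.2 hz.fb e1 e3.symm)
  exact ((h.tri hz e1 e2 e3 f1).resolve_right (not_or.2 ⟨f2, f3⟩))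

theorem other (hA : F.Ze A p q a b) (he : A • c = c) (ca : c ≠ a) (cb : c ≠ b)
    (h1 : F.Ze b1 b c p q) (h2 : F.Ze b2 a c p q) (h3 : F.Ze b3 a b p q) (hu : A • u ≠ u)
    (up : u ≠ p) (uq : u ≠ q) : b1 • u = A • u ∨ b2 • u = A • u ∨ b3 • u = A • u := by
  have pq := h1.d4.1
  obtain ⟨z, hz, -⟩ := h.hz u (A • u) p q ⟨pq, up.symm, (ne_of_smul hA.sw' uq).symm, uq.symm,
    (ne_of_smul hA.sw up).symm, hu.symm⟩
  have cm := hz.comm (g := A) (by rw [swap_back hA.sq rfl, hA.sw, hA.sw']; exact hz.symm1.symm2)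
  have key : ∀ {w : G} {i j : Ω}, F.Ze w i j p q → z • i = j → w • u = A • u := fun hw e => by
    rw [hw.uniq (h.cyc1 hz.toIv (h.le3 hz) e hw.d4.2.2.2.2.2 hz.fa hz.fb pq), hz.sw]
  rcases h.tri hA he ca cb (fix_of_comm cm.symm hA.fa) with e | e | e
  · rcases h.tri hA he ca cb (fix_of_comm cm.symm hA.fb) with e' | e' | e'
    · exact absurd e' (ne_of_smul e hA.d4.1.symm)
    · have := hA.d4.le_ncard (F := Fx Ω z) e e' hz.fa hz.fb
      have := h.le3 hz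
      omega
    · exact .inl (key h1 e')
  exacts [.inr (.inr (key h3 e)), .inr (.inl (key h2 e))]

theorem false (H : ∀ (τ : G) (x y a b : Ω) (r : G), Cf τ x y a b → F.Rm τ x y a b r → r = 1) :
    False := by
  obtain ⟨τ, p, q, a, b, C⟩ := F.exists_Cf
  have D := C.d4
  clear C
  obtain ⟨A, hA, -⟩ := h.hz p q a b D
  obtain ⟨c, he, ca, cb⟩ := h.third hA
  have pq := D.2.2.2.2.2
  have cp : c ≠ p := fun e => pq (by rw [← hA.sw, ← e, he])
  have cq : c ≠ q := fun e => pq (by rw [← hA.sw', ← e, he])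
  obtain ⟨b1, h1, -⟩ := h.hz b c p q ⟨pq, D.2.2.2.1.symm, cp.symm, D.2.2.2.2.1.symm, cq.symm, cb.symm⟩
  obtain ⟨b2, h2, -⟩ := h.hz a c p q ⟨pq, D.2.1.symm, cp.symm, D.2.2.1.symm, cq.symm, ca.symm⟩
  obtain ⟨b3, h3, -⟩ := h.hz a b p q (D4.sw3 D)
  have cm : ∀ {w : G} {i j : Ω}, F.Ze w i j p q → A • i = i → A • j = j → Commute A w :=
    fun hw e1 e2 => hw.comm (by rw [e1, e2, hA.sw, hA.sw']; exact hw.symm2)
  have c1 := cm h1 hA.fb he
  have c2 := cm h2 hA.fa he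
  have c3 := cm h3 hA.fa hA.fb
  have hA1 := h.cyc1 hA.toIv (h.le3 hA) hA.sw pq hA.fb he cb.symm
  have hA2 := h.cyc1 hA.toIv (h.le3 hA) hA.sw pq hA.fa he ca.symm
  have f1 : b1 • a = a := h.fix3 hA1 hA.fa D.1 ca.symm c1.symm (.inr ⟨h1.sw, h1.sw'⟩)
  have f2 : b2 • b = b := h.fix3 hA2 hA.fb D.1.symm cb.symm c2.symm (.inr ⟨h2.sw, h2.sw'⟩)
  have f3 : b3 • c = c := h.fix3 hA he ca cb c3.symm (.inr ⟨h3.sw, h3.sw'⟩)
  have e1 : b1 * b2 * b1⁻¹ = b3 := (h2.conj b1).uniq (by rw [f1, h1.sw', h1.fa, h1.fb]; exact h3)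
  have e2 : b2 * b1 * b2⁻¹ = b3 :=
    (h1.conj b2).uniq (by rw [f2, h2.sw', h2.fa, h2.fb]; exact h3.symm1)
  have e3 : b3 * b1 * b3⁻¹ = b2 := (h1.conj b3).uniq (by rw [f3, h3.sw', h3.fa, h3.fb]; exact h2)
  have r3 : (b1 * b2) ^ 3 = 1 := by
    rw [h1.inv] at e1
    rw [h2.inv] at e2
    calc _ = (b1 * b2 * b1) * (b2 * b1 * b2) := by simp only [pow_succ, pow_zero, one_mul, mul_assoc]
      _ = 1 := by rw [e1, e2, h3.sq]
  obtain ⟨t, ht, t1⟩ := F.exists_iv D.ncard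
  obtain ⟨ta, tb, tp, tq⟩ := mem_St4.1 t1
  have tA := hA.comm_iv ht t1
  have tc := h.fix3 hA he ca cb tA (.inl ⟨ta, tb⟩)
  have tr := (h1.comm_iv ht (mem_St4.2 ⟨tp, tq, tb, tc⟩)).mul_right
    (h2.comm_iv ht (mem_St4.2 ⟨tp, tq, ta, tc⟩))
  have ra : (b1 * b2) • a = b := by rw [mul_smul, h2.sw, h1.sw']
  have rb : (b1 * b2) • b = c := by rw [mul_smul, f2, h1.sw]
  have rc : (b1 * b2) • c = a := by rw [mul_smul, h2.sw', f1]
  have rp : (b1 * b2) • p = p := by rw [mul_smul, h2.fa, h1.fa]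
  have rq : (b1 * b2) • q = q := by rw [mul_smul, h2.fb, h1.fb]
  have two : Fx Ω t ∩ Fx Ω (b1 * b2) = {p, q} := by
    refine Set.Subset.antisymm (fun u ⟨tu, ru⟩ => ?_) (by
      rintro _ (rfl | rfl)
      exacts [⟨tp, rp⟩, ⟨tq, rq⟩])
    by_contra n
    simp only [Set.mem_insert_iff, Set.mem_singleton_iff, not_or] at n
    have hu : A • u ≠ u := fun e => by
      rcases h.tri hA he ca cb e with rfl | rfl | rfl
      exacts [D.1 (ru.symm.trans ra), cb (rb.symm.trans ru), ca (ru.symm.trans rc)]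
    have u1 : b1 • u = b2 • u := swap_back h1.sq (by rw [← mul_smul]; exact ru)
    have u3 : b3 • u = b1 • u := by
      rw [← e1, h1.inv, mul_smul, mul_smul, u1, swap_back h2.sq rfl, u1]
    have v1 : b1 • u = A • u := by
      rcases h.other hA he ca cb h1 h2 h3 hu n.1 n.2 with e | e | e
      exacts [e, u1.trans e, u3.symm.trans e]
    have v2 := u1.symm.trans v1
    have mk : ∀ {w : G} {i j : Ω}, F.Ze w i j p q → Commute A w → w • u = A • u →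
        Iv (A * w) ∧ (A * w) • p = q ∧ (A * w) • u = u ∧ (A * w) • A • u = A • u :=
      fun hw cw e => ⟨hA.toIv.mul hw.toIv cw fun e => pq (by rw [← hA.sw, e, hw.fa]),
        by rw [mul_smul, hw.fa, hA.sw], by rw [mul_smul, e, swap_back hA.sq rfl],
        by rw [mul_smul, swap_back hw.sq e]⟩
    obtain ⟨i1, p1, a1, a1'⟩ := mk h1 c1 v1
    obtain ⟨i2, p2, a2, a2'⟩ := mk h2 c2 v2
    have cj : (Fx Ω (A * b2)).ncard = (Fx Ω (A * b1)).ncard := by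
      rw [← ncard_Fx_conj (A * b1) b3, ← e3, ← mul_assoc b3, ← c3.eq]
      simp only [mul_assoc]
    by_cases l : (Fx Ω (A * b1)).ncard ≤ 3
    · have := mul_left_cancel ((h.cyc1 i1 l p1 pq a1 a1' hu.symm).uniq
        (h.cyc1 i2 (cj ▸ l) p2 pq a2 a2' hu.symm))
      exact ca (by rw [← h2.sw, ← this, f1])
    have C1 := TT.cf ⟨i1, by omega⟩ p1 pq a1 a1' hu.symm
    have C2 := TT.cf ⟨i2, by omega⟩ p2 pq a2 a2' hu.symm
    have er : b1 * b2 = (A * b1) * (A * b2) := by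
      rw [c1.eq, mul_assoc, ← mul_assoc A, hA.sq, one_mul]
    have d := C1.d4
    obtain ⟨k, hk, k1⟩ := F.exists_K d.ncard
    have m := F.cen d.ncard hk k1 (h := b1 * b2) (mem_St4.2 ⟨ru,
      fix_of_comm (c1.mul_right c2) ru, rp, rq⟩) (mul_inv_eq_iff_eq_mul.1 (by
        rw [er, show ∀ v w : G, v * w * k * (v * w)⁻¹ = v * (w * k * w⁻¹) * v⁻¹ by intros; group,
          F.inv_of_R C2 (fun r => H _ _ _ _ _ r C2) hk,
          F.inv_of_R C1 (fun r => H _ _ _ _ _ r C1) (inv_mem hk), inv_inv]))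
    have := F.fpf d.ncard (mem_St4.2 ⟨tu, fix_of_comm tA.symm tu, tp, tq⟩) (F.notK d.ncard ht) m tr
    exact D.1 (by rw [← ra, this, one_smul])
  have m := ncard_mod Nat.prime_three r3 (S := Fx Ω t) fun _ => fix_of_comm tr.symm
  rw [two, Set.ncard_pair pq, Nat.ModEq] at m
  rcases (Nat.Prime.dvd_mul Nat.prime_three).1 (h.sts ht) with e | e <;> omega

end BB.DE

theorem BB.d_odd (F : BB G Ω) :
    ∃ (τ : G) (x y a b : Ω) (r : G), Cf τ x y a b ∧ F.Rm τ x y a b r ∧ r ≠ 1 := by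
  by_contra e
  push Not at e
  exact (F.de_one e).false e

end CfsgL.Q4B
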