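import Cfsg.Agent.H6.Q4B1b
import Cfsg.Agent.L.Q4B2
import Cfsg.Agent.H8.Q4Hall

set_option autoImplicit false

/-! S3404, case B: assembly, given case I. -/

namespace CfsgL.Q4B

open CfsgH1.Q4

theorem caseB_of {G Ω : Type*} [Group G] [Finite G] [MulAction G Ω] [Finite Ω] {P : Prop}
    (hI : ∀ (F : BB G Ω) {τ j r : G} {x y a b e : Ω}, Cf τ x y a b → In τ x y a b j →
      F.Rm τ x y a b r → τ • e = e → j • e = e → r • e ≠ e → P)
    (F : Fr G Ω) (hκ : Odd F.κ) (ht : ∃ t : G, orderOf t = 2 ∧ 4 ≤ (Fx Ω t).ncard) : P := by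
  obtain ⟨t, t1, t2⟩ := ht
  let F' : BB G Ω := ⟨F, hκ, t, iv_of_orderOf t1, t2⟩
  by_contra hP
  obtain ⟨τ, x, y, a, b, r, C, hr, r1⟩ := F'.d_odd
  refine r1 (F'.caseII (hall G Ω) F'.odd_n (fun τ x y a b j r e C hj hr h1 h2 => ?_) C hr)
  by_contra h3
  exact hP (hI F' C hj hr h1 h2 h3)

end CfsgL.Q4B
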