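import Cfsg.Agent.H6.T3N1

/-!
The numerical elimination: the computation and the a priori bounds.
-/

set_option autoImplicit false

namespace CfsgSZ.Nm

theorem L2 : allR (fun j => allR (fun e => mdL 2 j e) 1 13) 0 14 = true := by decide +kernel

theorem L4 : allR (fun j => allR (fun e => mdL 4 j e) 1 13) 0 14 = true := by decide +kernel

theorem T2 : [168, 336].all (mdT 2) = true := by decide +kernel

theorem T4 : [336, 672, 1092, 2184, 1344, 2688].all (mdT 4) = true := by decide +kernel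

variable {nv m d g S N : ℕ}

theorem Gl.m3 (h : Gl nv m d g S N) (hn : nv = 2 ∨ nv = 4) : ¬ 3 ∣ m := by
  rintro ⟨k, rfl⟩
  have e : g * nv = 9 * (12 * k ^ 2 * (d * (d + 1))) := by rw [h.eq]; ring
  have := h.n9
  rcases hn with rfl | rfl <;> omega

theorem Gl.m0 (h : Gl nv m d g S N) (hn : nv = 2 ∨ nv = 4) : 0 < m := by
  refine Nat.pos_of_ne_zero fun e => h.n9 ?_
  have := h.eq
  rw [e] at this
  rcases hn with rfl | rfl <;> omega

theorem Vc.pw (h : Gl nv m d g S N) (hn : nv = 2 ∨ nv = 4) {i D k : ℕ}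
    (v : Vc nv m d g i D (3 * 2 ^ k)) :
    ∃ j e, m = 2 ^ j ∧ D = 3 * 2 ^ e ∧ 1 ≤ e ∧ j + e ≤ k := by
  have e := v.eq
  have c : Nat.Coprime m 3 := ((Nat.Prime.coprime_iff_not_dvd Nat.prime_three).mpr (h.m3 hn)).symm
  obtain ⟨w, w1, w2⟩ : ∃ w, 3 * 2 ^ k = m * D * w ∧ w ∣ 2 := by
    rcases v.i12 with rfl | rfl
    exacts [⟨2, by linarith, dvd_rfl⟩, ⟨1, by linarith, one_dvd _⟩]
  have d3 : 3 ∣ D := by
    refine Nat.Coprime.dvd_of_dvd_mul_left (m := m * w) ?_ ⟨2 ^ k, by linarith⟩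
    exact Nat.Coprime.mul_right c.symm (Nat.Coprime.coprime_dvd_right w2 (by decide))
  obtain ⟨D, rfl⟩ := d3
  have w3 : 2 ^ k = m * D * w := by linarith
  obtain ⟨j, -, rfl⟩ := (Nat.dvd_prime_pow Nat.prime_two).mp (⟨D * w, by linarith⟩ : m ∣ 2 ^ k)
  obtain ⟨l, -, rfl⟩ := (Nat.dvd_prime_pow Nat.prime_two).mp
    (⟨2 ^ j * w, by linarith⟩ : D ∣ 2 ^ k)
  refine ⟨j, l, rfl, rfl, Nat.pos_of_ne_zero fun z => ?_, ?_⟩
  · simpa [z] using v.cl.two
  · exact (Nat.pow_dvd_pow_iff_le_right one_lt_two).mp ⟨w, by rw [pow_add, w3]⟩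

theorem chk_pw (h : Gl nv m d g S N) (hn : nv = 2 ∨ nv = 4) {i c j e : ℕ}
    (v : Vc nv m d g i (3 * 2 ^ e) c) (hm : m = 2 ^ j) (e1 : 1 ≤ e) (l : j + e ≤ 13) :
    chk nv m d g = true := by
  have : mdL nv j e = true := by
    rcases hn with rfl | rfl
    · exact allR_sound (allR_sound L2 (Nat.zero_le j) (by omega)) e1 (by omega)
    · exact allR_sound (allR_sound L4 (Nat.zero_le j) (by omega)) e1 (by omega)
  rw [mdL, if_pos l, ← hm] at this
  exact md_sound h hn v this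

theorem chk_T (h : Gl nv m d g S N) (hn : nv = 2 ∨ nv = 4) {i c D : ℕ}
    (v : Vc nv m d g i D c) (D0 : 0 < D) (k : mdT nv (m * D) = true) : chk nv m d g = true := by
  have m0 := h.m0 hn
  have := allR_sound k m0 (by nlinarith)
  have m3 : m % 3 ≠ 0 := fun e => h.m3 hn (Nat.dvd_of_mod_eq_zero e)
  simp only [Nat.mul_mod_right, bne_self_eq_false, Bool.false_or, Bool.or_eq_true, beq_iff_eq, m3,
    false_or, Nat.mul_div_cancel_left _ m0] at this
  exact md_sound h hn v this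

theorem chk_of (h : Gl nv m d g S N) (hn : nv = 2 ∨ nv = 4) {vs : List ℕ} {u E : ℕ}
    (f : Fn nv d g S N vs u E) (hv : ∀ c ∈ vs, ∃ i D, Vc nv m d g i D c) {c₀ : ℕ} (h0 : c₀ ∈ vs)
    (u0 : 0 < u) (hu : u ≤ 3 * (m * d)) (hE : E ≤ 3 * (m * d)) : chk nv m d g = true := by
  by_cases a : ∀ c ∈ vs, ∃ k, c = 3 * 2 ^ k
  swap
  · push Not at a
    obtain ⟨c, hc, a⟩ := a
    obtain ⟨i, D, v⟩ := hv c hc
    have e : c = 2 * (m * D) ∨ c = m * D := v.i12.imp (fun z => by have := v.eq; rw [z] at this; linarith)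
      fun z => by have := v.eq; rw [z] at this; linarith
    have t2 := List.all_eq_true.mp T2
    have t4 := List.all_eq_true.mp T4
    rcases v.vc with ⟨k, b, -⟩ | ⟨rfl, b⟩ | ⟨rfl, b⟩
    · exact absurd b (a k)
    · exact chk_T h hn v (Nat.pos_of_ne_zero fun z => by subst z; omega) (t2 _ (by
        simp only [List.mem_cons, List.not_mem_nil]; omega))
    · exact chk_T h hn v (Nat.pos_of_ne_zero fun z => by subst z; omega) (t4 _ (by
        simp only [List.mem_cons, List.not_mem_nil]; omega))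
  have key : ∀ c ∈ vs, ∀ k, c = 3 * 2 ^ k → k ≤ 13 → chk nv m d g = true := by
    rintro c hc k rfl l
    obtain ⟨i, D, v⟩ := hv _ hc
    obtain ⟨j, e, e1, rfl, e3, e4⟩ := v.pw h hn
    exact chk_pw h hn v e1 e3 (by omega)
  obtain ⟨k, rfl⟩ := a _ h0
  obtain ⟨i, D, v⟩ := hv _ h0
  have kd : 2 ^ k ∣ g := (Dvd.intro_left _ rfl).trans (Nat.dvd_of_mod_eq_zero v.cl.dvd)
  rcases f.cas with ⟨c, hc, b⟩ | b | b
  · obtain ⟨k, rfl⟩ := a c hc
    refine key _ hc k rfl ?_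
    rcases b with b | b
    · have := (Nat.Prime.dvd_mul (by norm_num)).mp b
      have := this.imp_right (Nat.Prime.dvd_of_dvd_pow (by norm_num))
      omega
    · exact ((Nat.pow_lt_pow_iff_right one_lt_two).mp (by omega : 2 ^ k < 2 ^ 13)).le
  · refine key _ h0 k rfl (not_lt.mp fun l => b ?_)
    exact (pow_dvd_pow 2 (by omega : 12 ≤ k)).trans kd
  obtain ⟨s, hs⟩ := h.pw
  by_cases l : s ≤ 13
  · refine key _ h0 k rfl (le_trans ?_ l)
    rw [h.gS, hs, mul_assoc] at kd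
    exact (Nat.pow_dvd_pow_iff_le_right one_lt_two).mp (Nat.Coprime.dvd_of_dvd_mul_right
      (Nat.Coprime.pow_left _ (Nat.Coprime.mul_right (by decide)
        ((Nat.Prime.coprime_iff_not_dvd Nat.prime_two).mpr h.odd))) kd)
  have S1 : 2 ^ 14 ≤ S := hs ▸ Nat.pow_le_pow_right two_pos (by omega)
  have S2 : S ≤ 3 * (m * d) := by
    obtain ⟨c, hc, dv⟩ := f.cen
    rcases List.mem_cons.mp hc with rfl | hc
    · exact (Nat.le_of_dvd u0 dv).trans hu
    · obtain ⟨i, D, v⟩ := hv c hc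
      obtain ⟨k, rfl⟩ := a c hc
      exact (Nat.le_of_dvd (by positivity) dv).trans (v.le h.d4)
  have m0 := h.m0 hn
  have d4 := h.d4
  have e := h.eq
  rw [h.gS] at e b
  have n4 : nv ≤ 4 := by omega
  have A : m * (d + 1) ≤ 3 * N := by
    refine Nat.le_of_mul_le_mul_left (c := 12 * (m * d)) ?_ (by positivity)
    calc 12 * (m * d) * (m * (d + 1)) = S * 3 * N * nv := by rw [e]; ring
      _ ≤ 3 * (m * d) * 3 * N * 4 := by gcongr
      _ = _ := by ring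
  have B : E ≤ 9 * N := by nlinarith
  have C : N ≤ 945 := by
    have := Nat.mul_le_mul_right N S1
    by_contra z
    have := Nat.mul_le_mul_left S (by omega : 946 ≤ N)
    rcases hn with rfl | rfl <;> nlinarith
  obtain ⟨j, e, e1, rfl, e3, e4⟩ := v.pw h hn
  refine chk_pw h hn v e1 e3 ((Nat.pow_lt_pow_iff_right one_lt_two).mp ?_).le
  have := Nat.mul_le_mul_left m v.cl.g2
  rw [pow_add, ← e1]
  nlinarith

theorem Uc.chk (h : Gl nv m d g S N) (hn : nv = 2 ∨ nv = 4) {vs : List ℕ} {U : ℕ}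
    (u : Uc nv m d g S N vs U) (hv : ∀ c ∈ vs, ∃ i D, Vc nv m d g i D c) {c₀ : ℕ}
    (h0 : c₀ ∈ vs) : chk nv m d g = true := by
  have m0 := h.m0 hn
  have U0 : 0 < U := Nat.pos_of_ne_zero fun e => u.n3 (by simp [e])
  have : 2 * m * U ≤ 3 * (m * d) := by
    have := Nat.mul_le_mul_left m (by have := u.cl.g2; have := h.d4; omega : 2 * U ≤ 3 * d)
    linarith
  exact chk_of h hn u.fn hv h0 (by positivity) this (by unfold ev; split_ifs <;> omega)

theorem Fn.chk (h : Gl nv m d g S N) (hn : nv = 2 ∨ nv = 4) {vs : List ℕ}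
    (f : Fn nv d g S N vs 1 0) (hv : ∀ c ∈ vs, ∃ i D, Vc nv m d g i D c) {c₀ : ℕ}
    (h0 : c₀ ∈ vs) : chk nv m d g = true := by
  have : 0 < m * d := Nat.mul_pos (h.m0 hn) (by have := h.d4; omega)
  exact chk_of h hn f hv h0 one_pos (by omega) (Nat.zero_le _)

theorem num2 (h : Gl 2 m d g S N) {i D c : ℕ} (v : Vc 2 m d g i D c)
    (a : (i = 2 ∧ D % 4 = 0 ∧ Fn 2 d g S N [c] 1 0) ∨
      (i = 1 ∧ ∃ U, (2 * D + U) % 4 = 0 ∧ Uc 2 m d g S N [c] U)) : c = 12 := by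
  have hn : 2 = 2 ∨ 2 = 4 := Or.inl rfl
  have hv : ∀ c' ∈ [c], ∃ i D, Vc 2 m d g i D c' := by simpa using ⟨i, D, v⟩
  have k : chk 2 m d g = true := by
    rcases a with ⟨-, -, f⟩ | ⟨-, U, -, u⟩
    exacts [f.chk h hn hv List.mem_cons_self, u.chk h hn hv List.mem_cons_self]
  simp only [chk, Bool.and_eq_true, Nat.blt_eq, if_true, c2, List.all_eq_true] at k
  have := k.2.2 _ (v.mem hn h.d4 (h.m0 hn) k.2.1)
  by_contra z
  rcases a with ⟨rfl, a, f⟩ | ⟨rfl, U, a, u⟩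
  · exact finB_sound h k.1 (by simpa [z, a] using this) f
  · simpa [a] using uB_sound h k.1 (f := fun U => (2 * D + U) % 4 != 0) (by simpa [z] using this) u

theorem num4 (h : Gl 4 m d g S N) {i₁ D₁ c₁ i₂ D₂ c₂ i₃ D₃ c₃ : ℕ} (v₁ : Vc 4 m d g i₁ D₁ c₁)
    (v₂ : Vc 4 m d g i₂ D₂ c₂) (v₃ : Vc 4 m d g i₃ D₃ c₃) (b : (D₁ + D₂ + D₃) % 4 = 0)
    (a : (i₁ + i₂ + i₃ = 4 ∧ Fn 4 d g S N [c₁, c₂, c₃] 1 0) ∨
      (i₁ + i₂ + i₃ = 3 ∧ ∃ U, ((2 * D₁ + U) % 4 = 0 ∨ (D₁ + D₂ + U) % 4 = 0 ∨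
        (D₁ + D₃ + U) % 4 = 0) ∧ Uc 4 m d g S N [c₁, c₂, c₃] U)) : False := by
  have hn : 4 = 2 ∨ 4 = 4 := Or.inr rfl
  have hv : ∀ c' ∈ [c₁, c₂, c₃], ∃ i D, Vc 4 m d g i D c' := by
    simpa using ⟨⟨_, _, v₁⟩, ⟨_, _, v₂⟩, _, _, v₃⟩
  have k : chk 4 m d g = true := by
    rcases a with ⟨-, f⟩ | ⟨-, U, -, u⟩
    exacts [f.chk h hn hv List.mem_cons_self, u.chk h hn hv List.mem_cons_self]
  simp only [chk, Bool.and_eq_true, Nat.blt_eq, c4, List.all_eq_true,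
    Nat.reduceEqDiff, if_false] at k
  have m0 := h.m0 hn
  have := k.2.2 _ (v₁.mem hn h.d4 m0 k.2.1) _ (v₂.mem hn h.d4 m0 k.2.1) _
    (v₃.mem hn h.d4 m0 k.2.1)
  rcases a with ⟨a, f⟩ | ⟨a, U, a', u⟩
  · exact finB_sound h k.1 (by simpa [b, a] using this) f
  · have := uB_sound h k.1 (f := fun U => (2 * D₁ + U) % 4 != 0 && ((D₁ + D₂ + U) % 4 != 0 &&
      (D₁ + D₃ + U) % 4 != 0)) (by simpa [b, a] using this) u
    simp only [Bool.and_eq_true, bne_iff_ne] at this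
    omega

end CfsgSZ.Nm
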