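import Cfsg.Agent.H6.T3Pi
import Cfsg.Agent.H6.T3N2

/-!
Translation of the group theoretic data to the numerical conditions.
-/

set_option autoImplicit false
set_option linter.style.haveILetI false
set_option linter.unusedSectionVars false

namespace CfsgSZ

open Subgroup CfsgH5 CfsgH6 CfsgFT

universe u

attribute [local instance 100] Fintype.ofFinite

variable {G : Type u} [Group G] [Finite G]

theorem t3_modEq {p : ℕ} (hp : p.Prime) {S H : Subgroup G} (h : SylIn p S H) :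
    (N S).relIndex H % p = 1 := by
  haveI := Fact.mk hp
  have h1 := card_sylow_modEq_one p H
  rw [h.toSylow.card_eq_index_normalizer] at h1
  rw [relIndex, subgroupOf_normalizer_eq h.le, ← Nat.mod_eq_of_lt hp.one_lt]
  exact h1

theorem card_C1_isConj {a b : G} (h : IsConj a b) : Nat.card (C1 a) = Nat.card (C1 b) := by
  obtain ⟨g, rfl⟩ := isConj_iff.mp h
  rw [← cj_C1, card_cj]

theorem iu_conj (x t : G) {a b : G} (h : IsConj a b) : iu x t a = iu x t b :=
  Nat.card_congr (Equiv.subtypeEquivRight fun _ => ⟨h.symm.trans, h.trans⟩)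

open Classical in
theorem iu_sum (x t u : G) : iu x t u = ∑ y : Vx x, if IsConj u (t * y) then 1 else 0 := by
  rw [iu, Nat.card_eq_fintype_card, Fintype.card_subtype, Finset.card_filter]

theorem iu_le (x t : G) {s : Finset G} (h : ∀ a ∈ s, ∀ b ∈ s, IsConj a b → a = b) :
    ∑ u ∈ s, iu x t u ≤ Nat.card (Vx x) := by
  classical
  simp only [iu_sum]
  rw [Finset.sum_comm, Nat.card_eq_fintype_card, ← Finset.card_univ, Finset.card_eq_sum_ones]
  refine Finset.sum_le_sum fun y _ => ?_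
  rw [← Finset.card_filter]
  exact Finset.card_le_one.mpr fun a ha b hb => h a (Finset.mem_filter.mp ha).1 b
    (Finset.mem_filter.mp hb).1 ((Finset.mem_filter.mp ha).2.trans (Finset.mem_filter.mp hb).2.symm)

theorem le_iu (x t : G) {s : Finset G} (h : ∀ y ∈ Vx x, ∃ a ∈ s, IsConj a (t * y)) :
    Nat.card (Vx x) ≤ ∑ u ∈ s, iu x t u := by
  classical
  simp only [iu_sum]
  rw [Finset.sum_comm, Nat.card_eq_fintype_card, ← Finset.card_univ, Finset.card_eq_sum_ones]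
  refine Finset.sum_le_sum fun y _ => ?_
  rw [← Finset.card_filter]
  obtain ⟨a, h1, h2⟩ := h y y.2
  exact Finset.card_pos.mpr ⟨a, Finset.mem_filter.mpr ⟨h1, h2⟩⟩

/-- the difference of the degree and the value -/
def Dn (d : ℕ) (α : G → ℤ) (u : G) : ℕ := (d - α u).toNat

namespace CT

variable {x t : G} {d m : ℕ} {α : G → ℤ} (c : CT x t d m α)
include c

theorem Dn_eq {u : G} (hu : u * u = 1) (u1 : u ≠ 1) : (Dn d α u : ℤ) = d - α u := by
  have := (c.cls u hu u1).2.2.2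
  have := le_abs_self (α u)
  have := c.d4
  exact Int.toNat_of_nonneg (by omega)

theorem Dn_conj {a b : G} (h : IsConj a b) : Dn d α a = Dn d α b := by rw [Dn, c.cnj a b h, Dn]

theorem cl {u : G} (hu : u * u = 1) (u1 : u ≠ 1) :
    iu x t u * Nat.card (C1 u) = 2 * m * Dn d α u ∧
      Nm.Cl d (Nat.card G) (Dn d α u) (Nat.card (C1 u)) := by
  obtain ⟨h1, h2, h3, h4⟩ := c.cls u hu u1
  have e := c.Dn_eq hu u1
  have := le_abs_self (α u)
  have := neg_abs_le (α u)
  refine ⟨by rw [← e] at h1; exact_mod_cast h1, by omega,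
    Nat.mod_eq_zero_of_dvd (card_subgroup_dvd_card _), by omega, by omega, ?_⟩
  have e' : α u = d - Dn d α u := by omega
  rw [e'] at h3
  zify
  linarith

theorem four' {a b : G} (ha : a * a = 1) (hb : b * b = 1) (hab : a * b = b * a) (a1 : a ≠ 1)
    (b1 : b ≠ 1) (hne : a ≠ b) : (Dn d α a + Dn d α b + Dn d α (a * b)) % 4 = 0 := by
  have := c.four a b ha hb hab a1 b1 hne
  have := c.Dn_eq ha a1
  have := c.Dn_eq hb b1
  have := c.Dn_eq (sq_mul ha hb hab) fun e => hne (by rw [eq_inv_of_mul_eq_one_left e, inv_invol hb])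
  omega

theorem gl (h : Hy G) (hx : orderOf x = 3) {S : Subgroup G} (hS : SylIn 2 S ⊤) :
    ∃ n, Nm.Gl (Nat.card (Vx x)) m d (Nat.card G) (Nat.card S) n := by
  haveI := Fact.mk Nat.prime_two
  have e := card_mul_relIndex hS.le
  rw [card_top] at e
  obtain ⟨n, hn⟩ : 3 ∣ S.relIndex ⊤ := ((Nat.Prime.dvd_mul Nat.prime_three).mp
    (e ▸ hx ▸ orderOf_dvd_natCard x)).resolve_left (not3_of_two hS.isPGroup)
  exact ⟨n, c.g, by rw [← e, hn, mul_assoc], IsPGroup.iff_card.mp hS.isPGroup,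
    fun a => hS.not_dvd_relIndex (hn ▸ a.mul_left 3), h.n5, h.n9, c.d3, c.d4⟩

theorem syl (h : Hy G) (hx : orderOf x = 3) {cs : List ℕ}
    (hc : ∀ u : G, u * u = 1 → u ≠ 1 → Nat.card (C1 u) ∈ cs) : Nm.Syl (Nat.card G) d cs := by
  intro p f hp p7 hf pf p2 hcs
  have pg : p ∣ Nat.card G := by
    refine ((Nat.Prime.dvd_mul hp).mp (Dvd.dvd.trans (Dvd.dvd.mul_left ?_ _)
      c.g.symm.dvd)).resolve_right fun e => ?_
    · rcases hf with rfl | rfl
      exacts [pf.mul_right _, pf.mul_left _]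
    · have := Nat.le_of_dvd (card_pos _) e
      have := h.card_V hx
      omega
  obtain ⟨z, -, hz⟩ := exists_mem_orderOf_eq (X := (⊤ : Subgroup G)) hp (by rwa [card_top])
  have cz : Nat.card (zpowers z) = p := by rw [Nat.card_zpowers, hz]
  have le : zpowers z ≤ C1 z := zpowers_le.mpr (self_mem_C1 z)
  have e1 := card_mul_relIndex le
  refine ⟨(zpowers z).relIndex (C1 z), (C (zpowers z)).relIndex (N (zpowers z)),
    (N (zpowers z)).relIndex ⊤, ?_, t3_modEq hp (sylIn_zpowers hp (mem_top z) hz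
      (by rwa [card_top])), relIndex_C_dvd_of_prime_card hp cz (nrm_N _), fun q hq hd => ?_⟩
  · rw [← cz, e1, ← C_zpowers, card_mul_relIndex (C_le_N _), card_mul_relIndex le_top, card_top]
  have ne : p ≠ q := by
    rintro rfl
    exact p2 ((mul_dvd_mul cz.symm.dvd hd).trans (e1 ▸ card_subgroup_dvd_card _))
  have hd' : q ∣ Nat.card (C1 z) := e1 ▸ hd.mul_left _
  obtain ⟨y, hy, ho⟩ := exists_mem_orderOf_eq hq hd'
  have zy : z ∈ C1 y := mem_C1.mpr (mem_C1.mp hy).symm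
  refine ⟨h.seven hq hd' (mem_pi6.mpr ⟨?_, ?_⟩), c.r2 p q f hp hq ne p2 hf pf z y hz ho hy⟩
  · rintro rfl
    refine hcs _ (hc y (by rw [← pow_two, ← ho, pow_orderOf_eq_one]) fun e => by simp [e] at ho) ?_
    exact hz ▸ orderOf_dvd_card' zy
  · rintro rfl
    have := Nat.le_of_dvd (by norm_num) (hz ▸ orderOf_dvd_of_pow_eq_one (h.ex y ho z zy))
    omega

end CT

theorem val_of {u : G} (h : th u = ⊥) : Nm.Val (Nat.card (C1 u)) := by
  intro p hp p7 h1 h2
  obtain ⟨z, hz, ho⟩ := exists_mem_orderOf_eq hp h1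
  have S := sylIn_zpowers hp hz ho h2
  have m := t3_modEq hp S
  refine ⟨_, lt_of_le_of_ne (Nat.pos_of_ne_zero fun e => by simp [e] at m) fun e => ?_, ?_, m⟩
  · have : zpowers z ≤ th u := le_Opi S.le (nrm_of_le_N (relIndex_eq_one.mp e.symm))
      (piG_of_isPGroup hp S.isPGroup (mem_pi6.mpr ⟨by omega, by omega⟩))
    rw [h, le_bot_iff, zpowers_eq_bot] at this
    simp [this] at ho; omega
  · rw [← card_inf_mul_relIndex (N (zpowers z)) (C1 u)]
    exact mul_dvd_mul_right (ho ▸ orderOf_dvd_card' (mem_inf.mpr ⟨le_normalizer (mem_zpowers z), hz⟩)) _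

theorem Hy.conj_V (h : Hy G) {x y v : G} (hx : orderOf x = 3) (hy : orderOf y = 3)
    (hv : v ∈ Vx y) : ∃ w ∈ Vx x, IsConj w v := by
  obtain ⟨g, -, e⟩ := h.conj3 hx hy (mem_top x) (mem_top y)
  refine ⟨g * v * g⁻¹, ?_, (isConj_iff.mpr ⟨g, rfl⟩).symm⟩
  have := (conj_mem_cj (g := g)).mpr hv
  rw [cj_V] at this
  rcases e with e | e <;> rw [e] at this
  exacts [this, V_inv x ▸ this]

variable [IsSimpleGroup G]

theorem Bas.eq_of_conj (h : Hy G) {x t v w : G} (b : Bas x t) (hv : v ∈ Vx x) (hw : w ∈ Vx x)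
    (e : IsConj v w) : v = w := by
  obtain ⟨n, hn, rfl⟩ := h.fusionV b.x3 hv hw e
  obtain ⟨y, hy, z, hz, e⟩ := b.exists_y h hn
  have a : y ∈ C1 v := mem_C1.mpr (mem_C.mp (h.ab_V b.x3 hy) v hv).symm
  have a' : z ∈ C1 v := zpowers_le.mpr (mem_C1.mpr (mem_C1.mp (V_le x hv)).symm) hz
  have a'' : t ∈ C1 v := mem_C1.mpr (b.comm hv).symm
  refine (mem_C1_iff_conj.mp ?_).symm
  rcases e with rfl | rfl
  exacts [mul_mem a a', mul_mem (mul_mem a a'') a']

namespace SV

variable (h : SV G) {x t : G} (b : Bas x t)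
include h b

theorem vc {v : G} (hv : v ∈ Vx x) (v1 : v ≠ 1) : Nm.VC (Nat.card (Vx x)) (Nat.card (C1 v)) := by
  obtain ⟨h2, e⟩ := h.cv b hv v1
  refine e.imp_left fun e => ?_
  obtain ⟨k, hk⟩ := IsPGroup.iff_card.mp h2
  refine ⟨k + 1, by rw [← card_mul_relIndex (Opc_le 3 (C1 v)), e, hk]; ring, ?_⟩
  have := card_le_of_le (le_O6 b.x3 (mem_C1.mpr (mem_C1.mp (V_le x hv)).symm) e
    (fun y hy => mem_C1.mpr (mem_C.mp (h.ab_V b.x3 hy) v hv).symm) (not3_of_two (isPGroup_V x))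
    (mem_N_of_le_C1 (V_le x)))
  omega

theorem iu_pos {u : G} (hu : u * u = 1) (u1 : u ≠ 1) : 0 < iu x t u := by
  obtain ⟨y, hy, e⟩ := b.exists_conj h.toSS hu u1
  haveI : Nonempty {y : Vx x // IsConj u (t * y)} := ⟨⟨⟨y, hy⟩, e⟩⟩
  exact Nat.card_pos

theorem fn {d m n u : ℕ} {α : G → ℤ} (c : CT x t d m α) {S : Subgroup G} (hS : SylIn 2 S ⊤)
    (gl : Nm.Gl (Nat.card (Vx x)) m d (Nat.card G) (Nat.card S) n) {vs : List ℕ}
    (hv : ∀ v ∈ Vx x, v ≠ 1 → Nat.card (C1 v) ∈ vs)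
    (hu : ∀ w : G, w * w = 1 → w ≠ 1 → (∀ v ∈ Vx x, ¬ IsConj v w) → Nat.card (C1 w) = u)
    (val : Nm.Val u) : Nm.Fn (Nat.card (Vx x)) d (Nat.card G) (Nat.card S) n vs u (Nm.ev u) := by
  haveI := Fact.mk Nat.prime_two
  have tr : ∀ y v : G, orderOf y = 3 → v ∈ Vx y → v ≠ 1 → Nat.card (C1 v) ∈ vs := by
    intro y v hy h1 h2
    obtain ⟨w, h3, e⟩ := h.conj_V b.x3 hy h1
    exact card_C1_isConj e ▸ hv w h3 fun a => h2 (isConj_one_right.mp (a ▸ e))
  have all : ∀ w : G, w * w = 1 → w ≠ 1 → Nat.card (C1 w) ∈ u :: vs := by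
    intro w ww w1
    by_cases a : ∀ v ∈ Vx x, ¬ IsConj v w
    · exact List.mem_cons.mpr (Or.inl (hu w ww w1 a))
    push Not at a
    obtain ⟨v, h1, e⟩ := a
    exact List.mem_cons_of_mem _ (card_C1_isConj e ▸ hv v h1 fun a => w1 (isConj_one_right.mp (a ▸ e)))
  refine ⟨?_, c.syl h.toHy b.x3 all, val, ?_⟩
  · obtain ⟨z, -, h2, h3, h4⟩ := exists_invol_Z hS.isPGroup fun e => b.t1 (by
      have := hS.card_le le_top (isPGroup_of_sq b.tt)
      rw [card_invol b.tt b.t1, e, card_bot] at this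
      omega)
    exact ⟨_, all z h3 h4, card_dvd_of_le' fun s hs => mem_C1.mpr (mem_C.mp h2 s hs)⟩
  by_contra a
  simp only [Nm.Cas, not_or, not_exists, not_and, not_le, not_not] at a
  obtain ⟨a1, a2, a3⟩ := a
  have sg : SG G := by
    refine ⟨h, fun y v hy h1 h2 => ?_, fun y v hy h1 h2 => (a1 _ (tr y v hy h1 h2)).2,
      fun T hT => ?_⟩
    · obtain ⟨s, hs⟩ := h.exists_inv hy
      have := (a1 _ (tr y v hy h1 h2)).1
      rcases (h.cv (h.bas hy hs) h1 h2).2 with e | ⟨-, e⟩ | ⟨-, e | e | e⟩ <;>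
        first | exact e | (rw [e] at this; omega)
    · rw [gl.gS, mul_assoc, ← hT.card_eq hS] at a2
      have := Nat.le_of_dvd (card_pos T) (Nat.Coprime.dvd_of_dvd_mul_right
        (Nat.Coprime.pow_left 12 (Nat.Coprime.mul_right (by decide)
          ((Nat.Prime.coprime_iff_not_dvd Nat.prime_two).mpr gl.odd))) a2)
      omega
  refine a3.not_ge ((h.kappa b).trans (Nat.mul_le_mul_left _ (sg.count b hS
    (Nat.pos_of_ne_zero fun e => gl.odd (by simp [e])) (fun K hK => ?_) fun w ww w1 hw => ?_)))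
  · refine Nat.Coprime.dvd_of_dvd_mul_left ?_ (gl.gS ▸ card_subgroup_dvd_card K)
    exact Nat.Coprime.mul_right (cop_two_pi hS.isPGroup hK).symm
      ((Nat.Prime.coprime_iff_not_dvd Nat.prime_three).mpr (not3_of_pi hK)).symm
  · have e := hu w ww w1 fun v h1 e => hw (by
      have := sg.pi_C1 b.x3 h1 fun a => w1 (isConj_one_right.mp (a ▸ e))
      rwa [PiG, card_C1_isConj e] at this)
    rw [Nm.ev, if_neg, e]
    intro e'
    exact hw (piG_of_isPGroup Nat.prime_two (IsPGroup.of_card (e.trans e'.symm)) (by simp [pi6]))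

end SV

end CfsgSZ
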