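import Cfsg.Agent.H6.T3S2

/-!
The `3'`-core of a subgroup containing `S₃` with trivial `π`-core is a `2`-group.
-/

set_option autoImplicit false
set_option linter.style.haveILetI false
set_option linter.unusedSectionVars false

namespace CfsgSZ

open Subgroup CfsgH5 CfsgH6 CfsgFT
open scoped commutatorElement

universe u

variable {G : Type u} [Group G] [Finite G]

theorem sup_eq_sq {A B B' : Subgroup G} {r : ℕ} (hr : r.Prime) (hA : Ab A) (c : Nat.card A = r * r)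
    (h1 : B ≤ A) (h2 : B' ≤ A) (c1 : Nat.card B = r) (c2 : Nat.card B' = r) (hne : B ≠ B') :
    B ⊔ B' = A := by
  refine eq_of_le_of_card_eq (sup_le h1 h2) ?_
  rw [card_sup_of_inf_eq_bot (Or.inl ((hA.nrm h2).mono h1)), c, c1, c2]
  exact (le_or_inf_eq_bot_of_prime_card (c1 ▸ hr) _).resolve_left
    fun e => hne (eq_of_le_of_card_eq e (c1.trans c2.symm))

theorem mem_C_of_cyc {x t : G} (hx : orderOf x = 3) (ht : t * x * t⁻¹ = x⁻¹) {B : Subgroup G}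
    (hB : IsCyclic B) (h1 : x ∈ N B) (h2 : t ∈ N B) : x ∈ C B := by
  have := D_le_C_of_isCyclic hB (nrm_N B) (commutator_mem_commutator h2 h1)
  rwa [commutatorElement_def, ht, inv_sq3 hx] at this

theorem eight_le {r : ℕ} (hr : r.Prime) (h7 : 7 ≤ r) {R D : Subgroup G} (hR : IsPGroup r R)
    (hn : Nrm R D) (hd : ¬ r ∣ Nat.card D) (h : ¬ D ≤ C R) : 8 ≤ (C R).relIndex D := by
  have m := relIndex_C_mod hr hR hn hd
  have p := relIndex_pos (C R) D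
  have : (C R).relIndex D ≠ 1 := fun e => h (relIndex_eq_one.mp e)
  have := Nat.le_of_dvd (by omega) ((Nat.modEq_iff_dvd' p).mp m.symm)
  omega

theorem Hy.K1 (h : Hy G) {x t : G} (b : Bas x t) {H : Subgroup G} (hx : x ∈ H) (ht : t ∈ H)
    (hπ : Opi pi6 H = ⊥) : IsPGroup 2 (Opc 3 H) := by
  have nO : Nrm H (Opc 3 H) := nrm_Opi _ H
  have o3 := not_dvd_card_Opc Nat.prime_three H
  set O := Opc 3 H
  have cD := inf_C_Op_le Nat.prime_two (h.solv o3) (eq_bot_iff.mpr (hπ ▸ le_Opi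
    ((Opi_le _ _).trans (Opc_le 3 H)) (nO.Opi _)
    (piG6 (piG_Opi _ _) fun e => o3 (e.trans (card_dvd_of_le' (Opi_le _ _))))))
  have nD := nO.Op' Nat.prime_two
  have D2 := isPGroup_Op' Nat.prime_two O
  set D := Op 2 O
  refine (piG_single Nat.prime_two).mp fun r hr hd => by_contra fun r2 => ?_
  have rp : r ∈ pi6 := mem_pi6.mpr ⟨r2, fun e => o3 (e ▸ hd)⟩
  have r7 := h.seven hr hd rp
  have cX := cop_X b.x3 o3
  obtain ⟨R, r1, r3⟩ := exists_sylIn_nrm_of_coprime (nrmX (nO.le_N hx)) cX (solv_X x O) hr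
  have tX := mem_N.mp ((mem_NX b.x3).mpr (Or.inr b.inv))
  obtain ⟨c, hc, e⟩ := sylIn_conj_of_coprime (nrmX (nO.le_N hx)) cX (solv_X x O) hr r1
    (mem_N.mp (nO.le_N ht) ▸ r1.cjj t) r3 (tX ▸ r3.cjj t)
  rw [C_zpowers] at hc
  have b' := b.mul h (h.inf_C1_le_V b.x3 o3 hc)
  have sR : t * c ∈ N R := by rw [mem_N, ← cj_cj, ← e, cj_cj, b.tt, cj_one]
  have sH : t * c ∈ H := mul_mem ht (Opc_le 3 H hc.1)
  generalize t * c = s at b' sR sH
  have pZ : PiG pi6 (Z R) := (r1.piG hr rp).of_le (Z_le R)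
  have xZ := nrm_zpowers_iff.mp r3.Z
  obtain ⟨a, ⟨aZ, as⟩, oa⟩ := exists_mem_orderOf_eq hr (prime_dvd_card_of_isPGroup hr
    (r1.isPGroup.to_le (inf_le_left.trans (Z_le R))) (inf_t_ne b.x3 b'.tt b'.inv
      (Z_ne_bot_of_nilpotent (nilpotent_of_isPGroup hr r1.isPGroup) (r1.ne_bot hr hd)) xZ
      ((nrm_N R).Z.le_N sR) (h.fpf b.x3 pZ)))
  have a'Z := conj_mem_of_mem_N xZ aZ
  have AZ : F4 a (x * a * x⁻¹) ≤ Z R := sup_le (zpowers_le.mpr aZ) (zpowers_le.mpr a'Z)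
  have m3 : x⁻¹ * a * x ∈ F4 a (x * a * x⁻¹) := by
    obtain ⟨y, -, oy, e⟩ := h.cube b.x3 (not3_of_pi pZ) xZ aZ
    have : a * (x * a * x⁻¹) * (x⁻¹ * a * x) ∈ Z R ⊓ C1 y := ⟨mul_mem (mul_mem aZ a'Z)
      (by simpa using conj_mem_of_mem_N (inv_mem xZ) aZ), V_le y e⟩
    rw [h.fpf oy pZ, mem_bot] at this
    rw [eq_inv_of_mul_eq_one_right this]
    exact inv_mem (mul_mem_sup (mem_zpowers _) (mem_zpowers _))
  have xA : x ∈ N (F4 a (x * a * x⁻¹)) := mem_N_of_cj_le (by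
    rw [CfsgFT.cj_sup, cj_zpowers, cj_zpowers]
    refine sup_le le_sup_right (zpowers_le.mpr ?_)
    convert m3 using 1
    calc _ = (x * x) * a * (x * x)⁻¹ := by group
      _ = _ := by rw [sq_eq_inv b.x3, inv_inv])
  have sA : s ∈ N (F4 a (x * a * x⁻¹)) := mem_N_of_cj_le (by
    rw [CfsgFT.cj_sup, cj_zpowers, cj_zpowers, mem_C1_iff_conj'.mp as]
    refine sup_le le_sup_left (zpowers_le.mpr ?_)
    convert m3 using 1
    calc _ = (s * x * s⁻¹) * (s * a * s⁻¹) * (s * x * s⁻¹)⁻¹ := by group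
      _ = _ := by rw [b'.inv, inv_inv, mem_C1_iff_conj'.mp as])
  have cyc : ∀ g ∈ Z R, g ≠ 1 → x ∈ N (zpowers g) → s ∉ N (zpowers g) := fun g hg g1 n1 n2 => by
    have := mem_C_of_cyc b.x3 b'.inv (isCyclic_iff_zpowers.mpr ⟨g, rfl⟩) n1 n2
    rw [C_zpowers] at this
    exact g1 (mem_bot.mp (h.fpf b.x3 pZ ▸ (⟨hg, mem_C1_comm.mp this⟩ : g ∈ Z R ⊓ C1 x)))
  have a1 := ne_one_of_orderOf_prime hr oa
  have aA := (ab_Z R).mono AZ
  have cz : ∀ g : G, orderOf g = r → Nat.card (zpowers g) = r := fun g e => by rw [Nat.card_zpowers, e]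
  have cA : Nat.card (F4 a (x * a * x⁻¹)) = r * r := by
    rw [card_sup_of_inf_eq_bot (Or.inl ((aA.nrm le_sup_right).mono le_sup_left)), cz a oa,
      cz _ ((orderOf_conj' _ _).trans oa)]
    rw [inf_comm]
    refine (le_or_inf_eq_bot_of_prime_card (by rwa [cz _ ((orderOf_conj' _ _).trans oa)])
      _).resolve_left fun e => cyc a aZ a1 (mem_N_of_cj_le (by rwa [cj_zpowers]))
        (mem_N_zp (mem_C1_comm.mp as))
  have eA : ElAb r (F4 a (x * a * x⁻¹)) := by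
    rw [← Om1_eq_of_le (P := F4 a (x * a * x⁻¹)) (Om1_le r _) le_rfl |>.symm.trans
      (le_antisymm (Om1_le _ _) (sup_le (zpowers_le.mpr (mem_Om1 (mem_sup_left (mem_zpowers _))
      (oa ▸ pow_orderOf_eq_one a))) (zpowers_le.mpr (mem_Om1 (mem_sup_right (mem_zpowers _))
      (by rw [conj_pow, ← oa, pow_orderOf_eq_one]; simp)))))]
    exact elAb_Om1_of_ab aA
  set A := F4 a (x * a * x⁻¹)
  have AO : A ≤ O := AZ.trans ((Z_le R).trans r1.le)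
  have AD := nD.mono (AO.trans (Opc_le 3 H))
  have pA := pZ.of_le AZ
  have rD : ∀ K ≤ D, ¬ r ∣ Nat.card K := fun K hK => PiN.not_dvd
    ((piG_single Nat.prime_two).mpr (D2.to_le hK)) hr r2
  have xD := nD.le_N hx
  have A1 : A ≠ ⊥ := fun e => a1 (mem_bot.mp (e ▸ mem_sup_left (mem_zpowers a)))
  have w := h.wiel b.x3 pA A1 xA AD xD (cop_two_pi D2 pA) (not3_of_two D2)
  have l64 : (C A).relIndex D ≤ 64 := by
    have := Nat.le_of_dvd four_pos (h.card_inf_C1 b.x3 (not3_of_two D2))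
    refine (Nat.le_mul_of_pos_left _ (pow_pos (card_pos _) 3)).trans (w.le.trans ?_)
    exact Nat.pow_le_pow_left this 3
  obtain ⟨g, gA, g1, hg⟩ : ∃ g ∈ A, g ≠ 1 ∧ ¬ D ⊓ C1 g ≤ C A := by
    by_contra hc
    push Not at hc
    have := le_of_cent1_le aA (fun e => by
      have := Nat.le_of_dvd hr.pos (cA ▸ eA.card_dvd_of_isCyclic e)
      nlinarith) AD (cop_two_pi D2 pA) hc
    exact A1 (eq_bot_iff.mpr (inf_eq_bot_of_coprime' (cop_two_pi D2 pA) ▸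
      le_inf ((le_inf AO (le_C_symm this)).trans cD) le_rfl))
  have og := eA.orderOf_eq hr gA g1
  have sq : ∀ {p q}, p ∈ N A → q ∈ N A → cj p (zpowers g) ≠ cj q (zpowers g) →
      C (cj p (zpowers g)) ⊓ C (cj q (zpowers g)) = C A := fun hp hq hne => by
    rw [← C_sup, sup_eq_sq hr aA cA (mem_N.mp hp ▸ cj_mono (zpowers_le.mpr gA))
      (mem_N.mp hq ▸ cj_mono (zpowers_le.mpr gA)) (by rw [card_cj, cz g og])
      (by rw [card_cj, cz g og]) hne]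
  rw [← C_zpowers] at hg
  set B := zpowers g
  have BA : B ≤ A := zpowers_le.mpr gA
  have xB : x ∈ N B := by
    by_contra n
    have n1 : cj 1 B ≠ cj x B := fun e => n (mem_N.mpr (by rw [← e, cj_one]))
    have n2 : cj 1 B ≠ cj x⁻¹ B := fun e => n (inv_mem_iff.mp (mem_N.mpr (by rw [← e, cj_one])))
    have n3 : cj x B ≠ cj x⁻¹ B := fun e => n2 (by
      rw [← cj_inj (g := x⁻¹), cj_cj, cj_cj, inv_sq3 b.x3, inv_mul_cancel] at e
      exact (n1 e).elim)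
    have nB : ∀ {p}, p ∈ N A → Nrm A (D ⊓ C (cj p B)) := fun hp =>
      AD.inf (aA.nrm (mem_N.mp hp ▸ cj_mono BA)).C
    have c8 : 8 * Nat.card ↥(D ⊓ C A) ≤ Nat.card ↥(D ⊓ C B) := by
      have := eight_le hr r7 eA.isPGroup (cj_one B ▸ nB (one_mem _)) (rD _ inf_le_left) hg
      rw [← card_inf_mul_relIndex (C A) (D ⊓ C B), mul_comm, inf_comm (C A), inf_assoc,
        inf_eq_right.mpr (C_anti BA)]
      exact Nat.mul_le_mul_left _ this
    have cx : Nat.card ↥(D ⊓ C (cj x B)) = Nat.card ↥(D ⊓ C B) := by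
      rw [← cj_C, ← card_cj x (D ⊓ C B), cj_inf, mem_N.mp xD]
    have i1 := sq (one_mem _) xA n1
    have i2 := sq (one_mem _) (inv_mem xA) n2
    rw [cj_one] at i1 i2
    have i3 := sq xA (inv_mem xA) n3
    refine hg ?_
    rw [← cj_le_cj (g := x⁻¹), cj_inf, cj_C, cj_C, mem_N.mp (inv_mem xD), mem_N.mp (inv_mem xA)]
    intro d hd
    obtain ⟨d1, h1, d2, h2, rfl⟩ := exists_mul_of_card_le (inf_le_left : D ⊓ C B ≤ D)
      (inf_le_left : D ⊓ C (cj x B) ≤ D) (by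
        rw [← inf_inf_distrib_left, i1, cx, ← card_inf_mul_relIndex (C A) D, inf_comm (C A)]
        exact (Nat.mul_le_mul_left _ (Nat.mul_le_mul_left _ l64)).trans
          (le_of_eq_of_le (by ring) (Nat.mul_le_mul c8 c8))) hd.1
    obtain ⟨k, k1, k2⟩ := exists_cent_of_comm_mem ((AD.inf (Nrm.self A).C).mono BA)
      (cop_two_pi (D2.to_le inf_le_left) (pA.of_le BA))
      (Or.inl (solvable_of_isPGroup Nat.prime_two (D2.to_le inf_le_left))) (x := (d1 * d2)⁻¹)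
      fun a ha => by
        have m : ∀ {K : Subgroup G} {e}, Nrm A K → e ∈ K → ⁅e⁻¹, a⁆ ∈ K := fun n he => by
          rw [commutatorElement_def, mul_assoc, mul_assoc, ← mul_assoc a]
          exact mul_mem (inv_mem he) (n a (BA ha) _ (inv_mem (inv_mem he)))
        have e : ⁅(d1 * d2)⁻¹, a⁆ = ⁅d2⁻¹, a⁆ := by
          simp only [commutatorElement_def]
          calc _ = d2⁻¹ * d1⁻¹ * (a * d1) * d2 * a⁻¹ := by group
            _ = _ := by rw [mem_C.mp h1.2 a ha]; group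
        rw [← i3]
        exact ⟨(m (nB (inv_mem xA)) hd).1, (e ▸ m (nB xA) h2).2, (m (nB (inv_mem xA)) hd).2⟩
    have : k⁻¹ * (d1 * d2)⁻¹ ∈ C A := i2 ▸ mem_inf.mpr ⟨k2, mul_mem
      (inv_mem (mem_inf.mp (i2.ge k1.2)).2) (inv_mem (mem_inf.mp hd).2)⟩
    simpa using inv_mem (mul_mem (mem_inf.mp k1).2 this)
  have i := sq (one_mem _) sA fun e => cyc g (AZ gA) g1 xB (mem_N.mpr (by rw [← e, cj_one]))
  rw [cj_one] at i
  have w' := h.wiel b.x3 (pA.of_le BA) (by simpa [B] using g1) xB (AD.mono BA) xD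
    (cop_two_pi D2 (pA.of_le BA)) (not3_of_two D2)
  rw [show D ⊓ C B ⊓ C1 x = D ⊓ C A ⊓ C1 x from le_antisymm (fun d hd => ⟨⟨hd.1.1, i ▸ ⟨hd.1.2, by
    rw [← cj_C, ← b'.conj_V (h.inf_C1_le_V b.x3 (not3_of_two D2) ⟨hd.1.1, hd.2⟩)]
    exact mem_cj'.mpr ⟨d, hd.1.2, rfl⟩⟩⟩, hd.2⟩)
    (inf_le_inf_right _ (inf_le_inf_left _ (C_anti BA))), ← w] at w'
  have := card_inf_mul_relIndex (C B) D
  rw [Nat.eq_of_mul_eq_mul_left (pow_pos (card_pos _) 3) w', ← card_inf_mul_relIndex (C A) D] at this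
  have := eq_of_le_of_card_eq (inf_le_inf_right D (C_anti BA))
    (Nat.eq_of_mul_eq_mul_right (relIndex_pos _ _) this).symm
  exact hg (by rw [inf_comm, ← this]; exact inf_le_left)

theorem le_O6 {x : G} (hx : orderOf x = 3) {H K : Subgroup G} (xH : x ∈ H)
    (i6 : (Opc 3 H).relIndex H = 6) (hK : K ≤ H) (h3 : ¬ 3 ∣ Nat.card K) (hn : x ∈ N K) :
    K ≤ Opc 3 H := by
  have nO : Nrm H (Opc 3 H) := nrm_Opi _ H
  have l3 := not3_sup (Or.inl (nO.mono hK)) h3 (not_dvd_card_Opc Nat.prime_three H)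
  have xL := mem_N_sup hn (nO.le_N xH)
  have LH := sup_le hK (Opc_le 3 H)
  have c := card_mul_relIndex (sup_le LH (zpowers_le.mpr xH))
  rw [card_sup_of_inf_eq_bot (Or.inr (nrmX xL)) (inf_eq_bot_of_coprime' (cop_X hx l3)), card_X hx,
    ← card_mul_relIndex (Opc_le 3 H), i6, ← card_mul_relIndex (le_sup_right : _ ≤ K ⊔ Opc 3 H),
    mul_assoc, mul_assoc] at c
  have c := Nat.eq_of_mul_eq_mul_left (card_pos _) c
  by_cases e : (K ⊔ Opc 3 H ⊔ zpowers x).relIndex H = 1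
  · refine le_sup_left.trans (le_Opi LH ?_ ((piG_compl_single Nat.prime_three).mpr l3))
    exact ((Nrm.self _).sup_left (nrmX xL)).mono (relIndex_eq_one.mp e)
  · have := relIndex_pos (K ⊔ Opc 3 H ⊔ zpowers x) H
    have := relIndex_pos (Opc 3 H) (K ⊔ Opc 3 H)
    exact le_sup_left.trans (relIndex_eq_one.mp (by nlinarith [(by omega :
      2 ≤ (K ⊔ Opc 3 H ⊔ zpowers x).relIndex H)]))

theorem NS.w (h : Hy G) {x : G} (hx : orderOf x = 3) {H : Subgroup G} {n c p : ℕ} (k : NS H n c p)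
    (xH : x ∈ H) (h2 : IsPGroup 2 (Opc 3 H)) : Opc 3 H ≤ C1 x ∨ ∃ R ≤ H, ∃ i, 8 ≤ i ∧ i % p = 1 ∧
      Nat.card ↥(Opc 3 H ⊓ C R ⊓ C1 x) ^ 3 * i = Nat.card ↥(Opc 3 H ⊓ C1 x) ^ 3 := by
  have nO : Nrm H (Opc 3 H) := nrm_Opi _ H
  obtain ⟨R, r1, r2, r3, r4⟩ := k.frob x xH hx
  obtain ⟨hp, p7⟩ : p.Prime ∧ 7 ≤ p := by
    rcases k.cases with ⟨-, -, rfl⟩ | ⟨-, -, rfl⟩ | ⟨-, -, rfl⟩ <;> norm_num
  have pR := piG_of_isPGroup hp r2 (mem_pi6.mpr ⟨by omega, by omega⟩)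
  have d : ¬ p ∣ Nat.card (Opc 3 H) := PiN.not_dvd ((piG_single Nat.prime_two).mpr h2) hp
    (by simp; omega)
  by_cases e : Opc 3 H ≤ C R
  · exact Or.inl (le_C1_iff.mpr ((h.mem_or_le hx xH inf_le_left ((Nrm.self H).inf nO.C)).resolve_right
      fun a => r4 ((le_inf r1 (le_C_symm e)).trans a)).2)
  · refine Or.inr ⟨R, r1, _, eight_le hp p7 r2 (nO.mono r1) d e, ?_, h.wiel hx pR
      (fun a => r4 (a ▸ bot_le)) r3 (nO.mono r1) (nO.le_N xH) (cop_two_pi h2 pR) (not3_of_two h2)⟩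
    exact Eq.trans (relIndex_C_mod hp r2 (nO.mono r1) d) (Nat.mod_eq_of_lt (by omega))

theorem NS.cle (h : Hy G) {x : G} (hx : orderOf x = 3) {H : Subgroup G} {n c p : ℕ}
    (k : NS H n c p) (xH : x ∈ H) : Nat.card ↥(Opc 3 H ⊓ C1 x) * c ≤ 12 :=
  k.cx x xH hx ▸ (card_le_of_le inf_le_right).trans (h.le x hx)

theorem NS.scott0 {x : G} (hx : orderOf x = 3) {H : Subgroup G} {n c : ℕ} (k : NS H n c 7)
    (xH : x ∈ H) (h2 : IsPGroup 2 (Opc 3 H)) :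
    Nat.card (Opc 3 H) ≤ Nat.card ↥(Opc 3 H ⊓ C1 x) ^ 4 := by
  simpa using k.scott rfl h2 x xH hx ⊥ bot_le (NormalIn.bot H).nrm

theorem dvd_two_part {T : Subgroup G} (hT : IsPGroup 2 T) {a m : ℕ} (h : Nat.card T ∣ a * m)
    (hm : ¬ 2 ∣ m) : Nat.card T ∣ a :=
  (coprime_of_isPGroup_of_not_dvd Nat.prime_two hT hm).dvd_of_dvd_mul_right h

theorem NS.dvd {H T : Subgroup G} {n c p : ℕ} (k : NS H n c p) (hT : IsPGroup 2 T) (hle : T ≤ H) :
    Nat.card T ∣ Nat.card (Opc 3 H) * (if p = 13 then 4 else if c = 3 then 8 else 16) := by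
  have := card_dvd_of_le' hle
  rw [← card_mul_relIndex (Opc_le 3 H), k.idx] at this
  rcases k.cases with ⟨rfl, rfl, rfl⟩ | ⟨rfl, rfl, rfl⟩ | ⟨rfl, rfl, rfl⟩
  exacts [dvd_two_part hT (m := 21) (by rwa [mul_assoc]) (by decide),
    dvd_two_part hT (m := 21) (by rwa [mul_assoc]) (by decide),
    dvd_two_part hT (m := 273) (by rwa [mul_assoc]) (by decide)]

theorem NS.big (h : Hy G) {x : G} (hx : orderOf x = 3) {H T : Subgroup G} {n c p : ℕ}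
    (k : NS H n c p) (xH : x ∈ H) (h2 : IsPGroup 2 (Opc 3 H)) (hT : IsPGroup 2 T) (hle : T ≤ H) :
    Nat.card T ≤ 2 ^ 11 := by
  have d := Nat.le_of_dvd (Nat.mul_pos (card_pos _) (by split_ifs <;> decide)) (k.dvd hT hle)
  have l := k.cle h hx xH
  rcases k.cases with ⟨rfl, rfl, rfl⟩ | ⟨rfl, rfl, rfl⟩ | ⟨rfl, rfl, rfl⟩ <;>
    simp only [reduceIte, Nat.reduceEqDiff] at d
  · have := (k.scott0 hx xH h2).trans (Nat.pow_le_pow_left (by omega : _ ≤ 4) 4); omega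
  · have := (k.scott0 hx xH h2).trans (Nat.pow_le_pow_left (by omega : _ ≤ 2) 4); omega
  · rcases k.w h hx xH h2 with e | ⟨R, -, i, h1, h3, h4⟩
    · rw [inf_eq_left.mpr e] at l; omega
    · have := (Nat.le_mul_of_pos_left i (pow_pos (card_pos _) 3)).trans (h4.le.trans
        (Nat.pow_le_pow_left (by omega : _ ≤ 2) 3))
      omega

/-- the case of non-trivial `V` -/
structure SV (G : Type u) [Group G] [Finite G] : Prop extends SS G where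
  hV : ∀ x : G, orderOf x = 3 → Vx x ≠ ⊥
  ex3 : ∃ x : G, orderOf x = 3

variable [IsSimpleGroup G]

namespace SV

variable (h : SV G)
include h

theorem bas {x s : G} (hx : orderOf x = 3) (hs : s * x * s⁻¹ = x⁻¹) : Bas x s := by
  obtain ⟨t, b⟩ := h.exists_bas hx (h.hV x hx)
  obtain ⟨z, hz, y, hy, rfl⟩ := h.inv_form hx hs b.inv
  have b' := b.mul h.toHy hy
  exact ⟨hx, (isConj_invol b'.tt b'.t1 (isConj_tz hx b.inv hz (V_le x hy))).1, hs,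
    mul_mem (mul_mem b.cV (le_C_symm (C_zpowers x ▸ V_le x) hz)) (h.ab_V hx hy), b.ne⟩

theorem th0 {u : G} (hu : u * u = 1) (u1 : u ≠ 1) : th u = ⊥ := by
  obtain ⟨x, hx⟩ := h.ex3
  obtain ⟨t, b⟩ := h.exists_bas hx (h.hV x hx)
  exact b.th_bot h.toSS hu u1

theorem lc {X : Subgroup G} (h2 : IsPGroup 2 X) (h1 : X ≠ ⊥) : Opi pi6 (N X) = ⊥ := by
  obtain ⟨z, z0, z2, z3, z1⟩ := exists_invol_Z h2 h1
  have c := le_C_of_coprime (nrm_of_le_N (Opi_le _ _)) ((nrm_Opi pi6 _).mono (le_N X))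
    (cop_two_pi h2 (piG_Opi _ _)).symm
  exact eq_bot_iff.mpr (h.th0 z3 z1 ▸ h.balance (h.ih _ (h.C1_ne z1)) (le_C1_iff.mpr z2) h2
    (le_inf (c.trans (C_le_C1 z0)) c) (piG_Opi _ _)
    ((nrm_Opi _ _).mono (inf_le_right.trans (C_le_N X))))

theorem N_two {X : Subgroup G} (h2 : IsPGroup 2 X) (h1 : X ≠ ⊥) : N X ≠ ⊤ :=
  h.N_ne' h1 (solvable_of_isPGroup Nat.prime_two h2)

theorem loc {X : Subgroup G} (h2 : IsPGroup 2 X) (h1 : X ≠ ⊥) {x t : G} (hx : orderOf x = 3)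
    (ht : t * x * t⁻¹ = x⁻¹) (n1 : x ∈ N X) (n2 : t ∈ N X) : IsPGroup 2 (Opc 3 (N X)) ∧
      ((Opc 3 (N X)).relIndex (N X) = 6 ∨ ∃ n c p, NS (N X) n c p) :=
  ⟨h.K1 (h.bas hx ht) n1 n2 (h.lc h2 h1),
    h.cases6 (h.ih _ (h.N_two h2 h1)) hx (h.bas hx ht).tt ht n1 n2⟩

theorem cv {x t v : G} (b : Bas x t) (hv : v ∈ Vx x) (v1 : v ≠ 1) : IsPGroup 2 (Opc 3 (C1 v)) ∧
    ((Opc 3 (C1 v)).relIndex (C1 v) = 6 ∨ (Nat.card (Vx x) = 2 ∧ Nat.card (C1 v) = 336) ∨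
      (Nat.card (Vx x) = 4 ∧ (Nat.card (C1 v) = 672 ∨ Nat.card (C1 v) = 2184 ∨
        Nat.card (C1 v) = 2688))) := by
  have vv := h.sq_V b.x3 hv
  have xv := mem_C1_comm.mp (V_le x hv)
  have tv := mem_C1.mpr (b.comm hv).symm
  have h2 := h.K1 b xv tv (h.th0 vv v1)
  refine ⟨h2, (h.cases6 (h.ih _ (h.C1_ne v1)) b.x3 b.tt b.inv xv tv).imp_right fun ⟨n, c, p, k⟩ => ?_⟩
  have vO := mem_O_of_cent vv (self_mem_C1 v) le_rfl
  have c1 := k.cx x xv b.x3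
  rw [inf_eq_right.mpr ((h.ab x b.x3).trans (C_le_C1 (V_le x hv))), h.card_C1 b.x3] at c1
  have l2 : zpowers v ≤ Opc 3 (C1 v) ⊓ C1 x := zpowers_le.mpr ⟨vO, V_le x hv⟩
  have c2 := card_le_of_le l2
  rw [card_invol vv v1] at c2
  have c3 := card_mul_relIndex (Opc_le 3 (C1 v))
  rw [k.idx] at c3
  have c4 := b.card_V h.toHy
  rcases k.w h.toHy b.x3 xv h2 with e | ⟨R, r1, i, h1, h3, h4⟩
  · rw [inf_eq_left.mpr e] at c1 c2
    rcases k.cases with ⟨rfl, rfl, rfl⟩ | ⟨rfl, rfl, rfl⟩ | ⟨rfl, rfl, rfl⟩ <;> omega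
  have c5 := card_le_of_le (zpowers_le.mpr ⟨⟨vO, le_C1_iff.mp r1⟩, V_le x hv⟩ :
    zpowers v ≤ Opc 3 (C1 v) ⊓ C R ⊓ C1 x)
  rw [card_invol vv v1] at c5
  have c6 := (Nat.mul_le_mul (Nat.pow_le_pow_left c5 3) h1).trans h4.le
  have c7 : 4 ≤ Nat.card ↥(Opc 3 (C1 v) ⊓ C1 x) := (Nat.pow_le_pow_iff_left three_ne_zero).mp c6
  obtain ⟨rfl, rfl, rfl⟩ : n = 168 ∧ c = 3 ∧ p = 7 := by
    rcases k.cases with ⟨rfl, rfl, rfl⟩ | ⟨rfl, rfl, rfl⟩ | ⟨rfl, rfl, rfl⟩ <;> omega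
  have c8 : Nat.card ↥(Opc 3 (C1 v) ⊓ C1 x) = 4 := by omega
  have s := k.scott rfl h2 x xv b.x3 _ (zpowers_le.mpr vO) (nrm_of_le_C (C_zpowers v).ge)
  rw [relIndex_eq_div l2, relIndex_eq_div (zpowers_le.mpr vO), card_invol vv v1, c8] at s
  have m := card_mod3 b.x3 ((nrm_Opi {3}ᶜ _).le_N xv)
  have d := card_le_of_le (inf_le_left : Opc 3 (C1 v) ⊓ C1 x ≤ _)
  change Nat.card (Opc 3 _) % 3 = Nat.card ↥(Opc 3 _ ⊓ _) % 3 at m
  obtain ⟨j, hj⟩ := exists_card_eq_pow Nat.prime_two h2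
  rw [hj] at s m d c3
  have : j < 6 := (Nat.pow_lt_pow_iff_right one_lt_two).mp (by omega)
  interval_cases j <;> omega

end SV

end CfsgSZ
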