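import Cfsg.Agent.H6.T3Par

/-!
The amalgam argument for two-local subgroups `Q.S₃` with non-central centre.
-/

set_option autoImplicit false
set_option linter.style.haveILetI false
set_option linter.unusedSectionVars false

namespace CfsgSZ

open Subgroup CfsgH5 CfsgH6 CfsgFT
open scoped commutatorElement

universe u

variable {G : Type u} [Group G] [Finite G]

/-- the vertices -/
structure Vt (q : ℕ) (M : Subgroup G) : Prop where
  par : Par M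
  nc : M ⊓ C (ZZ M) ≤ Q2 M
  card : Nat.card (Q2 M) = q

/-- a common Sylow subgroup -/
def Adj (a b : Subgroup G) : Prop := ∃ T, SylIn 2 T a ∧ SylIn 2 T b

/-- walks -/
def Wk (q : ℕ) : ℕ → Subgroup G → Subgroup G → Prop
  | 0, a, b => Vt q a ∧ a = b
  | n + 1, a, b => Vt q a ∧ ∃ c, Adj a c ∧ Wk q n c b

variable {q : ℕ}

theorem Vt.cjj {M : Subgroup G} (v : Vt q M) (g : G) : Vt q (cj g M) :=
  ⟨v.par.cjj g, by rw [← cj_ZZ, ← cj_C, ← cj_inf, ← cj_Q]; exact cj_mono v.nc,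
    by rw [← cj_Q, card_cj, v.card]⟩

theorem Adj.symm {a b : Subgroup G} (h : Adj a b) : Adj b a := let ⟨T, h1, h2⟩ := h; ⟨T, h2, h1⟩

theorem Wk.left {n : ℕ} {a b : Subgroup G} (h : Wk q n a b) : Vt q a := by cases n <;> exact h.1

theorem Wk.right : ∀ {n : ℕ} {a b : Subgroup G}, Wk q n a b → Vt q b
  | 0, _, _, h => h.2 ▸ h.1
  | _ + 1, _, _, ⟨_, _, _, h⟩ => h.right

theorem Wk.snoc : ∀ {n : ℕ} {a b c : Subgroup G}, Wk q n a b → Adj b c → Vt q c → Wk q (n + 1) a c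
  | 0, _, _, _, h, h1, h2 => ⟨h.1, _, h.2 ▸ h1, h2, rfl⟩
  | _ + 1, _, _, _, ⟨h, d, h0, h'⟩, h1, h2 => ⟨h, d, h0, h'.snoc h1 h2⟩

theorem Wk.symm : ∀ {n : ℕ} {a b : Subgroup G}, Wk q n a b → Wk q n b a
  | 0, _, _, h => ⟨h.2 ▸ h.1, h.2.symm⟩
  | _ + 1, _, _, ⟨h, _, h0, h'⟩ => h'.symm.snoc h0.symm h

theorem Wk.unsnoc {n : ℕ} {a b : Subgroup G} (h : Wk q (n + 1) a b) : ∃ c, Wk q n a c ∧ Adj c b :=
  let ⟨_, c, h1, h2⟩ := h.symm; ⟨c, h2.symm, h1.symm⟩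

theorem Wk.trans : ∀ {n m : ℕ} {a b c : Subgroup G}, Wk q n a b → Wk q m b c → Wk q (m + n) a c
  | 0, _, _, _, _, h, h1 => h.2 ▸ h1
  | _ + 1, _, _, _, _, ⟨h, d, h0, h'⟩, h1 => ⟨h, d, h0, h'.trans h1⟩

theorem Wk.cjj (g : G) : ∀ {n : ℕ} {a b : Subgroup G}, Wk q n a b → Wk q n (cj g a) (cj g b)
  | 0, _, _, h => ⟨h.1.cjj g, by rw [h.2]⟩
  | _ + 1, _, _, ⟨h, d, ⟨_, t1, t2⟩, h'⟩ => ⟨h.cjj g, cj g d, ⟨_, t1.cjj g, t2.cjj g⟩, h'.cjj g⟩

theorem wk_one {a b : Subgroup G} (h1 : Vt q a) (h2 : Vt q b) (h : Adj a b) : Wk q 1 a b :=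
  ⟨h1, b, h, h2, rfl⟩

theorem comm_mem_both {A B : Subgroup G} {a b : G} (ha : a ∈ A) (hb : b ∈ B) (h1 : a ∈ N B)
    (h2 : b ∈ N A) : ⁅a, b⁆ ∈ A ⊓ B := by
  refine mem_inf.mpr ⟨?_, mul_mem (conj_mem_of_mem_N h1 hb) (inv_mem hb)⟩
  rw [commutatorElement_def, mul_assoc, mul_assoc, ← mul_assoc b]
  exact mul_mem ha (conj_mem_of_mem_N h2 (inv_mem ha))

variable [IsSimpleGroup G]

/-- the claim below length `n` -/
def Bel (G : Type u) [Group G] (q n : ℕ) : Prop :=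
  ∀ m < n, ∀ a b : Subgroup G, Wk q m a b → ZZ a ≤ Q2 b

namespace SG

variable (h : SG G)
include h

theorem ZZ_le_T {n : ℕ} (ih : Bel G q (n + 1)) {a c T : Subgroup G} (w : Wk q n a c)
    (t1 : SylIn 2 T c) : ZZ a ≤ T := (ih n n.lt_succ_self a c w).trans (t1.Op_le Nat.prime_two)

theorem ZZ_le_end {n : ℕ} (ih : Bel G q (n + 1)) {a b : Subgroup G} (w : Wk q (n + 1) a b) :
    ZZ a ≤ b := by
  obtain ⟨c, w, T, t1, t2⟩ := w.unsnoc
  exact (h.ZZ_le_T ih w t1).trans t2.le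

theorem crit_symm {n : ℕ} (ih : Bel G q (n + 1)) {a b : Subgroup G} (w : Wk q (n + 1) a b)
    (c : ¬ ZZ a ≤ Q2 b) : ¬ ZZ b ≤ Q2 a := fun e =>
  c ((le_inf (h.ZZ_le_end ih w) ((h.ZZ_le_C w.left.par).trans (C_anti e))).trans w.right.nc)

theorem ks_one (ih : Bel G q 1) {a b : Subgroup G} (w : Wk q 1 a b) : ZZ a ≤ Q2 b := by
  by_contra c
  have c' := h.crit_symm ih w c
  have va := w.left
  have vb := w.right
  obtain ⟨T, t1, t2⟩ : Adj a b := by obtain ⟨-, _, e, -, rfl⟩ := w; exact e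
  have za := (h.ZZ_le_Q va.par).trans (t1.Op_le Nat.prime_two)
  have zb := (h.ZZ_le_Q vb.par).trans (t2.Op_le Nat.prime_two)
  have qa := t1.Op_le Nat.prime_two
  obtain ⟨x, xa, -, -, hx, -⟩ := va.par.ex
  have e := va.par.eq_sup h.toHy hx xa (nrm_ZZ a) (nrm_Q a) (h.ZZ_le_Q va.par)
    (h.elAb_ZZ va.par).isPGroup (Op_le _ _) (zb.trans t1.le) c' (le_trans (le_inf
      ((nrm_Q a).mono (zb.trans t1.le)).comm_le_left ((nrm_ZZ _).mono
        (qa.trans t2.le)).comm_le_right) fun z hz => mem_ZZ t1 (qa hz.1) (by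
          rw [← vb.par.Q_sup t2 za c, C_sup]
          exact ⟨h.ZZ_le_C vb.par hz.2, le_C_symm (h.ZZ_le_C va.par) hz.1⟩)
        (elAb_sq (h.elAb_ZZ vb.par) hz.2))
  have ab : Ab (Q2 a) := by
    rw [← e]
    exact (h.elAb_ZZ va.par).ab.sup ((h.ab x hx).mono inf_le_right)
      ((h.ZZ_le_C va.par).trans (C_anti inf_le_left))
  have i1 : (C (ZZ b)).relIndex (Q2 a) ≤ 2 := (relIndex_le_of_le_left (le_C_symm
    (h.ZZ_le_C vb.par)) (relIndex_ne_zero' _ _)).trans ((relIndex_le_of_le_right qa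
      (relIndex_ne_zero' _ _)).trans (vb.par.syl t2).1.le)
  have i2 := (relIndex_cj' x _ _).trans_le i1
  rw [mem_N.mp ((nrm_Q a).le_N xa), cj_C] at i2
  have l1 := card_idx2 i1 le_rfl
  have l2 := card_idx2 i2 (inf_le_right : C (ZZ b) ⊓ Q2 a ≤ Q2 a)
  have l3 := card_le_of_le (show C (cj x (ZZ b)) ⊓ (C (ZZ b) ⊓ Q2 a) ≤ Q2 a ⊓ C1 x from
    le_inf (inf_le_right.trans inf_le_right) (le_C1_iff.mpr (le_C_symm (show _ ≤ C a by
      refine le_trans ?_ (C_anti (va.par.sup_eq t1 (cj_le_of_le (zb.trans t1.le) xa) fun e =>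
        va.par.not_le_cj (orderOf_inv x ▸ hx) (inv_mem xa) t1 zb c' (cj_le_iff.mp e)).ge)
      rw [← va.par.Q_sup t1 zb c', C_sup, C_sup]
      exact le_inf (le_inf ((inf_le_right.trans inf_le_right).trans ab)
        (inf_le_right.trans inf_le_left)) inf_le_left) xa)))
  have q3 := not3_of_two (two_Q a)
  by_cases k : Nat.card ↥(Q2 a ⊓ C1 x) = 1
  · have m := card_mod3 hx ((nrm_Q a).le_N xa)
    have := one_lt_card.mpr va.par.ne
    rw [k] at m l3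
    rw [card_eq_one_iff.mp k, sup_bot_eq] at e
    refine h.no_self (e ▸ h.elAb_ZZ va.par) (by unfold Nat.ModEq at m; omega) ?_
    rw [le_antisymm ((le_inf ((C_le_N _).trans va.par.nq.le) le_rfl).trans (h.cq va.par)) ab]
    exact sylIn_self (two_Q a)
  · obtain ⟨v, v1, v2, v3⟩ := h.exists_v hx q3 k
    have := h.lt_card va.par hx xa v2 v3 (ab.trans (C_le_C1 v1))
    have := Nat.le_of_dvd four_pos (h.card_inf_C1 hx q3)
    omega

theorem ks_A {n : ℕ} (ih : Bel G q (n + 2)) {a b d c T : Subgroup G} (w : Wk q (n + 2) a b)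
    (cr : ¬ ZZ a ≤ Q2 b) (t1 : SylIn 2 T a) (t2 : SylIn 2 T d) (wd : Wk q (n + 1) d b) {x : G}
    (hx : orderOf x = 3) (xa : x ∈ a) (wc : Wk q (n + 1) a c) (ac : Adj c b) :
    ¬ ZZ (cj x d) ≤ Q2 c := fun e => by
  have va := w.left
  have vb := w.right
  have vd := wd.left.cjj x
  have c' := h.crit_symm ih w cr
  have zb := h.ZZ_le_T ih wd.symm t2
  have t3 := t1.cj_mem xa
  have t4 := t2.cjj x
  have ea := va.par.sup_eq t3 (zb.trans t1.le) (va.par.not_le_cj hx xa t1 zb c')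
  obtain ⟨T2, t5, t6⟩ := ac
  have k1 : ⁅ZZ a, ZZ b⁆ ≤ ZZ a := ((nrm_ZZ a).mono (zb.trans t1.le)).comm_le_left
  have k2 : ⁅ZZ (cj x d), ZZ b⁆ ≤ ZZ a := by
    refine (commutator_mono (e.trans (t5.Op_le Nat.prime_two)) le_rfl).trans ?_
    rw [← vb.par.Q_sup t6 (h.ZZ_le_T ih wc t5) cr, sup_comm, comm_sup_cent'
      ((nrm_Q b).mono (h.ZZ_le_end ih w)) (le_C_symm (h.ZZ_le_C vb.par))]
    exact k1
  have zq := ih 1 (by omega) _ _ (wk_one vd va ⟨_, t4, t3⟩)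
  have WQ := sup_le zq (h.ZZ_le_Q va.par)
  have nz := (nrm_ZZ a).mono (WQ.trans (Op_le _ _))
  have nW : Nrm a (ZZ (cj x d) ⊔ ZZ a) := by
    refine ((((nrm_ZZ _).mono t4.le).sup ((nrm_ZZ _).mono t3.le)).sup_left ?_).mono ea.ge
    exact nrm_of_comm_le le_rfl ((comm_sup_le (nz.mono le_sup_left) (nz.mono le_sup_right)
      k2 k1).trans le_sup_right)
  have e1 := va.par.eq_sup h.toHy hx xa (nrm_ZZ a) nW le_sup_right (h.elAb_ZZ va.par).isPGroup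
    (WQ.trans (Op_le _ _)) (zb.trans t1.le) c'
    (comm_sup_le (nz.mono le_sup_left) (nz.mono le_sup_right) k2 k1)
  set W := ZZ (cj x d) ⊔ ZZ a
  have qa := t3.Op_le Nat.prime_two
  have i : (Q2 a ⊓ C W).relIndex (Q2 a) ≤ 2 := by
    refine (relIndex_le_of_le_left (show Q2 a ⊓ Q2 (cj x d) ≤ _ from le_inf inf_le_left (le_C_sup
      (inf_le_right.trans (le_C_symm (h.ZZ_le_C vd.par))) (inf_le_left.trans
        (le_C_symm (h.ZZ_le_C va.par))))) (relIndex_ne_zero' _ _)).trans ?_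
    rw [inf_relIndex_left]
    exact (relIndex_le_of_le_right qa (relIndex_ne_zero' _ _)).trans (vd.par.syl t4).1.le
  have n0 := ((nrm_Q a).inf nW.C).le_N xa
  have xq := (nrm_Q a).le_N xa
  have e2 := eq_sup_inf_C_of_comm_le (nrmX n0) (cop_X hx (not3_of_two ((two_Q a).to_le inf_le_left)))
    (solv_X x _) inf_le_left (commutator_le.mpr fun g hg z hz => by
      have nz := zpowers_le.mpr n0 hz
      rw [commutatorElement_def, mul_assoc, mul_assoc, ← mul_assoc z]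
      by_cases k : g ∈ Q2 a ⊓ C W
      · exact mul_mem k (conj_mem_of_mem_N nz (inv_mem k))
      · refine mul_idx2 i hg (conj_mem_of_mem_N (zpowers_le.mpr xq hz) (inv_mem hg)) k fun m => k ?_
        simpa [mul_assoc] using inv_mem (conj_mem_of_mem_N (inv_mem nz) m))
  have : Q2 a ≤ C W := by
    rw [← e2, C_zpowers]
    refine sup_le inf_le_right ?_
    rw [← e1]
    exact le_C_sup (inf_le_left.trans (le_C_symm (h.ZZ_le_C va.par)))
      (inf_le_right.trans ((h.ab x hx).trans (C_anti inf_le_right)))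
  have := eq_of_le_of_card_eq ((le_inf (qa.trans t4.le) (this.trans (C_anti le_sup_left))).trans
    vd.nc) (va.card.trans vd.card.symm)
  have : cj x d = a := by rw [← vd.par.nq, ← this, va.par.nq]
  rw [cj_eq_iff, cj_self (inv_mem xa)] at this
  exact cr (ih _ (by omega) _ _ (this ▸ wd))

theorem ks_r {n : ℕ} (ih : Bel G q (n + 1)) {a b : Subgroup G} (w : Wk q (n + 1) a b) {y z : G}
    (hy : y ∈ ZZ a) (hz : z ∈ ZZ b) : ⁅y, z⁆ ∈ ZZ a ⊓ ZZ b :=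
  comm_mem_both hy hz ((nrm_ZZ b).le_N (h.ZZ_le_end ih w hy))
    ((nrm_ZZ a).le_N (h.ZZ_le_end ih w.symm hz))

theorem ks_ne {n : ℕ} (ih : Bel G q (n + 1)) {a b : Subgroup G} (w : Wk q (n + 1) a b) {y z : G}
    (hy : y ∈ ZZ a) (hz : z ∈ ZZ b) (y1 : y ∉ Q2 b) (z1 : z ∉ Q2 a) : ⁅y, z⁆ ≠ 1 := fun e => by
  obtain ⟨c, wc, T, t1, t2⟩ := w.symm.unsnoc
  have zb := h.ZZ_le_T ih wc t1
  refine y1 (w.right.nc ⟨h.ZZ_le_end ih w hy, C_anti zb ?_⟩)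
  rw [← w.left.par.Q_sup t2 (zpowers_le.mpr (zb hz)) fun e => z1 (e (mem_zpowers z)), C_sup,
    C_zpowers]
  exact ⟨h.ZZ_le_C w.left.par hy, mem_C1.mpr (commutatorElement_eq_one_iff_mul_comm.mp e)⟩

theorem ks_B {n : ℕ} (ih : Bel G q (n + 2)) {a b c : Subgroup G} (w : Wk q (n + 2) a b)
    (cr : ¬ ZZ a ≤ Q2 b) (wc : Wk q (n + 1) a c) (ac : Adj c b) {y z : G} (hy : y ∈ ZZ a)
    (hz : z ∈ ZZ b) : c ≤ C1 ⁅y, z⁆ := by
  obtain ⟨e, we, T1, t1, t2⟩ := wc.unsnoc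
  obtain ⟨va, d, ⟨T, t3, t4⟩, wd⟩ := id w
  obtain ⟨x, xa, -, -, hx, -⟩ := va.par.ex
  have k := h.ks_A ih w cr t3 t4 wd hx xa wc ac
  obtain ⟨T2, t5, t6⟩ := ac
  have vd := wd.left.cjj x
  have ad : Adj (cj x d) a := ⟨_, t4.cjj x, t3.cj_mem xa⟩
  have z1 := h.ZZ_le_T ih (⟨vd, a, ad, we⟩ : Wk q (n + 1) _ _) t1
  obtain ⟨r1, r2⟩ := h.ks_r ih w hy hz
  rw [← wc.right.par.sup_eq t5 (z1.trans t2.le) fun l => k (wc.right.par.le_of_two t2 t5
    (fun e => cr (ih _ (by omega) _ _ (we.snoc ⟨_, t1, e ▸ t6⟩ w.right))) z1 l),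
    ← w.right.par.Q_sup t6 (h.ZZ_le_T ih wc t5) cr]
  exact sup_le (sup_le (le_C1_iff.mpr (h.ZZ_le_C w.right.par r2)) ((h.elAb_ZZ va.par).ab.trans
    (C_le_C1 r1))) ((h.ZZ_le_C vd.par).trans (C_le_C1 (ih 1 (by omega) _ _
      (wk_one va vd ad.symm) r1)))

theorem ks_big {n : ℕ} (ih : Bel G q (n + 2)) {a b : Subgroup G} (w : Wk q (n + 2) a b) :
    ZZ a ≤ Q2 b := by
  by_contra cr
  have c' := h.crit_symm ih w cr
  obtain ⟨y, hy, y1⟩ := SetLike.not_le_iff_exists.mp cr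
  obtain ⟨z, hz, z1⟩ := SetLike.not_le_iff_exists.mp c'
  obtain ⟨c, wc, ac⟩ := w.unsnoc
  obtain ⟨va, d, ⟨T, t1, t2⟩, wd⟩ := id w
  have r1 := h.ks_ne ih w hy hz y1 z1
  have rr := elAb_sq (h.elAb_ZZ va.par) (h.ks_r ih w hy hz).1
  have e1 := h.eq_C1 wc.right.par rr r1 (h.ks_B ih w cr wc ac hy hz)
  have e2 := h.eq_C1 wd.left.par rr r1 (by
    rw [← C1_inv, commutatorElement_inv]
    exact h.ks_B ih w.symm c' wd.symm ⟨T, t2, t1⟩ hz hy)
  obtain rfl := e1.symm.trans e2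
  obtain rfl : n = 0 := by
    by_contra n0
    exact cr (ih 2 (by omega) _ _ ⟨va, c, ⟨T, t1, t2⟩, wk_one wd.left w.right ac⟩)
  obtain ⟨x, xa, -, -, hx, -⟩ := va.par.ex
  have k := h.ks_A ih w cr t1 t2 wd hx xa wc ac
  have vc := wd.left
  have vd := vc.cjj x
  have t3 := t1.cj_mem xa
  have t4 := t2.cjj x
  have w1 := wk_one vd va ⟨_, t4, t3⟩
  have w2 : Wk q 2 (cj x c) c := w1.snoc ⟨T, t1, t2⟩ vc
  have k' := h.crit_symm ih w2 k
  obtain ⟨g, hg, g1⟩ := SetLike.not_le_iff_exists.mp k'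
  have hg' : x * g * x⁻¹ ∈ ZZ (cj x c) := cj_ZZ x c ▸ mem_cj'.mpr ⟨g, hg, rfl⟩
  have zq := ih 1 (by omega) _ _ (wk_one vc va ⟨T, t2, t1⟩)
  have g2 : x * g * x⁻¹ ∉ Q2 c := fun e => g1 (ih 1 (by omega) _ _ w1.symm (by
    have := mem_ZZ t3 ((t4.Op_le Nat.prime_two) (h.ZZ_le_Q vd.par hg')) (by
      rw [← vd.par.Q_sup t4 (zq.trans (t3.Op_le Nat.prime_two)) k', C_sup]
      exact ⟨h.ZZ_le_C vd.par hg', le_C_symm (h.ZZ_le_C vc.par) e⟩)
      (elAb_sq (h.elAb_ZZ vd.par) hg')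
    simpa [mul_assoc] using conj_mem_of_mem_N ((nrm_ZZ a).le_N (inv_mem xa)) this))
  have r1 := h.ks_ne ih w2 hg' hg g2 g1
  have rr := elAb_sq (h.elAb_ZZ vd.par) (h.ks_r ih w2 hg' hg).1
  have rc := h.ks_B ih w2 k w1 ⟨T, t1, t2⟩ hg' hg
  have gg := elAb_sq (h.elAb_ZZ vc.par) hg
  have ga := Op_le _ _ (zq hg)
  obtain ⟨y, -, oy, e⟩ := h.cube hx (not3_of_two (two_Q a)) ((nrm_Q a).le_N xa) (zq hg)
  have e := h.sq_V oy e
  have c1 : x * g * x⁻¹ * g = ⁅x * g * x⁻¹, g⁆ * (g * (x * g * x⁻¹)) := by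
    simp only [commutatorElement_def]; group
  generalize ⁅x * g * x⁻¹, g⁆ = r at r1 rr rc c1
  have l : ∀ k ∈ a, k * r = r * k := fun k hk => mem_C1.mp (rc hk)
  have f2 : x * (x * g * x⁻¹) * x⁻¹ = x⁻¹ * g * x := by
    calc _ = (x * x) * g * (x * x)⁻¹ := by group
      _ = _ := by rw [sq_eq_inv hx, inv_inv]
  have f3 : x * (x⁻¹ * g * x) * x⁻¹ = g := by group
  have cj : ∀ p q, p * q = r * (q * p) → x * p * x⁻¹ * (x * q * x⁻¹) =
      r * (x * q * x⁻¹ * (x * p * x⁻¹)) := fun p q e => by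
    rw [conj_mul, conj_mul, e, ← mul_assoc, l x xa]; group
  have c2 := cj _ _ c1
  rw [f2] at c2
  have c3 := cj _ _ c2
  rw [f2, f3] at c3
  have g2 := conj_invol gg x
  have g3 := conj_invol g2 x
  rw [f2] at g3
  have l1 := l g ga
  have l2 := l _ (mul_mem (mul_mem xa ga) (inv_mem xa))
  have l3 := l _ (mul_mem (mul_mem (inv_mem xa) ga) xa)
  generalize x * g * x⁻¹ = b at *
  generalize x⁻¹ * g * x = c at *
  have c4 : c * g = r * (g * c) := by rw [c3, ← mul_assoc, rr, one_mul]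
  have l1 : ∀ z, g * (r * z) = r * (g * z) := fun z => by rw [← mul_assoc, l1, mul_assoc]
  have l2 : ∀ z, b * (r * z) = r * (b * z) := fun z => by rw [← mul_assoc, l2, mul_assoc]
  refine r1 ?_
  calc r = r * r * r * ((g * g) * (b * b) * (c * c)) := by simp only [rr, gg, g2, g3, mul_one, one_mul]
    _ = r * (g * (b * g) * (c * b) * c) := by rw [c1, c2]; simp only [mul_assoc, l1, l2]
    _ = g * b * (c * g) * b * c := by rw [c4]; simp only [mul_assoc, l1, l2]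
    _ = 1 := by rw [← e]; simp only [mul_assoc]

theorem ks (n : ℕ) : ∀ a b : Subgroup G, Wk q n a b → ZZ a ≤ Q2 b := by
  induction n using Nat.strong_induction_on with
  | _ n ih =>
    intro a b w
    match n, ih, w with
    | 0, _, w => exact w.2 ▸ h.ZZ_le_Q w.1.par
    | 1, ih, w => exact h.ks_one ih w
    | _ + 2, ih, w => exact h.ks_big ih w

theorem ZZ_ne {M : Subgroup G} (p : Par M) : ZZ M ≠ ⊥ := by
  obtain ⟨T, hT⟩ := exists_sylIn 2 M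
  exact ne_bot_of_le_ne_bot (Om1_Z_ne_bot Nat.prime_two hT.isPGroup
    (ne_bot_of_le_ne_bot p.ne (hT.Op_le Nat.prime_two))) (le_ZZ hT)

theorem ks_X {M : Subgroup G} (v : Vt q M) : ∃ X : Subgroup G, IsPGroup 2 X ∧ X ≠ ⊥ ∧
    ∀ g, (∃ n, Wk q n M (cj g M)) → g ∈ N X := by
  refine ⟨⨆ (a : Subgroup G) (_ : ∃ n, Wk q n M a), ZZ a, (two_Q M).to_le (iSup_le fun a =>
    iSup_le fun ⟨n, w⟩ => h.ks n _ _ w.symm), ne_bot_of_le_ne_bot (h.ZZ_ne v.par)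
    (le_iSup_of_le M (le_iSup_of_le ⟨0, v, rfl⟩ le_rfl)), fun g ⟨n, w⟩ => mem_N_of_cj_le
      (cj_le_iff.mpr (iSup_le fun a => iSup_le fun ⟨m, w'⟩ => cj_le_iff.mp ?_))⟩
  rw [cj_ZZ]
  exact le_iSup_of_le (cj g a) (le_iSup_of_le ⟨_, w.trans (w'.cjj g)⟩ le_rfl)

end SG

end CfsgSZ
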