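import Mathlib.Tactic

/-!
The numerical elimination: the checker.
-/

set_option autoImplicit false

namespace CfsgSZ.Nm

/-- `f` holds on `[a, a + n)` -/
def allR (f : ℕ → Bool) (a n : ℕ) : Bool := Nat.rec true (fun k r => f (a + k) && r) n

theorem allR_sound {f : ℕ → Bool} {a n : ℕ} (h : allR f a n = true) {x : ℕ} (h1 : a ≤ x)
    (h2 : x < a + n) : f x = true := by
  induction n with
  | zero => omega
  | succ n ih =>
    have h : (f (a + n) && allR f a n) = true := h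
    rw [Bool.and_eq_true] at h
    rcases (by omega : x = a + n ∨ x < a + n) with rfl | e
    exacts [h.1, ih h.2 e]

def isPr (p : ℕ) : Bool := Nat.ble 7 p && allR (fun k => p % k != 0) 2 (p - 2)

theorem isPr_sound {p : ℕ} (h : isPr p = true) : p.Prime ∧ 7 ≤ p := by
  simp only [isPr, Bool.and_eq_true, Nat.ble_eq] at h
  refine ⟨Nat.prime_def_lt'.mpr ⟨by omega, fun m h1 h2 d => ?_⟩, h.1⟩
  simpa [Nat.mod_eq_zero_of_dvd d] using allR_sound h.2 h1 (by omega)

/-- no normal Sylow subgroup of prime order -/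
def Val (c : ℕ) : Prop :=
  ∀ p, p.Prime → 7 ≤ p → p ∣ c → ¬ p * p ∣ c → ∃ n, 1 < n ∧ p * n ∣ c ∧ n % p = 1

def kV (c p : ℕ) : Bool := c % p == 0 && (c % (p * p) != 0 && (isPr p &&
  allR (fun k => c % (p * (k * p + 1)) != 0) 1 (c / (p * p))))

theorem kV_sound {c p : ℕ} (h : kV c p = true) (v : Val c) : False := by
  simp only [kV, Bool.and_eq_true, beq_iff_eq, bne_iff_ne] at h
  obtain ⟨h1, h2, h3, h4⟩ := h
  obtain ⟨hp, h7⟩ := isPr_sound h3
  obtain ⟨n, n1, n2, n3⟩ := v p hp h7 (Nat.dvd_of_mod_eq_zero h1) fun e =>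
    h2 (Nat.mod_eq_zero_of_dvd e)
  have e : n / p * p + 1 = n := by rw [← n3, mul_comm]; exact Nat.div_add_mod n p
  have c0 : 0 < c := Nat.pos_of_ne_zero fun e => h2 (by simp [e])
  have := allR_sound h4 (x := n / p) (Nat.pos_of_ne_zero fun z => by rw [z] at e; omega) (by
    have := Nat.le_of_dvd c0 n2
    have : n / p ≤ c / (p * p) := (Nat.le_div_iff_mul_le (by positivity)).mpr (by nlinarith)
    omega)
  simp [e, Nat.mod_eq_zero_of_dvd n2] at this

/-- Sylow's theorem for a prime dividing a degree -/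
def Syl (g d : ℕ) (cs : List ℕ) : Prop :=
  ∀ p f, p.Prime → 7 ≤ p → (f = d ∨ f = d + 1) → p ∣ f → ¬ p * p ∣ g → (∀ c ∈ cs, ¬ p ∣ c) →
    ∃ c e n, g = p * c * e * n ∧ n % p = 1 ∧ e ∣ p - 1 ∧
      ∀ q, q.Prime → q ∣ c → 7 ≤ q ∧ p * q < 2 * f

def kS (g f : ℕ) (cs : List ℕ) (p w : ℕ) : Bool :=
  cs.all (fun c => c % p != 0) && (f % p == 0 && (g % (p * p) != 0 && (g % (p * w) == 0 &&
  (isPr p && (allR (fun q => g / (p * w) % q != 0 || (q % 2 == 0 || (q % 3 == 0 ||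
    Nat.ble (2 * f) (p * q)))) 7 (2 * f / p) &&
  allR (fun c => w % c != 0 || allR (fun e => (p - 1) % e != 0 || (g % (p * c * e) != 0 ||
    g / (p * c * e) % p != 1)) 1 p) 1 w)))))

theorem kS_sound {g d f p w : ℕ} {cs : List ℕ} (h : kS g f cs p w = true) (hf : f = d ∨ f = d + 1)
    (s : Syl g d cs) : False := by
  simp only [kS, Bool.and_eq_true, beq_iff_eq, bne_iff_ne, List.all_eq_true] at h
  obtain ⟨h1, h2, h3, h4, h5, h6, h7⟩ := h
  obtain ⟨hp, p7⟩ := isPr_sound h5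
  obtain ⟨c, e, n, e1, e2, e3, e4⟩ := s p f hp p7 hf (Nat.dvd_of_mod_eq_zero h2)
    (fun e => h3 (Nat.mod_eq_zero_of_dvd e)) fun c hc e => h1 c hc (Nat.mod_eq_zero_of_dvd e)
  have g0 : g ≠ 0 := fun e => h3 (by simp [e])
  obtain ⟨r, hr⟩ := Nat.dvd_of_mod_eq_zero h4
  have w0 : 0 < w := Nat.pos_of_ne_zero fun e => g0 (by simp [hr, e])
  have c0 : 0 < c := Nat.pos_of_ne_zero fun e => g0 (by simp [e1, e])
  have e0 : 0 < e := Nat.pos_of_ne_zero fun e => g0 (by simp [e1, e])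
  have d : c ∣ w := by
    refine Nat.Coprime.dvd_of_dvd_mul_right (m := w) (Nat.coprime_of_dvd (n := r)
      fun q hq d1 d2 => ?_) ⟨e * n, Nat.eq_of_mul_eq_mul_left hp.pos (by linarith)⟩
    obtain ⟨q7, l⟩ := e4 q hq d1
    have := allR_sound h6 q7 (by
      have := (Nat.le_div_iff_mul_le hp.pos).mpr (mul_comm p q ▸ l.le); omega)
    rw [hr, Nat.mul_div_cancel_left _ (by positivity)] at this
    simp only [Nat.mod_eq_zero_of_dvd d2, bne_self_eq_false, Bool.false_or, Bool.or_eq_true,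
      beq_iff_eq, Nat.ble_eq] at this
    rcases this with a | a | a
    · have := (Nat.prime_dvd_prime_iff_eq Nat.prime_two hq).mp (Nat.dvd_of_mod_eq_zero a); omega
    · have := (Nat.prime_dvd_prime_iff_eq Nat.prime_three hq).mp (Nat.dvd_of_mod_eq_zero a); omega
    · omega
  have := allR_sound h7 c0 (by have := Nat.le_of_dvd w0 d; omega)
  simp only [Nat.mod_eq_zero_of_dvd d, bne_self_eq_false, Bool.false_or] at this
  have := allR_sound this e0 (by have := Nat.le_of_dvd (by omega) e3; omega)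
  rw [e1, Nat.mul_div_cancel_left _ (by positivity)] at this
  simp [Nat.mod_eq_zero_of_dvd e3, e2] at this

def cert : List (ℕ × ℕ × ℕ) := [
  (13,13,1), (13,7,1), (16,17,1), (22,11,1), (28,29,1), (31,31,1), (37,37,1), (37,19,1),
  (43,43,1), (43,11,1), (46,23,1), (52,53,1), (52,13,1), (58,29,1), (61,31,1), (67,17,1),
  (73,37,1), (76,19,7), (76,11,7), (82,41,1), (88,11,1), (91,23,7), (91,13,7), (97,97,1),
  (103,103,1), (103,13,1), (106,53,1), (112,113,1), (112,7,1), (118,59,1), (118,17,7), (118,7,17),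
  (121,61,1), (127,127,1), (133,19,7), (142,13,11), (157,79,1), (166,167,1), (172,43,1),
  (178,89,1), (181,13,7), (187,47,1), (193,193,1), (196,197,1), (202,7,29), (208,19,143),
  (211,211,1), (217,31,7), (226,113,1), (328,47,7), (331,83,1), (343,43,343), (352,11,1),
  (367,23,1), (376,29,13), (388,97,1), (391,23,833), (403,31,13), (412,59,7), (427,61,7),
  (436,23,19), (736,23,11), (751,47,1)]

def killS (g d : ℕ) (cs : List ℕ) : Bool :=
  cert.any fun x => x.1 == d && (kS g d cs x.2.1 x.2.2 || kS g (d + 1) cs x.2.1 x.2.2)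

def killV (c : ℕ) : Bool := [11, 13, 17, 19, 23, 29, 37, 41, 43, 47, 53].any (kV c)

/-- the alternatives given by the local analysis -/
def Cas (nv g S N : ℕ) (cs : List ℕ) (E : ℕ) : Prop :=
  (∃ c ∈ cs, 7 ∣ c ∨ c ≤ 96) ∨ ¬ 4096 ∣ g ∨
    g * (19 - 3 * nv) ≤ 144 * nv ^ 2 * (nv * S + 2 * nv * (N + E))

def casB (nv g : ℕ) (cs : List ℕ) (E : ℕ) : Bool :=
  cs.any (fun c => c % 7 == 0 || Nat.ble c 96) || (g % 4096 != 0 ||
    Nat.ble (g * (19 - 3 * nv)) (144 * nv ^ 2 * (nv * g.gcd (2 ^ 64) +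
      2 * nv * (g / (3 * g.gcd (2 ^ 64)) + E))))

/-- the global data -/
structure Gl (nv m d g S N : ℕ) : Prop where
  eq : g * nv = 12 * m ^ 2 * (d * (d + 1))
  gS : g = S * 3 * N
  pw : ∃ s, S = 2 ^ s
  odd : ¬ 2 ∣ N
  n5 : ¬ 5 ∣ g
  n9 : ¬ 9 ∣ g
  d3 : d % 3 = 1
  d4 : 4 ≤ d

theorem Gl.gcd {nv m d g S N : ℕ} (h : Gl nv m d g S N) (l : g < 2 ^ 64) : g.gcd (2 ^ 64) = S := by
  obtain ⟨s, rfl⟩ := h.pw
  have N0 : 0 < N := Nat.pos_of_ne_zero fun e => h.odd (by simp [e])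
  have : 2 ^ s < 2 ^ 64 := lt_of_le_of_lt (by rw [h.gS]; nlinarith [Nat.two_pow_pos s]) l
  obtain ⟨k, hk⟩ := Nat.exists_eq_add_of_lt ((Nat.pow_lt_pow_iff_right one_lt_two).mp this)
  rw [h.gS, mul_assoc, hk, add_assoc, pow_add, Nat.gcd_mul_left, Nat.Coprime.gcd_eq_one, mul_one]
  exact Nat.Coprime.pow_right _ (Nat.Coprime.mul_left (by decide)
    ((Nat.Prime.coprime_iff_not_dvd Nat.prime_two).mpr h.odd).symm)

theorem casB_of {nv m d g S N : ℕ} (h : Gl nv m d g S N) (l : g < 2 ^ 64) {cs : List ℕ} {E E' : ℕ}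
    (c : Cas nv g S N cs E) (hE : E ≤ E') : casB nv g cs E' = true := by
  simp only [casB, Bool.or_eq_true, List.any_eq_true, beq_iff_eq, Nat.ble_eq, bne_iff_ne, h.gcd l]
  rcases c with ⟨c, h1, h2⟩ | c | c
  · exact Or.inl ⟨c, h1, h2.imp_left Nat.mod_eq_zero_of_dvd⟩
  · exact Or.inr (Or.inl fun e => c (Nat.dvd_of_mod_eq_zero e))
  · obtain ⟨s, hs⟩ := h.pw
    have : g / (3 * S) = N := by
      rw [h.gS, mul_comm S, Nat.mul_div_cancel_left _ (by rw [hs]; positivity)]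
    rw [this]
    exact Or.inr (Or.inr (c.trans (by gcongr)))

/-- the final conditions: `vs` are the orders divisible by three, `u` the other one -/
structure Fn (nv d g S N : ℕ) (vs : List ℕ) (u E : ℕ) : Prop where
  cen : ∃ c ∈ u :: vs, S ∣ c
  syl : Syl g d (u :: vs)
  val : Val u
  cas : Cas nv g S N vs E

def finB (nv d g : ℕ) (vs : List ℕ) (u E : ℕ) : Bool :=
  (u :: vs).all (fun c => c % g.gcd (2 ^ 64) != 0) || (!casB nv g vs E || (killV u ||
    killS g d (u :: vs)))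

theorem finB_sound {nv m d g S N : ℕ} (h : Gl nv m d g S N) (l : g < 2 ^ 64) {vs : List ℕ}
    {u E : ℕ} (c : finB nv d g vs u E = true) (f : Fn nv d g S N vs u E) : False := by
  simp only [finB, casB_of h l f.cas le_rfl, Bool.or_eq_true, List.all_eq_true, bne_iff_ne,
    h.gcd l, Bool.not_true, Bool.false_eq_true, false_or, killV, killS, List.any_eq_true,
    Bool.and_eq_true] at c
  rcases c with c | ⟨p, -, c⟩ | ⟨x, -, -, c | c⟩
  · obtain ⟨a, h1, h2⟩ := f.cen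
    exact c a h1 (Nat.mod_eq_zero_of_dvd h2)
  exacts [kV_sound c f.val, kS_sound c (Or.inl rfl) f.syl, kS_sound c (Or.inr rfl) f.syl]

/-- the conditions on a class of involutions -/
structure Cl (d g D c : ℕ) : Prop where
  two : D % 2 = 0
  dvd : g % c = 0
  g1 : 2 * d ≤ 2 + 3 * D
  g2 : 3 * D ≤ 4 * d + 2
  nm : 2 * (d * d + D * D) + 2 * d + 2 ≤ c + 4 * d * D + 2 * D

def clB (d g D c : ℕ) : Bool := Nat.ble (2 * d) (2 + 3 * D) && (Nat.ble (3 * D) (4 * d + 2) &&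
  (g % c == 0 && (D % 2 == 0 && Nat.ble (2 * (d * d + D * D) + 2 * d + 2) (c + 4 * d * D + 2 * D))))

theorem Cl.b {d g D c : ℕ} (h : Cl d g D c) : clB d g D c = true := by
  simp [clB, h.two, h.dvd, h.g1, h.g2, h.nm]

/-- the orders of the centralisers of the elements of `V` -/
def VC (nv c : ℕ) : Prop := (∃ k, c = 3 * 2 ^ k ∧ 2 * nv ≤ 2 ^ k) ∨ (nv = 2 ∧ c = 336) ∨
  (nv = 4 ∧ (c = 672 ∨ c = 2184 ∨ c = 2688))

/-- a class meeting `V` -/
structure Vc (nv m d g i D c : ℕ) : Prop where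
  i12 : i = 1 ∨ i = 2
  eq : i * c = 2 * m * D
  cl : Cl d g D c
  vc : VC nv c

def cL (nv : ℕ) : List ℕ := (if nv = 2 then [12, 336] else [672, 2184, 2688]) ++ 
  [24, 48, 96, 192, 384, 768, 1536, 3072, 6144, 12288, 24576, 49152, 98304, 196608, 393216,
  786432, 1572864, 3145728, 6291456, 12582912]

def VL (nv m d g : ℕ) : List (ℕ × ℕ × ℕ) :=
  ((cL nv).filter fun c => clB d g (c / (2 * m)) c && c % (2 * m) == 0).map
    (fun c => (1, c / (2 * m), c)) ++
  ((cL nv).filter fun c => clB d g (c / m) c && c % m == 0).map fun c => (2, c / m, c)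

theorem Vc.le {nv m d g i D c : ℕ} (h : Vc nv m d g i D c) (d4 : 4 ≤ d) : c ≤ 3 * (m * d) := by
  have := h.eq
  have := Nat.mul_le_mul_left m (by have := h.cl.g2; omega : 2 * D ≤ 3 * d)
  rcases h.i12 with rfl | rfl <;> nlinarith

theorem Vc.mem {nv m d g i D c : ℕ} (h : Vc nv m d g i D c) (hn : nv = 2 ∨ nv = 4) (d4 : 4 ≤ d)
    (m0 : 0 < m) (l : m * d < 2 ^ 23) : (i, D, c) ∈ VL nv m d g := by
  have c1 : c ∈ cL nv := by
    have := h.le d4
    rcases h.vc with ⟨k, rfl, hk⟩ | ⟨rfl, rfl⟩ | ⟨rfl, rfl | rfl | rfl⟩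
    · have : k < 23 := (Nat.pow_lt_pow_iff_right one_lt_two).mp (by omega)
      rcases hn with rfl | rfl <;> interval_cases k <;> first | omega | decide
    all_goals decide
  have e := h.eq
  simp only [VL, List.mem_append, List.mem_map, List.mem_filter, Bool.and_eq_true, beq_iff_eq]
  rcases h.i12 with rfl | rfl
  · have : c / (2 * m) = D := by rw [← one_mul c, e, Nat.mul_div_cancel_left _ (by omega)]
    exact Or.inl ⟨c, ⟨c1, this ▸ h.cl.b, by rw [← one_mul c, e, Nat.mul_mod_right]⟩, by rw [this]⟩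
  · have e : c = m * D := by linarith
    have : c / m = D := by rw [e, Nat.mul_div_cancel_left _ m0]
    exact Or.inr ⟨c, ⟨c1, this ▸ h.cl.b, by rw [e, Nat.mul_mod_right]⟩, by rw [this]⟩

/-- zero for powers of two -/
def ev (c : ℕ) : ℕ := if 2 ^ c.log2 = c then 0 else c

def uB (nv m d g : ℕ) (vs : List ℕ) (f : ℕ → Bool) : Bool := !casB nv g vs (3 * (m * d)) ||
  allR (fun k => !clB d g (2 * k) (4 * m * k) || (k % 3 == 0 || (f (2 * k) ||
    finB nv d g vs (4 * m * k) (ev (4 * m * k))))) (d / 3) (d / 3 + 2)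

/-- the class not meeting `V` -/
structure Uc (nv m d g S N : ℕ) (vs : List ℕ) (U : ℕ) : Prop where
  cl : Cl d g U (2 * m * U)
  n3 : ¬ 3 ∣ U
  fn : Fn nv d g S N vs (2 * m * U) (ev (2 * m * U))

theorem uB_sound {nv m d g S N : ℕ} (h : Gl nv m d g S N) (l : g < 2 ^ 64) {vs : List ℕ}
    {f : ℕ → Bool} (c : uB nv m d g vs f = true) {U : ℕ} (u : Uc nv m d g S N vs U) :
    f U = true := by
  have d4 := h.d4
  have d3 := h.d3
  have g1 := u.cl.g1
  have g2 := u.cl.g2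
  obtain ⟨k, rfl⟩ := Nat.dvd_of_mod_eq_zero u.cl.two
  have e : 2 * m * (2 * k) = 4 * m * k := by ring
  have hE : ev (2 * m * (2 * k)) ≤ 3 * (m * d) := by
    have := Nat.mul_le_mul_left m (by omega : 4 * k ≤ 3 * d)
    unfold ev; split_ifs <;> nlinarith
  simp only [uB, casB_of h l u.fn.cas hE, Bool.not_true, Bool.false_or] at c
  have := allR_sound c (x := k) (by omega) (by omega)
  simp only [← e, u.cl.b, Bool.not_true, Bool.false_or, Bool.or_eq_true, beq_iff_eq] at this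
  rcases this with a | a | a
  exacts [absurd (by omega) u.n3, a, (finB_sound h l a u.fn).elim]

def c2 (m d g : ℕ) : Bool := (VL 2 m d g).all fun x => x.2.2 == 12 ||
  if x.1 = 2 then x.2.1 % 4 != 0 || finB 2 d g [x.2.2] 1 0
  else uB 2 m d g [x.2.2] fun U => (2 * x.2.1 + U) % 4 != 0

def c4 (m d g : ℕ) : Bool := (VL 4 m d g).all fun x => (VL 4 m d g).all fun y =>
  (VL 4 m d g).all fun z => (x.2.1 + y.2.1 + z.2.1) % 4 != 0 ||
  if x.1 + y.1 + z.1 = 4 then finB 4 d g [x.2.2, y.2.2, z.2.2] 1 0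
  else x.1 + y.1 + z.1 != 3 || uB 4 m d g [x.2.2, y.2.2, z.2.2] fun U =>
    (2 * x.2.1 + U) % 4 != 0 && ((x.2.1 + y.2.1 + U) % 4 != 0 && (x.2.1 + z.2.1 + U) % 4 != 0)

def chk (nv m d g : ℕ) : Bool := Nat.blt g (2 ^ 64) && (Nat.blt (m * d) (2 ^ 23) &&
  if nv = 2 then c2 m d g else c4 m d g)

def rt (n : ℕ) : ℕ := Nat.rec 1 (fun k r => if (k + 1) * (k + 1) ≤ n then k + 2 else r) 160

def md (nv m D R : ℕ) : Bool := (Nat.blt (m * D) (R * R) || Nat.blt D (2 * R)) &&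
  allR (fun d => d % 3 != 1 || (Nat.blt d 4 || (12 * m ^ 2 * (d * (d + 1)) / nv % 5 == 0 ||
    (12 * m ^ 2 * (d * (d + 1)) / nv % (m * D) != 0 || (Nat.blt (2 + 3 * D) (2 * d) ||
    (Nat.blt (4 * d + 2) (3 * D) || chk nv m d (12 * m ^ 2 * (d * (d + 1)) / nv)))))))
    (D - R) (2 * R + 2)

theorem md_sound {nv m d g S N i D c R : ℕ} (h : Gl nv m d g S N) (hn : nv = 2 ∨ nv = 4)
    (v : Vc nv m d g i D c) (k : md nv m D R = true) : chk nv m d g = true := by
  simp only [md, Bool.and_eq_true, Bool.or_eq_true, Nat.blt_eq] at k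
  have g1 := v.cl.g1
  have g2 := v.cl.g2
  have e := v.eq
  have cl : c ≤ 2 * (m * D) ∧ m * D ∣ c := by
    rcases v.i12 with rfl | rfl
    exacts [⟨by linarith, 2, by linarith⟩, ⟨by linarith, 1, by linarith⟩]
  have r : D - R ≤ d ∧ d < D - R + (2 * R + 2) := by
    rcases k.1 with a | a
    · have := v.cl.nm
      constructor <;> by_contra b
      · obtain ⟨t, rfl⟩ : ∃ t, D = d + R + 1 + t := ⟨D - (d + R + 1), by omega⟩
        nlinarith [cl.1]
      · obtain ⟨t, rfl⟩ : ∃ t, d = D + R + t := ⟨d - (D + R), by omega⟩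
        nlinarith [cl.1]
    · omega
  have := allR_sound k.2 r.1 r.2
  have eg : 12 * m ^ 2 * (d * (d + 1)) / nv = g := by
    rw [← h.eq, Nat.mul_div_cancel _ (by omega)]
  have d4 := h.d4
  have n5 : g % 5 ≠ 0 := fun e => h.n5 (Nat.dvd_of_mod_eq_zero e)
  simp only [eg, h.d3, bne_self_eq_false, Bool.false_or, Bool.or_eq_true, Nat.blt_eq, beq_iff_eq,
    Nat.mod_eq_zero_of_dvd (cl.2.trans (Nat.dvd_of_mod_eq_zero v.cl.dvd))] at this
  rcases this with a | a | a | a | a <;> first | omega | exact a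

def mdB (nv m D : ℕ) : Bool := md nv m D (min (rt (m * D)) (D / 2 + 1))

def mdL (nv j e : ℕ) : Bool :=
  if j + e ≤ 13 then mdB nv (2 ^ j) (3 * 2 ^ e)
  else Nat.blt 11 j || (Nat.blt 8 e || md nv (2 ^ j) (3 * 2 ^ e) (3 * 2 ^ e / 2 + 1))

def mdT (nv P : ℕ) : Bool := allR (fun m => P % m != 0 || (m % 3 == 0 || mdB nv m (P / m))) 1 P

end CfsgSZ.Nm
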