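import Cfsg.Agent.H6.T3K1

/-!
Two-local subgroups of shape `Q.S₃`.
-/

set_option autoImplicit false
set_option linter.style.haveILetI false
set_option linter.unusedSectionVars false

namespace CfsgSZ

open Subgroup CfsgH5 CfsgH6 CfsgFT
open scoped commutatorElement

universe u

variable {G : Type u} [Group G] [Finite G]

/-- the largest normal `2`-subgroup -/
abbrev Q2 (M : Subgroup G) : Subgroup G := Op 2 M

theorem two_Q (M : Subgroup G) : IsPGroup 2 (Q2 M) := isPGroup_Op' Nat.prime_two M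
theorem nrm_Q (M : Subgroup G) : Nrm M (Q2 M) := (Nrm.self M).Op' Nat.prime_two
theorem cj_Q (g : G) (M : Subgroup G) : cj g (Q2 M) = Q2 (cj g M) := cj_Op' Nat.prime_two g M

/-- a `2`-local subgroup `Q.S₃` -/
structure Par (M : Subgroup G) : Prop where
  nq : N (Q2 M) = M
  idx : (Q2 M).relIndex M = 6
  ne : Q2 M ≠ ⊥
  ex : ∃ x ∈ M, ∃ t ∈ M, orderOf x = 3 ∧ t * x * t⁻¹ = x⁻¹

theorem relIndex_cj' (g : G) (X Y : Subgroup G) : (cj g X).relIndex (cj g Y) = X.relIndex Y := by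
  refine Nat.eq_of_mul_eq_mul_left (card_pos (X ⊓ Y)) ?_
  rw [card_inf_mul_relIndex, ← card_cj g (X ⊓ Y), cj_inf, card_inf_mul_relIndex, card_cj]

theorem conj_inverts {x t : G} (h : t * x * t⁻¹ = x⁻¹) (g : G) :
    g * t * g⁻¹ * (g * x * g⁻¹) * (g * t * g⁻¹)⁻¹ = (g * x * g⁻¹)⁻¹ := by
  calc _ = g * (t * x * t⁻¹) * g⁻¹ := by group
    _ = _ := by rw [h]; group

theorem inverts_inv {x t : G} (h : t * x⁻¹ * t⁻¹ = x⁻¹⁻¹) : t * x * t⁻¹ = x⁻¹ := by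
  rw [← inv_inj, ← h]; group

namespace Par

variable {M : Subgroup G} (p : Par M)
include p

theorem cjj (g : G) : Par (cj g M) where
  nq := by rw [← cj_Q, ← cj_N, p.nq]
  idx := by rw [← cj_Q, relIndex_cj', p.idx]
  ne := by rw [← cj_Q, ← one_lt_card, card_cj, one_lt_card]; exact p.ne
  ex := by
    obtain ⟨x, h1, t, h2, h3, h4⟩ := p.ex
    exact ⟨_, mem_cj'.mpr ⟨x, h1, rfl⟩, _, mem_cj'.mpr ⟨t, h2, rfl⟩, (orderOf_conj' _ _).trans h3,
      conj_inverts h4 g⟩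

theorem O : Opc 3 M = Q2 M := by
  refine le_antisymm (le_Op (Opc_le _ _) (nrm_Opi _ _) ((piG_single Nat.prime_two).mp
    fun r hr hd => ?_)) (Op_le_Opc Nat.prime_two (by decide) M)
  have d := hd.trans (card_dvd_of_le' (Opc_le 3 M))
  rw [← card_mul_relIndex (Op_le 2 M), p.idx] at d
  rcases hr.dvd_mul.mp d with e | e
  · exact (piG_single Nat.prime_two).mpr (two_Q M) r hr e
  · rcases compl_compl ({2, 3} : Set ℕ) ▸ piN6 dvd_rfl r hr e with e | e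
    · exact e
    · exact absurd (e ▸ hd) (not_dvd_card_Opc Nat.prime_three M)

theorem inv (h : Hy G) {x : G} (hx : orderOf x = 3) (xM : x ∈ M) : ∃ t ∈ M, t * x * t⁻¹ = x⁻¹ := by
  obtain ⟨y, h1, t, h2, h3, h4⟩ := p.ex
  obtain ⟨g, hg, e⟩ := h.conj3 hx h3 xM h1
  refine ⟨_, mul_mem (mul_mem hg h2) (inv_mem hg), ?_⟩
  have := conj_inverts h4 g
  rcases e with e | e <;> rw [e] at this
  exacts [this, inverts_inv this]

theorem le_Q {x : G} (hx : orderOf x = 3) (xM : x ∈ M) {K : Subgroup G} (h1 : K ≤ M)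
    (h2 : IsPGroup 2 K) (h3 : x ∈ N K) : K ≤ Q2 M :=
  p.O ▸ le_O6 hx xM (p.O ▸ p.idx) h1 (not3_of_two h2) h3

theorem max {x : G} (hx : orderOf x = 3) (xM : x ∈ M) {K : Subgroup G} (h1 : Q2 M ≤ K)
    (h2 : IsPGroup 2 K) (h3 : x ∈ N K) : Q2 M = K :=
  eq_of_nilpotent_of_N_le (nilpotent_of_isPGroup Nat.prime_two h2) h1 (by
    rw [p.nq]
    exact p.le_Q hx xM inf_le_right (h2.to_le inf_le_left) (mem_N_inf h3 (le_N M xM)))

theorem syl {T : Subgroup G} (hT : SylIn 2 T M) :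
    (Q2 M).relIndex T = 2 ∧ T.relIndex M = 3 := by
  have e := relIndex_mul_relIndex _ _ _ (hT.Op_le Nat.prime_two) hT.le
  have h1 := hT.not_dvd_relIndex
  have h2 : ¬ 3 ∣ (Q2 M).relIndex T := fun d =>
    not3_of_two hT.isPGroup (d.trans (relIndex_dvd_card' _ _))
  rw [p.idx] at e
  have := Nat.le_of_dvd (by decide) (Dvd.intro _ e)
  interval_cases (Q2 M).relIndex T <;> omega

theorem card_syl {T : Subgroup G} (hT : SylIn 2 T M) : Nat.card T = 2 * Nat.card (Q2 M) := by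
  rw [← card_mul_relIndex (hT.Op_le Nat.prime_two), (p.syl hT).1, mul_comm]

theorem card : Nat.card M = 6 * Nat.card (Q2 M) := by
  rw [← card_mul_relIndex (Op_le 2 M), p.idx, mul_comm]

theorem sup_eq {T Y : Subgroup G} (hT : SylIn 2 T M) (h1 : Y ≤ M) (h2 : ¬ Y ≤ T) : T ⊔ Y = M :=
  (eq_or_eq_of_prime_relIndex (by rw [(p.syl hT).2]; decide) le_sup_left
    (sup_le hT.le h1)).resolve_left fun e => h2 (le_sup_right.trans e.le)

theorem Q_sup {T Y : Subgroup G} (hT : SylIn 2 T M) (h1 : Y ≤ T) (h2 : ¬ Y ≤ Q2 M) :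
    Q2 M ⊔ Y = T :=
  (eq_or_eq_of_prime_relIndex (by rw [(p.syl hT).1]; decide) le_sup_left
    (sup_le (hT.Op_le Nat.prime_two) h1)).resolve_left fun e => h2 (le_sup_right.trans e.le)

theorem not_N {x : G} (hx : orderOf x = 3) (xM : x ∈ M) {T : Subgroup G} (hT : SylIn 2 T M) :
    x ∉ N T := fun e => by
  have := relIndex_eq_one.mpr (p.le_Q hx xM hT.le hT.isPGroup e)
  rw [(p.syl hT).1] at this; omega

theorem le_of_two {T T' Y : Subgroup G} (hT : SylIn 2 T M) (hT' : SylIn 2 T' M) (hne : T ≠ T')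
    (h1 : Y ≤ T) (h2 : Y ≤ T') : Y ≤ Q2 M := by
  by_contra e
  exact hne ((p.Q_sup hT h1 e).symm.trans (p.Q_sup hT' h2 e))

theorem not_le_cj {x : G} (hx : orderOf x = 3) (xM : x ∈ M) {T Y : Subgroup G} (hT : SylIn 2 T M)
    (h1 : Y ≤ T) (h2 : ¬ Y ≤ Q2 M) : ¬ Y ≤ cj x T := fun e =>
  h2 (p.le_of_two hT (hT.cj_mem xM) (fun e => p.not_N hx xM hT (mem_N.mpr e.symm)) h1 e)

theorem eq_of_le {H : Subgroup G} (hle : M ≤ H) (h2 : IsPGroup 2 (Opc 3 H))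
    (h6 : (Opc 3 H).relIndex H = 6) : H = M := by
  obtain ⟨x, xM, -, -, hx, -⟩ := p.ex
  have nO : Nrm H (Opc 3 H) := nrm_Opi _ H
  have := p.max hx xM (le_O6 hx (hle xM) h6 ((Op_le 2 M).trans hle) (not3_of_two (two_Q M))
    ((nrm_Q M).le_N xM)) h2 (nO.le_N (hle xM))
  exact le_antisymm (p.nq ▸ this ▸ nO.le_N) hle

theorem mem_of_nrm (h : Hy G) {x : G} (hx : orderOf x = 3) (xM : x ∈ M) {K : Subgroup G}
    (hn : Nrm M K) (hK : ¬ M ⊓ K ≤ Q2 M) : x ∈ K :=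
  ((h.mem_or_le hx xM inf_le_left ((Nrm.self M).inf hn)).resolve_right (p.O ▸ hK)).2

theorem eq_sup (h : Hy G) {x : G} (hx : orderOf x = 3) (xM : x ∈ M) {W Y L : Subgroup G}
    (hW : Nrm M W) (hY : Nrm M Y) (h1 : W ≤ Y) (h2 : IsPGroup 2 W) (h3 : Y ≤ M) (h4 : L ≤ M)
    (h5 : ¬ L ≤ Q2 M) (h6 : ⁅Y, L⁆ ≤ W) : W ⊔ Y ⊓ C1 x = Y := by
  rw [commutator_comm] at h6
  have := p.mem_of_nrm h hx xM (nrm_coq_of_quo hW (hY.quo W).C) fun e => h5 ((le_inf h4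
    ((le_coq_C_iff (hW.mono h4) (hW.mono h3)).mpr h6)).trans e)
  have := (le_coq_C_iff (nrmX (hW.le_N xM)) (hW.mono h3)).mp (zpowers_le.mpr this)
  rw [commutator_comm] at this
  rw [← C_zpowers]
  exact eq_sup_inf_C_of_comm_le (nrmX (hW.le_N xM)) (cop_X hx (not3_of_two h2)) (solv_X x W) h1
    this

end Par

/-- the subgroup generated by the centres of the Sylow `2`-subgroups -/
def ZZ (M : Subgroup G) : Subgroup G := ⨆ (T : Subgroup G) (_ : SylIn 2 T M), Om1 2 (Z T)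

theorem le_ZZ {M T : Subgroup G} (hT : SylIn 2 T M) : Om1 2 (Z T) ≤ ZZ M :=
  le_iSup_of_le T (le_iSup_of_le hT le_rfl)

theorem mem_ZZ {M T : Subgroup G} (hT : SylIn 2 T M) {z : G} (h1 : z ∈ T) (h2 : z ∈ C T)
    (h3 : z * z = 1) : z ∈ ZZ M := le_ZZ hT (mem_Om1 ⟨h1, h2⟩ (by rw [pow_two, h3]))

theorem cj_ZZ_le (g : G) (M : Subgroup G) : cj g (ZZ M) ≤ ZZ (cj g M) :=
  cj_le_iff.mpr (iSup_le fun T => iSup_le fun hT => cj_le_iff.mp (by
    rw [cj_Om1, cj_Z]; exact le_ZZ (hT.cjj g)))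

theorem cj_ZZ (g : G) (M : Subgroup G) : cj g (ZZ M) = ZZ (cj g M) :=
  le_antisymm (cj_ZZ_le g M) (le_cj_iff.mpr ((cj_ZZ_le _ _).trans (by rw [cj_inv_cj])))

theorem nrm_ZZ (M : Subgroup G) : Nrm M (ZZ M) :=
  nrm_of_le_N fun g hg => mem_N.mpr (by rw [cj_ZZ, cj_self hg])

/-- the generic case -/
structure SG (G : Type u) [Group G] [Finite G] : Prop extends SV G where
  c6 : ∀ x v : G, orderOf x = 3 → v ∈ Vx x → v ≠ 1 → (Opc 3 (C1 v)).relIndex (C1 v) = 6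
  c96 : ∀ x v : G, orderOf x = 3 → v ∈ Vx x → v ≠ 1 → 96 < Nat.card (C1 v)
  s12 : ∀ S : Subgroup G, SylIn 2 S ⊤ → 2 ^ 11 < Nat.card S

variable [IsSimpleGroup G]

namespace SG

variable (h : SG G)
include h

theorem two {x v : G} (hx : orderOf x = 3) (hv : v ∈ Vx x) (v1 : v ≠ 1) :
    IsPGroup 2 (Opc 3 (C1 v)) := by
  obtain ⟨t, b⟩ := h.exists_bas hx (h.hV x hx)
  exact (h.cv b hv v1).1

theorem lt_O {x v : G} (hx : orderOf x = 3) (hv : v ∈ Vx x) (v1 : v ≠ 1) :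
    16 < Nat.card (Opc 3 (C1 v)) := by
  have := h.c96 x v hx hv v1
  rw [← card_mul_relIndex (Opc_le 3 _), h.c6 x v hx hv v1] at this
  omega

theorem lt_card {M : Subgroup G} (p : Par M) {x v : G} (hx : orderOf x = 3) (xM : x ∈ M)
    (hv : v ∈ Vx x) (v1 : v ≠ 1) (hc : Q2 M ≤ C1 v) : 16 < Nat.card (Q2 M) := by
  have xv := mem_C1_comm.mp (V_le x hv)
  rw [p.max hx xM (le_O6 hx xv (h.c6 x v hx hv v1) hc (not3_of_two (two_Q M)) ((nrm_Q M).le_N xM))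
    (h.two hx hv v1) ((nrm_Opi _ _).le_N xv)]
  exact h.lt_O hx hv v1

theorem cq {M : Subgroup G} (p : Par M) : M ⊓ C (Q2 M) ≤ Q2 M := by
  by_contra e
  obtain ⟨x, xM, -, -, hx, -⟩ := p.ex
  have l := h.le_V hx (le_C1_iff.mpr (p.mem_of_nrm h.toHy hx xM (nrm_Q M).C e)) (two_Q M)
  obtain ⟨v, hv, v1⟩ := (Q2 M).bot_or_exists_ne_one.resolve_left p.ne
  have := h.lt_card p hx xM (l hv) v1 (l.trans ((h.ab_V hx).trans (C_le_C1 (l hv))))
  have := card_le_of_le l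
  rcases h.card_V hx with e | e | e <;> omega

theorem no_self {E : Subgroup G} (hE : ElAb 2 E) (h4 : Nat.card E = 4) (hS : SylIn 2 E (C E)) :
    False := by
  obtain ⟨x, hx⟩ := h.ex3
  obtain ⟨v, hv, v1⟩ := (Vx x).bot_or_exists_ne_one.resolve_left (h.hV x hx)
  have := h.ci_le hx (h.ci_all hE h4 hS (h.two hx hv v1)) (h.two hx hv v1)
    ((nrm_Opi _ _).le_N (mem_C1_comm.mp (V_le x hv)))
  have := h.lt_O hx hv v1
  omega

theorem eq_C1 {M : Subgroup G} (p : Par M) {r : G} (rr : r * r = 1) (r1 : r ≠ 1) (hc : M ≤ C1 r) :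
    C1 r = M := by
  obtain ⟨x, xM, -, -, hx, -⟩ := p.ex
  have := (h.mem_V hx).mpr ⟨mem_C1_comm.mp (hc xM), rr⟩
  exact p.eq_of_le hc (h.two hx this r1) (h.c6 x r hx this r1)

theorem ZZ_le {M : Subgroup G} (p : Par M) : ZZ M ≤ Om1 2 (Z (Q2 M)) :=
  iSup_le fun T => iSup_le fun hT => Om1_mono _ fun _ hz =>
    have c := C_anti (hT.Op_le Nat.prime_two) (Z_le_C T hz)
    ⟨h.cq p ⟨hT.le (Z_le T hz), c⟩, c⟩

theorem elAb_ZZ {M : Subgroup G} (p : Par M) : ElAb 2 (ZZ M) := (elAb_Om1_Z 2 _).mono (h.ZZ_le p)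

theorem ZZ_le_Q {M : Subgroup G} (p : Par M) : ZZ M ≤ Q2 M :=
  (h.ZZ_le p).trans ((Om1_le _ _).trans (Z_le _))

theorem ZZ_le_C {M : Subgroup G} (p : Par M) : ZZ M ≤ C (Q2 M) :=
  (h.ZZ_le p).trans ((Om1_le _ _).trans (Z_le_C _))

end SG

end CfsgSZ
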