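import Cfsg.Agent.H6.T3Q
import Cfsg.Agent.H8.Tri

/-!
The invariant subgroups of order prime to six, and the count.
-/

set_option autoImplicit false
set_option linter.style.haveILetI false
set_option linter.unusedSectionVars false

namespace CfsgSZ

open Subgroup CfsgH5 CfsgH6 CfsgFT
open scoped commutatorElement

universe u

variable {G : Type u} [Group G] [Finite G]

theorem sum_le_prod_two {ι : Type*} (s : Finset ι) (m : ι → ℕ) (h : ∀ i ∈ s, 2 ≤ m i) :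
    ∑ i ∈ s, m i ≤ ∏ i ∈ s, m i := by
  classical
  induction s using Finset.induction_on with
  | empty => simp
  | insert a s ha ih =>
    have h1 := ih fun i hi => h i (Finset.mem_insert_of_mem hi)
    have h2 := h a (Finset.mem_insert_self _ _)
    rw [Finset.sum_insert ha, Finset.prod_insert ha]
    rcases s.eq_empty_or_nonempty with rfl | ⟨b, hb⟩
    · simp
    · have := (h b (Finset.mem_insert_of_mem hb)).trans
        ((Finset.single_le_sum (fun _ _ => Nat.zero_le _) hb).trans h1)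
      nlinarith

theorem sum_le_of_cop {ι : Type*} (s : Finset ι) (m : ι → ℕ) (h : ∀ i ∈ s, 2 ≤ m i) {n : ℕ}
    (n0 : 0 < n) (hd : ∀ i ∈ s, m i ∣ n) (hc : ∀ i ∈ s, ∀ j ∈ s, i ≠ j → (m i).Coprime (m j)) :
    ∑ i ∈ s, m i ≤ n :=
  (sum_le_prod_two s m h).trans (Nat.le_of_dvd n0 (by
    have := Finset.prod_dvd_of_coprime (s := fun i => (m i : ℤ)) (t := s) (z := (n : ℤ))
      (fun i hi j hj e => Nat.isCoprime_iff_coprime.mpr (hc i hi j hj e))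
      fun i hi => by exact_mod_cast hd i hi
    exact_mod_cast this))

/-- the centralisers of the centres of invariant Sylow subgroups -/
def MP (x : G) (p : ℕ) (M : Subgroup G) : Prop :=
  p.Prime ∧ p ∈ pi6 ∧ ∃ P, SylIn p P ⊤ ∧ P ≠ ⊥ ∧ x ∈ N P ∧ M = C (Z P)

theorem MP.dvd {x : G} {p : ℕ} {M : Subgroup G} (m : MP x p M) : p ∣ Nat.card M := by
  obtain ⟨hp, -, P, p1, p2, -, rfl⟩ := m
  exact (prime_dvd_card_of_isPGroup hp p1.isPGroup p2).trans (card_dvd_of_le' (le_C_Z P))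

variable [IsSimpleGroup G]

theorem SS.syl_pi (h : SS G) {x : G} (hx : orderOf x = 3) {p : ℕ} (hp : p.Prime) (h6 : p ∈ pi6)
    {K : Subgroup G} (h1 : IsPGroup p K) (h2 : K ≠ ⊥) (h3 : x ∈ N K) :
    ∃ P, K ≤ P ∧ SylIn p P ⊤ ∧ x ∈ N P := by
  obtain ⟨P, p1, ⟨p2, p3⟩, p4⟩ := exists_maximal_ge (P := fun K => IsPGroup p K ∧ x ∈ N K) ⟨h1, h3⟩
  refine ⟨P, p1, ?_, p3⟩
  have P1 := ne_bot_of_le_ne_bot h2 p1
  have pP := piG_of_isPGroup hp p2 h6
  have o3 := not_dvd_card_Opc Nat.prime_three (N P)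
  have nO : Nrm _ (Opc 3 _) := nrm_Opi {3}ᶜ (N P)
  have PO : P ≤ Opc 3 (N P) := le_Opi (le_N P) (nrm_N P)
    ((piG_compl_single Nat.prime_three).mpr (not3_of_pi pP))
  have key : (Opc 3 (N P)).relIndex (N P) ∣ 6 → SylIn p P ⊤ := fun d => by
    obtain ⟨R, r1, r2, r3⟩ := exists_sylIn_ge_nrm_of_coprime (nrmX (nO.le_N p3)) (cop_X hx o3)
      (solv_X x _) hp PO p2 (nrmX p3)
    obtain rfl := p4 R ⟨r2.isPGroup, nrm_zpowers_iff.mp r3⟩ r1
    have s := r2.trans_not_dvd hp (Opc_le _ _) ((piN6 d).not_dvd' hp h6)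
    exact sylIn_of_sylIn_N hp (M := ⊤) (by rwa [top_inf_eq])
  rcases h.cases (h.ih _ (h.N_ne' P1 (solvable_of_isPGroup hp p2))) with e | e | e | ⟨n, c, q, k⟩
  rotate_right
  · exfalso
    obtain ⟨R, r1, r2, r3, r4⟩ := k.frob x p3 hx
    obtain ⟨hq, q7⟩ : q.Prime ∧ 7 ≤ q := by
      rcases k.cases with ⟨-, -, rfl⟩ | ⟨-, -, rfl⟩ | ⟨-, -, rfl⟩ <;> norm_num
    by_cases e : q = p
    · subst e
      exact r4 (le_sup_right.trans ((p4 _ ⟨isPGroup_sup hp p2 r2 (Or.inr (nrm_of_le_N r1)),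
        mem_N_sup p3 r3⟩ le_sup_left).le.trans PO))
    have w := h.wiel hx (piG_of_isPGroup hq r2 (mem_pi6.mpr ⟨by omega, by omega⟩))
      (fun a => r4 (a ▸ bot_le)) r3 (nrm_of_le_N r1) p3
      (coprime_of_isPGroup_ne hp hq (Ne.symm e) p2 r2) (not3_of_pi pP)
    rw [h.fpf hx pP, card_bot, one_pow] at w
    have := ((h.mem_or_le hx p3 inf_le_left ((Nrm.self _).inf (nrm_N_C P))).resolve_right
      fun a => r4 ((le_inf r1 (le_C_symm (relIndex_eq_one.mp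
        (Nat.eq_one_of_mul_eq_one_left w)))).trans a)).2
    exact P1 (h.fpf hx pP ▸ (inf_eq_left.mpr (le_C1_iff.mpr this)).symm)
  all_goals exact key (by simp [e])

namespace SG

variable (h : SG G)
include h

theorem pi_C1 {x v : G} (hx : orderOf x = 3) (hv : v ∈ Vx x) (v1 : v ≠ 1) : PiG pi6ᶜ (C1 v) :=
  (piG_of_isPGroup Nat.prime_two (h.two hx hv v1) (by simp [pi6])).of_relIndex
    (piN6 (h.c6 x v hx hv v1).dvd)

theorem nilC {x : G} (hx : orderOf x = 3) {K : Subgroup G} (hK : PiG pi6 K) (h1 : K ≠ ⊥)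
    (hn : x ∈ N K) : ¬ 3 ∣ Nat.card (C K) ∧ Group.IsNilpotent (C K) := by
  have c3 := h.not3 hx (mem_N_C hn) fun e =>
    h1 (h.fpf hx hK ▸ (inf_eq_left.mpr (le_C1_iff.mpr e)).symm)
  refine ⟨c3, h.nilp hx (mem_N_C hn) (card_eq_one_iff.mp (by_contra fun e => ?_))⟩
  obtain ⟨v, v1, v2, v3⟩ := h.exists_v hx c3 e
  exact h1 (hK.eq_bot ((h.pi_C1 hx v2 v3).of_le (le_C1_iff.mpr v1)))

theorem nilZ {x : G} (hx : orderOf x = 3) {p : ℕ} (hp : p.Prime) (h6 : p ∈ pi6) {P : Subgroup G}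
    (h1 : IsPGroup p P) (h2 : P ≠ ⊥) (h3 : x ∈ N P) :
    ¬ 3 ∣ Nat.card (C (Z P)) ∧ Group.IsNilpotent (C (Z P)) :=
  h.nilC hx (piG_of_isPGroup hp (h1.to_le (Z_le P)) h6)
    (Z_ne_bot_of_nilpotent (nilpotent_of_isPGroup hp h1) h2) ((nrm_N P).Z.le_N h3)

theorem mp_nil {x : G} (hx : orderOf x = 3) {p : ℕ} {M : Subgroup G} (m : MP x p M) :
    ¬ 3 ∣ Nat.card M ∧ Group.IsNilpotent M ∧ x ∈ N M := by
  obtain ⟨hp, h6, P, p1, p2, p3, rfl⟩ := m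
  exact ⟨(h.nilZ hx hp h6 p1.isPGroup p2 p3).1, (h.nilZ hx hp h6 p1.isPGroup p2 p3).2,
    mem_N_C ((nrm_N P).Z.le_N p3)⟩

theorem le_CZ {x : G} (hx : orderOf x = 3) {p : ℕ} (hp : p.Prime) (h6 : p ∈ pi6)
    {K P M : Subgroup G} (h1 : K ≠ ⊥) (h2 : x ∈ N K) (h3 : K ≤ P) (h4 : IsPGroup p P)
    (h5 : Group.IsNilpotent M) (h7 : Op p M ≤ P) (h8 : Opc p M ≤ C K) : M ≤ C (Z P) := by
  rw [← (dp_Op_of_nilpotent hp h5).sup]
  exact sup_le (h7.trans (le_C_Z P)) (le_C_of_nilpotent (h.nilC hx (piG_of_isPGroup hp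
    (h4.to_le h3) h6) h1 h2).2 h8 ((Z_le_C P).trans (C_anti h3))
    (coprime_of_isPGroup_of_not_dvd hp (h4.to_le (Z_le P)) (not_dvd_card_Opc hp M)).symm)

theorem exists_mp {x : G} (hx : orderOf x = 3) {p : ℕ} (hp : p.Prime) (h6 : p ∈ pi6)
    {M : Subgroup G} (h1 : Group.IsNilpotent M) (h2 : x ∈ N M) (hd : p ∣ Nat.card M) :
    ∃ M', MP x p M' ∧ M ≤ M' := by
  have ne := (sylIn_Op_of_nilpotent hp h1).ne_bot hp hd
  have n := ((nrm_N M).Op' hp).le_N h2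
  obtain ⟨P, p1, p2, p3⟩ := h.syl_pi hx hp h6 (isPGroup_Op' hp M) ne n
  exact ⟨_, ⟨hp, h6, P, p2, ne_bot_of_le_ne_bot ne p1, p3, rfl⟩,
    h.le_CZ hx hp h6 ne n p1 p2.isPGroup h1 p1 (le_C_symm (Op_le_C_Opc hp M))⟩

theorem mp_of_dvd {x : G} (hx : orderOf x = 3) {p q : ℕ} {M : Subgroup G} (m : MP x p M)
    (hq : q.Prime) (h6 : q ∈ pi6) (hd : q ∣ Nat.card M) : MP x q M := by
  obtain ⟨M', m', l⟩ := h.exists_mp hx hq h6 (h.mp_nil hx m).2.1 (h.mp_nil hx m).2.2 hd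
  have n := (h.mp_nil hx m').2.1
  obtain ⟨hp, hp6, P, p1, p2, p3, rfl⟩ := m
  have e := (p1.of_le ((le_C_Z P).trans l) le_top).eq_Op_of_nilpotent hp n
  rwa [le_antisymm l (h.le_CZ hx hp hp6 p2 p3 le_rfl p1.isPGroup n e.ge
    (e ▸ le_C_symm (Op_le_C_Opc hp M')))]

theorem mp_conj {x t : G} (b : Bas x t) {p : ℕ} {M M' : Subgroup G} (m : MP x p M)
    (m' : MP x p M') : ∃ a ∈ Vx x ⊔ zpowers t, M' = cj a M := by
  obtain ⟨hp, -, P, p1, -, p3, rfl⟩ := m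
  obtain ⟨-, -, P', p4, -, p6, rfl⟩ := m'
  haveI := Fact.mk hp
  obtain ⟨g, -, rfl⟩ := p1.conj p4
  obtain ⟨m, hm, e⟩ := h.conj3 b.x3 ((orderOf_conj' g x).trans b.x3) p6
    (cj_N g P ▸ mem_cj'.mpr ⟨x, p3, rfl⟩)
  obtain ⟨y, hy, z, hz, e⟩ := b.exists_y h.toHy (n := m * g)
    ((mem_NX b.x3).mpr (by simpa [mul_assoc] using e))
  have zP := mem_N.mp (zpowers_le.mpr p3 hz)
  rw [← mem_N.mp hm, cj_cj]
  rcases e with e | e <;> rw [e, ← cj_cj, zP, ← cj_Z, ← cj_C]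
  exacts [⟨y, mem_sup_left hy, rfl⟩, ⟨_, mul_mem_sup hy (mem_zpowers t), rfl⟩]

theorem countPi {x t : G} (b : Bas x t) {n E : ℕ} (n0 : 0 < n)
    (hn : ∀ K : Subgroup G, PiG pi6 K → Nat.card K ∣ n)
    (hE : ∀ u : G, u * u = 1 → u ≠ 1 → ¬ PiG pi6ᶜ (C1 u) → Nat.card (C1 u) = E) :
    {w | ∃ p M, MP x p M ∧ w ∈ M}.ncard ≤ 2 * Nat.card (Vx x) * (n + E) := by
  classical
  let I := (Nat.card G).primeFactors.filter fun p =>
    ∃ M, MP x p M ∧ ∀ q, q.Prime → q ∈ pi6 → q ∣ Nat.card M → p ≤ q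
  have ch : ∀ p, ∃ M, p ∈ I → MP x p M ∧ ∀ q, q.Prime → q ∈ pi6 → q ∣ Nat.card M → p ≤ q :=
    fun p => by
      by_cases e : p ∈ I
      · obtain ⟨M, hM⟩ := (Finset.mem_filter.mp e).2
        exact ⟨M, fun _ => hM⟩
      · exact ⟨⊥, fun a => absurd a e⟩
  choose F hF using ch
  have s1 : {w | ∃ p M, MP x p M ∧ w ∈ M} ⊆
      ⋃ p ∈ I, {w | ∃ a ∈ Vx x ⊔ zpowers t, w ∈ cj a (F p)} := by
    rintro w ⟨p, M, m, hw⟩
    have ex : ∃ q, q.Prime ∧ q ∈ pi6 ∧ q ∣ Nat.card M := ⟨p, m.1, m.2.1, m.dvd⟩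
    obtain ⟨q1, q2, q3⟩ := Nat.find_spec ex
    have m' := h.mp_of_dvd b.x3 m q1 q2 q3
    have i : Nat.find ex ∈ I := Finset.mem_filter.mpr ⟨Nat.mem_primeFactors.mpr ⟨q1,
      q3.trans (card_subgroup_dvd_card M), Nat.card_pos.ne'⟩, M, m',
      fun q a b c => Nat.find_min' ex ⟨a, b, c⟩⟩
    obtain ⟨a, ha, e⟩ := h.mp_conj b (hF _ i).1 m'
    exact Set.mem_biUnion i ⟨a, ha, e ▸ hw⟩
  refine (Set.ncard_le_ncard s1).trans ((Finset.set_ncard_biUnion_le _ _).trans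
    ((Finset.sum_le_sum fun p _ => ncard_conj_le _ (F p)).trans ?_))
  rw [← Finset.mul_sum, card_sup_t b.tt (C_le_N _ b.cV) b.not_V]
  refine Nat.mul_le_mul_left _ ?_
  have nl := fun p hp => h.mp_nil b.x3 (hF p hp).1
  have two : ∀ p ∈ I, 2 ≤ Nat.card (Opi pi6 (F p)) := fun p hp => (hF p hp).1.1.two_le.trans
    (Nat.le_of_dvd (card_pos _) ((hall_Opi_of_nilpotent _ (nl p hp).2.1).prime_dvd (hF p hp).1.1
      (hF p hp).1.2.1 (hF p hp).1.dvd))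
  have cop : ∀ p ∈ I, ∀ q ∈ I, p ≠ q →
      (Nat.card (Opi pi6 (F p))).Coprime (Nat.card (Opi pi6 (F q))) := fun p hp q hq e =>
    Nat.coprime_of_dvd fun r hr d1 d2 => e (by
      have r6 := piG_Opi _ _ r hr d1
      obtain ⟨a, -, e⟩ := h.mp_conj b
        (h.mp_of_dvd b.x3 (hF p hp).1 hr r6 (d1.trans (card_dvd_of_le' (Opi_le _ _))))
        (h.mp_of_dvd b.x3 (hF q hq).1 hr r6 (d2.trans (card_dvd_of_le' (Opi_le _ _))))
      have c : Nat.card (F q) = Nat.card (F p) := by rw [e, card_cj]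
      exact le_antisymm ((hF p hp).2 q (hF q hq).1.1 (hF q hq).1.2.1 (c ▸ (hF q hq).1.dvd))
        ((hF q hq).2 p (hF p hp).1.1 (hF p hp).1.2.1 (c ▸ (hF p hp).1.dvd)))
  rw [← Finset.sum_filter_add_sum_filter_not I fun p => Opi pi6ᶜ (F p) = ⊥]
  refine Nat.add_le_add ((Finset.sum_congr rfl fun p hp => ?_).trans_le (sum_le_of_cop _
    (fun p => Nat.card (Opi pi6 (F p))) (fun p hp => two p (Finset.mem_filter.mp hp).1) n0
    (fun p _ => hn _ (piG_Opi _ _)) fun p hp q hq =>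
      cop p (Finset.mem_filter.mp hp).1 q (Finset.mem_filter.mp hq).1)) ?_
  · obtain ⟨h1, h2⟩ := Finset.mem_filter.mp hp
    rw [← (dp_Opi_of_nilpotent pi6 (nl p h1).2.1).card, h2, card_bot, mul_one]
  have ev : ∀ p ∈ I.filter fun p => ¬ Opi pi6ᶜ (F p) = ⊥, 0 < E ∧ Nat.card (F p) ∣ E := by
    intro p hp
    obtain ⟨h1, h2⟩ := Finset.mem_filter.mp hp
    have d := dp_Opi_of_nilpotent pi6 (nl p h1).2.1
    obtain ⟨z, z1, z2, z3, z4⟩ := exists_invol_Z ((piG_single Nat.prime_two).mp fun r hr hd => by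
      rcases compl_compl ({2, 3} : Set ℕ) ▸ piG_Opi _ _ r hr hd with e | e
      · exact e
      · exact absurd ((e ▸ hd).trans (card_dvd_of_le' (Opi_le _ _))) (nl p h1).1) h2
    have l : F p ≤ C1 z := by
      rw [← d.sup]; exact sup_le (le_C1_iff.mpr (d.cent z1)) (le_C1_iff.mpr z2)
    rw [← hE z z3 z4 fun e => ((e.of_le l).not_dvd' (hF p h1).1.1 (hF p h1).1.2.1) (hF p h1).1.dvd]
    exact ⟨card_pos _, card_dvd_of_le' l⟩
  rcases (I.filter fun p => ¬ Opi pi6ᶜ (F p) = ⊥).eq_empty_or_nonempty with e | ⟨p, hp⟩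
  · rw [e]; simp
  obtain ⟨a, c, rfl, ha, hc⟩ := exists_piN_mul pi6 (ev p hp).1.ne'
  have a0 := Nat.pos_of_mul_pos_right (ev p hp).1
  have c0 := Nat.pos_of_mul_pos_left (ev p hp).1
  refine le_trans (Finset.sum_le_sum (g := fun p => Nat.card (Opi pi6 (F p)) * c) fun q hq => ?_) ?_
  · rw [← (dp_Opi_of_nilpotent pi6 (nl q (Finset.mem_filter.mp hq).1).2.1).card]
    exact Nat.mul_le_mul_left _ (Nat.le_of_dvd c0 ((PiN.coprime' (piG_Opi _ _) ha).dvd_of_dvd_mul_left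
      ((card_dvd_of_le' (Opi_le _ _)).trans (ev q hq).2)))
  · rw [← Finset.sum_mul]
    exact Nat.mul_le_mul_right _ (sum_le_of_cop _ _ (fun p hp => two p (Finset.mem_filter.mp hp).1)
      a0 (fun q hq => PiN.dvd_of_dvd_mul (piG_Opi _ _) hc
        ((card_dvd_of_le' (Opi_le _ _)).trans (ev q hq).2)) fun p hp q hq =>
      cop p (Finset.mem_filter.mp hp).1 q (Finset.mem_filter.mp hq).1)

theorem count {x t : G} (b : Bas x t) {S : Subgroup G} (hS : SylIn 2 S ⊤) {n E : ℕ} (n0 : 0 < n)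
    (hn : ∀ K : Subgroup G, PiG pi6 K → Nat.card K ∣ n)
    (hE : ∀ u : G, u * u = 1 → u ≠ 1 → ¬ PiG pi6ᶜ (C1 u) → Nat.card (C1 u) = E) :
    Nat.card {p : G × G // IsConj x p.1 ∧ IsConj x p.2 ∧ p.1 * p.2 = x} ≤
      Nat.card (Vx x) * Nat.card S + 2 * Nat.card (Vx x) * (n + E) := by
  have hx := b.x3
  refine le_trans ?_ ((Set.ncard_union_le _ _).trans
    (Nat.add_le_add (h.count2 hx hS) (h.countPi b n0 hn hE)))
  rw [← Nat.card_coe_set_eq]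
  refine Nat.card_le_card_of_injective (fun p => ⟨p.1.1 * x, ?_⟩) fun p q e => ?_
  · obtain ⟨⟨a, c⟩, h1, h2, e⟩ := p
    simp only at h1 h2 e ⊢
    have oa := (orderOf_isConj h1).symm.trans hx
    have oc := (orderOf_isConj h2).symm.trans hx
    obtain ⟨c1, c2⟩ := CfsgH8.commute_of_333 (u := x) (v := a⁻¹) (hx ▸ pow_orderOf_eq_one x)
      (by rw [inv_pow, ← oa, pow_orderOf_eq_one, inv_one])
      (by rw [← e, conj_pow, ← oc, pow_orderOf_eq_one]; simp)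
    rw [inv_inv] at c1 c2
    have n : x ∈ N (F4 (a * x) (x * a)) := mem_N_of_cj_le (by
      rw [CfsgFT.cj_sup, cj_zpowers, cj_zpowers, c2, ← mul_assoc, mul_inv_cancel_right]
      exact sup_le le_sup_right (zpowers_le.mpr (inv_mem (mul_mem_sup (mem_zpowers _)
        (mem_zpowers _)))))
    have ab := ab_F4 c1.eq
    have m : a * x ∈ F4 (a * x) (x * a) := mem_sup_left (mem_zpowers _)
    by_cases k3 : 3 ∣ Nat.card (F4 (a * x) (x * a))
    · have : a ∈ C1 x := (mul_mem_cancel_right (self_mem_C1 x)).mp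
        (C_le_C1 (h.mem_of_dvd hx n k3) (ab m))
      rcases (mem_X hx).mp ((h.syl3 hx (mem_top x)).le_of_nrm le_top (isPGroup_X oa)
        (nrmX (mem_N_zp (mem_C1_comm.mp this))) (mem_zpowers a)) with rfl | rfl | rfl
      · simp at oa
      · exact absurd (by simpa using e) (ne_one3 oc)
      · exact Or.inl ⟨⊥, IsPGroup.of_bot, by simp [N_bot], by simp⟩
    by_cases k2 : IsPGroup 2 (F4 (a * x) (x * a))
    · exact Or.inl ⟨_, k2, n, m⟩
    obtain ⟨p, hp, hd, p2⟩ : ∃ p, p.Prime ∧ p ∣ Nat.card (F4 (a * x) (x * a)) ∧ p ≠ 2 := by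
      by_contra c
      push Not at c
      exact k2 ((piG_single Nat.prime_two).mp c)
    obtain ⟨M, m', l⟩ := h.exists_mp hx hp (mem_pi6.mpr ⟨p2, fun e => k3 (e ▸ hd)⟩)
      (nilpotent_of_ab ab) n hd
    exact Or.inr ⟨p, M, m', l m⟩
  · have e1 : p.1.1 = q.1.1 := by simpa using e
    exact Subtype.ext (Prod.ext e1 (mul_left_cancel (p.2.2.2.trans (e1 ▸ q.2.2.2.symm))))

end SG

end CfsgSZ
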