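import Cfsg.Agent.H6.T3KS

/-!
The invariant `2`-subgroups.
-/

set_option autoImplicit false
set_option linter.style.haveILetI false
set_option linter.unusedSectionVars false

namespace CfsgSZ

open Subgroup CfsgH5 CfsgH6 CfsgFT
open scoped commutatorElement

universe u

variable {G : Type u} [Group G] [Finite G]

/-- non-central -/
def NC (M : Subgroup G) : Prop := M ⊓ C (ZZ M) ≤ Q2 M

theorem nc_cj (g : G) (M : Subgroup G) : NC (cj g M) ↔ NC M := by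
  rw [NC, ← cj_ZZ, ← cj_C, ← cj_inf, ← cj_Q, cj_le_cj, NC]

theorem ncard_conj_le (A Q : Subgroup G) :
    {w | ∃ y ∈ A, w ∈ cj y Q}.ncard ≤ Nat.card A * Nat.card Q := by
  rw [← Nat.card_prod, ← Nat.card_coe_set_eq]
  refine Nat.card_le_card_of_surjective (fun p : A × Q => ⟨p.1 * p.2 * (p.1 : G)⁻¹, p.1, p.1.2,
    mem_cj'.mpr ⟨_, p.2.2, rfl⟩⟩) ?_
  rintro ⟨w, y, hy, hw⟩
  obtain ⟨q, hq, rfl⟩ := mem_cj'.mp hw
  exact ⟨(⟨y, hy⟩, ⟨q, hq⟩), rfl⟩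

theorem Bas.exists_y (h : Hy G) {x t n : G} (b : Bas x t) (hn : n ∈ N (zpowers x)) :
    ∃ y ∈ Vx x, ∃ z ∈ zpowers x, n = y * z ∨ n = y * t * z := by
  have c : ∀ z ∈ zpowers x, ∀ y ∈ Vx x, z * y = y * z := fun z hz y hy =>
    (mem_C1.mp (C1_le_C1_of_mem_zpowers hz (V_le x hy))).symm
  rcases (mem_NX b.x3).mp hn with e | e
  · have := mem_C1_iff_conj.mpr e
    rw [h.C1_eq b.x3, mem_sup_nrm (nrm_of_le_C (le_C_symm (C_zpowers x ▸ V_le x)))] at this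
    obtain ⟨z, hz, y, hy, rfl⟩ := this
    exact ⟨y, hy, z, hz, Or.inl (c z hz y hy)⟩
  · obtain ⟨z, hz, y, hy, rfl⟩ := h.inv_form b.x3 e b.inv
    exact ⟨y, hy, z, hz, Or.inr (by rw [mul_assoc, c z hz y hy, b.comm hy, mul_assoc])⟩

theorem Hy.card_inf (h : Hy G) {x : G} (hx : orderOf x = 3) {H : Subgroup G} (xH : x ∈ H) :
    Nat.card ↥(H ⊓ C1 x) = 3 * Nat.card ↥(H ⊓ Vx x) := by
  have n : Nrm (zpowers x) (Vx x) := nrm_of_le_C (le_C_symm (C_zpowers x ▸ V_le x))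
  rw [h.C1_eq hx, modular_left' (Or.inl n) (zpowers_le.mpr xH), card_sup_of_inf_eq_bot
    (Or.inl ((nrmX (le_N H xH)).inf n)) (inf_eq_bot_of_coprime'
      (cop_X hx (not3_of_two ((isPGroup_V x).to_le inf_le_right))).symm), card_X hx]

theorem mem_N_of_le_C1 {x : G} {K : Subgroup G} (h : K ≤ C1 x) : x ∈ N K :=
  C_le_N _ (le_C1_iff.mp h)

variable [IsSimpleGroup G]

theorem SV.par_of (h : SV G) {x t : G} (b : Bas x t) {K : Subgroup G} (h2 : IsPGroup 2 K)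
    (h1 : K ≠ ⊥) (n1 : x ∈ N K) (n2 : t ∈ N K)
    (hm : ∀ E : Subgroup G, IsPGroup 2 E → x ∈ N E → t ∈ N E → K ≤ E → E = K) : Par (N K) ∧ Q2 (N K) = K := by
  obtain ⟨o2, k⟩ := h.loc h2 h1 b.x3 b.inv n1 n2
  have nO : Nrm _ (Opc 3 _) := nrm_Opi {3}ᶜ (N K)
  have e := hm _ o2 (nO.le_N n1) (nO.le_N n2) (le_Opi (le_N K) (nrm_N K)
    ((piG_compl_single Nat.prime_three).mpr (not3_of_two h2)))
  have e' := hm _ (two_Q _) ((nrm_Q _).le_N n1) ((nrm_Q _).le_N n2) (le_Op (le_N K) (nrm_N K) h2)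
  rcases k with k | ⟨n, c, p, k⟩
  · exact ⟨⟨by rw [e'], by rw [e', ← k, e], by rwa [e'], x, n1, t, n2, b.x3, b.inv⟩, e'⟩
  exfalso
  have c1 := k.cx x n1 b.x3
  have l := le_sup_right.trans (hm (K ⊔ N K ⊓ Vx x) (isPGroup_sup Nat.prime_two h2
    ((isPGroup_V x).to_le inf_le_right) (Or.inr (nrm_of_le_N inf_le_left)))
    (mem_N_sup n1 (mem_N_of_le_C1 (inf_le_right.trans (V_le x))))
    (mem_N_sup n2 (C_le_N _ (C_anti inf_le_right b.cV))) le_sup_left).le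
  have l2 := card_le_of_le (le_inf l (inf_le_right.trans (V_le x)))
  have := card_pos (K ⊓ C1 x)
  rw [h.card_inf b.x3 n1, e] at c1
  obtain rfl : c = 3 := by
    rcases k.cases with ⟨-, rfl, -⟩ | ⟨-, rfl, -⟩ | ⟨-, rfl, -⟩ <;> omega
  obtain ⟨E, a1, a2, a3, a4, a5⟩ := k.s4 rfl x n1 t n2 b.x3 b.inv
  rw [e] at a1 a3
  rw [hm E ((piG_single Nat.prime_two).mp (((piG_single Nat.prime_two).mpr h2).of_relIndex
    (a3 ▸ piN_prime_pow (π := {2}) Nat.prime_two rfl 2))) a4 a5 a1] at a3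
  simp at a3

theorem SV.exists_par (h : SV G) : ∃ M : Subgroup G, Par M := by
  obtain ⟨x, hx⟩ := h.ex3
  obtain ⟨t, b⟩ := h.exists_bas hx (h.hV x hx)
  obtain ⟨K, k1, ⟨k2, k3, k4⟩, k5⟩ := exists_maximal_ge
    (P := fun K => IsPGroup 2 K ∧ x ∈ N K ∧ t ∈ N K) (X := Vx x)
    ⟨isPGroup_V x, mem_N_of_le_C1 (V_le x), C_le_N _ b.cV⟩
  exact ⟨_, (h.par_of b k2 (ne_bot_of_le_ne_bot b.ne k1) k3 k4
    fun E a1 a2 a3 a4 => k5 E ⟨a1, a2, a3⟩ a4).1⟩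

namespace SG

variable (h : SG G)
include h

theorem exists_X {M M' T : Subgroup G} (p : Par M) (p' : Par M') (t1 : SylIn 2 T M)
    (t2 : SylIn 2 T M') (hn : NC M ↔ NC M') : ∃ X : Subgroup G, IsPGroup 2 X ∧ X ≠ ⊥ ∧ M ≤ N X ∧
      M' ≤ N X ∧ ∀ g ∈ N T, cj g M = M' → g ∈ N X := by
  by_cases c : NC M
  · have v : Vt _ M := ⟨p, c, rfl⟩
    have v' : Vt (Nat.card (Q2 M)) M' := ⟨p', hn.mp c, by
      have := p.card_syl t1; have := p'.card_syl t2; omega⟩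
    have w := wk_one v v' ⟨T, t1, t2⟩
    obtain ⟨X, x1, x2, x3⟩ := h.ks_X v
    exact ⟨X, x1, x2, fun g hg => x3 g ⟨0, v, (cj_self hg).symm⟩, fun g hg => x3 g
      ⟨_, w.trans (cj_self hg ▸ w.symm.cjj g)⟩, fun g _ e => x3 g ⟨1, e ▸ w⟩⟩
  · have key : ∀ {M}, Par M → SylIn 2 T M → ¬ NC M → M ≤ N (Om1 2 (Z T)) := fun p t c => by
      obtain ⟨x, xM, -, -, hx, -⟩ := p.ex
      rw [← p.sup_eq t (zpowers_le.mpr xM) fun e => p.not_N hx xM t (le_N T (e (mem_zpowers x)))]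
      exact sup_le ((Nrm.self T).Z.Om1 2).le_N (zpowers_le.mpr (C_le_N _ (C_anti (le_ZZ t)
        (p.mem_of_nrm h.toHy hx xM (nrm_ZZ _).C c))))
    exact ⟨_, (elAb_Om1_Z 2 T).isPGroup, Om1_Z_ne_bot Nat.prime_two t1.isPGroup
      (ne_bot_of_le_ne_bot p.ne (t1.Op_le Nat.prime_two)), key p t1 c, key p' t2 (fun e => c (hn.mpr e)),
      fun g hg _ => ((nrm_N T).Z.Om1 2).le_N hg⟩

theorem uniq {M M' T : Subgroup G} (p : Par M) (p' : Par M') (t1 : SylIn 2 T M)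
    (t2 : SylIn 2 T M') (t3 : SylIn 2 T ⊤) (hn : NC M ↔ NC M') : M = M' := by
  obtain ⟨X, x1, x2, x3, x4, -⟩ := h.exists_X p p' t1 t2 hn
  obtain ⟨x, xM, t, tM, hx, ht⟩ := p.ex
  obtain ⟨o2, k | ⟨n, c, p, k⟩⟩ := h.loc x1 x2 hx ht (x3 xM) (x3 tM)
  · exact (p.eq_of_le x3 o2 k).symm.trans (p'.eq_of_le x4 o2 k)
  · exact absurd (k.big h.toHy hx (x3 xM) o2 t1.isPGroup (t1.le.trans x3)) (h.s12 T t3).not_ge

theorem syl_top {M T : Subgroup G} (p : Par M) (t1 : SylIn 2 T M) : SylIn 2 T ⊤ := by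
  obtain ⟨S, s1, s2⟩ := exists_sylIn_ge le_top t1.isPGroup
  rcases s1.eq_or_lt with rfl | s3
  · exact s2
  exfalso
  obtain ⟨K, k1, k2, k3⟩ := exists_lt_relIndex_eq Nat.prime_two s2.isPGroup s3
  have K2 := s2.isPGroup.to_le k2
  have KT : ¬ K ≤ T := fun e => by have := relIndex_eq_one.mpr e; omega
  obtain ⟨g, hg, g1⟩ := SetLike.not_le_iff_exists.mp KT
  have gT := (nrm_idx2 k1 k3.le).le_N hg
  obtain ⟨X, x1, x2, x3, -, x4⟩ := h.exists_X p (p.cjj g) t1 (mem_N.mp gT ▸ t1.cjj g)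
    (nc_cj g M).symm
  have KH : K ≤ N X := by
    rw [← (eq_or_eq_of_prime_relIndex (by rw [k3]; decide) le_sup_left (sup_le k1
      (zpowers_le.mpr hg))).resolve_left fun e => g1 (e.le (mem_sup_right (mem_zpowers g)))]
    exact sup_le (t1.le.trans x3) (zpowers_le.mpr (x4 g gT rfl))
  have HM : ¬ N X ≤ M := fun e => KT (t1.eq_of_le (KH.trans e) K2 k1).le
  obtain ⟨x, xM, t, tM, hx, ht⟩ := p.ex
  have xH := x3 xM
  obtain ⟨o2, k | ⟨n, c, r, k⟩⟩ := h.loc x1 x2 hx ht xH (x3 tM)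
  · exact HM (p.eq_of_le x3 o2 k).le
  have nO : Nrm _ (Opc 3 _) := nrm_Opi {3}ᶜ (N X)
  have XD : X ≤ Opc 3 (N X) := le_Opi (le_N X) (nrm_N X)
    ((piG_compl_single Nat.prime_three).mpr (not3_of_two x1))
  have QH := (Op_le 2 M).trans x3
  have DQ : Opc 3 (N X) ≤ Q2 M := le_sup_right.trans (p.max hx xM le_sup_left (isPGroup_sup
    Nat.prime_two (two_Q M) o2 (Or.inl (nO.mono QH))) (mem_N_sup ((nrm_Q M).le_N xM)
      (nO.le_N xH))).ge
  have d := k.dvd K2 KH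
  rw [← card_mul_relIndex k1, k3, p.card_syl t1, ← card_mul_relIndex DQ, mul_comm 2, mul_assoc,
    mul_assoc] at d
  have d := Nat.le_of_dvd (by split_ifs <;> decide) (Nat.dvd_of_mul_dvd_mul_left (card_pos _) d)
  have j1 : (Opc 3 (N X)).relIndex (Q2 M) ≠ 1 := fun e => HM (by
    rw [← p.nq, le_antisymm (relIndex_eq_one.mp e) DQ]; exact nO.le_N)
  have j0 := relIndex_pos (Opc 3 (N X)) (Q2 M)
  have c1 := k.cx x xH hx
  have m1 := card_mod3 hx (nO.le_N xH)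
  have D3 := not3_of_two o2
  have D1 := one_lt_card.mpr (ne_bot_of_le_ne_bot x2 XD)
  unfold Nat.ModEq at m1
  rcases k.cases with ⟨rfl, rfl, rfl⟩ | ⟨rfl, rfl, rfl⟩ | ⟨rfl, rfl, rfl⟩ <;>
    simp only [reduceIte, Nat.reduceEqDiff] at d
  · have m2 := card_mod3 hx ((nrm_Q M).le_N xM)
    have l1 := card_le_of_le (le_inf (inf_le_left.trans QH)
      (h.inf_C1_le_V hx (not3_of_two (two_Q M))) : Q2 M ⊓ C1 x ≤ _)
    have l2 := card_le_of_le (inf_le_inf_right (C1 x) DQ)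
    rw [h.card_inf hx xH] at c1
    rw [← card_mul_relIndex DQ, show (Opc 3 (N X)).relIndex (Q2 M) = 2 by omega] at m2
    unfold Nat.ModEq at m2
    omega
  · have l := k.cle h.toHy hx xH
    by_cases e : Opc 3 (N X) ≤ C1 x
    · rw [inf_eq_left.mpr e] at l
      obtain ⟨v, hv, ov⟩ := exists_mem_orderOf_eq Nat.prime_two (by omega : 2 ∣ Nat.card (Opc 3 (N X)))
      have v1 := ne_one_of_orderOf_prime Nat.prime_two ov
      have vv : v * v = 1 := by rw [← pow_two, ← ov, pow_orderOf_eq_one]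
      have : N X ≤ C1 v := fun g hg => mem_C1_iff_conj.mpr (((mem_zpowers_invol vv).mp
        (eq_zpowers_of_prime_card (by rw [show Nat.card (Opc 3 (N X)) = 2 by omega]; decide) hv v1 ▸
          nO g hg v hv)).resolve_left (conj_ne_one v1))
      exact HM (h.eq_C1 p vv v1 (x3.trans this) ▸ this)
    have s := k.scott0 hx xH o2
    have c2 : Nat.card ↥(Opc 3 (N X) ⊓ C1 x) = 2 := by
      have := card_pos (Opc 3 (N X) ⊓ C1 x)
      by_contra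
      rw [show Nat.card ↥(Opc 3 (N X) ⊓ C1 x) = 1 by omega] at s
      omega
    obtain ⟨y, hy, y1⟩ := SetLike.not_le_iff_exists.mp fun e : N X ⊓ Vx x ≤ Opc 3 (N X) => by
      have := card_le_of_le (le_inf e (inf_le_right.trans (V_le x)))
      rw [h.card_inf hx xH] at c1
      omega
    have l1 : Opc 3 (N X) ⊓ C1 x ≤ Opc 3 (N X) ⊓ C1 y :=
      inf_le_inf_left _ ((h.ab x hx).trans (C_le_C1 (V_le x hy.2)))
    have xy := mem_C1_comm.mp (V_le x hy.2)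
    have m2 := card_mod3 hx (mem_N_inf (nO.le_N xH) (le_N _ xy))
    rw [inf_right_comm, inf_eq_left.mpr (l1.trans inf_le_right), c2] at m2
    have ne : ¬ Opc 3 (N X) ≤ C1 y := fun a => e (le_C1_iff.mpr ((h.mem_or_le hx xH inf_le_left
      ((Nrm.self _).inf nO.C)).resolve_right fun b => y1 (b ⟨hy.1, le_C1_iff.mp a⟩)).2)
    have l2 := two_mul_le_card (lt_of_le_not_ge inf_le_left fun a => ne (a.trans inf_le_right) :
      Opc 3 (N X) ⊓ C1 y < _)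
    obtain ⟨i, hi⟩ := exists_card_eq_pow Nat.prime_two o2
    obtain ⟨j, hj⟩ := exists_card_eq_pow Nat.prime_two (o2.to_le (inf_le_left (b := C1 y)))
    have c3 : Nat.card ↥(Opc 3 (N X) ⊓ C1 y) = 2 := by
      rw [c2] at s m1
      rw [hi] at s m1 l2
      rw [hj] at m2 l2 ⊢
      unfold Nat.ModEq at m2
      have : i < 5 := (Nat.pow_lt_pow_iff_right one_lt_two).mp (by omega)
      have : j < 5 := (Nat.pow_lt_pow_iff_right one_lt_two).mp (by omega)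
      interval_cases i <;> interval_cases j <;> omega
    refine e (C_zpowers x ▸ le_C_symm (le_C_of_AxB Nat.prime_two o2 (isPGroup_of_sq (h.sq_V hx hy.2))
      (by rw [card_X hx]; decide) (nrmX (nO.le_N xH)) (nrmX (nO.le_N hy.1))
      (by rw [C_zpowers]; exact zpowers_le.mpr xy) (le_C_symm ?_)))
    rw [C_zpowers, C_zpowers, ← eq_of_le_of_card_eq l1 (c2.trans c3.symm)]
    exact inf_le_right
  · omega

theorem par_of_max {x : G} (hx : orderOf x = 3) {K : Subgroup G} (h2 : IsPGroup 2 K) (n1 : x ∈ N K)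
    (hm : ∀ E : Subgroup G, IsPGroup 2 E → x ∈ N E → K ≤ E → E = K) : Par (N K) ∧ Q2 (N K) = K := by
  have h1 : K ≠ ⊥ := fun e => h.hV x hx
    ((hm _ (isPGroup_V x) (mem_N_of_le_C1 (V_le x)) (e ▸ bot_le)).trans e)
  by_cases c : ∃ t ∈ N K, t * x * t⁻¹ = x⁻¹
  · obtain ⟨t, n2, ht⟩ := c
    exact h.par_of (h.bas hx ht) h2 h1 n1 n2 fun E a1 a2 _ => hm E a1 a2
  exfalso
  push Not at c
  have i := h.index3 hx n1 c
  obtain ⟨R, r1, r2, r3, -⟩ := h.exists_R hx ((nrm_Opi _ _).le_N n1)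
    (not_dvd_card_Opc Nat.prime_three (N K))
  obtain rfl := hm R r1.isPGroup r2 (r3 K (le_Opi (le_N K) (nrm_N K)
    ((piG_compl_single Nat.prime_three).mpr (not3_of_two h2))) h2 n1)
  have s := r1.trans_not_dvd Nat.prime_two (Opc_le _ _) (by rw [i]; decide)
  have s := sylIn_of_sylIn_N Nat.prime_two (M := ⊤) (by rwa [top_inf_eq])
  obtain ⟨M, p⟩ := h.exists_par
  obtain ⟨T, t1⟩ := exists_sylIn 2 M
  obtain ⟨g, -, rfl⟩ := (h.syl_top p t1).conj s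
  have p' := p.cjj g
  have t2 := t1.cjj g
  have e := h.uniq (p'.cjj x) p' (mem_N.mp n1 ▸ t2.cjj x) t2 s (nc_cj _ _)
  exact p'.not_N hx (by rw [← p'.nq, mem_N, cj_Q, e]) t2 n1

theorem count2 {x : G} (hx : orderOf x = 3) {S : Subgroup G} (hS : SylIn 2 S ⊤) :
    {w | ∃ K : Subgroup G, IsPGroup 2 K ∧ x ∈ N K ∧ w ∈ K}.ncard ≤
      Nat.card (Vx x) * Nat.card S := by
  have key : ∀ P : Prop, 2 * {w | ∃ M : Subgroup G, Par M ∧ x ∈ M ∧ (NC M ↔ P) ∧ w ∈ Q2 M}.ncard ≤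
      Nat.card (Vx x) * Nat.card S := fun P => by
    rcases Set.eq_empty_or_nonempty {w | ∃ M : Subgroup G, Par M ∧ x ∈ M ∧ (NC M ↔ P) ∧ w ∈ Q2 M}
      with e | ⟨-, M, p, xM, hP, -⟩
    · simp [e]
    obtain ⟨T, t1⟩ := exists_sylIn 2 M
    rw [hS.card_eq (h.syl_top p t1), p.card_syl t1, mul_left_comm]
    refine Nat.mul_le_mul_left _ ((Set.ncard_le_ncard ?_).trans (ncard_conj_le _ _))
    rintro w ⟨M', p', xM', hP', hw⟩
    obtain ⟨T', t2⟩ := exists_sylIn 2 M'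
    obtain ⟨g, -, rfl⟩ := (h.syl_top p t1).conj (h.syl_top p' t2)
    obtain rfl := h.uniq (p.cjj g) p' (t1.cjj g) t2 (h.syl_top p' t2)
      ((nc_cj _ _).trans (hP.trans hP'.symm))
    obtain ⟨m, hm, e⟩ := h.conj3 hx ((orderOf_conj' g x).trans hx) xM' (mem_cj'.mpr ⟨x, xM, rfl⟩)
    obtain ⟨t, tM, ht⟩ := p.inv h.toHy hx xM
    obtain ⟨y, hy, z, hz, e⟩ := (h.bas hx ht).exists_y h.toHy (n := m * g)
      ((mem_NX hx).mpr (by simpa [mul_assoc] using e))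
    refine ⟨y, hy, ?_⟩
    have zM := zpowers_le.mpr xM hz
    rw [← cj_self hm, cj_cj] at hw
    rcases e with e | e <;> rw [e] at hw
    · rwa [← cj_cj, cj_self zM, ← cj_Q] at hw
    · rwa [mul_assoc, ← cj_cj, cj_self (mul_mem tM zM), ← cj_Q] at hw
  have k1 := key True
  have k2 := key False
  refine Nat.le_of_mul_le_mul_left (le_trans ?_ ((Nat.add_le_add k1 k2).trans (two_mul _).ge))
    two_pos
  rw [← mul_add]
  refine Nat.mul_le_mul_left _ ((Set.ncard_le_ncard ?_).trans (Set.ncard_union_le _ _))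
  rintro w ⟨K, k1, k2, k3⟩
  obtain ⟨Q, q1, ⟨q2, q3⟩, q4⟩ := exists_maximal_ge (P := fun K => IsPGroup 2 K ∧ x ∈ N K) ⟨k1, k2⟩
  obtain ⟨p, e⟩ := h.par_of_max hx q2 q3 fun E a1 a2 a3 => q4 E ⟨a1, a2⟩ a3
  by_cases c : NC (N Q)
  · exact Or.inl ⟨_, p, q3, iff_true_intro c, e.symm ▸ q1 k3⟩
  · exact Or.inr ⟨_, p, q3, iff_false_intro c, e.symm ▸ q1 k3⟩

end SG

end CfsgSZ
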