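import Cfsg.Agent.H9.SE1
import Cfsg.Agent.FT.BG45_a

set_option autoImplicit false
set_option linter.unusedSectionVars false

/-! V-case of a strongly embedded subgroup: the involutions at a point commute. -/

namespace CfsgSE

open Subgroup CfsgH5 CfsgH6 CfsgFT CfsgSZ CfsgSZ.PS
open scoped commutatorElement

universe u

/-- the involutions fixing `α` form, with `1`, the subgroup `V α`. -/
structure VN {G Ω : Type u} [Group G] [MulAction G Ω] (V : Ω → Subgroup G) : Prop where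
  se : SE G Ω
  mem : ∀ α s, s ∈ V α ↔ s * s = 1 ∧ s • α = α
  card : ∀ α, 16 ≤ Nat.card (V α)
  pts : ∀ α : Ω, ∃ β, β ≠ α
  solv : ∀ t : G, Iv t → Group.IsSolvable (C1 t)
  faith : ∀ g : G, (∀ β : Ω, g • β = β) → g = 1

variable {G Ω : Type u} [Group G] [Finite G] [MulAction G Ω] {V : Ω → Subgroup G}
  {α β γ δ ε : Ω} {X Y R T S : Subgroup G} {u s d x y z j k g : G} {p r : ℕ}

namespace VN

variable (h : VN V)
include h

theorem sq (hs : s ∈ V α) : s * s = 1 := ((h.mem α s).1 hs).1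
theorem le (α : Ω) : V α ≤ St G α := fun s hs => ((h.mem α s).1 hs).2
theorem iv (hs : s ∈ V α) (h1 : s ≠ 1) : Iv s := ⟨h.sq hs, h1⟩
theorem mem_of (hs : Iv s) (h1 : s • α = α) : s ∈ V α := (h.mem α s).2 ⟨hs.sq, h1⟩
theorem elAb (α : Ω) : ElAb 2 (V α) :=
  ⟨fun a ha b hb => by
    have := h.sq (mul_mem ha hb)
    calc a * b = (a * b)⁻¹ := (pt_inv this).symm
      _ = b * a := by rw [mul_inv_rev, pt_inv (h.sq ha), pt_inv (h.sq hb)],
   fun a ha => by rw [_root_.sq]; exact h.sq ha⟩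
theorem ab (α : Ω) : Ab (V α) := (h.elAb α).ab
theorem two_V (α : Ω) : IsPGroup 2 (V α) := (h.elAb α).isPGroup
theorem cjj (g : G) (α : Ω) : cj g (V α) = V (g • α) := by
  ext x
  rw [mem_cj, h.mem, h.mem, mul_smul, mul_smul, inv_smul_eq_iff]
  refine and_congr_left fun _ => ⟨fun e => ?_, fun e => by simpa using pt_sq_conj e g⁻¹⟩
  simpa [mul_assoc] using pt_sq_conj e g
theorem nrm (α : Ω) : Nrm (St G α) (V α) := nrm_of_le_N fun g hg =>
  CfsgFT.mem_N.2 (by rw [h.cjj, show g • α = α from hg])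
theorem ne_bot (α : Ω) : V α ≠ ⊥ := fun e => by
  have := h.card α; rw [e, card_bot] at this; omega
theorem exists_mem (α : Ω) : ∃ s ∈ V α, s ≠ 1 :=
  (bot_or_exists_ne_one _).resolve_left (h.ne_bot α)
theorem eq_of_le (e : V α ≤ St G β) : β = α :=
  let ⟨s, a, b⟩ := h.exists_mem α; h.se.uniq s (h.iv a b) _ _ (e a) (h.le α a)
theorem N_eq (α : Ω) : N (V α) = St G α := le_antisymm
  (fun g hg => h.eq_of_le (β := g • α) (by rw [← CfsgFT.mem_N.1 hg, h.cjj]; exact h.le _))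
  (h.nrm α).le_N
theorem C_le (α : Ω) : C (V α) ≤ St G α := (C_le_N _).trans (h.N_eq α).le
theorem nrm_C (α : Ω) : Nrm (St G α) (C (V α)) := (h.nrm α).C
theorem solv_C (α : Ω) : Group.IsSolvable (C (V α)) :=
  let ⟨s, a, b⟩ := h.exists_mem α
  solvable_of_le (h.solv s (h.iv a b)) (C_le_C1 a)
theorem card_pow (α : Ω) : ∃ n, 4 ≤ n ∧ Nat.card (V α) = 2 ^ n := by
  obtain ⟨n, e⟩ := exists_card_eq_pow Nat.prime_two (h.two_V α)
  refine ⟨n, ?_, e⟩
  have := h.card α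
  rw [e] at this
  exact (Nat.pow_le_pow_iff_right one_lt_two).1 (show 2 ^ 4 ≤ _ from this)
theorem eq_bot (e : ∀ β : Ω, X ≤ St G β) : X = ⊥ :=
  eq_bot_iff.2 fun g hg => mem_bot.2 (h.faith g fun β => e β hg)

theorem m_eq (hs : Iv s) (h1 : s • α = α) : (C1 s).relIndex (St G α) = Nat.card (V α) - 1 := by
  obtain ⟨β, hβ⟩ := h.pts α
  rw [← h.se.ncard_I hβ.symm hs h1]
  have : {d : G | Iv d ∧ d • α = α} = (V α : Set G) \ {1} := by
    ext d
    exact ⟨fun e => ⟨h.mem_of e.1 e.2, e.1.ne⟩, fun e => ⟨h.iv e.1 e.2, h.le α e.1⟩⟩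
  rw [this, Set.ncard_sdiff_singleton_of_mem (V α).one_mem]
  rfl

theorem card_eq (α β : Ω) : Nat.card (V α) = Nat.card (V β) := by
  obtain ⟨g, rfl⟩ := h.se.trans α β
  rw [← h.cjj, card_cj]

/-- an odd order element of `H_ε` normalised with an involution at `ε`. -/
theorem le_C1 (ho : Odd (Nat.card Y)) (h1 : Y ≤ St G ε) (hy : Iv y) (h2 : y • ε = ε)
    (hn : y ∈ N Y) : Y ≤ C1 y := fun g hg =>
  mem_C1_iff_conj.2 ((eq_inv_of_mul_eq_one_left (pt_eq_one (pt_odd_mem ho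
    (pt_comm_mem hy.sq hn hg)) (h.sq (mul_mem (h.nrm ε g (h1 hg) y (h.mem_of hy h2))
      (h.mem_of hy h2))))).trans hy.inv)

theorem step1 (hr : r.Prime) (h2 : r ≠ 2) (hY : IsPGroup r Y) (h3 : Fix3 Ω Y) :
    ∃ y, Iv y ∧ Y ≤ C1 y := by
  obtain ⟨X, a, b⟩ := h3.exists_max hY
  obtain ⟨y, ε, hy, yn, ye, c⟩ := h.se.step1 hr h2 b
  exact ⟨y, hy, a.trans (h.le_C1 (pt_odd_of_isPGroup hr h2 b.grp) c hy ye yn)⟩

theorem ne_two (hd : p ∣ Nat.card (V α) - 1) : p ≠ 2 := by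
  rintro rfl
  obtain ⟨n, a, e⟩ := h.card_pow α
  have : 2 ∣ 2 ^ n := dvd_pow_self 2 (by omega)
  have := h.card α
  omega

theorem fix2 (hp : p.Prime) (hd : p ∣ Nat.card (V α) - 1) (hne : α ≠ β)
    (hR : SylIn p R (St G α ⊓ St G β)) : Fix2 R α β := by
  have h2 := h.ne_two hd
  have ho := pt_odd_of_isPGroup hp h2 hR.isPGroup
  refine (fix2_or_fix3 hne (hR.le.trans inf_le_left) (hR.le.trans inf_le_right)).resolve_right
    fun h3 => ?_
  obtain ⟨u, hu, rfl, un⟩ := h.se.syl_J hp hne hR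
  obtain ⟨y, hy, y1⟩ := h.step1 hp h2 hR.isPGroup h3
  obtain ⟨ε, hε⟩ := h.se.ex y hy
  have y3 := y1.trans (h.se.C1_le hy hε)
  obtain ⟨s, hs, s1⟩ := h.se.ev α
  have a := pt_not_dvd hu.sq (mem_N_D hu.sq α) (h.se.odd_D hne) hp hR un
  rw [h.se.idx_D hu hne.symm hs s1, h.m_eq hs s1] at a
  refine a ?_
  have : (C1 u).relIndex R = 1 := by
    by_cases e : u • ε = ε
    · exact relIndex_eq_one.2 (h.le_C1 ho y3 hu e un)
    · have := h.se.idx_le hu e hy hε ho y3 un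
      rw [relIndex_eq_one.2 y1] at this
      have := relIndex_pos (C1 u) R
      omega
  rwa [this, mul_one]

theorem exists_prime (α : Ω) : ∃ p : ℕ, p.Prime ∧ p ∣ Nat.card (V α) - 1 :=
  Nat.exists_prime_and_dvd (by have := h.card α; omega)

theorem two (h1 : β ≠ α) (h2 : γ ≠ α) : ∃ g ∈ St G α, g • β = γ := by
  obtain ⟨p, hp, hd⟩ := h.exists_prime α
  have p2 := h.ne_two hd
  have := Fact.mk hp
  obtain ⟨R, a⟩ := exists_sylIn p (St G α ⊓ St G β)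
  obtain ⟨T, b⟩ := exists_sylIn p (St G α ⊓ St G γ)
  have c := h.fix2 hp hd h1.symm a
  have d := h.fix2 hp hd h2.symm b
  obtain ⟨g, hg, rfl⟩ := ((c.sylIn hp p2 a).of_le c.l le_top).conj
    ((d.sylIn hp p2 b).of_le d.l le_top)
  exact ⟨g, hg, (((c.cjj g).only γ d.r).resolve_left fun e => h2 (e.trans hg)).symm⟩

theorem two2 (h1 : α ≠ β) (h2 : γ ≠ δ) : ∃ g : G, g • α = γ ∧ g • β = δ := by
  obtain ⟨g, rfl⟩ := h.se.trans α γ
  obtain ⟨k, a, b⟩ := h.two (β := g • β) (fun e => h1 (MulAction.injective g e).symm) h2.symm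
  exact ⟨k * g, by rw [mul_smul]; exact a, by rw [mul_smul, b]⟩

/-- an element of `K` of prime power order fixes only two points. -/
theorem fixK (hu : Iv u) (h1 : u • α ≠ α) (hk : KK u α k) (k1 : k ≠ 1) (hr : r.Prime)
    (h2 : IsPGroup r (zpowers k)) : Fix2 (zpowers k) α (u • α) := by
  have r2 : r ≠ 2 := by
    rintro rfl
    exact k1 (eq_one_of_coprime_of_mem h2 (mem_zpowers k) (Nat.coprime_two_right.2 hk.odd))
  refine (fix2_or_fix3 h1.symm (zpowers_le.2 hk.fix) (zpowers_le.2 hk.fix')).resolve_right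
    fun h3 => k1 ?_
  obtain ⟨y, hy, y1⟩ := h.step1 hr r2 h2 h3
  obtain ⟨ε, hε⟩ := h.se.ex y hy
  by_cases e : u • ε = ε
  · have := h.le_C1 (Y := zpowers k) (by rw [Nat.card_zpowers]; exact hk.odd)
      (y1.trans (h.se.C1_le hy hε)) hu e
      (mem_N_of_conj fun x hx => pt_inv_zp hk.inv hx ▸ inv_mem hx) (mem_zpowers k)
    have a := hk.inv
    rw [← mem_C1.1 this, mul_inv_cancel_right] at a
    exact pt_eq_one hk.odd (by nth_rewrite 1 [a]; exact inv_mul_cancel k)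
  · exact h.se.eq_one hu hy hε e hk.odd hk.inv (mem_C1.1 (y1 (mem_zpowers k)))

/-- (SR) -/
theorem sr (hne : α ≠ β) (hx : x ∈ C (V β)) (hs : s ∈ V α) (s1 : s ≠ 1)
    (hxs : x ∈ C1 s) : x ∈ C (V α) := by
  obtain ⟨d, hd, d1⟩ := h.exists_mem β
  obtain ⟨j, hj, h3, -, h4⟩ := h.se.exists_J' (h.iv hs s1) (h.iv hd d1) (h.le _ hs) (h.le _ hd) hne
  have h5 := h4 (C1 x) (mem_C1_comm.1 hxs) (mem_C1_comm.1 (C_le_C1 hd hx))
  rw [← swap_back hj.sq h3, ← h.cjj, ← cj_C, mem_cj]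
  have := mem_C1_iff_conj.1 (inv_mem h5)
  rw [inv_inv] at this
  rwa [this]

theorem card_D (h1 : α ≠ β) (h' : γ ≠ δ) :
    Nat.card ↥(St G α ⊓ St G β) = Nat.card ↥(St G γ ⊓ St G δ) := by
  obtain ⟨g, rfl, rfl⟩ := h.two2 h1 h'
  rw [← cj_St, ← cj_St, ← cj_inf, card_cj]

theorem syl_of_le (hr : r.Prime) (h1 : α ≠ β) (h' : γ ≠ δ) (hT : SylIn r T (St G α ⊓ St G β))
    (h2 : T ≤ St G γ ⊓ St G δ) : SylIn r T (St G γ ⊓ St G δ) := by
  have := Fact.mk hr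
  obtain ⟨S, hS⟩ := exists_sylIn r (St G γ ⊓ St G δ)
  exact hS.of_card_le h2 hT.isPGroup
    (by rw [hS.card_eq_pow hr, hT.card_eq_pow hr, h.card_D h1 h'])

end VN

/-- negation of step 4 at the prime `r`. -/
def VBad (V : Ω → Subgroup G) (r : ℕ) : Prop := ∀ α β : Ω,
  α ≠ β → ∀ T, SylIn r T (St G α ⊓ St G β) → ¬ T ⊓ C (V β) ≤ C (V α)

namespace VN

variable (h : VN V)
include h

theorem bad_of (hne : α ≠ β) (hn : ¬ St G α ⊓ St G β ⊓ C (V β) ≤ C (V α)) :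
    ∃ r : ℕ, r.Prime ∧ r ≠ 2 ∧ VBad V r := by
  have : ¬ _ := fun hh => hn (le_of_forall_sylIn hh)
  push Not at this
  obtain ⟨r, hr, hd, hq⟩ := this
  have := Fact.mk hr
  refine ⟨r, hr, ?_, fun γ δ h' T hT hle => ?_⟩
  · rintro rfl
    exact (Nat.not_even_iff_odd.2 (h.se.odd_D hne))
      (even_iff_two_dvd.2 (hd.trans (card_dvd_of_le' inf_le_left)))
  · obtain ⟨g, rfl, rfl⟩ := h.two2 hne h'
    obtain ⟨T, rfl⟩ : ∃ T0, T = cj g T0 := ⟨cj g⁻¹ T, (cj_cj_inv g T).symm⟩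
    rw [← h.cjj, ← h.cjj, ← cj_C, ← cj_C, ← cj_inf, cj_le_cj] at hle
    rw [← cj_St, ← cj_St, ← cj_inf] at hT
    have h1 := hT.cjj g⁻¹
    rw [cj_inv_cj, cj_inv_cj] at h1
    refine hq _ (h1.inf_nrm inf_le_left
      ((Nrm.self _).inf ((h.nrm_C β).mono inf_le_right))) ?_
    exact le_trans (inf_le_inf_left _ inf_le_right) hle

variable (hr : r.Prime) (h2 : r ≠ 2) (B : VBad V r)
include hr B

theorem only_C (hS : SylIn r S (C (V α))) (h1 : S ≤ C (V β)) : α = β := by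
  by_contra hne
  obtain ⟨T, h3, hT⟩ := exists_sylIn_ge (le_inf (h1.trans (h.C_le _)) (hS.le.trans (h.C_le _)))
    hS.isPGroup
  refine B β α (Ne.symm hne) T hT ?_
  rwa [hS.eq_of_le inf_le_right (hT.isPGroup.to_le inf_le_left) (le_inf h3 hS.le)]

include h2

theorem bad_fix2 (hne : α ≠ β) (hT : SylIn r T (St G α ⊓ St G β)) : Fix2 T α β := by
  refine (fix2_or_fix3 hne (hT.le.trans inf_le_left) (hT.le.trans inf_le_right)).resolve_right
    fun h3 => ?_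
  obtain ⟨y, hy, h1⟩ := h.step1 hr h2 hT.isPGroup h3
  obtain ⟨ε, hε⟩ := h.se.ex y hy
  obtain ⟨δ, h3, h4⟩ := h3.exists_ne ε
  exact B ε δ h3.symm T (h.syl_of_le hr hne h3.symm hT (le_inf (h1.trans (h.se.C1_le hy hε)) h4))
    fun x hx => h.sr h3.symm hx.2 (h.mem_of hy hε) hy.ne (h1 hx.1)

theorem not_bad (α : Ω) : False := by
  have := Fact.mk hr
  obtain ⟨β, hβ⟩ := h.pts α
  obtain ⟨u, hu, rfl⟩ := h.se.exists_J hβ.symm
  have ho := h.se.odd_D hβ.symm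
  have hn := mem_N_D hu.sq α
  obtain ⟨T, -, hT, hTu⟩ := pt_exists_syl hu.sq hn ho hr bot_le IsPGroup.of_bot
    (by rw [N_bot]; exact mem_top _)
  have hF := h.bad_fix2 hr h2 B hβ.symm hT
  have hTG := hF.sylIn hr h2 hT
  obtain ⟨ε, hε⟩ := h.se.ex u hu
  have huE := h.mem_of hu hε
  have hεα : ε ≠ α := fun e => hβ (e ▸ hε)
  obtain ⟨s, hs, s1⟩ := h.exists_mem α
  have hs' := h.iv hs s1
  have a1 : SylIn r (T ⊓ C1 u) (C1 u) := by
    refine (pt_syl_C1 hu.sq hn ho hr hT hTu).trans_not_dvd hr inf_le_right ?_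
    have b1 := (h.se.idx_D hu hβ hs' (h.le _ hs)).symm
    have b4 := card_mul_relIndex (h.se.C1_le hs' (h.le _ hs))
    have b5 := card_inf_mul_relIndex (C1 u) (St G α ⊓ St G (u • α))
    have b6 := card_mul_relIndex (inf_le_left : St G α ⊓ St G (u • α) ≤ _)
    have b7 := card_mul_relIndex (inf_le_right : St G α ⊓ St G (u • α) ⊓ C1 u ≤ _)
    obtain ⟨g, hg⟩ := h.se.exists_conj hβ hs' hu
    have b8 : Nat.card (C1 u) = Nat.card (C1 s) := by rw [← hg, ← cj_C1, card_cj]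
    rw [inf_comm (C1 u)] at b5
    have b9 : (St G α ⊓ St G (u • α) ⊓ C1 u).relIndex (C1 u) =
        (St G α ⊓ St G (u • α)).relIndex (St G α) := by
      have c1 := card_pos (St G α ⊓ St G (u • α) ⊓ C1 u)
      have c2 := relIndex_pos (C1 s) (St G α)
      rw [← b5, ← b4, ← b8, ← b7, ← b1] at b6
      apply Nat.eq_of_mul_eq_mul_left (Nat.mul_pos c1 c2)
      rw [b6]; ring
    rw [b9]
    intro hd
    refine (hTG.of_le hF.l le_top).not_dvd_relIndex (hd.trans ?_)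
    exact Dvd.intro_left _ (relIndex_mul_relIndex _ _ _ hT.le inf_le_left)
  have a2 : SylIn r (T ⊓ C1 u ⊓ C (V ε)) (C (V ε)) :=
    a1.inf_nrm (C_le_C1 huE) ((h.nrm_C ε).mono (h.se.C1_le hu hε))
  have a3 : N (T ⊓ C1 u ⊓ C (V ε)) ≤ St G ε := fun g hg =>
    (h.only_C hr B a2 (by
      rw [← h.cjj, ← cj_C, ← CfsgFT.mem_N.1 hg]; exact cj_mono inf_le_right)).symm
  have e1 := h.cjj u α
  have e2 : cj u (V (u • α)) = V α := by rw [h.cjj, swap_back hu.sq rfl]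
  have a4 : T ⊓ C (V (u • α)) ⊓ C (V α) ≤ T ⊓ C1 u ⊓ C (V ε) := fun x hx => by
    have b1 : x ∈ C1 u := mem_C1_comm.1 (h.se.mem_of_J hu hs' (h.le _ hs) hβ
      (mem_C1_comm.1 (C_le_C1 hs hx.2))
      (mem_C1_comm.1 (C_le_C1 (e1 ▸ conj_mem_cj.2 hs) hx.1.2)))
    exact ⟨⟨hx.1.1, b1⟩, h.sr hεα hx.2 huE hu.ne b1⟩
  have n1 : Nrm T (T ⊓ C (V (u • α))) := (Nrm.self _).inf ((h.nrm_C _).mono hF.r)
  obtain ⟨w, hw, w1, -, w2⟩ := B45.exists_central_mod hT.isPGroup inf_le_left n1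
    (n1.inf ((h.nrm_C α).mono hF.l))
    (fun e => B α _ hβ.symm T hT (e.trans inf_le_right))
  have a5 : w ∈ St G ε := a3 (mem_N_of_conj fun t ht => by
    have : w * t * w⁻¹ = ⁅t, w⁆⁻¹ * t := by rw [commutatorElement_def]; group
    rw [this]
    exact mul_mem (inv_mem (a4 (w2 t ht.1.1))) ht)
  have a6 : w⁻¹ * u * w⁻¹⁻¹ * u⁻¹ ∈ V ε :=
    mul_mem (h.nrm ε _ (inv_mem a5) u huE) (inv_mem huE)
  have a7 : w⁻¹ * u * w⁻¹⁻¹ * u⁻¹ ∈ T := by
    have hwT : w ∈ T := hw.1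
    have := mul_mem (inv_mem hwT) (conj_mem_of_mem_N hTu hwT)
    simpa only [inv_inv, mul_assoc] using this
  have a8 := pt_eq_one (pt_odd_mem ho (hT.le a7)) (h.sq a6)
  refine w1 ⟨hw, ?_⟩
  have a9 : u * w * u⁻¹ = w := by
    calc u * w * u⁻¹ = w * (w⁻¹ * u * w⁻¹⁻¹ * u⁻¹) := by group
      _ = w := by rw [a8, mul_one]
  rw [← e2, ← cj_C, ← a9]
  exact conj_mem_cj.2 hw.2

omit hr h2 B

/-- step 4 -/
theorem step4 (hne : α ≠ β) : St G α ⊓ St G β ⊓ C (V β) ≤ C (V α) := by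
  by_contra hn
  obtain ⟨r, hr, h2, B⟩ := h.bad_of hne hn
  exact h.not_bad hr h2 B α

end VN

end CfsgSE
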